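import Cfsg.Agent.Lib.H21.CentralTypeA
import Cfsg.Agent.Lib.H21.CharInd
import Cfsg.Agent.Lib.H01.Frobenius

/-!
# A group of central type from a regular affine action
-/

set_option autoImplicit false
set_option linter.unusedSectionVars false
set_option linter.style.haveILetI false
set_option linter.unusedSimpArgs false

namespace Cfsg.Agent.H21.CT

open Cfsg Module
open scoped ComplexConjugate

universe u

section F

variable {Y : Type u} [AddCommGroup Y] {m : ℕ}

/-- The unit values of an additive character. -/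
noncomputable def chU (lam : AddChar Y ℂ) (y : Y) : ℂˣ := (lam.val_isUnit y).unit

@[simp] theorem coe_chU (lam : AddChar Y ℂ) (y : Y) : ((chU lam y : ℂˣ) : ℂ) = lam y := rfl

/-- The functions `ζ λ`. -/
noncomputable def Th : rootsOfUnity m ℂ × AddChar Y ℂ →* (Y → ℂˣ) where
  toFun x y := (x.1 : ℂˣ) * chU x.2 y
  map_one' := by
    funext y
    apply Units.ext
    simp
  map_mul' := by
    intro a b
    funext y
    apply Units.ext
    simp only [Prod.fst_mul, Prod.snd_mul, Subgroup.coe_mul, Units.val_mul, coe_chU, AddChar.mul_apply,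
      Pi.mul_apply]
    ring

@[simp] theorem coe_Th (x : rootsOfUnity m ℂ × AddChar Y ℂ) (y : Y) :
    ((Th x y : ℂˣ) : ℂ) = ((x.1 : ℂˣ) : ℂ) * x.2 y := rfl

theorem Th_injective : Function.Injective (Th (Y := Y) (m := m)) := by
  rw [injective_iff_map_eq_one]
  rintro ⟨ζ, lam⟩ h
  have h0 : ((ζ : ℂˣ) : ℂ) = 1 := by
    have := congrArg Units.val (congrFun h 0)
    simpa using this
  have hζ : ζ = 1 := by
    apply Subtype.ext
    apply Units.ext
    simpa using h0
  have hl : lam = 1 := by
    ext y
    have := congrArg Units.val (congrFun h y)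
    simpa [h0] using this
  rw [hζ, hl]
  rfl

/-- The group of functions `ζ λ`. -/
noncomputable def FF (Y : Type u) [AddCommGroup Y] (m : ℕ) : Subgroup (Y → ℂˣ) :=
  (Th (Y := Y) (m := m)).range

theorem card_FF [Finite Y] [NeZero m] : Nat.card (FF Y m) = m * Nat.card Y := by
  classical
  haveI : Fintype Y := Fintype.ofFinite Y
  have h1 : Nat.card (FF Y m) = Nat.card (rootsOfUnity m ℂ × AddChar Y ℂ) :=
    (Nat.card_congr (MonoidHom.ofInjective Th_injective).toEquiv).symm
  rw [h1, Nat.card_prod, Complex.card_rootsOfUnity,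
    Nat.card_eq_fintype_card (α := AddChar Y ℂ), AddChar.card_eq, Nat.card_eq_fintype_card]

instance [Finite Y] [NeZero m] : Finite (FF Y m) := by
  haveI : Fintype Y := Fintype.ofFinite Y
  exact Finite.of_equiv _ (MonoidHom.ofInjective Th_injective).toEquiv

end F

section Act

variable {T : Type u} [Group T] {Y : Type u} [AddCommGroup Y] {m : ℕ} (R : AffReg T Y m)

theorem AffReg.stab_mem (t : T) (f : FF Y m) : (fun y => f.1 (R.act t y)) ∈ FF Y m := by
  obtain ⟨⟨ζ, lam⟩, hf⟩ := f.2
  obtain ⟨A, c, hA⟩ := R.aff t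
  have hc : chU lam c ∈ rootsOfUnity m ℂ := by
    rw [mem_rootsOfUnity]
    apply Units.ext
    simp only [Units.val_pow_eq_pow_val, coe_chU, Units.val_one]
    rw [← AddChar.map_nsmul_eq_pow, R.exp, AddChar.map_zero_eq_one]
  refine ⟨(ζ * ⟨_, hc⟩, lam.compAddMonoidHom A), ?_⟩
  funext y
  apply Units.ext
  rw [← hf, hA]
  simp only [coe_Th, Subgroup.coe_mul, Units.val_mul, coe_chU, AddChar.compAddMonoidHom_apply,
    AddChar.map_add_eq_mul]
  ring

/-- The action on the functions. -/
noncomputable def AffReg.phi : T →* MulAut (FF Y m) where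
  toFun t :=
    { toFun := fun f => ⟨fun y => f.1 (R.act t⁻¹ y), R.stab_mem t⁻¹ f⟩
      invFun := fun f => ⟨fun y => f.1 (R.act t y), R.stab_mem t f⟩
      left_inv := by
        intro f
        apply Subtype.ext
        funext y
        simp only
        rw [← R.act_mul, inv_mul_cancel, R.act_one]
      right_inv := by
        intro f
        apply Subtype.ext
        funext y
        simp only
        rw [← R.act_mul, mul_inv_cancel, R.act_one]
      map_mul' := fun _ _ => rfl }
  map_one' := by
    ext f y
    simp [R.act_one]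
  map_mul' := by
    intro a b
    ext f y
    simp [R.act_mul]

@[simp] theorem AffReg.phi_apply (t : T) (f : FF Y m) (y : Y) :
    ((R.phi t f).1 y) = f.1 (R.act t⁻¹ y) := rfl

/-- The group. -/
abbrev AffReg.HH := FF Y m ⋊[R.phi] T

/-- The representation on functions on `Y`. -/
noncomputable def AffReg.rep : Representation ℂ R.HH (Y → ℂ) where
  toFun h :=
    { toFun := fun v y => ((h.left.1 y : ℂˣ) : ℂ) * v (R.act h.right⁻¹ y)
      map_add' := by
        intro v w
        funext y
        simp [mul_add]
      map_smul' := by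
        intro c v
        funext y
        simp only [Pi.smul_apply, smul_eq_mul, RingHom.id_apply]
        ring }
  map_one' := by
    ext v y
    simp [R.act_one]
  map_mul' := by
    intro a b
    ext v y
    simp [R.act_mul, mul_assoc]

@[simp] theorem AffReg.rep_apply (h : R.HH) (v : Y → ℂ) (y : Y) :
    R.rep h v y = ((h.left.1 y : ℂˣ) : ℂ) * v (R.act h.right⁻¹ y) := rfl

theorem AffReg.free {t : T} {y : Y} (h : R.act t y = y) : t = 1 := by
  obtain ⟨u, hu⟩ := R.bij.2 y
  simp only at hu
  have h1 : R.act (t * u) 0 = R.act u 0 := by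
    rw [R.act_mul, hu, h]
  have h2 : t * u = u := R.bij.1 h1
  simpa using h2

variable [Fintype Y] [DecidableEq Y]

theorem AffReg.char_apply (h : R.HH) : R.rep.character h =
    ∑ y : Y, if R.act h.right⁻¹ y = y then ((h.left.1 y : ℂˣ) : ℂ) else 0 := by
  classical
  rw [Representation.character,
    LinearMap.trace_eq_matrix_trace ℂ (Pi.basisFun ℂ Y) (R.rep h), Matrix.trace]
  simp only [Matrix.diag, LinearMap.toMatrix_apply, Pi.basisFun_repr, AffReg.rep_apply,
    Pi.basisFun_apply]
  refine Finset.sum_congr rfl fun y _ => ?_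
  by_cases hy : R.act h.right⁻¹ y = y
  · rw [if_pos hy, hy, Pi.single_apply, if_pos rfl, mul_one]
  · rw [if_neg hy, Pi.single_apply, if_neg hy, mul_zero]

theorem AffReg.char_of_ne {h : R.HH} (hr : h.right ≠ 1) : R.rep.character h = 0 := by
  rw [R.char_apply]
  apply Finset.sum_eq_zero
  intro y _
  rw [if_neg]
  intro h1
  exact hr (inv_eq_one.1 (R.free h1))

theorem AffReg.char_of_eq {h : R.HH} (hr : h.right = 1) :
    R.rep.character h = ∑ y : Y, ((h.left.1 y : ℂˣ) : ℂ) := by
  rw [R.char_apply]
  refine Finset.sum_congr rfl fun y _ => ?_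
  rw [if_pos]
  rw [hr, inv_one, R.act_one]

theorem AffReg.char_Th {h : R.HH} (hr : h.right = 1) (x : rootsOfUnity m ℂ × AddChar Y ℂ)
    (hx : Th x = h.left.1) :
    R.rep.character h = ((x.1 : ℂˣ) : ℂ) * (if x.2 = 0 then (Fintype.card Y : ℂ) else 0) := by
  classical
  rw [R.char_of_eq hr, ← hx, ← AddChar.sum_eq_ite, Finset.mul_sum]
  rfl

theorem AffReg.char_one : R.rep.character 1 = (Fintype.card Y : ℂ) := by
  rw [R.char_of_eq rfl]
  simp

/-- The element of the group determined by parameters. -/
noncomputable def AffReg.mkH (x : rootsOfUnity m ℂ × AddChar Y ℂ) (t : T) : R.HH :=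
  ⟨⟨Th x, x, rfl⟩, t⟩

theorem AffReg.mkH_bij : Function.Bijective (fun z : (rootsOfUnity m ℂ × AddChar Y ℂ) × T =>
    R.mkH z.1 z.2) := by
  constructor
  · rintro ⟨x, t⟩ ⟨x', t'⟩ h
    have h1 : Th x = Th x' := congrArg (fun k : R.HH => k.left.1) h
    have h2 : t = t' := congrArg (fun k : R.HH => k.right) h
    rw [Th_injective h1, h2]
  · rintro ⟨⟨_, x, rfl⟩, t⟩
    exact ⟨(x, t), rfl⟩

variable [NeZero m] [Finite T]

theorem AffReg.card_T (R : AffReg T Y m) : Nat.card T = Fintype.card Y := by
  rw [Nat.card_congr (Equiv.ofBijective _ R.bij), Nat.card_eq_fintype_card]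

instance AffReg.finite_HH : Finite R.HH :=
  Finite.of_equiv _ (SemidirectProduct.equivProd (N := FF Y m) (G := T) (φ := R.phi)).symm

theorem AffReg.card_HH : Nat.card R.HH = m * Fintype.card Y * Fintype.card Y := by
  rw [SemidirectProduct.card, card_FF, R.card_T, Nat.card_eq_fintype_card]

theorem AffReg.inner_self [Fintype R.HH] :
    classInner R.rep.character R.rep.character = 1 := by
  classical
  haveI : Fintype T := Fintype.ofFinite T
  haveI : Fintype (rootsOfUnity m ℂ) := Fintype.ofFinite _
  have hnorm : ∀ ζ : rootsOfUnity m ℂ, ((ζ : ℂˣ) : ℂ) * conj ((ζ : ℂˣ) : ℂ) = 1 := by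
    intro ζ
    have h1 : ((ζ : ℂˣ) : ℂ) ^ m = 1 := by
      have := congrArg Units.val ((mem_rootsOfUnity m _).1 ζ.2)
      simpa using this
    have h2 := Complex.norm_eq_one_of_pow_eq_one h1 (NeZero.ne m)
    rw [Complex.mul_conj, Complex.normSq_eq_norm_sq, h2]
    simp
  have hsum : ∑ h : R.HH, R.rep.character h * conj (R.rep.character h) =
      (m : ℂ) * ((Fintype.card Y : ℂ) * (Fintype.card Y : ℂ)) := by
    rw [← R.mkH_bij.sum_comp, Fintype.sum_prod_type]
    have h1 : ∀ x : rootsOfUnity m ℂ × AddChar Y ℂ,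
        ∑ t : T, R.rep.character (R.mkH x t) * conj (R.rep.character (R.mkH x t)) =
          if x.2 = 0 then (Fintype.card Y : ℂ) * (Fintype.card Y : ℂ) else 0 := by
      intro x
      rw [Finset.sum_eq_single (1 : T)]
      · rw [R.char_Th (h := R.mkH x 1) rfl x rfl]
        split_ifs with hx
        · rw [map_mul, Complex.conj_natCast]
          have := hnorm x.1
          calc _ = (((x.1 : ℂˣ) : ℂ) * conj ((x.1 : ℂˣ) : ℂ)) *
                ((Fintype.card Y : ℂ) * (Fintype.card Y : ℂ)) := by ring
            _ = _ := by rw [this, one_mul]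
        · simp
      · intro t _ ht
        rw [R.char_of_ne (h := R.mkH x t) ht]
        simp
      · simp
    simp only [h1]
    rw [Fintype.sum_prod_type]
    simp only [Finset.sum_ite_eq', Finset.mem_univ, if_true, Finset.sum_const, Finset.card_univ,
      nsmul_eq_mul]
    rw [← Nat.card_eq_fintype_card, Complex.card_rootsOfUnity]
  rw [classInner, hsum, R.card_HH]
  have hY : (Fintype.card Y : ℂ) ≠ 0 := by
    exact_mod_cast Fintype.card_ne_zero
  have hm : (m : ℂ) ≠ 0 := by
    exact_mod_cast NeZero.ne m
  push_cast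
  field_simp

theorem AffReg.isIrr : IsIrrCharacter R.HH R.rep.character := by
  classical
  haveI : Fintype R.HH := Fintype.ofFinite _
  haveI : Fintype (IrrCharacter R.HH) := Fintype.ofFinite _
  have hχ : IsCharacter R.HH R.rep.character := H21.isCharacter_of_rep R.rep
  refine H01.isIrrCharacter_of_int_norm_one (fun g k => H21.isCharacter_conj hχ g k) ?_ R.inner_self ?_
  · intro ψ
    obtain ⟨n, hn⟩ := H21.classInner_isCharacter_nat hχ (H21.isCharacter_of_irr ψ.2)
    exact ⟨n, by simpa using hn⟩
  · rw [R.char_one]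
    simpa using Fintype.card_pos

theorem AffReg.faithful {h : R.HH} (hh : R.rep.character h = R.rep.character 1) : h = 1 := by
  classical
  have hY : (Fintype.card Y : ℂ) ≠ 0 := by
    exact_mod_cast Fintype.card_ne_zero
  rw [R.char_one] at hh
  have hr : h.right = 1 := by
    by_contra hr
    rw [R.char_of_ne hr] at hh
    exact hY hh.symm
  obtain ⟨x, hx⟩ := h.left.2
  rw [R.char_Th hr x hx] at hh
  by_cases h0 : x.2 = 0
  · rw [if_pos h0] at hh
    have h1 : ((x.1 : ℂˣ) : ℂ) = 1 := by
      exact mul_right_cancel₀ hY (by rw [hh, one_mul])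
    have h2 : x.1 = 1 := by
      apply Subtype.ext
      apply Units.ext
      simpa using h1
    have h3 : x = 1 := Prod.ext h2 h0
    apply SemidirectProduct.ext
    · apply Subtype.ext
      rw [← hx, h3, map_one]
      rfl
    · exact hr
  · rw [if_neg h0, mul_zero] at hh
    exact absurd hh.symm hY

theorem AffReg.mem_center_iff (h : R.HH) : h ∈ Subgroup.center R.HH ↔
    h.right = 1 ∧ ∃ ζ : rootsOfUnity m ℂ, h.left.1 = Th (ζ, 1) := by
  classical
  constructor
  · intro hc
    have hc' := Subgroup.mem_center_iff.1 hc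
    have hr : h.right = 1 := by
      -- commuting with the functions
      have h1 : ∀ lam : AddChar Y ℂ, ∀ y : Y, lam y = lam (R.act h.right⁻¹ y) := by
        intro lam y
        let f : FF Y m := ⟨Th (1, lam), (1, lam), rfl⟩
        have h2 := hc' (SemidirectProduct.inl f)
        have h3 := congrArg (fun k : R.HH => (k.left.1 y : ℂˣ)) h2
        simp only [SemidirectProduct.mul_left, SemidirectProduct.left_inl, SemidirectProduct.right_inl,
          map_one, MulAut.one_apply, Subgroup.coe_mul, Pi.mul_apply] at h3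
        have h4 : ((h.left.1 y : ℂˣ) : ℂ) * lam y =
            ((h.left.1 y : ℂˣ) : ℂ) * lam (R.act h.right⁻¹ y) := by
          have h5 := congrArg Units.val h3
          simp only [Units.val_mul, AffReg.phi_apply] at h5
          simpa [f, mul_comm] using h5
        exact mul_left_cancel₀ (h.left.1 y).ne_zero h4
      have h2 : R.act h.right⁻¹ 0 = 0 := by
        rw [← AddChar.forall_apply_eq_zero]
        intro lam
        have := h1 lam 0
        rw [AddChar.map_zero_eq_one] at this
        exact this.symm
      exact inv_eq_one.1 (R.free h2)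
    refine ⟨hr, ?_⟩
    obtain ⟨⟨ζ, lam⟩, hx⟩ := h.left.2
    refine ⟨ζ, ?_⟩
    -- commuting with the group `T`
    have h1 : ∀ (s : T) (y : Y), h.left.1 (R.act s⁻¹ y) = h.left.1 y := by
      intro s y
      have h2 := hc' (SemidirectProduct.inr s)
      have h3 := congrArg (fun k : R.HH => (k.left.1 y : ℂˣ)) h2
      simpa [SemidirectProduct.mul_left, hr] using h3
    have h2 : ∀ y : Y, lam y = 1 := by
      intro y
      obtain ⟨u, hu⟩ := R.bij.2 y
      simp only at hu
      have h3 := h1 u⁻¹ 0
      rw [inv_inv, hu, ← hx] at h3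
      have h4 := congrArg Units.val h3
      simp only [coe_Th, AddChar.map_zero_eq_one, mul_one] at h4
      exact mul_left_cancel₀ (ζ : ℂˣ).ne_zero (by rw [h4, mul_one])
    have h3 : lam = 1 := by
      ext y
      simpa using h2 y
    rw [← hx, h3]
  · rintro ⟨hr, ζ, hζ⟩
    rw [Subgroup.mem_center_iff]
    intro k
    apply SemidirectProduct.ext
    · apply Subtype.ext
      funext y
      apply Units.ext
      simp only [SemidirectProduct.mul_left, hr, map_one, MulAut.one_apply, Subgroup.coe_mul,
        Pi.mul_apply, Units.val_mul, AffReg.phi_apply, hζ, coe_Th]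
      simp only [AddChar.one_apply, mul_one]
      ring
    · simp [hr]

theorem AffReg.card_center : Nat.card (Subgroup.center R.HH) = m := by
  classical
  let j : rootsOfUnity m ℂ → Subgroup.center R.HH := fun ζ =>
    ⟨R.mkH (ζ, 1) 1, (R.mem_center_iff _).2 ⟨rfl, ζ, rfl⟩⟩
  have hj : Function.Bijective j := by
    constructor
    · intro a b hab
      have h1 : Th (a, (1 : AddChar Y ℂ)) = Th (b, 1) :=
        congrArg (fun k : Subgroup.center R.HH => k.1.left.1) hab
      exact congrArg Prod.fst (Th_injective h1)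
    · rintro ⟨h, hh⟩
      obtain ⟨hr, ζ, hζ⟩ := (R.mem_center_iff _).1 hh
      refine ⟨ζ, ?_⟩
      apply Subtype.ext
      apply SemidirectProduct.ext
      · exact Subtype.ext hζ.symm
      · exact hr.symm
  rw [← Nat.card_congr (Equiv.ofBijective j hj), Complex.card_rootsOfUnity]

theorem AffReg.index_center : (Subgroup.center R.HH).index = Fintype.card Y ^ 2 := by
  have h1 := (Subgroup.center R.HH).card_mul_index
  rw [R.card_center, R.card_HH] at h1
  have hm : 0 < m := NeZero.pos m
  apply Nat.eq_of_mul_eq_mul_left hm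
  rw [h1]
  ring

end Act

/-- The main theorem. -/
theorem central_type_main {G : Type u} [Group G] [Finite G] (hsolv : Group.IsSolvable G) :
    ∃ (H : Type u) (_ : Group H) (_ : Finite H) (χ : IrrCharacter H),
      (∀ h : H, (χ : H → ℂ) h = (χ : H → ℂ) 1 → h = 1) ∧
      (charDegree (χ : H → ℂ)) ^ 2 = (Subgroup.center H).index ∧
      (∃ f : G →* H ⧸ Subgroup.center H, Function.Injective f) ∧
      (∀ p : ℕ, p.Prime → ((p ∣ Nat.card H ↔ p ∣ Nat.card G) ∧
        (p ∣ Nat.card (Subgroup.center H) ↔ p ∣ Nat.card G))) ∧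
      Squarefree (Nat.card (Subgroup.center H)) := by
  classical
  set m : ℕ := ∏ p ∈ (Nat.card G).primeFactors, p with hmdef
  have hG0 : Nat.card G ≠ 0 := Nat.card_pos.ne'
  have hmz : ∀ p : ℕ, p.Prime → (p ∣ m ↔ p ∣ Nat.card G) := by
    intro p hp
    constructor
    · intro h
      obtain ⟨r, hr, hpr⟩ := (Prime.dvd_finsetProd_iff hp.prime _).1 h
      have hr' := Nat.prime_of_mem_primeFactors hr
      have : p = r := (Nat.prime_dvd_prime_iff_eq hp hr').1 hpr
      rw [this]
      exact Nat.dvd_of_mem_primeFactors hr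
    · intro h
      exact Finset.dvd_prod_of_mem _ (Nat.mem_primeFactors.2 ⟨hp, h, hG0⟩)
  have hsq : Squarefree m := by
    apply Finset.squarefree_prod_of_pairwise_isCoprime
    · intro a ha b hb hab
      exact Nat.coprime_iff_isRelPrime.1
        ((Nat.coprime_primes (Nat.prime_of_mem_primeFactors ha) (Nat.prime_of_mem_primeFactors hb)).2 hab)
    · intro a ha
      exact (Nat.prime_of_mem_primeFactors ha).squarefree
  haveI : NeZero m := ⟨hsq.ne_zero⟩
  obtain ⟨T, _, _, Y, _, _, R, hR, f, hf⟩ := exists_affReg _ G rfl hsolv m (fun p hp => (hmz p hp).2)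
  haveI : Fintype Y := Fintype.ofFinite Y
  haveI : Finite R.HH := R.finite_HH
  have hcardY : Nat.card T = Fintype.card Y := R.card_T
  refine ⟨R.HH, inferInstance, inferInstance, ⟨_, R.isIrr⟩, fun h hh => R.faithful hh, ?_, ?_, ?_, ?_⟩
  · have h1 : (R.rep.character 1) = (Fintype.card Y : ℂ) := R.char_one
    have h2 := H21.one_eq_charDegree (H21.isCharacter_of_rep R.rep)
    rw [h1] at h2
    have h3 : charDegree R.rep.character = Fintype.card Y := by
      exact_mod_cast h2.symm
    show charDegree R.rep.character ^ 2 = _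
    rw [h3, R.index_center]
  · refine ⟨(QuotientGroup.mk' _).comp ((SemidirectProduct.inr).comp f), ?_⟩
    rw [injective_iff_map_eq_one]
    intro g hg
    have h1 : SemidirectProduct.inr (f g) ∈ Subgroup.center R.HH := by
      have := (QuotientGroup.eq_one_iff (N := Subgroup.center R.HH) (SemidirectProduct.inr (f g))).1 hg
      exact this
    have h2 := ((R.mem_center_iff _).1 h1).1
    have h3 : f g = 1 := h2
    exact hf (by rw [h3, map_one])
  · intro p hp
    refine ⟨?_, ?_⟩
    · rw [R.card_HH, hp.dvd_mul, hp.dvd_mul, ← hcardY, hmz p hp]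
      constructor
      · rintro ((h | h) | h)
        · exact h
        · exact hR p hp h
        · exact hR p hp h
      · intro h
        exact Or.inl (Or.inl h)
    · rw [R.card_center, hmz p hp]
  · rw [R.card_center]
    exact hsq

end Cfsg.Agent.H21.CT
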