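import Cfsg.Agent.Lib.H21.FeitB
import Cfsg.Agent.Lib.H26.HHCore
import Cfsg.Agent.Lib.H03.PSolv
import Cfsg.Agent.Lib.H22.PDegCount
import Cfsg.Agent.Lib.H01.SZ2

/-!
# The bound for `p`-solvable groups with a faithful character
-/

set_option autoImplicit false
set_option linter.unusedSectionVars false
set_option linter.style.haveILetI false
set_option linter.unusedSimpArgs false

namespace Cfsg.Agent.H21.FP

open Cfsg Cfsg.Agent

universe u

section Frat

variable {G : Type u} [Group G] [Finite G] {p : ℕ} [hp : Fact p.Prime]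

/-- The Frattini argument for complements of a normal `p`-subgroup. -/
theorem exists_normalizer_mem (Q H : Subgroup G) [hQ : Q.Normal] [hH : H.Normal] (hQH : Q ≤ H)
    (hQp : IsPGroup p Q) (hidx : (Q.subgroupOf H).index.Coprime p) (K₁ : Subgroup H)
    (hK₁ : (Q.subgroupOf H).IsComplement' K₁) (g : G) :
    ∃ m ∈ Subgroup.normalizer ((K₁.map H.subtype : Subgroup G) : Set G), g⁻¹ * m ∈ Q := by
  classical
  let Q₁ := Q.subgroupOf H
  haveI hQ₁ : Q₁.Normal := inferInstance
  let K₂ : Subgroup H := K₁.map (MulAut.conjNormal g : MulAut H).toMonoidHom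
  have hQ₁p : IsPGroup p Q₁ := hQp.of_equiv (Subgroup.subgroupOfEquivOfLe hQH).symm
  have hcop : (Nat.card Q₁).Coprime Q₁.index := by
    obtain ⟨a, ha⟩ := IsPGroup.iff_card.1 hQ₁p
    rw [ha]
    exact Nat.Coprime.pow_left _ hidx.symm
  have hcK₁ : Nat.card K₁ = Q₁.index := by
    have h1 := hK₁.card_mul_card
    have h2 := Subgroup.card_mul_index Q₁
    exact Nat.eq_of_mul_eq_mul_left Nat.card_pos (h1.trans h2.symm)
  have hcK₂ : Nat.card K₂ = Nat.card K₁ :=
    Subgroup.card_map_of_injective (MulAut.conjNormal g : MulAut H).injective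
  have hK₂ : Q₁.IsComplement' K₂ := by
    apply Subgroup.isComplement'_of_coprime
    · rw [hcK₂]
      exact hK₁.card_mul_card
    · rw [hcK₂, hcK₁]
      exact hcop
  haveI : Group.IsNilpotent Q₁ := hQ₁p.isNilpotent
  obtain ⟨h, hh⟩ := H01.sz_conj Q₁ hcop K₁ K₂ hK₁ hK₂ (Or.inl inferInstance)
  -- the decomposition of `h`
  obtain ⟨⟨q, k⟩, hqk⟩ := hK₁.2 h
  simp only at hqk
  let m : G := (k : G) * ((h : G)⁻¹ * g)
  have hiff : ∀ x : H, x ∈ K₁ ↔ (h⁻¹ * (MulAut.conjNormal g x) * h) ∈ K₁ := by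
    intro x
    have h1 : MulAut.conjNormal g x ∈ K₂ ↔ x ∈ K₁ := by
      constructor
      · rintro ⟨y, hy, hyx⟩
        have : y = x := (MulAut.conjNormal g : MulAut H).injective hyx
        rwa [← this]
      · intro hx
        exact ⟨x, hx, rfl⟩
    rw [← h1, ← hh]
    rw [Subgroup.mem_pointwise_smul_iff_inv_smul_mem]
    simp [MulAut.smul_def, MulAut.conj_apply]
  have hm : (h : G)⁻¹ * g ∈ Subgroup.normalizer ((K₁.map H.subtype : Subgroup G) : Set G) := by
    rw [Subgroup.mem_normalizer_iff]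
    intro y
    constructor
    · rintro ⟨x, hx, rfl⟩
      have h2 := (hiff x).1 hx
      refine ⟨_, h2, ?_⟩
      simp [MulAut.conjNormal_apply]
      group
    · rintro ⟨x, hx, hxy⟩
      have hyH : y ∈ H := by
        have h3 : (h : G)⁻¹ * g * y * ((h : G)⁻¹ * g)⁻¹ = (x : G) := hxy.symm
        have h4 : y = ((h : G)⁻¹ * g)⁻¹ * (x : G) * (((h : G)⁻¹ * g)⁻¹)⁻¹ := by
          rw [← h3]
          group
        rw [h4]
        exact hH.conj_mem _ x.2 _
      refine ⟨⟨y, hyH⟩, (hiff _).2 ?_, rfl⟩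
      have h5 : h⁻¹ * (MulAut.conjNormal g ⟨y, hyH⟩) * h = x := by
        apply Subtype.ext
        simp [MulAut.conjNormal_apply]
        have hxy' : (x : G) = (h : G)⁻¹ * g * y * ((h : G)⁻¹ * g)⁻¹ := hxy
        rw [hxy']
        group
      rw [h5]
      exact hx
  have hkN : (k : G) ∈ Subgroup.normalizer ((K₁.map H.subtype : Subgroup G) : Set G) :=
    Subgroup.le_normalizer (Subgroup.mem_map_of_mem _ k.2)
  refine ⟨m, mul_mem hkN hm, ?_⟩
  have h6 : (h : G) = (q : G) * (k : G) := by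
    rw [← hqk]
    rfl
  have hqQ : ((q : H) : G) ∈ Q := q.2
  have h7 : m = ((q : H) : G)⁻¹ * g := by
    show (k : G) * ((h : G)⁻¹ * g) = _
    rw [h6]
    group
  rw [h7]
  have h8 := hQ.conj_mem _ (inv_mem hqQ) g⁻¹
  rw [inv_inv] at h8
  have h9 : g⁻¹ * (((q : H) : G)⁻¹ * g) = g⁻¹ * ((q : H) : G)⁻¹ * g := by group
  rw [h9]
  exact h8

/-- The group-theoretic reduction. -/
theorem exists_KP (hs : IsPSolvable p G) :
    ∃ K P₀ : Subgroup G, (Nat.card K).Coprime p ∧ IsPGroup p P₀ ∧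
      P₀ ≤ Subgroup.normalizer (K : Set G) ∧
      p ^ (pCore p G).index.factorization p *
        Nat.card (P₀ ⊓ Subgroup.centralizer (K : Set G) : Subgroup G) ≤ Nat.card P₀ := by
  classical
  have hpp : p.Prime := hp.out
  let Q := pCore p G
  haveI hQn : Q.Normal := H01.pCore_normal p
  have hQp : IsPGroup p Q := H01.pCore_isPGroup p
  let π := QuotientGroup.mk' Q
  have hπ : Function.Surjective π := QuotientGroup.mk'_surjective Q
  have hO : pCore p (G ⧸ Q) = ⊥ := H22.pCore_quot_eq_bot p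
  have hsq : IsPSolvable p (G ⧸ Q) := H03.isPSolvable_of_surjective hπ hs
  let R := pPrimeCore p (G ⧸ Q)
  haveI hRn : R.Normal := inferInstance
  have hRp : (Nat.card R).Coprime p := H06.coprime_card_pPrimeCore p
  have hCR := H26.HHCore.centralizer_pPrimeCore_le hsq hO
  let H := R.comap π
  haveI hHn : H.Normal := inferInstance
  have hQH : Q ≤ H := by
    intro x hx
    have : π x = 1 := (QuotientGroup.eq_one_iff x).2 hx
    show π x ∈ R
    rw [this]
    exact one_mem _
  have hcardH : Nat.card H = Nat.card Q * Nat.card R := by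
    have h1 := Subgroup.card_mul_index H
    have h2 := Subgroup.card_mul_index R
    have h3 := Subgroup.card_mul_index Q
    have h4 : H.index = R.index := Subgroup.index_comap_of_surjective R hπ
    rw [h4] at h1
    have h5 : Q.index = Nat.card (G ⧸ Q) := Subgroup.index_eq_card Q
    rw [h5, ← h2] at h3
    have h6 : 0 < R.index := Nat.pos_of_ne_zero Subgroup.index_ne_zero_of_finite
    apply Nat.eq_of_mul_eq_mul_right h6
    rw [h1, ← h3]
    ring
  have hQ₁c : Nat.card (Q.subgroupOf H) = Nat.card Q :=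
    Nat.card_congr (Subgroup.subgroupOfEquivOfLe hQH).toEquiv
  have hidx : (Q.subgroupOf H).index = Nat.card R := by
    have h1 := Subgroup.card_mul_index (Q.subgroupOf H)
    rw [hQ₁c, hcardH] at h1
    exact Nat.eq_of_mul_eq_mul_left Nat.card_pos h1
  have hcop : (Nat.card (Q.subgroupOf H)).Coprime (Q.subgroupOf H).index := by
    rw [hQ₁c, hidx]
    obtain ⟨a, ha⟩ := IsPGroup.iff_card.1 hQp
    rw [ha]
    exact Nat.Coprime.pow_left _ hRp.symm
  obtain ⟨K₁, hK₁⟩ := Subgroup.exists_right_complement'_of_coprime hcop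
  let K : Subgroup G := K₁.map H.subtype
  have hKc : Nat.card K = Nat.card R := by
    have h1 : Nat.card K = Nat.card K₁ := Subgroup.card_map_of_injective H.subtype_injective
    have h2 := hK₁.card_mul_card
    have h3 := Subgroup.card_mul_index (Q.subgroupOf H)
    rw [h1, ← hidx]
    exact Nat.eq_of_mul_eq_mul_left Nat.card_pos (h2.trans h3.symm)
  have hπK : ∀ r ∈ R, ∃ k ∈ K, π k = r := by
    intro r hr
    obtain ⟨g, rfl⟩ := hπ r
    have hg : g ∈ H := hr
    obtain ⟨⟨q, k⟩, hqk⟩ := hK₁.2 ⟨g, hg⟩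
    refine ⟨(k : H), Subgroup.mem_map_of_mem _ k.2, ?_⟩
    have h1 : g = ((q : H) : G) * ((k : H) : G) := by
      have := congrArg Subtype.val hqk
      exact this.symm
    have h2 : π ((q : H) : G) = 1 := (QuotientGroup.eq_one_iff _).2 q.2
    rw [h1, map_mul, h2, one_mul]
  let M : Subgroup G := Subgroup.normalizer (K : Set G)
  have hM : ∀ g, ∃ m ∈ M, g⁻¹ * m ∈ Q := fun g =>
    exists_normalizer_mem Q H hQH hQp (by rw [hidx]; exact hRp) K₁ hK₁ g
  let f : M →* G ⧸ Q := π.comp M.subtype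
  have hf : Function.Surjective f := by
    intro y
    obtain ⟨g, rfl⟩ := hπ y
    obtain ⟨m, hm, hgm⟩ := hM g
    refine ⟨⟨m, hm⟩, ?_⟩
    show π m = π g
    have h1 : π (g⁻¹ * m) = 1 := (QuotientGroup.eq_one_iff _).2 hgm
    rw [map_mul, map_inv] at h1
    exact (inv_mul_eq_one.1 h1).symm
  have hfker : (f.ker.map M.subtype) ≤ Q := by
    rintro _ ⟨y, hy, rfl⟩
    have : π (y : G) = 1 := hy
    exact (QuotientGroup.eq_one_iff _).1 this
  have hfc : Nat.card f.ker = Nat.card (f.ker.map M.subtype) :=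
    (Subgroup.card_map_of_injective M.subtype_injective).symm
  obtain ⟨c, hc⟩ : ∃ c, Nat.card f.ker = p ^ c := by
    obtain ⟨a, ha⟩ := IsPGroup.iff_card.1 hQp
    have h1 : Nat.card f.ker ∣ p ^ a := by
      rw [hfc, ← ha]
      exact Subgroup.card_dvd_of_le hfker
    obtain ⟨c, -, hc⟩ := (Nat.dvd_prime_pow hpp).1 h1
    exact ⟨c, hc⟩
  have hMcard : Nat.card M = p ^ c * Q.index := by
    have h1 := Subgroup.card_mul_index f.ker
    rw [Subgroup.index_ker, MonoidHom.range_eq_top.2 hf, hc, Subgroup.card_top,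
      ← Subgroup.index_eq_card] at h1
    exact h1.symm
  have hQi : Q.index ≠ 0 := Subgroup.index_ne_zero_of_finite
  have hMfac : (Nat.card M).factorization p = c + Q.index.factorization p := by
    rw [hMcard, Nat.factorization_mul (pow_ne_zero _ hpp.ne_zero) hQi, Nat.Prime.factorization_pow hpp]
    simp
  obtain ⟨S⟩ : Nonempty (Sylow p M) := inferInstance
  let P₀ : Subgroup G := (S : Subgroup M).map M.subtype
  have hP₀c : Nat.card P₀ = p ^ (c + Q.index.factorization p) := by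
    have h1 : Nat.card P₀ = Nat.card S := Subgroup.card_map_of_injective M.subtype_injective
    rw [h1, S.card_eq_multiplicity, hMfac]
  have hP₀p : IsPGroup p P₀ := IsPGroup.of_card hP₀c
  have hP₀M : P₀ ≤ M := Subgroup.map_subtype_le _
  refine ⟨K, P₀, hKc ▸ hRp, hP₀p, hP₀M, ?_⟩
  have hle : (P₀ ⊓ Subgroup.centralizer (K : Set G) : Subgroup G) ≤ f.ker.map M.subtype := by
    intro y hy
    obtain ⟨hy1, hy2⟩ := Subgroup.mem_inf.1 hy
    refine ⟨⟨y, hP₀M hy1⟩, ?_, rfl⟩
    show π y = 1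
    have h1 : π y ∈ Subgroup.centralizer (R : Set (G ⧸ Q)) := by
      rw [Subgroup.mem_centralizer_iff]
      intro r hr
      obtain ⟨k, hk, rfl⟩ := hπK r hr
      rw [← map_mul, ← map_mul]
      congr 1
      exact (Subgroup.mem_centralizer_iff.1 hy2 k hk)
    have h2 : π y ∈ R := hCR h1
    obtain ⟨a, ha⟩ := hP₀p ⟨y, hy1⟩
    have h3 : (π y) ^ (p ^ a) = 1 := by
      rw [← map_pow]
      have : y ^ p ^ a = 1 := by simpa using congrArg Subtype.val ha
      rw [this, map_one]
    have h4 : (π y) ^ (Nat.card R) = 1 := by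
      have h7 := congrArg Subtype.val (pow_card_eq_one' (x := (⟨π y, h2⟩ : R)))
      rwa [SubmonoidClass.coe_pow] at h7
    have h5 := pow_gcd_eq_one.2 ⟨h3, h4⟩
    have h6 : Nat.gcd (p ^ a) (Nat.card R) = 1 := Nat.Coprime.pow_left _ hRp.symm
    rwa [h6, pow_one] at h5
  have hcle := Subgroup.card_le_of_le hle
  rw [← hfc, hc] at hcle
  calc p ^ Q.index.factorization p * Nat.card (P₀ ⊓ Subgroup.centralizer (K : Set G) : Subgroup G)
      ≤ p ^ Q.index.factorization p * p ^ c := Nat.mul_le_mul_left _ hcle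
    _ = Nat.card P₀ := by
        rw [hP₀c, pow_add, mul_comm]

end Frat

section Main

variable {G : Type u} [Group G] [Finite G] {p : ℕ} [hp : Fact p.Prime]

/-- The product of a subgroup and a subgroup normalizing it. -/
def prodSub (K P : Subgroup G) (h : P ≤ Subgroup.normalizer (K : Set G)) : Subgroup G where
  carrier := {g | ∃ k ∈ K, ∃ y ∈ P, g = k * y}
  mul_mem' := by
    rintro _ _ ⟨k, hk, y, hy, rfl⟩ ⟨k', hk', y', hy', rfl⟩
    refine ⟨k * (y * k' * y⁻¹), mul_mem hk ((Subgroup.mem_normalizer_iff.1 (h hy) k').1 hk'),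
      y * y', mul_mem hy hy', by group⟩
  one_mem' := ⟨1, one_mem _, 1, one_mem _, by simp⟩
  inv_mem' := by
    rintro _ ⟨k, hk, y, hy, rfl⟩
    refine ⟨y⁻¹ * k⁻¹ * y⁻¹⁻¹, (Subgroup.mem_normalizer_iff.1 (h (inv_mem hy)) _).1 (inv_mem hk),
      y⁻¹, inv_mem hy, by group⟩

/-- The main theorem. -/
theorem feit_main (χ : G → ℂ) (hχ : IsCharacter G χ) (hfaith : ∀ g : G, χ g = χ 1 → g = 1)
    (hs : IsPSolvable p G) :
    (pCore p G).index.factorization p ≤ H23.FO.SS p (charDegree χ) (charDegree χ) := by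
  classical
  have hpp : p.Prime := hp.out
  obtain ⟨K, P₀, hKp, hP₀p, hP₀N, hineq⟩ := exists_KP (p := p) hs
  let T := prodSub K P₀ hP₀N
  have hKT : K ≤ T := fun k hk => ⟨k, hk, 1, one_mem _, by simp⟩
  have hPT : P₀ ≤ T := fun y hy => ⟨1, one_mem _, y, hy, by simp⟩
  have hTN : T ≤ Subgroup.normalizer (K : Set G) := by
    rintro _ ⟨k, hk, y, hy, rfl⟩
    exact mul_mem (Subgroup.le_normalizer hk) (hP₀N hy)
  let K' : Subgroup T := K.subgroupOf T
  haveI hK'n : K'.Normal := (Subgroup.normal_subgroupOf_iff_le_normalizer hKT).2 hTN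
  haveI : Fintype T := Fintype.ofFinite _
  have hK'c : Nat.card K' = Nat.card K := Nat.card_congr (Subgroup.subgroupOfEquivOfLe hKT).toEquiv
  let q : P₀ →* T ⧸ K' := (QuotientGroup.mk' K').comp (Subgroup.inclusion hPT)
  have hq : Function.Surjective q := by
    intro z
    obtain ⟨t, rfl⟩ := QuotientGroup.mk'_surjective K' z
    obtain ⟨k, hk, y, hy, hty⟩ := t.2
    refine ⟨⟨y, hy⟩, ?_⟩
    show QuotientGroup.mk' K' (⟨y, hPT hy⟩ : T) = QuotientGroup.mk' K' t
    rw [eq_comm, QuotientGroup.mk'_apply, QuotientGroup.mk'_apply, QuotientGroup.eq]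
    show (t : G)⁻¹ * y ∈ K
    have h1 : (t : G)⁻¹ * y = y⁻¹ * k⁻¹ * y⁻¹⁻¹ := by
      rw [hty]
      group
    rw [h1]
    exact (Subgroup.mem_normalizer_iff.1 (hP₀N (inv_mem hy)) _).1 (inv_mem hk)
  obtain ⟨a, ha⟩ := IsPGroup.iff_card.1 hP₀p
  have hidx : ∃ m, K'.index = p ^ m := by
    have h1 : Nat.card (T ⧸ K') ∣ Nat.card P₀ := Subgroup.card_dvd_of_surjective q hq
    rw [ha] at h1
    obtain ⟨m, -, hm⟩ := (Nat.dvd_prime_pow hpp).1 h1
    exact ⟨m, by rw [Subgroup.index_eq_card, hm]⟩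
  obtain ⟨m, hm⟩ := hidx
  have hχ' : IsCharacter T (fun t : T => χ t) := isCharacter_restrict T hχ
  have hdeg : charDegree (fun t : T => χ t) = charDegree χ := by
    have e1 := one_eq_charDegree hχ'
    have e2 := one_eq_charDegree hχ
    have e3 : χ ((1 : T) : G) = (charDegree χ : ℂ) := e2
    rw [e3] at e1
    exact_mod_cast e1.symm
  have hfaith' : ∀ n ∈ K', χ ((n : T) : G) = χ ((1 : T) : G) → n = 1 := by
    intro n _ h
    apply Subtype.ext
    exact hfaith _ h
  let P₁ : Subgroup T := P₀.subgroupOf T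
  have hP₁ : IsPGroup p P₁ := hP₀p.of_equiv (Subgroup.subgroupOfEquivOfLe hPT).symm
  have hmain := feit_abstract K' (hK'c ▸ hKp) hm hχ' hfaith' P₁ hP₁
  rw [hdeg] at hmain
  have hP₁c : Nat.card P₁ = Nat.card P₀ := Nat.card_congr (Subgroup.subgroupOfEquivOfLe hPT).toEquiv
  have hle : Nat.card (P₁ ⊓ Subgroup.centralizer (K' : Set T) : Subgroup T) ≤
      Nat.card (P₀ ⊓ Subgroup.centralizer (K : Set G) : Subgroup G) := by
    let f : (P₁ ⊓ Subgroup.centralizer (K' : Set T) : Subgroup T) →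
        (P₀ ⊓ Subgroup.centralizer (K : Set G) : Subgroup G) := fun y =>
      ⟨y.1.1, Subgroup.mem_inf.2 ⟨(Subgroup.mem_inf.1 y.2).1, by
        rw [Subgroup.mem_centralizer_iff]
        intro c hc
        have h1 := (Subgroup.mem_centralizer_iff.1 (Subgroup.mem_inf.1 y.2).2)
          ⟨c, hKT hc⟩ hc
        exact congrArg Subtype.val h1⟩⟩
    apply Nat.card_le_card_of_injective f
    intro y y' h
    apply Subtype.ext
    apply Subtype.ext
    exact congrArg (fun z : (P₀ ⊓ Subgroup.centralizer (K : Set G) : Subgroup G) => (z : G)) h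
  rw [hP₁c] at hmain
  have h1 := hineq.trans (hmain.trans (Nat.mul_le_mul_left _ hle))
  have h2 : 0 < Nat.card (P₀ ⊓ Subgroup.centralizer (K : Set G) : Subgroup G) := Nat.card_pos
  have h3 := Nat.le_of_mul_le_mul_right h1 h2
  exact (Nat.pow_le_pow_iff_right hpp.one_lt).1 h3

end Main

end Cfsg.Agent.H21.FP
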