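import Cfsg.Agent.Lib.H21.KnorrFull
import Cfsg.Agent.Lib.H21.FongReynolds
import Cfsg.Agent.Lib.H21.CoprimeCount
import Cfsg.Agent.Lib.H21.KernelPPrime
import Cfsg.Agent.Lib.H21.PairDefect
import Cfsg.Agent.Lib.H21.CentralDefect
import Cfsg.Agent.Lib.H21.NormalBlocks
import Cfsg.Agent.Lib.H03.PSolv
import Cfsg.Agent.Lib.H06.FittingHall
import Cfsg.Agent.Lib.H22.KnorrStab

/-!
# Fong: characters over an invariant character of `O_{p'}(G)` form a block of maximal defect
-/

set_option autoImplicit false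
set_option linter.unusedSectionVars false
set_option linter.style.haveILetI false
set_option linter.unusedSimpArgs false
set_option linter.unusedVariables false

namespace Cfsg.Agent.H21

open scoped ComplexConjugate
open Cfsg Module Cfsg.Agent.H22

universe u

variable {G : Type u} [Group G] [Finite G]
variable {p : ℕ} [hp : Fact p.Prime] {M : Ideal AlgInt} [hMp : M.IsPrime]

/-- The `p'`-core of `G / O_{p'}(G)` is trivial. -/
theorem pPrimeCore_quot_eq_bot (N : Subgroup G) [hN : N.Normal] (hNdef : N = pPrimeCore p G) :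
    pPrimeCore p (G ⧸ N) = ⊥ := by
  classical
  set R := pPrimeCore p (G ⧸ N) with hR
  have hRc : (Nat.card R).Coprime p := H06.coprime_card_pPrimeCore p
  have hNc : (Nat.card N).Coprime p := by
    rw [hNdef]
    exact H06.coprime_card_pPrimeCore p
  haveI hRn : R.Normal := pPrimeCore_normal p _
  let T : Subgroup G := R.comap (QuotientGroup.mk' N)
  haveI hTn : T.Normal := Subgroup.Normal.comap hRn _
  have hTc : (Nat.card T).Coprime p := by
    rw [Nat.coprime_comm, Nat.Prime.coprime_iff_not_dvd hp.out]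
    intro hd
    obtain ⟨t, ht⟩ := exists_prime_orderOf_dvd_card' p hd
    have ht1 : (QuotientGroup.mk' N (t : G)) ∈ R := t.2
    have ho : orderOf (QuotientGroup.mk' N (t : G)) ∣ p := by
      have : orderOf (t : G) = p := by rw [Subgroup.orderOf_coe, ht]
      rw [← this]
      exact orderOf_map_dvd _ _
    rcases (Nat.dvd_prime hp.out).1 ho with h1 | h1
    · rw [orderOf_eq_one_iff] at h1
      have hmem : (t : G) ∈ N := (QuotientGroup.eq_one_iff _).1 h1
      have h2 : p ∣ Nat.card N := by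
        have h3 : orderOf (⟨t, hmem⟩ : N) = p := by
          rw [← Subgroup.orderOf_coe]
          change orderOf (t : G) = p
          rw [Subgroup.orderOf_coe, ht]
        rw [← h3]
        exact orderOf_dvd_natCard _
      exact (Nat.Prime.coprime_iff_not_dvd hp.out).1 hNc.symm h2
    · have h2 : p ∣ Nat.card R := by
        have h3 : orderOf (⟨_, ht1⟩ : R) = p := by
          rw [← Subgroup.orderOf_coe]
          exact h1
        rw [← h3]
        exact orderOf_dvd_natCard _
      exact (Nat.Prime.coprime_iff_not_dvd hp.out).1 hRc.symm h2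
  have hTN : T ≤ N := by
    rw [hNdef]
    exact le_sSup ⟨hTn, hTc⟩
  rw [eq_bot_iff]
  intro r hr
  obtain ⟨g, rfl⟩ := QuotientGroup.mk'_surjective N r
  have : g ∈ T := hr
  exact (Subgroup.mem_bot).2 ((QuotientGroup.eq_one_iff _).2 (hTN this))

/-- The preimage of `O_p(G/N)`. -/
noncomputable def upperP (p : ℕ) (N : Subgroup G) [hN : N.Normal] : Subgroup G :=
  (pCore p (G ⧸ N)).comap (QuotientGroup.mk' N)

theorem le_upperP (N : Subgroup G) [hN : N.Normal] : N ≤ upperP p N := by
  intro n hn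
  change QuotientGroup.mk' N n ∈ pCore p (G ⧸ N)
  have : QuotientGroup.mk' N n = 1 := (QuotientGroup.eq_one_iff _).2 hn
  rw [this]
  exact Subgroup.one_mem _

theorem exists_index_upperP (N : Subgroup G) [hN : N.Normal] :
    ∃ k : ℕ, (N.subgroupOf (upperP p N)).index = p ^ k := by
  classical
  have hFb : IsPGroup p (pCore p (G ⧸ N)) := Cfsg.Agent.H01.pCore_isPGroup p
  have h : IsPGroup p (↥(upperP p N) ⧸ N.subgroupOf (upperP p N)) := by
    intro q
    obtain ⟨h, rfl⟩ := QuotientGroup.mk'_surjective _ q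
    obtain ⟨k, hk⟩ := hFb ⟨QuotientGroup.mk' N (h : G), h.2⟩
    refine ⟨k, ?_⟩
    have h1 : QuotientGroup.mk' N ((h : G) ^ p ^ k) = 1 := by
      rw [map_pow]
      have := congrArg Subtype.val hk
      simpa using this
    have h2 : ((h ^ p ^ k : ↥(upperP p N)) : G) ∈ N := by
      simpa using (QuotientGroup.eq_one_iff _).1 h1
    rw [← map_pow]
    exact (QuotientGroup.eq_one_iff _).2 (Subgroup.mem_subgroupOf.2 h2)
  obtain ⟨k, hk⟩ := (IsPGroup.iff_card).1 h
  exact ⟨k, by rw [Subgroup.index_eq_card]; exact hk⟩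

/-- Key lemma: central characters over an invariant `θ` vanish mod `M` on `p`-regular classes
outside `O_{p'}(G)`. -/
theorem cc_mem_of_regular (hM : IsPModular p M) (hsolv : IsPSolvable p G) (N : Subgroup G)
    [hN : N.Normal] (hNdef : N = pPrimeCore p G) (θ : IrrCharacter N)
    (hinv : ∀ (g : G) (n : N), θ.1 ⟨g * n * g⁻¹, hN.conj_mem n n.2 g⟩ = θ.1 n)
    (χ : IrrCharacter G) (hχ : ∑ n : N, conj (θ.1 n) * χ.1 n ≠ 0) {g : G}
    (hg : ¬ p ∣ orderOf g) (hgN : g ∉ N) : MemLocalIdeal M (cc g χ) := by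
  classical
  by_contra hne
  have hNc : (Nat.card N).Coprime p := by
    rw [hNdef]
    exact H06.coprime_card_pPrimeCore p
  set H := upperP p N with hHdef
  have hNH : N ≤ H := le_upperP N
  haveI hHn : H.Normal := Subgroup.Normal.comap (Cfsg.Agent.H01.pCore_normal p) _
  obtain ⟨k, hk⟩ : ∃ k : ℕ, (N.subgroupOf H).index = p ^ k := exists_index_upperP N
  haveI hKn : (N.subgroupOf H).Normal := Subgroup.normal_subgroupOf
  have hKcard : Nat.card (N.subgroupOf H) = Nat.card N :=
    Nat.card_congr (phiN hNH).toEquiv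
  have hKc : (Nat.card (N.subgroupOf H)).Coprime p := by rw [hKcard]; exact hNc
  -- the constituent on `H`
  have hexp := sum_res_expand hNH χ θ
  rw [hexp] at hχ
  obtain ⟨ψ, -, hψ⟩ := Finset.exists_ne_zero_of_sum_ne_zero hχ
  have hψ1 : classInner (fun t : H => χ.1 t) ψ.1 ≠ 0 := left_ne_zero_of_mul hψ
  have hψ2 : cvr hNH ψ θ ≠ 0 := right_ne_zero_of_mul hψ
  -- the extension
  have hinvK : ∀ (x : H) (n : N.subgroupOf H), (thetaT hNH θ).1
      ⟨x * n * x⁻¹, hKn.conj_mem n n.2 x⟩ = (thetaT hNH θ).1 n := by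
    intro x n
    rw [thetaT_apply, thetaT_apply]
    have := hinv x ⟨(n : H), Subgroup.mem_subgroupOf.mp n.2⟩
    exact this
  have hcop : Nat.Coprime (N.subgroupOf H).index (Nat.card (N.subgroupOf H)) := by
    rw [hk]
    exact Nat.Coprime.pow_left _ hKc.symm
  obtain ⟨η, hη⟩ := exists_ext_coprime (N.subgroupOf H) hcop (thetaT hNH θ) hinvK
  have hη0 : ∑ n : N.subgroupOf H, conj ((thetaT hNH θ).1 n) * η.1 n ≠ 0 := by
    have h1 := classInner_irr (thetaT hNH θ) (thetaT hNH θ)
    rw [if_pos rfl] at h1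
    intro h2
    have h3 : ∑ n : N.subgroupOf H, conj ((thetaT hNH θ).1 n) * η.1 n =
        ∑ n : N.subgroupOf H, (thetaT hNH θ).1 n * conj ((thetaT hNH θ).1 n) :=
      Finset.sum_congr rfl fun n _ => by rw [hη n, mul_comm]
    unfold classInner at h1
    rw [h3] at h2
    rw [h2] at h1
    simp at h1
  have hηdeg : ¬ p ∣ charDegree η.1 := by
    have h1 : η.1 1 = (thetaT hNH θ).1 1 := hη 1
    have h2 : charDegree η.1 = charDegree (thetaT hNH θ).1 := by
      unfold charDegree
      rw [h1]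
    rw [h2]
    intro h3
    have h4 := h3.trans (charDegree_dvd_card (thetaT hNH θ))
    exact (Nat.Prime.coprime_iff_not_dvd hp.out).1 hKc.symm h4
  -- the block of `H`
  set b : Set (IrrCharacter H) := blockOf M η.1 with hbdef
  have hb : IsPBlock M b := isBlock_blockOf η
  have hηb : η ∈ b := self_mem_blockOf η
  have hψb : ψ ∈ b := by
    have hcp : ¬ p ∣ Nat.card (N.subgroupOf H) := (Nat.Prime.coprime_iff_not_dvd hp.out).1 hKc.symm
    refine (sameBlock_iff_common hM hcp ⟨k, hk⟩ η ψ).2 ⟨thetaT hNH θ, hη0, ?_⟩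
    rw [sum_thetaT]
    exact hψ2
  -- the defect group of `b`
  obtain ⟨D₀, hD₀⟩ := isDefectGroup_exists (p := p) hb
  have hmin : minExp p b = 0 := by
    have h1 := minExp_le (p := p) hηb
    have h2 : (charDegree η.1).factorization p = 0 := Nat.factorization_eq_zero_of_not_dvd hηdeg
    omega
  have hD₀card : Nat.card D₀ = p ^ k := by
    have h1 := card_defect hM hb hD₀
    rw [blockDefect_eq, hmin, Nat.sub_zero] at h1
    rw [h1]
    congr 1
    rw [← Subgroup.card_mul_index (N.subgroupOf H), hk]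
    have h0 : Nat.card (N.subgroupOf H) ≠ 0 := Nat.card_pos.ne'
    rw [Nat.factorization_mul h0 (pow_pos hp.out.pos _).ne']
    simp only [Finsupp.add_apply, Nat.factorization_pow, Finsupp.smul_apply, smul_eq_mul,
      hp.out.factorization_self, mul_one]
    have := Nat.factorization_eq_zero_of_not_dvd
      ((Nat.Prime.coprime_iff_not_dvd hp.out).1 hKc.symm)
    omega
  -- `D₀` is a complement
  have hcompl : Subgroup.IsComplement' D₀ (N.subgroupOf H) := by
    apply Subgroup.isComplement'_of_coprime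
    · rw [hD₀card, ← hk, mul_comm]
      exact Subgroup.card_mul_index _
    · rw [hD₀card]
      exact Nat.Coprime.pow_left _ hKc.symm
  -- Knörr
  set B : Set (IrrCharacter G) := blockOf M χ.1 with hBdef
  have hB : IsPBlock M B := isBlock_blockOf χ
  have hχB : χ ∈ B := self_mem_blockOf χ
  set Q : Subgroup G := D₀.map H.subtype with hQdef
  have hQH : Q ≤ H := Subgroup.map_subtype_le _
  have hQ : IsDefectGroup p M b (Q.subgroupOf H) := by
    have h1 : (D₀.map H.subtype).subgroupOf H = D₀ :=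
      Subgroup.comap_map_eq_self_of_injective (Subgroup.subtype_injective _) _
    rw [hQdef, h1]
    exact hD₀
  obtain ⟨D, hD, hDQ⟩ := knorr_full hM H b hb Q hQH hQ B hB ⟨χ, hχB, ψ, hψb, hψ1⟩
  have hQD : Q ≤ D := by
    rw [← hDQ]
    exact inf_le_left
  -- the conjugate in `C(D)`
  obtain ⟨x, hgx, hxD, -⟩ := exists_conj_pPart_center hM hB hD hχB hne
  -- push to the quotient
  have hO := pPrimeCore_quot_eq_bot (p := p) N hNdef
  have hs : IsPSolvable p (G ⧸ N) :=
    H03.isPSolvable_of_surjective (QuotientGroup.mk'_surjective N) hsolv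
  have hcent := H03.centralizer_pCore_le_of_isPSolvable hs hO
  have hxF : QuotientGroup.mk' N x ∈ pCore p (G ⧸ N) := by
    apply hcent
    rw [Subgroup.mem_centralizer_iff]
    intro f hf
    obtain ⟨y, rfl⟩ := QuotientGroup.mk'_surjective N f
    have hyH : y ∈ H := hf
    obtain ⟨⟨⟨d, hd⟩, ⟨n, hn⟩⟩, hdn, -⟩ :=
      Subgroup.IsComplement.existsUnique hcompl ⟨y, hyH⟩
    have hdn' : ((d : H) : G) * ((n : H) : G) = y := by
      have := congrArg Subtype.val hdn
      simpa using this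
    have hnN : ((n : H) : G) ∈ N := Subgroup.mem_subgroupOf.1 hn
    have h0 : QuotientGroup.mk' N ((n : H) : G) = 1 := (QuotientGroup.eq_one_iff _).2 hnN
    have h1 : QuotientGroup.mk' N y = QuotientGroup.mk' N (d : G) := by
      rw [← hdn', map_mul, h0, mul_one]
    have hdD : (d : G) ∈ D := hQD ⟨d, hd, rfl⟩
    have h2 : (d : G) * x = x * (d : G) := (Subgroup.mem_centralizer_iff.1 hxD d hdD)
    rw [h1, ← map_mul, ← map_mul, h2]
  have hFb : IsPGroup p (pCore p (G ⧸ N)) := Cfsg.Agent.H01.pCore_isPGroup p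
  obtain ⟨m, hm⟩ := hFb ⟨_, hxF⟩
  have hm1 : (QuotientGroup.mk' N x) ^ p ^ m = 1 := by
    have := congrArg Subtype.val hm
    simpa using this
  have hord : orderOf (QuotientGroup.mk' N x) ∣ p ^ m := _root_.orderOf_dvd_of_pow_eq_one hm1
  have hord2 : orderOf (QuotientGroup.mk' N x) ∣ orderOf x := orderOf_map_dvd _ _
  have hxg : orderOf x = orderOf g := by
    obtain ⟨c, rfl⟩ := isConj_iff.1 hgx
    rw [← MulAut.conj_apply]
    exact MulEquiv.orderOf_eq _ _
  have hxreg : ¬ p ∣ orderOf x := by rw [hxg]; exact hg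
  have h1 : orderOf (QuotientGroup.mk' N x) = 1 := by
    obtain ⟨j, -, hj⟩ := (Nat.dvd_prime_pow hp.out).1 hord
    rcases Nat.eq_zero_or_pos j with h0 | h0
    · rw [hj, h0]; simp
    · exact absurd ((dvd_pow_self p h0.ne').trans (hj ▸ hord2)) hxreg
  have hxN : x ∈ N := by
    rw [orderOf_eq_one_iff] at h1
    exact (QuotientGroup.eq_one_iff _).1 h1
  apply hgN
  obtain ⟨c, rfl⟩ := isConj_iff.1 hgx
  have := hN.conj_mem _ hxN c⁻¹
  simpa [mul_assoc] using this

/-- Characters over an invariant `θ` on `O_{p'}(G)` all lie in one block. -/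
theorem sameBlock_of_over (hM : IsPModular p M) (hsolv : IsPSolvable p G) (N : Subgroup G)
    [hN : N.Normal] (hNdef : N = pPrimeCore p G) (θ : IrrCharacter N)
    (hinv : ∀ (g : G) (n : N), θ.1 ⟨g * n * g⁻¹, hN.conj_mem n n.2 g⟩ = θ.1 n)
    {χ₁ χ₂ : IrrCharacter G} (h₁ : ∑ n : N, conj (θ.1 n) * χ₁.1 n ≠ 0)
    (h₂ : ∑ n : N, conj (θ.1 n) * χ₂.1 n ≠ 0) : SameBlock M χ₁.1 χ₂.1 := by
  apply sameBlock_of_regular hM
  intro x hx
  by_cases hxN : x ∈ N
  · have e1 := cc_eq_indCC χ₁ θ h₁ ⟨x, hxN⟩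
    have e2 := cc_eq_indCC χ₂ θ h₂ ⟨x, hxN⟩
    change cc x χ₁ = _ at e1
    change cc x χ₂ = _ at e2
    rw [e1, e2, sub_self]
    exact mli_zero
  · exact mli_sub (cc_mem_of_regular hM hsolv N hNdef θ hinv χ₁ h₁ hx hxN)
      (cc_mem_of_regular hM hsolv N hNdef θ hinv χ₂ h₂ hx hxN)

/-- There is a character of degree prime to `p` over an invariant character of a normal
`p'`-subgroup. -/
theorem exists_pprime_over (N : Subgroup G) [hN : N.Normal] (hNc : (Nat.card N).Coprime p)
    (θ : IrrCharacter N)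
    (hinv : ∀ (g : G) (n : N), θ.1 ⟨g * n * g⁻¹, hN.conj_mem n n.2 g⟩ = θ.1 n) :
    ∃ χ : IrrCharacter G, ∑ n : N, conj (θ.1 n) * χ.1 n ≠ 0 ∧ ¬ p ∣ charDegree χ.1 := by
  classical
  obtain ⟨S⟩ : Nonempty (Sylow p G) := inferInstance
  set L : Subgroup G := (S : Subgroup G) ⊔ N with hLdef
  have hNL : N ≤ L := le_sup_right
  have hSL : (S : Subgroup G) ≤ L := le_sup_left
  obtain ⟨k, hk⟩ : ∃ k : ℕ, (N.subgroupOf L).index = p ^ k := by
    have h1 : (N.subgroupOf L).index = N.relIndex (S : Subgroup G) := by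
      change N.relIndex L = _
      rw [hLdef]
      exact Subgroup.relIndex_sup_right _ _
    obtain ⟨n, hn⟩ := (IsPGroup.iff_card).1 S.isPGroup'
    have h2 : N.relIndex (S : Subgroup G) ∣ p ^ n := by
      rw [← hn]
      exact Subgroup.index_dvd_card _
    obtain ⟨j, -, hj⟩ := (Nat.dvd_prime_pow hp.out).1 h2
    exact ⟨j, by rw [h1, hj]⟩
  haveI hKn : (N.subgroupOf L).Normal := Subgroup.normal_subgroupOf
  have hKcard : Nat.card (N.subgroupOf L) = Nat.card N :=
    Nat.card_congr (phiN hNL).toEquiv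
  have hKc : (Nat.card (N.subgroupOf L)).Coprime p := by rw [hKcard]; exact hNc
  have hinvK : ∀ (x : L) (n : N.subgroupOf L), (thetaT hNL θ).1
      ⟨x * n * x⁻¹, hKn.conj_mem n n.2 x⟩ = (thetaT hNL θ).1 n := by
    intro x n
    rw [thetaT_apply, thetaT_apply]
    have := hinv x ⟨(n : L), Subgroup.mem_subgroupOf.mp n.2⟩
    exact this
  have hcop : Nat.Coprime (N.subgroupOf L).index (Nat.card (N.subgroupOf L)) := by
    rw [hk]
    exact Nat.Coprime.pow_left _ hKc.symm
  obtain ⟨η, hη⟩ := exists_ext_coprime (N.subgroupOf L) hcop (thetaT hNL θ) hinvK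
  have hη0 : ∑ n : N.subgroupOf L, conj ((thetaT hNL θ).1 n) * η.1 n ≠ 0 := by
    have h1 := classInner_irr (thetaT hNL θ) (thetaT hNL θ)
    rw [if_pos rfl] at h1
    intro h2
    have h3 : ∑ n : N.subgroupOf L, conj ((thetaT hNL θ).1 n) * η.1 n =
        ∑ n : N.subgroupOf L, (thetaT hNL θ).1 n * conj ((thetaT hNL θ).1 n) :=
      Finset.sum_congr rfl fun n _ => by rw [hη n, mul_comm]
    unfold classInner at h1
    rw [h3] at h2
    rw [h2] at h1
    simp at h1
  have hηdeg : ¬ p ∣ charDegree η.1 := by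
    have h1 : η.1 1 = (thetaT hNL θ).1 1 := hη 1
    have h2 : charDegree η.1 = charDegree (thetaT hNL θ).1 := by
      unfold charDegree
      rw [h1]
    rw [h2]
    intro h3
    have h4 := h3.trans (charDegree_dvd_card (thetaT hNL θ))
    exact (Nat.Prime.coprime_iff_not_dvd hp.out).1 hKc.symm h4
  -- induce
  have hφ : IsCharacter G (indFun L η.1) := isCharacter_indFun L (isCharacter_of_irr η.2)
  have hφ1 : indFun L η.1 1 = ((L.index * charDegree η.1 : ℕ) : ℂ) := by
    rw [indFun_one, one_eq_charDegree (isCharacter_of_irr η.2)]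
    push_cast
    rfl
  have hLi : ¬ p ∣ L.index := fun h =>
    S.not_dvd_index (h.trans (Subgroup.index_dvd_of_le hSL))
  have hd : ¬ p ∣ L.index * charDegree η.1 := fun h =>
    (hp.out.dvd_mul.1 h).elim hLi hηdeg
  obtain ⟨χ, hχ1, hχ2⟩ := exists_constituent_coprime hφ hφ1 hd
  refine ⟨χ, ?_, hχ2⟩
  rw [frobenius_reciprocity L η.1 χ.1 (isClassFunction_of_isCharacter (isCharacter_of_irr χ.2))]
    at hχ1
  have hχ3 : classInner (fun l : L => χ.1 l) η.1 ≠ 0 := by
    rw [← classInner_comm_conj]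
    intro h0
    apply hχ1
    simpa using h0
  have h5 := const_of_expansion (isCharacter_restrict L (isCharacter_of_irr χ.2)) (N.subgroupOf L)
    hχ3 (thetaT hNL θ) hη0
  intro h6
  apply h5
  rw [← h6]
  refine Fintype.sum_equiv (phiN hNL).toEquiv _ _ fun n => ?_
  rw [thetaT_apply]
  rfl

/-- **Fong**: the characters over an invariant character of `O_{p'}(G)` form a block with Sylow
defect groups. -/
theorem fong_over_main (hM : IsPModular p M) (hsolv : IsPSolvable p G) (N : Subgroup G)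
    [hN : N.Normal] (hNdef : N = pPrimeCore p G) (θ : IrrCharacter N)
    (hinv : ∀ (g : G) (n : N), θ.1 ⟨g * n * g⁻¹, hN.conj_mem n n.2 g⟩ = θ.1 n) :
    ∃ B : Set (IrrCharacter G), IsPBlock M B ∧
      (∀ χ : IrrCharacter G, χ ∈ B ↔ ∑ n : N, conj (θ.1 n) * χ.1 n ≠ 0) ∧
      (∀ P : Sylow p G, IsDefectGroup p M B (P : Subgroup G)) ∧
      ∀ D : Subgroup G, IsDefectGroup p M B D → ∃ P : Sylow p G, D = (P : Subgroup G) := by
  classical
  have hNc : (Nat.card N).Coprime p := by
    rw [hNdef]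
    exact H06.coprime_card_pPrimeCore p
  have hNd : ¬ p ∣ Nat.card N := (Nat.Prime.coprime_iff_not_dvd hp.out).1 hNc.symm
  obtain ⟨χ₀, hχ₀, hχ₀d⟩ := exists_pprime_over N hNc θ hinv
  refine ⟨blockOf M χ₀.1, isBlock_blockOf χ₀, ?_, ?_⟩
  · intro χ
    constructor
    · intro h
      exact const_of_sameBlock hM hNd h hχ₀
    · intro h
      exact sameBlock_of_over hM hsolv N hNdef θ hinv hχ₀ h
  have hB : IsPBlock M (blockOf M χ₀.1) := isBlock_blockOf χ₀
  have hmin : minExp p (blockOf M χ₀.1) = 0 := by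
    have hself : χ₀ ∈ blockOf M χ₀.1 := self_mem_blockOf χ₀
    have h1 := minExp_le (p := p) hself
    have h2 : (charDegree χ₀.1).factorization p = 0 := Nat.factorization_eq_zero_of_not_dvd hχ₀d
    omega
  have hcard : ∀ D : Subgroup G, IsDefectGroup p M (blockOf M χ₀.1) D →
      Nat.card D = p ^ (Nat.card G).factorization p := by
    intro D hD
    rw [card_defect hM hB hD, blockDefect_eq, hmin, Nat.sub_zero]
  have hsyl : ∀ D : Subgroup G, IsDefectGroup p M (blockOf M χ₀.1) D →
      ∃ P : Sylow p G, D = (P : Subgroup G) := fun D hD =>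
    ⟨Sylow.ofCard D (hcard D hD), rfl⟩
  refine ⟨?_, hsyl⟩
  intro P
  obtain ⟨D₀, hD₀⟩ := isDefectGroup_exists (p := p) hB
  obtain ⟨P₀, hP₀⟩ := hsyl D₀ hD₀
  obtain ⟨c, hc⟩ := MulAction.exists_smul_eq G P₀ P
  obtain ⟨y, hy, T, hT⟩ := id hD₀
  have hcy : IsConj y (c * y * c⁻¹) := isConj_iff.2 ⟨c, rfl⟩
  have hy' := isDefectClass_of_conj hy hcy
  have hle : (P : Subgroup G) ≤ Subgroup.centralizer ({c * y * c⁻¹} : Set G) := by
    intro a ha
    rw [← hc, Sylow.coe_subgroup_smul, Subgroup.mem_pointwise_smul_iff_inv_smul_mem] at ha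
    have ha' : c⁻¹ * a * c ∈ D₀ := by
      have : (MulAut.conj c)⁻¹ • a = c⁻¹ * a * c := by
        simp [MulAut.smul_def]
      rw [hP₀]
      rwa [this] at ha
    rw [hT] at ha'
    obtain ⟨u, -, hu⟩ := ha'
    have hu2 : (u : G) ∈ Subgroup.centralizer ({y} : Set G) := u.2
    rw [mem_centralizer_singleton_iff] at hu2 ⊢
    have hu3 : (u : G) = c⁻¹ * a * c := hu
    rw [hu3] at hu2
    have h9 : c * (y * (c⁻¹ * a * c)) * c⁻¹ = c * (c⁻¹ * a * c * y) * c⁻¹ := by rw [hu2]
    simpa [mul_assoc] using h9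
  obtain ⟨E, hE, hPE⟩ := exists_defect_ge hy' P.isPGroup' hle
  have h1 := hcard E hE
  have h2 : Nat.card (P : Subgroup G) = p ^ (Nat.card G).factorization p := by
    exact Sylow.card_eq_multiplicity P
  have h3 : (P : Subgroup G) = E :=
    Subgroup.eq_of_le_of_card_ge hPE (by rw [h1, h2])
  rw [h3]
  exact hE

end Cfsg.Agent.H21
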