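import Cfsg.Agent.Lib.H21.SpSylowC

/-!
# A Sylow 2-subgroup of `GL₂(q)` with `q ≡ 3 (mod 4)`
-/

set_option autoImplicit false
set_option linter.unusedSectionVars false
set_option linter.style.haveILetI false
set_option linter.unusedSimpArgs false

namespace Cfsg.Agent.H21.SpS

open Equiv Matrix Polynomial

section Abstract

variable {A : Type*} [Group A] {x s : A} {q b : ℕ}

/-- The subgroup generated by `x` and an involution normalizing it. -/
def twoGen (hs : s ^ 2 = 1) (hsx : s * x * s⁻¹ = x ^ q) : Subgroup A where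
  carrier := {g | g ∈ Subgroup.zpowers x ∨ ∃ c ∈ Subgroup.zpowers x, g = c * s}
  mul_mem' := by
    have hconj : ∀ c ∈ Subgroup.zpowers x, s * c * s⁻¹ ∈ Subgroup.zpowers x := by
      rintro _ ⟨k, rfl⟩
      have : s * x ^ k * s⁻¹ = (s * x * s⁻¹) ^ k := by
        simp [conj_zpow]
      show s * x ^ k * s⁻¹ ∈ _
      rw [this, hsx]
      exact zpow_mem (pow_mem (Subgroup.mem_zpowers x) q) k
    have hs' : s * s = 1 := by rwa [pow_two] at hs
    rintro a b (ha | ⟨c, hc, rfl⟩) (hb | ⟨d, hd, rfl⟩)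
    · exact Or.inl (mul_mem ha hb)
    · exact Or.inr ⟨a * d, mul_mem ha hd, by group⟩
    · refine Or.inr ⟨c * (s * b * s⁻¹), mul_mem hc (hconj b hb), ?_⟩
      group
    · refine Or.inl ?_
      have h1 : c * s * (d * s) = c * (s * d * s⁻¹) * (s * s) := by group
      rw [h1, hs', mul_one]
      exact mul_mem hc (hconj d hd)
  one_mem' := Or.inl (one_mem _)
  inv_mem' := by
    have hconj : ∀ c ∈ Subgroup.zpowers x, s * c * s⁻¹ ∈ Subgroup.zpowers x := by
      rintro _ ⟨k, rfl⟩
      have : s * x ^ k * s⁻¹ = (s * x * s⁻¹) ^ k := by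
        simp [conj_zpow]
      show s * x ^ k * s⁻¹ ∈ _
      rw [this, hsx]
      exact zpow_mem (pow_mem (Subgroup.mem_zpowers x) q) k
    have hs' : s⁻¹ = s := by
      rw [inv_eq_iff_mul_eq_one]
      rwa [pow_two] at hs
    rintro a (ha | ⟨c, hc, rfl⟩)
    · exact Or.inl (inv_mem ha)
    · refine Or.inr ⟨s * c⁻¹ * s⁻¹, hconj _ (inv_mem hc), ?_⟩
      rw [inv_mul_cancel_right, _root_.mul_inv_rev, hs']

/-- The order of the subgroup. -/
theorem card_twoGen [Finite A] (hs : s ^ 2 = 1) (hsx : s * x * s⁻¹ = x ^ q)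
    (hnot : s ∉ Subgroup.zpowers x) : Nat.card (twoGen hs hsx) = 2 * orderOf x := by
  classical
  let F : Subgroup.zpowers x ⊕ Subgroup.zpowers x → twoGen hs hsx := fun u =>
    match u with
    | Sum.inl c => ⟨c.1, Or.inl c.2⟩
    | Sum.inr c => ⟨c.1 * s, Or.inr ⟨c.1, c.2, rfl⟩⟩
  have hF : Function.Bijective F := by
    constructor
    · rintro (c | c) (d | d) h
      · have h1 : c.1 = d.1 := congrArg (fun u : twoGen hs hsx => (u : A)) h
        exact congrArg Sum.inl (Subtype.ext h1)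
      · exfalso
        have h1 : c.1 = d.1 * s := congrArg Subtype.val h
        apply hnot
        have h2 : s = d.1⁻¹ * c.1 := by rw [h1]; group
        rw [h2]
        exact mul_mem (inv_mem d.2) c.2
      · exfalso
        have h1 : c.1 * s = d.1 := congrArg Subtype.val h
        apply hnot
        have h2 : s = c.1⁻¹ * d.1 := by rw [← h1]; group
        rw [h2]
        exact mul_mem (inv_mem c.2) d.2
      · have h1 : c.1 * s = d.1 * s := congrArg Subtype.val h
        exact congrArg Sum.inr (Subtype.ext (mul_right_cancel h1))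
    · rintro ⟨g, (hg | ⟨c, hc, rfl⟩)⟩
      · exact ⟨Sum.inl ⟨g, hg⟩, rfl⟩
      · exact ⟨Sum.inr ⟨c, hc⟩, rfl⟩
  rw [← Nat.card_congr (Equiv.ofBijective F hF), Nat.card_sum, Nat.card_zpowers]
  ring

/-- The exponent property for the subgroup. -/
theorem good_twoGen (hs : s ^ 2 = 1) (hsx : s * x * s⁻¹ = x ^ q) (hb : orderOf x = 2 ^ b)
    (hq : q % 4 = 3) : SymS.Good 2 (twoGen hs hsx) := by
  set Y : Subgroup A := ⁅twoGen hs hsx, twoGen hs hsx⁆ with hY
  have hxW : x ∈ twoGen hs hsx := Or.inl (Subgroup.mem_zpowers x)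
  have hsW : s ∈ twoGen hs hsx := Or.inr ⟨1, one_mem _, (one_mul s).symm⟩
  have hs' : s⁻¹ = s := by
    rw [inv_eq_iff_mul_eq_one]
    rwa [pow_two] at hs
  -- the commutator
  have h1 : x ^ (q - 1) ∈ Y := by
    have h2 := Subgroup.commutator_mem_commutator hsW hxW
    rw [commutatorElement_def, hsx] at h2
    have h3 : x ^ q * x⁻¹ = x ^ (q - 1) := by
      have h4 : q = (q - 1) + 1 := by omega
      conv_lhs => rw [h4, pow_succ, mul_inv_cancel_right]
    rwa [h3] at h2
  -- the square of `x`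
  obtain ⟨r, hr⟩ : ∃ r, q - 1 = 2 * (2 * r + 1) := ⟨q / 4, by omega⟩
  have h2 : x ^ 2 ∈ Y := by
    have hcop : (2 * r + 1).Coprime (2 ^ b) :=
      Nat.Coprime.pow_right _ (Nat.coprime_two_right.2 (odd_two_mul_add_one r))
    have hdvd : orderOf (x ^ 2) ∣ 2 ^ b := by
      rw [← hb]
      exact orderOf_pow_dvd 2
    obtain ⟨m, hm⟩ := exists_pow_eq_self_of_coprime (hcop.coprime_dvd_right hdvd)
    have h3 : (x ^ 2) ^ (2 * r + 1) = x ^ (q - 1) := by
      rw [← pow_mul, ← hr]
    rw [← hm, h3]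
    exact pow_mem h1 m
  have hC : ∀ c ∈ Subgroup.zpowers x, c ^ 2 ∈ Y := by
    rintro _ ⟨k, rfl⟩
    simp only
    rw [← zpow_natCast, ← _root_.zpow_mul, mul_comm, _root_.zpow_mul, zpow_natCast]
    exact zpow_mem h2 k
  rintro g (hg | ⟨c, hc, rfl⟩)
  · exact hC g hg
  · obtain ⟨k, rfl⟩ := hc
    simp only
    have h3 : (x ^ k * s) ^ 2 = x ^ k * (s * x ^ k * s⁻¹) := by
      rw [pow_two]
      have h4 : x ^ k * s * (x ^ k * s) = x ^ k * (s * x ^ k * s⁻¹) * (s * s) := by group
      rw [h4, ← pow_two, hs, mul_one]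
    rw [h3]
    have h5 : s * x ^ k * s⁻¹ = (x ^ q) ^ k := by
      rw [← hsx]
      simp [conj_zpow]
    rw [h5]
    obtain ⟨r', hr'⟩ : ∃ r', q + 1 = 2 * r' := ⟨(q + 1) / 2, by omega⟩
    have h6 : x ^ k * (x ^ q) ^ k = (x ^ 2) ^ (k * r') := by
      rw [← zpow_natCast x q, ← _root_.zpow_mul, ← _root_.zpow_add]
      rw [← zpow_natCast x 2, ← _root_.zpow_mul]
      congr 1
      have : ((q : ℤ) + 1) = 2 * r' := by exact_mod_cast hr'
      linear_combination k * this
    rw [h6]
    exact zpow_mem h2 _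

end Abstract

section Model

variable {F : Type*} [Field F] [Fintype F]

theorem irreducible_X2 (hq : Fintype.card F % 4 = 3) : Irreducible (X ^ 2 + 1 : F[X]) := by
  have hmonic : (X ^ 2 + 1 : F[X]).Monic := monic_X_pow_add (by simp)
  have hdeg : (X ^ 2 + 1 : F[X]).natDegree = 2 := by compute_degree!
  rw [hmonic.irreducible_iff_roots_eq_zero_of_degree_le_three (by omega) (by omega)]
  apply Multiset.eq_zero_of_forall_notMem
  intro r hr
  have h1 := (mem_roots'.1 hr).2
  have h2 : r ^ 2 + 1 = 0 := by simpa [IsRoot.def] using h1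
  have h3 : IsSquare (-1 : F) := ⟨r, by linear_combination -h2⟩
  rw [FiniteField.isSquare_neg_one_iff] at h3
  exact h3 hq

/-- The explicit elements of `GL₂(F)`. -/
theorem exists_model (hq : Fintype.card F % 4 = 3) :
    ∃ x s : GL (Fin 2) F, orderOf x = 2 ^ padicValNat 2 (Fintype.card F ^ 2 - 1) ∧ s ^ 2 = 1 ∧
      s * x * s⁻¹ = x ^ Fintype.card F := by
  classical
  haveI : Fact (Irreducible (X ^ 2 + 1 : F[X])) := ⟨irreducible_X2 hq⟩
  have hne : (X ^ 2 + 1 : F[X]) ≠ 0 := (irreducible_X2 hq).ne_zero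
  let L := AdjoinRoot (X ^ 2 + 1 : F[X])
  let pb : PowerBasis F L := AdjoinRoot.powerBasis hne
  haveI : Module.Finite F L := pb.finite
  have hfin : Module.finrank F L = 2 := by
    rw [pb.finrank]
    show (AdjoinRoot.powerBasis hne).dim = 2
    rw [AdjoinRoot.powerBasis_dim]
    compute_degree!
  haveI : Finite L := Module.finite_of_finite F
  haveI : Fintype L := Fintype.ofFinite L
  have hcard : Fintype.card L = Fintype.card F ^ 2 := by
    rw [Module.card_eq_pow_finrank (K := F) (V := L), hfin]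
  let b : Module.Basis (Fin 2) F L := Module.finBasisOfFinrankEq F L hfin
  let R : L →ₐ[F] Matrix (Fin 2) (Fin 2) F := Algebra.leftMulMatrix b
  have hRinj : Function.Injective R := Algebra.leftMulMatrix_injective b
  let φ : L →ₐ[F] L := FiniteField.frobeniusAlgHom F L
  have hφ : ∀ w : L, φ w = w ^ Fintype.card F := fun w => rfl
  let S : Matrix (Fin 2) (Fin 2) F := LinearMap.toMatrix b b φ.toLinearMap
  have h1 : ∀ z : L, S * R z = R (z ^ Fintype.card F) * S := by
    intro z
    simp only [S, R, Algebra.leftMulMatrix_apply]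
    rw [← LinearMap.toMatrix_comp, ← LinearMap.toMatrix_comp]
    congr 1
    ext w
    simp [hφ, mul_pow]
  have h2 : S * S = 1 := by
    simp only [S]
    rw [← LinearMap.toMatrix_comp, ← LinearMap.toMatrix_id b]
    congr 1
    ext w
    show φ (φ w) = w
    rw [hφ, hφ, ← pow_mul, ← pow_two, ← hcard]
    exact FiniteField.pow_card w
  obtain ⟨t, ht⟩ := Cfsg.Agent.Lead.exists_unit_order (K := L)
    (2 ^ padicValNat 2 (Fintype.card F ^ 2 - 1)) (by rw [hcard]; exact pow_padicValNat_dvd)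
  let f : L →* Matrix (Fin 2) (Fin 2) F := R
  have hf : Function.Injective f := hRinj
  let x : GL (Fin 2) F := Units.map f t
  let s : GL (Fin 2) F := ⟨S, S, h2, h2⟩
  have hsinv : s⁻¹ = s := by
    rw [inv_eq_iff_mul_eq_one]
    exact Units.ext h2
  refine ⟨x, s, ?_, Units.ext ?_, ?_⟩
  · rw [← ht]
    exact orderOf_injective (Units.map f) (Units.map_injective hf) t
  · rw [pow_two]
    exact h2
  · rw [hsinv]
    apply Units.ext
    show S * R (t : L) * S = (R (t : L)) ^ Fintype.card F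
    rw [h1, ← map_pow, mul_assoc, h2, mul_one]

/-- The Sylow 2-subgroup of `GL₂(F)`. -/
theorem exists_good_GL2 (hq : Fintype.card F % 4 = 3) :
    ∃ W : Subgroup (GL (Fin 2) F), Nat.card W = 2 ^ (Nat.card (GL (Fin 2) F)).factorization 2 ∧
      SymS.Good 2 W := by
  classical
  obtain ⟨x, s, hx, hs, hsx⟩ := exists_model (F := F) hq
  set q := Fintype.card F with hqdef
  have hq1 : 1 < q := Fintype.one_lt_card
  have hodd : Odd q := Nat.odd_iff.2 (by omega)
  -- the valuation
  have hv1 : padicValNat 2 (q - 1) = 1 := by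
    obtain ⟨r, hr⟩ : ∃ r, q - 1 = 2 * (2 * r + 1) := ⟨q / 4, by omega⟩
    rw [hr, padicValNat.mul (by omega) (by omega), padicValNat.self (by norm_num),
      padicValNat.eq_zero_of_not_dvd (by omega)]
  have hq2 : q ^ 2 - 1 = (q - 1) * (q + 1) := by
    have : q ^ 2 - 1 = q ^ 2 - 1 ^ 2 := by simp
    rw [this, Nat.sq_sub_sq]
    ring
  have hv2 : 2 ≤ padicValNat 2 (q ^ 2 - 1) := by
    have h4 : 4 ∣ q ^ 2 - 1 := by
      rw [hq2]
      exact Dvd.dvd.mul_left (by omega) _
    have h5 : (2 : ℕ) ^ 2 ∣ q ^ 2 - 1 := by simpa using h4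
    have hne : q ^ 2 - 1 ≠ 0 := by
      have : 1 < q ^ 2 := Nat.one_lt_pow (by norm_num) hq1
      omega
    exact (padicValNat_dvd_iff_le hne).1 h5
  have hnot : s ∉ Subgroup.zpowers x := by
    rintro ⟨k, rfl⟩
    have h1 : x ^ k * x * (x ^ k)⁻¹ = x := by
      group
    rw [h1] at hsx
    have h2 : x ^ (q - 1) = 1 := by
      have h3 : x ^ q = x ^ (q - 1) * x := by
        rw [← pow_succ]
        congr 1
        omega
      rw [h3] at hsx
      exact (mul_eq_right.1 hsx.symm)
    have h3 := orderOf_dvd_of_pow_eq_one h2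
    rw [hx] at h3
    have h4 : (2 : ℕ) ^ 2 ∣ 2 ^ padicValNat 2 (q ^ 2 - 1) := pow_dvd_pow 2 hv2
    have h5 : 4 ∣ q - 1 := (by simpa using h4 : 4 ∣ 2 ^ padicValNat 2 (q ^ 2 - 1)).trans h3
    omega
  refine ⟨twoGen hs hsx, ?_, good_twoGen hs hsx hx (by omega)⟩
  rw [card_twoGen hs hsx hnot, hx, Matrix.card_GL_field, Fin.prod_univ_two]
  simp only [Fin.val_zero, Fin.val_one, pow_zero, pow_one, ← hqdef]
  have h2 : q ^ 2 - q = q * (q - 1) := by
    rw [Nat.mul_sub, mul_one, pow_two]
  rw [h2, Nat.factorization_def _ Nat.prime_two,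
    padicValNat.mul (by have : 1 < q ^ 2 := Nat.one_lt_pow (by norm_num) hq1; omega)
      (by have : q - 1 ≠ 0 := by omega
          exact mul_ne_zero (by omega) this),
    padicValNat.mul (by omega) (by omega), hv1]
  have h0 : padicValNat 2 q = 0 := padicValNat.eq_zero_of_not_dvd (by omega)
  rw [h0, zero_add, pow_succ]
  ring

end Model

end Cfsg.Agent.H21.SpS
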