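import Cfsg.Agent.Lib.H21.KleinFour
import Cfsg.Agent.Lib.H21.FSEven
import Cfsg.Agent.Lib.H21.RealBlock

/-!
# The order formula for a group with a four-group as Sylow 2-subgroup
-/

set_option autoImplicit false
set_option linter.unusedSectionVars false
set_option linter.style.haveILetI false
set_option linter.unusedSimpArgs false

namespace Cfsg.Agent.H21

open scoped ComplexConjugate Pointwise
open Cfsg Module Cfsg.Agent.H22

universe u

section Count

variable {G : Type u} [Group G] [Finite G]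

open Classical in
/-- Elements of `O` inverted by `a`. -/
noncomputable def invSet (O : Subgroup G) (a : G) : Finset G :=
  Finset.univ.filter (fun y : G => y ∈ O ∧ a * y * a = y⁻¹)

open Classical in
/-- Elements of `O` commuting with `a`. -/
noncomputable def cenSet (O : Subgroup G) (a : G) : Finset G :=
  Finset.univ.filter (fun y : G => y ∈ O ∧ a * y = y * a)

theorem mem_invSet {O : Subgroup G} {a y : G} : y ∈ invSet O a ↔ y ∈ O ∧ a * y * a = y⁻¹ := by
  simp [invSet]

theorem mem_cenSet {O : Subgroup G} {a y : G} : y ∈ cenSet O a ↔ y ∈ O ∧ a * y = y * a := by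
  simp [cenSet]

theorem card_filter_subgroup (O : Subgroup G) [DecidablePred (· ∈ O)] :
    (Finset.univ.filter (· ∈ O)).card = Nat.card O := by
  rw [Nat.card_eq_fintype_card, Fintype.card_subtype]

/-- Counting elements inverted by an involutive automorphism of a group of odd order. -/
theorem card_inverted_mul (O : Subgroup G) (hodd : ¬ 2 ∣ Nat.card O) {a : G} (ha : a * a = 1)
    (hn : ∀ y ∈ O, a * y * a ∈ O) :
    (invSet O a).card * (cenSet O a).card = Nat.card O := by
  classical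
  have hainv : a⁻¹ = a := inv_eq_of_mul_eq_one_left ha
  set Oo : Finset G := Finset.univ.filter (· ∈ O) with hOo
  have hOcard : Oo.card = Nat.card O := card_filter_subgroup O
  let f : G → G := fun o => o⁻¹ * (a * o * a)
  have hmaps : ∀ o ∈ Oo, f o ∈ invSet O a := by
    intro o ho
    have ho' : o ∈ O := by simpa [hOo] using ho
    rw [mem_invSet]
    refine ⟨O.mul_mem (O.inv_mem ho') (hn o ho'), ?_⟩
    simp only [f]
    have h1 : a * (o⁻¹ * (a * o * a)) * a = a * o⁻¹ * a * o * (a * a) := by group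
    have h2 : (o⁻¹ * (a * o * a))⁻¹ = a * o⁻¹ * a * o := by
      rw [mul_inv_rev, mul_inv_rev, mul_inv_rev, inv_inv, hainv]
      group
    rw [h1, ha, mul_one, h2]
  rw [← hOcard, Finset.card_eq_sum_card_fiberwise hmaps, Finset.card_eq_sum_ones (invSet O a),
    Finset.sum_mul]
  refine Finset.sum_congr rfl fun y hy => ?_
  rw [one_mul]
  obtain ⟨hyO, hya⟩ := mem_invSet.mp hy
  -- a square root
  obtain ⟨n, hn2⟩ : ∃ n, Nat.card O = 2 * n + 1 := by
    have h1 : Odd (Nat.card O) := Nat.odd_iff.mpr (by omega)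
    exact h1
  have hpow : y ^ Nat.card O = 1 := by
    have h1 := pow_card_eq_one' (x := (⟨y, hyO⟩ : O))
    exact congrArg Subtype.val h1
  set u := y ^ (n + 1) with hu
  have huO : u ∈ O := O.pow_mem hyO _
  have huu : u * u = y := by
    rw [hu, ← pow_add]
    have h1 : n + 1 + (n + 1) = Nat.card O + 1 := by omega
    rw [h1, pow_succ, hpow, one_mul]
  have hau : a * u * a = u⁻¹ := by
    have h1 : (a * y * a⁻¹) ^ (n + 1) = a * y ^ (n + 1) * a⁻¹ := conj_pow
    rw [hainv, hya] at h1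
    rw [hu, ← h1, inv_pow]
  have hau' : a * u⁻¹ * a = u := by
    have h1 : a * u⁻¹ * a = (a * u * a)⁻¹ := by
      rw [mul_inv_rev, mul_inv_rev, hainv, mul_assoc]
    rw [h1, hau, inv_inv]
  set o₀ := u⁻¹ with ho₀
  have ho₀O : o₀ ∈ O := O.inv_mem huO
  have hf₀ : f o₀ = y := by
    simp only [f, ho₀]
    rw [hau', inv_inv, huu]
  have hfib : Oo.filter (fun o => f o = y) = (cenSet O a).image (· * o₀) := by
    ext o
    simp only [Finset.mem_filter, Finset.mem_image, hOo, Finset.mem_univ, true_and, mem_cenSet]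
    constructor
    · rintro ⟨ho, hfo⟩
      refine ⟨o * o₀⁻¹, ⟨O.mul_mem ho (O.inv_mem ho₀O), ?_⟩, by group⟩
      have h1 : o⁻¹ * (a * o * a) = o₀⁻¹ * (a * o₀ * a) := by
        have := hfo.trans hf₀.symm
        exact this
      have h2 : a * o * a = o * (o₀⁻¹ * (a * o₀ * a)) := by
        rw [← h1]
        group
      have h3 : a * (o * o₀⁻¹) = (a * o * a) * (a * o₀⁻¹) := by
        have : (a * o * a) * (a * o₀⁻¹) = a * o * (a * a) * o₀⁻¹ := by group
        rw [this, ha]
        group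
      rw [h3, h2]
      have h4 : o * (o₀⁻¹ * (a * o₀ * a)) * (a * o₀⁻¹) = o * o₀⁻¹ * a * o₀ * (a * a) * o₀⁻¹ := by
        group
      rw [h4, ha]
      group
    · rintro ⟨c, ⟨hcO, hca⟩, rfl⟩
      refine ⟨O.mul_mem hcO ho₀O, ?_⟩
      rw [← hf₀]
      simp only [f]
      have h1 : a * (c * o₀) * a = c * (a * o₀ * a) := by
        rw [← mul_assoc, hca]
        group
      rw [h1]
      group
  rw [hfib, Finset.card_image_of_injective _ (mul_left_injective o₀)]

/-- A group element commuting with `g` commutes with its parts. -/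
theorem parts_commute {c z y : G} (hc : Commute c (z * y)) (hzy : Commute z y)
    (hz : ∃ k : ℕ, orderOf z = 2 ^ k) (hy : ¬ 2 ∣ orderOf y) : Commute c z ∧ Commute c y := by
  have h1 : IsPPart 2 (z * y) z := ⟨y, rfl, hzy, hz, hy⟩
  have h2 := isPPart_conj h1 c
  have h3 : c * (z * y) * c⁻¹ = z * y := by
    rw [hc.eq, mul_inv_cancel_right]
  rw [h3] at h2
  have h4 : c * z * c⁻¹ = z := pPart_unique h2 h1
  have h5 : Commute c z := by
    show c * z = z * c
    rw [mul_inv_eq_iff_eq_mul] at h4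
    exact h4
  refine ⟨h5, ?_⟩
  have h6 : Commute c (z⁻¹ * (z * y)) := (h5.inv_right).mul_right hc
  rwa [inv_mul_cancel_left] at h6

theorem isPPart_of_parts {z y : G} (hzy : Commute z y) (hz : ∃ k : ℕ, orderOf z = 2 ^ k)
    (hy : ¬ 2 ∣ orderOf y) : IsPPart 2 (z * y) z := ⟨y, rfl, hzy, hz, hy⟩

/-- Uniqueness of the decomposition. -/
theorem parts_unique {z y z' y' : G} (hzy : Commute z y) (hz : ∃ k : ℕ, orderOf z = 2 ^ k)
    (hy : ¬ 2 ∣ orderOf y) (hzy' : Commute z' y') (hz' : ∃ k : ℕ, orderOf z' = 2 ^ k)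
    (hy' : ¬ 2 ∣ orderOf y') (h : z * y = z' * y') : z = z' ∧ y = y' := by
  have h1 := isPPart_of_parts hzy hz hy
  have h2 := isPPart_of_parts hzy' hz' hy'
  rw [← h] at h2
  have h3 : z = z' := pPart_unique h1 h2
  refine ⟨h3, ?_⟩
  rw [h3] at h
  exact mul_left_cancel h

/-- Centralizers of conjugate Sylow subgroups have equal order. -/
theorem card_centralizer_sylow (P Q : Sylow 2 G) :
    Nat.card (Subgroup.centralizer ((P : Subgroup G) : Set G)) =
      Nat.card (Subgroup.centralizer ((Q : Subgroup G) : Set G)) := by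
  classical
  obtain ⟨c, hc⟩ := MulAction.exists_smul_eq G P Q
  have hmem : ∀ x, x ∈ (Q : Subgroup G) ↔ c⁻¹ * x * c ∈ (P : Subgroup G) := by
    intro x
    rw [← hc, Sylow.smul_def, Sylow.pointwise_smul_def, Subgroup.mem_pointwise_smul_iff_inv_smul_mem]
    simp [MulAut.smul_def, MulAut.conj_apply]
  refine Nat.card_congr (Equiv.subtypeEquiv (MulAut.conj c).toEquiv fun x => ?_)
  simp only [SetLike.mem_coe, Subgroup.mem_centralizer_iff, MulEquiv.toEquiv_eq_coe,
    MulEquiv.coe_toEquiv, MulAut.conj_apply]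
  constructor
  · intro h q hq
    have h1 := h _ ((hmem q).mp hq)
    have h2 : c * (c⁻¹ * q * c * x) * c⁻¹ = c * (x * (c⁻¹ * q * c)) * c⁻¹ := by rw [h1]
    calc q * (c * x * c⁻¹) = c * (c⁻¹ * q * c * x) * c⁻¹ := by group
      _ = c * (x * (c⁻¹ * q * c)) * c⁻¹ := h2
      _ = c * x * c⁻¹ * q := by group
  · intro h q hq
    have hq' : c * q * c⁻¹ ∈ (Q : Subgroup G) := by
      rw [hmem]
      convert hq using 1
      group
    have h1 := h _ hq'
    have h2 : c⁻¹ * (c * q * c⁻¹ * (c * x * c⁻¹)) * c = c⁻¹ * (c * x * c⁻¹ * (c * q * c⁻¹)) * c := by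
      rw [h1]
    calc q * x = c⁻¹ * (c * q * c⁻¹ * (c * x * c⁻¹)) * c := by group
      _ = c⁻¹ * (c * x * c⁻¹ * (c * q * c⁻¹)) * c := h2
      _ = x * q := by group

theorem card_centralizer_of_isConj {a b : G} (h : IsConj a b) :
    Nat.card (Subgroup.centralizer ({a} : Set G)) = Nat.card (Subgroup.centralizer ({b} : Set G)) := by
  classical
  obtain ⟨c, hc⟩ := isConj_iff.mp h
  subst hc
  refine Nat.card_congr (Equiv.subtypeEquiv (MulAut.conj c).toEquiv fun x => ?_)
  simp only [Subgroup.mem_centralizer_singleton_iff, MulEquiv.toEquiv_eq_coe,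
    MulEquiv.coe_toEquiv, MulAut.conj_apply]
  constructor
  · intro h1
    calc c * x * c⁻¹ * (c * a * c⁻¹) = c * (x * a) * c⁻¹ := by group
      _ = c * (a * x) * c⁻¹ := by rw [h1]
      _ = c * a * c⁻¹ * (c * x * c⁻¹) := by group
  · intro h1
    have h2 : c⁻¹ * (c * x * c⁻¹ * (c * a * c⁻¹)) * c = c⁻¹ * (c * a * c⁻¹ * (c * x * c⁻¹)) * c := by
      rw [h1]
    calc x * a = c⁻¹ * (c * x * c⁻¹ * (c * a * c⁻¹)) * c := by group
      _ = c⁻¹ * (c * a * c⁻¹ * (c * x * c⁻¹)) * c := h2
      _ = a * x := by group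

/-- The four-group generated by two commuting involutions. -/
def kleinSub {a w : G} (ha : a * a = 1) (hw : w * w = 1) (hc : a * w = w * a) : Subgroup G where
  carrier := {x | x = 1 ∨ x = a ∨ x = w ∨ x = a * w}
  one_mem' := Or.inl rfl
  mul_mem' := by
    have key1 : a * (a * w) = w := by rw [← mul_assoc, ha, one_mul]
    have key2 : w * (a * w) = a := by rw [hc, ← mul_assoc, hw, one_mul]
    have key3 : (a * w) * a = w := by rw [hc, mul_assoc, ha, mul_one]
    have key4 : (a * w) * w = a := by rw [mul_assoc, hw, mul_one]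
    have key5 : (a * w) * (a * w) = 1 := by
      calc (a * w) * (a * w) = (a * w * a) * w := by group
        _ = 1 := by rw [key3, hw]
    rintro x y (rfl | rfl | rfl | rfl) (rfl | rfl | rfl | rfl) <;>
      simp only [Set.mem_ofPred_eq, mul_one, one_mul, ha, hw, key1, key2, key3, key4, key5, true_or,
        or_true]
    right; right; right; exact hc.symm
  inv_mem' := by
    have hai : a⁻¹ = a := inv_eq_of_mul_eq_one_left ha
    have hwi : w⁻¹ = w := inv_eq_of_mul_eq_one_left hw
    rintro x (rfl | rfl | rfl | rfl)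
    · left; simp
    · right; left; exact hai
    · right; right; left; exact hwi
    · right; right; right
      rw [mul_inv_rev, hai, hwi, hc]

theorem mem_kleinSub {a w : G} {ha : a * a = 1} {hw : w * w = 1} {hc : a * w = w * a} {x : G} :
    x ∈ kleinSub ha hw hc ↔ x = 1 ∨ x = a ∨ x = w ∨ x = a * w := Iff.rfl

theorem two_elt_of_sq {x : G} (h : x * x = 1) : ∃ k : ℕ, orderOf x = 2 ^ k := by
  have h1 : x ^ 2 ^ 1 = 1 := by rw [pow_one, sq]; exact h
  obtain ⟨k, -, hk⟩ := (Nat.dvd_prime_pow Nat.prime_two).mp (_root_.orderOf_dvd_of_pow_eq_one h1)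
  exact ⟨k, hk⟩

theorem eq_one_of_sq_of_odd {x : G} (h : x * x = 1) (hodd : ¬ 2 ∣ orderOf x) : x = 1 := by
  have h1 : x ^ 2 = 1 := by rw [sq]; exact h
  have h2 := _root_.orderOf_dvd_of_pow_eq_one h1
  have h3 : orderOf x = 1 ∨ orderOf x = 2 := (Nat.dvd_prime Nat.prime_two).mp h2
  rcases h3 with h3 | h3
  · exact orderOf_eq_one_iff.mp h3
  · exact absurd (by rw [h3]) hodd

end Count

section Klein

variable {G : Type u} [Group G] [Finite G]

theorem factorization_centralizer (P : Sylow 2 G) (hP4 : Nat.card P = 4) (hexp : ∀ x : P, x * x = 1)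
    {z : G} (hz : orderOf z = 2) :
    (Nat.card (Subgroup.centralizer ({z} : Set G))).factorization 2 = 2 := by
  have hz' : orderOf z = 2 ^ 1 := by rw [hz, pow_one]
  obtain ⟨Q, hzQ⟩ := exists_sylow_of_two_element (g := z) (k := 1) hz'
  have hQexp : ∀ x ∈ (Q : Subgroup G), x * x = 1 := fun x hx => sylow_exp_of_exp P Q hexp x hx
  have hQ4 := sylow_card_of_card P Q hP4
  have hle : (Q : Subgroup G) ≤ Subgroup.centralizer ({z} : Set G) := by
    intro x hx
    rw [Subgroup.mem_centralizer_singleton_iff]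
    exact sylow_comm hQexp hx hzQ
  have h3 : 2 ^ 2 ∣ Nat.card (Subgroup.centralizer ({z} : Set G)) := by
    have := Subgroup.card_dvd_of_le hle
    rw [hQ4] at this
    exact this
  have h4 : Nat.card (Subgroup.centralizer ({z} : Set G)) ∣ Nat.card G :=
    Subgroup.card_subgroup_dvd_card _
  have h5 := (Nat.Prime.pow_dvd_iff_le_factorization Nat.prime_two Nat.card_pos.ne').mp h3
  have h6 := (Nat.factorization_le_iff_dvd Nat.card_pos.ne' Nat.card_pos.ne').mpr h4 2
  have h7 := factorization_of_card P hP4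
  omega

theorem exists_core (P : Sylow 2 G) (hP4 : Nat.card P = 4) (hexp : ∀ x : P, x * x = 1)
    {w : G} (hw : orderOf w = 2) :
    ∃ O : Subgroup G, (∀ y, y ∈ O ↔ y * w = w * y ∧ ¬ 2 ∣ orderOf y) ∧ ¬ 2 ∣ Nat.card O ∧
      4 * Nat.card O = Nat.card (Subgroup.centralizer ({w} : Set G)) := by
  classical
  obtain ⟨T, N, hN, hc⟩ := npc_centralizer P hP4 hexp hw
  have hcop : ∀ n : Subgroup.centralizer ({w} : Set G), n ∈ N ↔ ¬ 2 ∣ orderOf (n : G) := by
    intro n
    rw [Cfsg.Agent.H01.mem_normal_complement_iff T N hc n, Subgroup.orderOf_coe,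
      Nat.coprime_comm, Nat.prime_two.coprime_iff_not_dvd]
  have hcard : Nat.card (N.map (Subgroup.centralizer ({w} : Set G)).subtype) = Nat.card N :=
    Nat.card_congr (N.equivMapOfInjective _ (Subgroup.subtype_injective _)).symm.toEquiv
  refine ⟨N.map (Subgroup.centralizer ({w} : Set G)).subtype, ?_, ?_, ?_⟩
  · intro y
    constructor
    · rintro ⟨n, hn, rfl⟩
      exact ⟨Subgroup.mem_centralizer_singleton_iff.mp n.2, (hcop n).mp hn⟩
    · rintro ⟨h1, h2⟩
      exact ⟨⟨y, Subgroup.mem_centralizer_singleton_iff.mpr h1⟩, (hcop _).mpr h2, rfl⟩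
  · rw [hcard]
    exact Cfsg.Agent.H01.not_dvd_card_of_complement T hc
  · rw [hcard, ← hc.card_mul_card]
    have h1 : Nat.card T = 4 := by
      rw [Sylow.card_eq_multiplicity, factorization_centralizer P hP4 hexp hw]
      norm_num
    rw [h1, mul_comm]

/-- The centralizer of the four-group generated by two commuting involutions. -/
theorem card_cen_mul (P : Sylow 2 G) (hP4 : Nat.card P = 4) (hexp : ∀ x : P, x * x = 1)
    {a w : G} (ha : orderOf a = 2) (hw : orderOf w = 2) (hac : a * w = w * a) (hne : a ≠ w)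
    {O : Subgroup G} (hO : ∀ y, y ∈ O ↔ y * w = w * y ∧ ¬ 2 ∣ orderOf y) :
    4 * (cenSet O a).card = Nat.card (Subgroup.centralizer ((P : Subgroup G) : Set G)) := by
  classical
  have ha' : a * a = 1 := by rw [← sq, ← ha, pow_orderOf_eq_one]
  have hw' : w * w = 1 := by rw [← sq, ← hw, pow_orderOf_eq_one]
  have ha1 : a ≠ 1 := by rintro rfl; simp at ha
  have hw1 : w ≠ 1 := by rintro rfl; simp at hw
  have haw1 : a * w ≠ 1 := by
    intro h
    apply hne
    have : a = w⁻¹ := eq_inv_of_mul_eq_one_left h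
    rw [this, inv_eq_of_mul_eq_one_left hw']
  have haw2 : a * w ≠ a := by
    intro h
    exact hw1 (mul_eq_left.mp h)
  have haw3 : a * w ≠ w := by
    intro h
    exact ha1 (mul_eq_right.mp h)
  set Qs := kleinSub ha' hw' hac with hQs
  set Qf : Finset G := {1, a, w, a * w} with hQf
  have hQfmem : ∀ x, x ∈ Qf ↔ x ∈ Qs := by
    intro x
    simp [hQf, hQs, mem_kleinSub]
  have hQfcard : Qf.card = 4 := by
    rw [hQf, Finset.card_insert_of_notMem, Finset.card_insert_of_notMem,
      Finset.card_insert_of_notMem, Finset.card_singleton]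
    · simp [haw3.symm]
    · simp [hne, haw2.symm]
    · simp [ha1.symm, hw1.symm, haw1.symm]
  have hQcard : Nat.card Qs = 4 := by
    rw [Nat.card_eq_fintype_card, Fintype.card_of_subtype Qf hQfmem, hQfcard]
  have hfac := factorization_of_card P hP4
  let Q' : Sylow 2 G := Sylow.ofCard Qs (by rw [hQcard, hfac]; norm_num)
  have hQ'c : (Q' : Subgroup G) = Qs := Sylow.coe_ofCard _ _
  rw [card_centralizer_sylow P Q', hQ'c]
  -- the finset
  set H : Finset G := Finset.univ.filter (fun g : G => Commute g a ∧ Commute g w) with hH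
  have hQcomm : ∀ x ∈ Qf, Commute x a ∧ Commute x w := by
    intro x hx
    have hca : Commute a w := hac
    simp only [hQf, Finset.mem_insert, Finset.mem_singleton] at hx
    rcases hx with rfl | rfl | rfl | rfl
    · exact ⟨Commute.one_left _, Commute.one_left _⟩
    · exact ⟨Commute.refl _, hca⟩
    · exact ⟨hca.symm, Commute.refl _⟩
    · exact ⟨(Commute.refl _).mul_left hca.symm, hca.mul_left (Commute.refl _)⟩
  have hHmem : ∀ g, g ∈ H ↔ g ∈ Subgroup.centralizer (Qs : Set G) := by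
    intro g
    simp only [hH, Finset.mem_filter, Finset.mem_univ, true_and, Subgroup.mem_centralizer_iff,
      SetLike.mem_coe]
    constructor
    · rintro ⟨h1, h2⟩ x hx
      rcases (hQfmem x).mpr hx with hx
      simp only [hQf, Finset.mem_insert, Finset.mem_singleton] at hx
      rcases hx with rfl | rfl | rfl | rfl
      · simp
      · exact h1.symm.eq
      · exact h2.symm.eq
      · exact ((h1.symm).mul_left h2.symm).eq
    · intro h
      refine ⟨(h a ?_).symm, (h w ?_).symm⟩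
      · exact (hQfmem a).mp (by simp [hQf])
      · exact (hQfmem w).mp (by simp [hQf])
  have hHcard : Nat.card (Subgroup.centralizer (Qs : Set G)) = H.card := by
    rw [Nat.card_eq_fintype_card, Fintype.card_of_subtype H hHmem]
  rw [hHcard, ← hQfcard, ← Finset.card_product]
  have hQ2 : ∀ x ∈ Qf, ∃ k : ℕ, orderOf x = 2 ^ k := by
    intro x hx
    have h1 : x ∈ (Q' : Subgroup G) := by rw [hQ'c]; exact (hQfmem x).mp hx
    have h2 := sylow_exp_of_exp P Q' hexp x h1
    exact two_elt_of_sq h2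
  refine Finset.card_bij (fun p _ => p.1 * p.2) ?_ ?_ ?_
  · rintro ⟨x, y⟩ hp
    rw [Finset.mem_product] at hp
    obtain ⟨hx, hy⟩ := hp
    simp only at hx hy
    obtain ⟨hyO, hya⟩ := mem_cenSet.mp hy
    have hyw := ((hO y).mp hyO).1
    have hxc := hQcomm x hx
    simp only [hH, Finset.mem_filter, Finset.mem_univ, true_and]
    exact ⟨hxc.1.mul_left (show Commute y a from hya.symm),
      hxc.2.mul_left (show Commute y w from hyw)⟩
  · rintro ⟨x, y⟩ hp ⟨x', y'⟩ hp' heq
    rw [Finset.mem_product] at hp hp'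
    simp only at hp hp' heq
    obtain ⟨hx, hy⟩ := hp
    obtain ⟨hx', hy'⟩ := hp'
    obtain ⟨hyO, hya⟩ := mem_cenSet.mp hy
    obtain ⟨hyO', hya'⟩ := mem_cenSet.mp hy'
    have hcomm : ∀ x ∈ Qf, ∀ y ∈ cenSet O a, Commute x y := by
      intro x hx y hy
      obtain ⟨hyO, hya⟩ := mem_cenSet.mp hy
      have hyw := ((hO y).mp hyO).1
      have h1 : Commute a y := hya
      have h2 : Commute w y := (show Commute y w from hyw).symm
      simp only [hQf, Finset.mem_insert, Finset.mem_singleton] at hx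
      rcases hx with rfl | rfl | rfl | rfl
      · exact Commute.one_left _
      · exact h1
      · exact h2
      · exact h1.mul_left h2
    obtain ⟨h1, h2⟩ := parts_unique (hcomm x hx y hy) (hQ2 x hx) ((hO y).mp hyO).2
      (hcomm x' hx' y' hy') (hQ2 x' hx') ((hO y').mp hyO').2 heq
    rw [h1, h2]
  · intro g hg
    simp only [hH, Finset.mem_filter, Finset.mem_univ, true_and] at hg
    obtain ⟨hga, hgw⟩ := hg
    obtain ⟨z, y, rfl, hzy, hz2, hy⟩ := exists_pPart (p := 2) g
    obtain ⟨h1, h2⟩ := parts_commute hga.symm hzy hz2 hy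
    obtain ⟨h3, h4⟩ := parts_commute hgw.symm hzy hz2 hy
    have hzQ : z ∈ Qs := by
      obtain ⟨k, hk⟩ := hz2
      have hwp : IsPGroup 2 (Subgroup.zpowers z) := by
        apply IsPGroup.of_card (n := k)
        rw [Nat.card_zpowers, hk]
      have h5 := hwp.inf_normalizer_sylow Q'
      have h6 : z ∈ (Q' : Subgroup G) := by
        refine (Subgroup.mem_inf.mp (h5.le ⟨Subgroup.mem_zpowers z,
          Subgroup.mem_normalizer_iff.mpr ?_⟩)).2
        intro h
        have hcommz : ∀ x, x ∈ Qs → Commute z x := by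
          intro x hx
          have hx' := (hQfmem x).mpr hx
          have := hQcomm x hx'
          simp only [hQf, Finset.mem_insert, Finset.mem_singleton] at hx'
          rcases hx' with rfl | rfl | rfl | rfl
          · exact Commute.one_right _
          · exact h1.symm
          · exact h3.symm
          · exact h1.symm.mul_right h3.symm
        show h ∈ (Q' : Subgroup G) ↔ z * h * z⁻¹ ∈ (Q' : Subgroup G)
        rw [hQ'c]
        constructor
        · intro hh
          rw [(hcommz h hh).eq, mul_inv_cancel_right]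
          exact hh
        · intro hh
          have h7 := hcommz _ hh
          have h8 : z * h * z⁻¹ * z = z * (z * h * z⁻¹) := h7.eq.symm
          have h9 : z * h = z * (z * h * z⁻¹) := by rw [← h8]; group
          have h10 := mul_left_cancel h9
          rw [h10]
          exact hh
      rw [hQ'c] at h6
      exact h6
    refine ⟨(z, y), ?_, rfl⟩
    rw [Finset.mem_product]
    refine ⟨(hQfmem z).mpr hzQ, ?_⟩
    rw [mem_cenSet]
    exact ⟨(hO y).mpr ⟨(h4.symm).eq, hy⟩, h2.eq⟩

open Classical in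
/-- The elements of odd order in `C(w)` inverted by `a`. -/
noncomputable def invW (a w : G) : Finset G :=
  Finset.univ.filter (fun y : G => (y * w = w * y ∧ ¬ 2 ∣ orderOf y) ∧ a * y * a = y⁻¹)

theorem mem_invW {a w y : G} : y ∈ invW a w ↔ (y * w = w * y ∧ ¬ 2 ∣ orderOf y) ∧ a * y * a = y⁻¹ := by
  simp [invW]

theorem card_invW (P : Sylow 2 G) (hP4 : Nat.card P = 4) (hexp : ∀ x : P, x * x = 1)
    (hone : ∀ s t : G, orderOf s = 2 → orderOf t = 2 → IsConj s t)
    {a w J : G} (ha : orderOf a = 2) (hw : orderOf w = 2) (hac : a * w = w * a) (hne : a ≠ w)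
    (hJ : orderOf J = 2) :
    (invW a w).card * Nat.card (Subgroup.centralizer ((P : Subgroup G) : Set G)) =
      Nat.card (Subgroup.centralizer ({J} : Set G)) := by
  classical
  obtain ⟨O, hO, hodd, hcard⟩ := exists_core P hP4 hexp hw
  have ha' : a * a = 1 := by rw [← sq, ← ha, pow_orderOf_eq_one]
  have hainv : a⁻¹ = a := inv_eq_of_mul_eq_one_left ha'
  have hn : ∀ y ∈ O, a * y * a ∈ O := by
    intro y hy
    obtain ⟨h1, h2⟩ := (hO y).mp hy
    rw [hO]
    refine ⟨?_, ?_⟩
    · have hcaw : Commute a w := hac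
      have hcyw : Commute y w := h1
      exact ((hcaw.mul_left hcyw).mul_left hcaw)
    · have h3 := orderOf_conj' y a
      rw [hainv] at h3
      rwa [h3]
  have h1 := card_inverted_mul O hodd ha' hn
  have h2 : invSet O a = invW a w := by
    ext y
    rw [mem_invSet, mem_invW, hO]
  rw [h2] at h1
  rw [← card_cen_mul P hP4 hexp ha hw hac hne hO, ← card_centralizer_of_isConj (hone _ _ hw hJ),
    ← hcard, ← h1]
  ring

open Classical in
/-- The involutions other than `J` commuting with `J`. -/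
noncomputable def comInv (J : G) : Finset G :=
  Finset.univ.filter (fun w : G => orderOf w = 2 ∧ w * J = J * w ∧ w ≠ J)

theorem mem_comInv {J w : G} : w ∈ comInv J ↔ orderOf w = 2 ∧ w * J = J * w ∧ w ≠ J := by
  simp [comInv]

theorem comm_mul_sq {x y : G} (h : Commute x y) : (x * y) * (x * y) = (x * x) * (y * y) := by
  calc (x * y) * (x * y) = x * (y * x) * y := by group
    _ = x * (x * y) * y := by rw [h.symm.eq]
    _ = (x * x) * (y * y) := by group

theorem inv_of_sq {x y : G} (h : (x * y) * (x * y) = 1) : x * y * x = y⁻¹ := by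
  have h1 : x * y * x * y = 1 := by rw [← h]; group
  exact eq_inv_of_mul_eq_one_left h1

theorem sq_of_inv {x y : G} (h : x * y * x = y⁻¹) : (x * y) * (x * y) = 1 := by
  have h1 : (x * y) * (x * y) = (x * y * x) * y := by group
  rw [h1, h, inv_mul_cancel]

/-- Counting the involutions commuting with `J`. -/
theorem card_comInv (P : Sylow 2 G) (hP4 : Nat.card P = 4) (hexp : ∀ x : P, x * x = 1)
    {J a : G} (hJ : orderOf J = 2) (ha : orderOf a = 2) (haJ : a * J = J * a) (hne : a ≠ J) :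
    (comInv J).card = 2 * (invW a J).card := by
  classical
  have ha' : a * a = 1 := by rw [← sq, ← ha, pow_orderOf_eq_one]
  have hJ' : J * J = 1 := by rw [← sq, ← hJ, pow_orderOf_eq_one]
  have hainv : a⁻¹ = a := inv_eq_of_mul_eq_one_left ha'
  have hJinv : J⁻¹ = J := inv_eq_of_mul_eq_one_left hJ'
  have hcaJ : Commute a J := haJ
  have ha1 : a ≠ 1 := by rintro rfl; simp at ha
  have hJ1 : J ≠ 1 := by rintro rfl; simp at hJ
  obtain ⟨O, hO, hodd, hcard⟩ := exists_core P hP4 hexp hJ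
  obtain ⟨b, hb⟩ : ∃ b, b = a * J := ⟨_, rfl⟩
  have hb' : b * b = 1 := by
    rw [hb, comm_mul_sq hcaJ, ha', hJ', one_mul]
  have hb1 : b ≠ 1 := by
    intro h
    apply hne
    rw [hb] at h
    have : a = J⁻¹ := eq_inv_of_mul_eq_one_left h
    rw [this, hJinv]
  have hbJ : Commute b J := by
    rw [hb]
    exact hcaJ.mul_left (Commute.refl _)
  obtain ⟨I, hI⟩ : ∃ I, I = invW a J := ⟨_, rfl⟩
  -- members of `I`
  have hI1 : ∀ y, y ∈ I ↔ y ∈ O ∧ a * y * a = y⁻¹ := by
    intro y
    rw [hI, mem_invW, hO]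
  have hOc : ∀ y ∈ O, Commute y J ∧ ¬ 2 ∣ orderOf y := fun y hy => (hO y).mp hy
  have hOJ : J ∉ O := by
    intro h
    exact (hOc J h).2 (by rw [hJ])
  have hOinv : ∀ y ∈ O, y * y = 1 → y = 1 := fun y hy h => eq_one_of_sq_of_odd h (hOc y hy).2
  have hbconj : ∀ y : G, Commute y J → b * y * b = a * y * a := by
    intro y hy
    rw [hb]
    calc a * J * y * (a * J) = a * (J * y) * (a * J) := by group
      _ = a * (y * J) * (a * J) := by rw [hy.eq]
      _ = a * y * (J * a) * J := by group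
      _ = a * y * (a * J) * J := by rw [haJ]
      _ = a * y * a * (J * J) := by group
      _ = a * y * a := by rw [hJ', mul_one]
  -- the factorisation of the centralizer
  set Qf : Finset G := {1, J, a, b} with hQf
  have hQfsq : ∀ x ∈ Qf, x * x = 1 := by
    intro x hx
    simp only [hQf, Finset.mem_insert, Finset.mem_singleton] at hx
    rcases hx with rfl | rfl | rfl | rfl
    · simp
    · exact hJ'
    · exact ha'
    · exact hb'
  have hQfc : ∀ x ∈ Qf, Commute x J := by
    intro x hx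
    simp only [hQf, Finset.mem_insert, Finset.mem_singleton] at hx
    rcases hx with rfl | rfl | rfl | rfl
    · exact Commute.one_left _
    · exact Commute.refl _
    · exact hcaJ
    · exact hbJ
  have hab : a ≠ b := by
    rintro h
    rw [hb] at h
    exact hJ1 (mul_eq_left.mp h.symm)
  have hJb : J ≠ b := by
    rintro h
    rw [hb] at h
    exact ha1 (mul_eq_right.mp h.symm)
  have hQfcard : Qf.card = 4 := by
    rw [hQf, Finset.card_insert_of_notMem, Finset.card_insert_of_notMem,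
      Finset.card_insert_of_notMem, Finset.card_singleton]
    · simp [hab]
    · simp [hne.symm, hJb]
    · simp [hJ1.symm, ha1.symm, hb1.symm]
  have hQfdiv : ∀ x ∈ Qf, ∀ x' ∈ Qf, ∀ z : G, x' * z = x → z * z = 1 := by
    -- the four elements form a group of exponent two
    have hcomm : ∀ u ∈ Qf, ∀ v ∈ Qf, Commute u v := by
      intro u hu v hv
      have h1 : Commute a b := by rw [hb]; exact (Commute.refl a).mul_right hcaJ
      have h2 : Commute J b := hbJ.symm
      simp only [hQf, Finset.mem_insert, Finset.mem_singleton] at hu hv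
      rcases hu with rfl | rfl | rfl | rfl <;> rcases hv with rfl | rfl | rfl | rfl <;>
        first
          | exact Commute.one_left _
          | exact Commute.one_right _
          | exact Commute.refl _
          | exact hcaJ
          | exact hcaJ.symm
          | exact h1
          | exact h1.symm
          | exact h2
          | exact h2.symm
    intro x hx x' hx' z hz
    have hz2 : z = x'⁻¹ * x := by rw [← hz]; group
    have hx'i : x'⁻¹ = x' := inv_eq_of_mul_eq_one_left (hQfsq x' hx')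
    rw [hz2, hx'i, comm_mul_sq (hcomm x' hx' x hx), hQfsq x' hx', hQfsq x hx, one_mul]
  set Of : Finset G := Finset.univ.filter (· ∈ O) with hOf
  have hOfcard : Of.card = Nat.card O := card_filter_subgroup O
  set Cf : Finset G := Finset.univ.filter (fun g : G => g * J = J * g) with hCf
  have hCfcard : Cf.card = Nat.card (Subgroup.centralizer ({J} : Set G)) := by
    rw [Nat.card_eq_fintype_card, Fintype.card_of_subtype Cf]
    intro g
    simp [hCf, Subgroup.mem_centralizer_singleton_iff]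
  have hinj : Set.InjOn (fun p : G × G => p.1 * p.2) ((Qf ×ˢ Of : Finset (G × G)) : Set (G × G)) := by
    rintro ⟨x, y⟩ hp ⟨x', y'⟩ hp' heq
    simp only [Finset.coe_product, Set.mem_prod, Finset.mem_coe, hOf, Finset.mem_filter,
      Finset.mem_univ, true_and] at hp hp'
    simp only at heq
    have h1 : x' * (y' * y⁻¹) = x := by
      rw [← mul_assoc, ← heq]
      group
    have h2 := hQfdiv x hp.1 x' hp'.1 _ h1
    have h3 := hOinv _ (O.mul_mem hp'.2 (O.inv_mem hp.2)) h2
    have h4 : y' = y := by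
      rw [mul_inv_eq_one] at h3
      exact h3
    subst h4
    have h5 : x = x' := mul_right_cancel heq
    rw [h5]
  have hT : (Qf ×ˢ Of).image (fun p : G × G => p.1 * p.2) = Cf := by
    apply Finset.eq_of_subset_of_card_le
    · intro g hg
      obtain ⟨⟨x, y⟩, hp, rfl⟩ := Finset.mem_image.mp hg
      rw [Finset.mem_product] at hp
      simp only [hOf, Finset.mem_filter, Finset.mem_univ, true_and] at hp
      simp only [hCf, Finset.mem_filter, Finset.mem_univ, true_and]
      exact ((hQfc x hp.1).mul_left (hOc y hp.2).1).eq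
    · rw [Finset.card_image_of_injOn hinj, Finset.card_product, hQfcard, hOfcard, hCfcard, hcard]
  have hfactor : ∀ g : G, g * J = J * g → ∃ x ∈ Qf, ∃ y ∈ O, g = x * y := by
    intro g hg
    have h1 : g ∈ Cf := by simp [hCf, hg]
    rw [← hT] at h1
    obtain ⟨⟨x, y⟩, hp, rfl⟩ := Finset.mem_image.mp h1
    rw [Finset.mem_product] at hp
    simp only [hOf, Finset.mem_filter, Finset.mem_univ, true_and] at hp
    exact ⟨x, hp.1, y, hp.2, rfl⟩
  -- the description of `comInv`
  have hcom : comInv J = I.image (a * ·) ∪ I.image (b * ·) := by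
    ext w
    simp only [Finset.mem_union, Finset.mem_image, mem_comInv]
    constructor
    · rintro ⟨hw2, hwJ, hwne⟩
      have hww : w * w = 1 := by rw [← sq, ← hw2, pow_orderOf_eq_one]
      obtain ⟨x, hx, y, hy, rfl⟩ := hfactor w hwJ
      simp only [hQf, Finset.mem_insert, Finset.mem_singleton] at hx
      rcases hx with rfl | rfl | rfl | rfl
      · exfalso
        rw [one_mul] at hw2
        exact (hOc y hy).2 (by rw [hw2])
      · exfalso
        have hcy : Commute y x := (hOc y hy).1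
        have h1 : y * y = 1 := by
          have h2 : (x * y) * (x * y) = (x * x) * (y * y) := comm_mul_sq hcy.symm
          rw [h2, hJ', one_mul] at hww
          exact hww
        have h3 := hOinv y hy h1
        rw [h3, mul_one] at hwne
        exact hwne rfl
      · left
        refine ⟨y, (hI1 y).mpr ⟨hy, inv_of_sq hww⟩, rfl⟩
      · right
        refine ⟨y, (hI1 y).mpr ⟨hy, ?_⟩, rfl⟩
        rw [← hbconj y (hOc y hy).1]
        exact inv_of_sq hww
    · rintro (⟨y, hy, rfl⟩ | ⟨y, hy, rfl⟩)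
      · obtain ⟨hyO, hya⟩ := (hI1 y).mp hy
        have hyc := (hOc y hyO).1
        refine ⟨?_, (hcaJ.mul_left hyc).eq, ?_⟩
        · apply orderOf_eq_prime (by rw [sq]; exact sq_of_inv hya)
          intro h
          have h1 : y = a⁻¹ := eq_inv_of_mul_eq_one_right h
          rw [hainv] at h1
          subst h1
          have := hOinv _ hyO ha'
          exact ha1 this
        · intro h
          have h1 : y = a⁻¹ * J := by rw [← h]; group
          rw [hainv, ← hb] at h1
          subst h1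
          have := hOinv _ hyO hb'
          exact hb1 this
      · obtain ⟨hyO, hya⟩ := (hI1 y).mp hy
        have hyc := (hOc y hyO).1
        have hyb : b * y * b = y⁻¹ := by rw [hbconj y hyc, hya]
        refine ⟨?_, (hbJ.mul_left hyc).eq, ?_⟩
        · apply orderOf_eq_prime (by rw [sq]; exact sq_of_inv hyb)
          intro h
          have h1 : y = b⁻¹ := eq_inv_of_mul_eq_one_right h
          rw [inv_eq_of_mul_eq_one_left hb'] at h1
          subst h1
          have := hOinv _ hyO hb'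
          exact hb1 this
        · intro h
          have h1 : y = a := by
            have h2 : a * J * y = J := by rw [← hb]; exact h
            have h3 : a * y * J = J := by
              calc a * y * J = a * (y * J) := by group
                _ = a * (J * y) := by rw [hyc.eq]
                _ = a * J * y := by group
                _ = J := h2
            have h4 : a * y = 1 := by
              exact mul_eq_right.mp h3
            have h5 : y = a⁻¹ := eq_inv_of_mul_eq_one_right h4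
            rw [h5, hainv]
          subst h1
          have := hOinv _ hyO ha'
          exact ha1 this
  have hdisj : Disjoint (I.image (a * ·)) (I.image (b * ·)) := by
    rw [Finset.disjoint_left]
    intro w hw hw'
    obtain ⟨y, hy, rfl⟩ := Finset.mem_image.mp hw
    obtain ⟨y', hy', heq⟩ := Finset.mem_image.mp hw'
    obtain ⟨hyO, -⟩ := (hI1 y).mp hy
    obtain ⟨hyO', -⟩ := (hI1 y').mp hy'
    have hy'c := (hOc y' hyO').1
    apply hOJ
    have h1 : a * J * y' = a * y := by rw [← hb]; exact heq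
    have h2 : J * y' = y := by
      apply mul_left_cancel (a := a)
      rw [← h1]
      group
    have h3 : J = y * y'⁻¹ := by rw [← h2]; group
    rw [h3]
    exact O.mul_mem hyO (O.inv_mem hyO')
  rw [hcom, Finset.card_union_of_disjoint hdisj, Finset.card_image_of_injective _ (mul_right_injective a),
    Finset.card_image_of_injective _ (mul_right_injective b), hI]
  ring

open Classical in
/-- Involutions with singular product with `J`. -/
noncomputable def singProd (J : G) : Finset G :=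
  Finset.univ.filter (fun t : G => orderOf t = 2 ∧ 2 ∣ orderOf (t * J))

theorem mem_singProd {J t : G} : t ∈ singProd J ↔ orderOf t = 2 ∧ 2 ∣ orderOf (t * J) := by
  simp [singProd]

/-- Counting by the 2-part of `tJ`. -/
theorem card_singProd (P : Sylow 2 G) (hexp : ∀ x : P, x * x = 1) {J : G} (hJ : orderOf J = 2) :
    (singProd J).card = ∑ w ∈ comInv J, (invW J w).card := by
  classical
  have hJ' : J * J = 1 := by rw [← sq, ← hJ, pow_orderOf_eq_one]
  have hJinv : J⁻¹ = J := inv_eq_of_mul_eq_one_left hJ'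
  have hord2 : ∀ {w : G}, orderOf w = 2 → ∃ k : ℕ, orderOf w = 2 ^ k :=
    fun {w} hw => ⟨1, by rw [hw, pow_one]⟩
  rw [← Finset.card_sigma]
  symm
  refine Finset.card_bij (fun p _ => p.1 * p.2 * J) ?_ ?_ ?_
  · rintro ⟨w, y⟩ hp
    rw [Finset.mem_sigma] at hp
    simp only at hp
    obtain ⟨hw, hy⟩ := hp
    obtain ⟨hw2, hwJ, hwne⟩ := mem_comInv.mp hw
    obtain ⟨⟨hyw, hyodd⟩, hyJ⟩ := mem_invW.mp hy
    have hww : w * w = 1 := by rw [← sq, ← hw2, pow_orderOf_eq_one]
    have hcwy : Commute w y := (show Commute y w from hyw).symm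
    have hcwJ : Commute w J := hwJ
    simp only
    rw [mem_singProd]
    refine ⟨?_, ?_⟩
    · apply orderOf_eq_prime
      · rw [sq]
        calc w * y * J * (w * y * J) = w * y * (J * w) * y * J := by group
          _ = w * y * (w * J) * y * J := by rw [hcwJ.eq]
          _ = (w * y * w) * (J * y * J) := by group
          _ = (w * w * y) * (J * y * J) := by
              have h5 : w * y * w = w * w * y := by rw [mul_assoc, hyw, ← mul_assoc]
              rw [h5]
          _ = 1 := by rw [hww, one_mul, hyJ, mul_inv_cancel]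
      · intro h
        have h1 : w * y = J := by
          have h2 : w * y = J⁻¹ := eq_inv_of_mul_eq_one_left h
          rw [h2, hJinv]
        have h2 : J * 1 = J := mul_one J
        have h3 := parts_unique hcwy (hord2 hw2) hyodd (Commute.one_right J) (hord2 hJ)
          (by simp) (h1.trans h2.symm)
        exact hwne h3.1
    · have h1 : w * y * J * J = w * y := by rw [mul_assoc, hJ', mul_one]
      rw [h1, hcwy.orderOf_mul_eq_mul_orderOf_of_coprime, hw2]
      · exact Dvd.intro _ rfl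
      · rw [hw2]
        exact (Nat.prime_two.coprime_iff_not_dvd).mpr hyodd
  · rintro ⟨w, y⟩ hp ⟨w', y'⟩ hp' heq
    rw [Finset.mem_sigma] at hp hp'
    simp only at hp hp' heq
    obtain ⟨hw, hy⟩ := hp
    obtain ⟨hw', hy'⟩ := hp'
    obtain ⟨hw2, -, -⟩ := mem_comInv.mp hw
    obtain ⟨hw2', -, -⟩ := mem_comInv.mp hw'
    obtain ⟨⟨hyw, hyodd⟩, -⟩ := mem_invW.mp hy
    obtain ⟨⟨hyw', hyodd'⟩, -⟩ := mem_invW.mp hy'
    have h1 := mul_right_cancel heq
    obtain ⟨h2, h3⟩ := parts_unique (show Commute y w from hyw).symm (hord2 hw2) hyodd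
      (show Commute y' w' from hyw').symm (hord2 hw2') hyodd' h1
    subst h2
    subst h3
    rfl
  · intro t ht
    obtain ⟨ht2, htd⟩ := mem_singProd.mp ht
    have htt : t * t = 1 := by rw [← sq, ← ht2, pow_orderOf_eq_one]
    have htinv : t⁻¹ = t := inv_eq_of_mul_eq_one_left htt
    obtain ⟨z, y, hzy, hc, hk, hy⟩ := exists_pPart (p := 2) (t * J)
    obtain ⟨k, hk'⟩ := hk
    have hzz : z * z = 1 := mul_self_of_two_element P hexp hk'
    have hz1 : z ≠ 1 := by
      rintro rfl
      rw [one_mul] at hzy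
      rw [← hzy] at htd
      exact hy htd
    have hz2 : orderOf z = 2 := by
      apply orderOf_eq_prime _ hz1
      rw [sq]
      exact hzz
    have hzinv : z⁻¹ = z := inv_eq_of_mul_eq_one_left hzz
    -- `J` inverts `tJ`
    have hinvert : J * (z * y) * J⁻¹ = (z * y)⁻¹ := by
      rw [hzy, hJinv, mul_inv_rev, hJinv, htinv]
      calc J * (t * J) * J = J * t * (J * J) := by group
        _ = J * t := by rw [hJ', mul_one]
    have hp1 : IsPPart 2 (z * y) z := ⟨y, rfl, hc, ⟨k, hk'⟩, hy⟩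
    have hp2 := isPPart_conj hp1 J
    have hp3 : IsPPart 2 (z * y)⁻¹ z := by
      refine ⟨y⁻¹, ?_, hc.inv_right, ⟨k, hk'⟩, by rwa [orderOf_inv]⟩
      rw [hc.mul_inv, hzinv]
    rw [hinvert] at hp2
    have hJz : J * z * J⁻¹ = z := pPart_unique hp2 hp3
    have hcJz : Commute J z := by
      show J * z = z * J
      rw [mul_inv_eq_iff_eq_mul] at hJz
      exact hJz
    have hJy : J * y * J = y⁻¹ := by
      have h1 : J * (z * y) * J⁻¹ = (J * z * J⁻¹) * (J * y * J⁻¹) := by group
      rw [h1, hJz, hJinv, hc.mul_inv, hzinv] at hinvert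
      exact mul_left_cancel hinvert
    have hzJ : z ≠ J := by
      rintro rfl
      apply hy
      have h1 : t = z * y * z := by
        rw [hzy, mul_assoc, hzz, mul_one]
      have h2 : t = y⁻¹ := by rw [h1, hJy]
      rw [h2, orderOf_inv] at ht2
      rw [ht2]
    refine ⟨⟨z, y⟩, ?_, ?_⟩
    · rw [Finset.mem_sigma]
      refine ⟨mem_comInv.mpr ⟨hz2, hcJz.symm.eq, hzJ⟩, mem_invW.mpr ⟨⟨hc.symm.eq, hy⟩, hJy⟩⟩
    · simp only
      rw [hzy, mul_assoc, hJ', mul_one]

/-- **The count.** -/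
theorem klein_count (P : Sylow 2 G) (hP4 : Nat.card P = 4) (hexp : ∀ x : P, x * x = 1)
    (hone : ∀ s t : G, orderOf s = 2 → orderOf t = 2 → IsConj s t) {J : G} (hJ : orderOf J = 2) :
    ∃ r : ℕ, r * Nat.card (Subgroup.centralizer ((P : Subgroup G) : Set G)) =
        Nat.card (Subgroup.centralizer ({J} : Set G)) ∧ (singProd J).card = 2 * r ^ 2 := by
  classical
  have hcP : 0 < Nat.card (Subgroup.centralizer ((P : Subgroup G) : Set G)) := Nat.card_pos
  -- a second involution commuting with `J`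
  obtain ⟨Q, hJQ⟩ := exists_sylow_of_two_element (g := J) (k := 1) (by rw [hJ, pow_one])
  have hQexp : ∀ x ∈ (Q : Subgroup G), x * x = 1 := fun x hx => sylow_exp_of_exp P Q hexp x hx
  have hQ4 := sylow_card_of_card P Q hP4
  obtain ⟨a, haQ, ha1, haJ⟩ : ∃ a ∈ (Q : Subgroup G), a ≠ 1 ∧ a ≠ J := by
    by_contra hcon
    push Not at hcon
    have h1 : Nat.card (Q : Subgroup G) ≤ 2 := by
      rw [← card_filter_subgroup (Q : Subgroup G)]
      refine le_trans (Finset.card_le_card (t := {1, J}) ?_) Finset.card_le_two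
      intro x hx
      have hx' : x ∈ (Q : Subgroup G) := by simpa using hx
      by_cases h : x = 1
      · simp [h]
      · simp [hcon x hx' h]
    omega
  have hacJ : a * J = J * a := sylow_comm hQexp haQ hJQ
  have ha2 : orderOf a = 2 := by
    apply orderOf_eq_prime _ ha1
    rw [sq]
    exact hQexp a haQ
  refine ⟨(invW a J).card, card_invW P hP4 hexp hone ha2 hJ hacJ haJ hJ, ?_⟩
  have h1 := card_singProd P hexp hJ
  have h2 : ∀ w ∈ comInv J, (invW J w).card = (invW a J).card := by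
    intro w hw
    obtain ⟨hw2, hwJ, hwne⟩ := mem_comInv.mp hw
    have h3 := card_invW P hP4 hexp hone hJ hw2 hwJ.symm hwne.symm hJ
    have h4 := card_invW P hP4 hexp hone ha2 hJ hacJ haJ hJ
    exact Nat.eq_of_mul_eq_mul_right hcP (h3.trans h4.symm)
  rw [h1, Finset.sum_congr rfl h2, Finset.sum_const, card_comInv P hP4 hexp hJ ha2 hacJ haJ, smul_eq_mul]
  ring

end Klein

section Block

variable {G : Type u} [Group G] [Finite G] {M : Ideal AlgInt} [hMp : M.IsPrime]

/-- Characters of the principal block are constant on the singular elements. -/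
theorem principal_singular_value (hM : IsPModular 2 M) (P : Sylow 2 G) (hP4 : Nat.card P = 4)
    (hexp : ∀ x : P, x * x = 1)
    (hone : ∀ s t : G, orderOf s = 2 → orderOf t = 2 → IsConj s t) {χ : IrrCharacter G}
    (hχ : χ ∈ principalBlock M G) {J g : G} (hJ : orderOf J = 2) (hg : 2 ∣ orderOf g) :
    χ.1 g = χ.1 J := by
  classical
  obtain ⟨z, y, rfl, hc, hk, hy⟩ := exists_pPart (p := 2) g
  obtain ⟨k, hk'⟩ := hk
  have hzz : z * z = 1 := mul_self_of_two_element P hexp hk'
  have hz1 : z ≠ 1 := by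
    rintro rfl
    rw [one_mul] at hg
    exact hy hg
  have hz2 : orderOf z = 2 := by
    apply orderOf_eq_prime _ hz1
    rw [sq]
    exact hzz
  obtain ⟨T, N, hN, hc'⟩ := npc_centralizer P hP4 hexp hz2
  have hcop : (Nat.card N).Coprime 2 := by
    rw [Nat.coprime_comm, Nat.prime_two.coprime_iff_not_dvd]
    exact Cfsg.Agent.H01.not_dvd_card_of_complement T hc'
  let w : Subgroup.centralizer ({z} : Set G) :=
    ⟨y, Subgroup.mem_centralizer_singleton_iff.mpr hc.symm.eq⟩
  have hwo : orderOf w = orderOf y := Subgroup.orderOf_mk _ _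
  have hw : w ∈ N := by
    rw [Cfsg.Agent.H01.mem_normal_complement_iff T N hc' w, hwo,
      Nat.coprime_comm, Nat.prime_two.coprime_iff_not_dvd]
    exact hy
  haveI := hN
  have h1 := principal_mul_core hM (k := 1) (by rw [hz2, pow_one]) hχ N hcop hw
  have h2 : (w : G) = y := rfl
  rw [h2] at h1
  rw [h1]
  obtain ⟨c, hc2⟩ := isConj_iff.mp (hone _ _ hJ hz2)
  rw [← hc2, irr_conj']

theorem irr_real_of_involution (χ : IrrCharacter G) {J : G} (hJ : orderOf J = 2) :
    conj (χ.1 J) = χ.1 J := by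
  have hJ' : J * J = 1 := by rw [← sq, ← hJ, pow_orderOf_eq_one]
  have hJinv : J⁻¹ = J := inv_eq_of_mul_eq_one_left hJ'
  have h1 := isCharacter_inv (isCharacter_of_irr χ.2) J
  rw [hJinv] at h1
  exact h1.symm

/-- The indicator of the singular elements as a combination of the block. -/
theorem sum_sign_value (hM : IsPModular 2 M) (P : Sylow 2 G) (hP4 : Nat.card P = 4)
    (hexp : ∀ x : P, x * x = 1)
    (hone : ∀ s t : G, orderOf s = 2 → orderOf t = 2 → IsConj s t) {J : G} (hJ : orderOf J = 2)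
    (g : G) :
    ∑ χ : IrrCharacter G, eB (principalBlock M G) χ * (χ.1 g * χ.1 J) =
      if 2 ∣ orderOf g then 4 else 0 := by
  classical
  by_cases hg : 2 ∣ orderOf g
  · rw [if_pos hg, ← klein_norm_sum (M := M) hM P hP4 hexp hJ]
    refine Finset.sum_congr rfl fun χ _ => ?_
    by_cases hχ : χ ∈ principalBlock M G
    · rw [principal_singular_value hM P hP4 hexp hone hχ hJ hg, irr_real_of_involution χ hJ]
    · rw [eB_apply_not_mem hχ, zero_mul, zero_mul]
  · rw [if_neg hg]
    have h1 := block_orth_regular_singular hM (principalBlock_isBlock (M := M)) hg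
      (show 2 ∣ orderOf J by rw [hJ])
    rw [← h1]
    refine Finset.sum_congr rfl fun χ _ => ?_
    rw [irr_real_of_involution χ hJ]

/-- The main identity. -/
theorem klein_sum (hM : IsPModular 2 M) (P : Sylow 2 G) (hP4 : Nat.card P = 4)
    (hexp : ∀ x : P, x * x = 1)
    (hone : ∀ s t : G, orderOf s = 2 → orderOf t = 2 → IsConj s t) {J : G} (hJ : orderOf J = 2) :
    ∃ r : ℕ, r * Nat.card (Subgroup.centralizer ((P : Subgroup G) : Set G)) =
        Nat.card (Subgroup.centralizer ({J} : Set G)) ∧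
      ((Subgroup.centralizer ({J} : Set G)).index : ℂ) *
        ∑ χ : IrrCharacter G, eB (principalBlock M G) χ * (χ.1 J * χ.1 J * χ.1 J / χ.1 1) =
          8 * (r : ℂ) ^ 2 := by
  classical
  obtain ⟨r, hr, hcount⟩ := klein_count P hP4 hexp hone hJ
  refine ⟨r, hr, ?_⟩
  -- the double sum
  have h1 : ∑ x : G, classIndicator J x * ∑ χ : IrrCharacter G,
        eB (principalBlock M G) χ * (χ.1 (x * J) * χ.1 J) =
      ((4 * (singProd J).card : ℕ) : ℂ) := by
    have h2 : ∀ x : G, classIndicator J x * ∑ χ : IrrCharacter G,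
        eB (principalBlock M G) χ * (χ.1 (x * J) * χ.1 J) =
        if x ∈ singProd J then 4 else 0 := by
      intro x
      rw [sum_sign_value hM P hP4 hexp hone hJ]
      unfold classIndicator
      by_cases hx : orderOf x = 2
      · rw [if_pos (hone _ _ hx hJ)]
        by_cases h3 : 2 ∣ orderOf (x * J)
        · rw [if_pos h3, if_pos (mem_singProd.mpr ⟨hx, h3⟩), one_mul]
        · rw [if_neg h3, if_neg (fun h => h3 (mem_singProd.mp h).2), mul_zero]
      · have h4 : ¬ IsConj x J := by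
          intro h
          obtain ⟨c, hc⟩ := isConj_iff.mp h
          apply hx
          rw [← hJ, ← hc, orderOf_conj']
        rw [if_neg h4, zero_mul, if_neg (fun h => hx (mem_singProd.mp h).1)]
    rw [Finset.sum_congr rfl fun x _ => h2 x, Finset.sum_ite_mem, Finset.univ_inter,
      Finset.sum_const, nsmul_eq_mul]
    push_cast
    ring
  have h3 : ∑ x : G, classIndicator J x * ∑ χ : IrrCharacter G,
        eB (principalBlock M G) χ * (χ.1 (x * J) * χ.1 J) =
      ((Subgroup.centralizer ({J} : Set G)).index : ℂ) *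
        ∑ χ : IrrCharacter G, eB (principalBlock M G) χ * (χ.1 J * χ.1 J * χ.1 J / χ.1 1) := by
    simp only [Finset.mul_sum]
    rw [Finset.sum_comm]
    refine Finset.sum_congr rfl fun χ _ => ?_
    have h4 := sum_class_mul_char (classIndicator J) (classIndicator_isClass J) χ J
    rw [om_classIndicator] at h4
    unfold cc centralChar at h4
    have h5 : ∑ x : G, classIndicator J x * (eB (principalBlock M G) χ * (χ.1 (x * J) * χ.1 J)) =
        eB (principalBlock M G) χ * χ.1 J * ∑ x : G, classIndicator J x * χ.1 (x * J) := by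
      rw [Finset.mul_sum]
      refine Finset.sum_congr rfl fun x _ => ?_
      ring
    rw [h5, h4]
    ring
  rw [← h3, h1, hcount]
  push_cast
  ring

end Block

section NoComplement

variable {G : Type u} [Group G] [Finite G]

theorem four_enum {Q : Subgroup G} (hQ4 : Nat.card Q = 4) {a b : G} (ha : a ∈ Q) (hb : b ∈ Q)
    (ha1 : a ≠ 1) (hb1 : b ≠ 1) (hab : a ≠ b) (hb' : b * b = 1) :
    ∀ y ∈ Q, y = 1 ∨ y = a ∨ y = b ∨ y = a * b := by
  classical
  have h1 : a * b ≠ 1 := by
    intro h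
    apply hab
    have h2 : a = b⁻¹ := eq_inv_of_mul_eq_one_left h
    rw [h2, inv_eq_of_mul_eq_one_left hb']
  have h2 : a * b ≠ a := fun h => hb1 (mul_eq_left.mp h)
  have h3 : a * b ≠ b := fun h => ha1 (mul_eq_right.mp h)
  set F : Finset G := {1, a, b, a * b} with hF
  have hFcard : F.card = 4 := by
    rw [hF, Finset.card_insert_of_notMem, Finset.card_insert_of_notMem,
      Finset.card_insert_of_notMem, Finset.card_singleton]
    · simp [h3.symm]
    · simp [hab, h2.symm]
    · simp [ha1.symm, hb1.symm, h1.symm]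
  have hsub : F ⊆ Finset.univ.filter (· ∈ Q) := by
    intro x hx
    simp only [hF, Finset.mem_insert, Finset.mem_singleton] at hx
    simp only [Finset.mem_filter, Finset.mem_univ, true_and]
    rcases hx with rfl | rfl | rfl | rfl
    · exact Q.one_mem
    · exact ha
    · exact hb
    · exact Q.mul_mem ha hb
  have heq := Finset.eq_of_subset_of_card_le hsub (by rw [card_filter_subgroup, hQ4, hFcard])
  intro y hy
  have hy' : y ∈ F := by
    rw [heq]
    simpa using hy
  simpa [hF] using hy'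

theorem exists_conj_mem_sylow (P : Sylow 2 G) {g : G} {k : ℕ} (hg : orderOf g = 2 ^ k) :
    ∃ c : G, c * g * c⁻¹ ∈ (P : Subgroup G) := by
  obtain ⟨Q, hQ⟩ := exists_sylow_of_two_element hg
  obtain ⟨c, hc⟩ := MulAction.exists_smul_eq G Q P
  refine ⟨c, ?_⟩
  rw [← hc, Sylow.smul_def, Sylow.pointwise_smul_def, Subgroup.mem_pointwise_smul_iff_inv_smul_mem]
  convert hQ using 1
  simp only [MulAut.smul_def, MulAut.conj_apply, map_inv, MulAut.inv_def]
  simp
  group

/-- Reduction: no normal complement forces a four-group and one class of involutions. -/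
theorem klein_of_no_npc {g₀ : ℕ} (hg₀ : Odd g₀) (hG : Nat.card G = 4 * g₀)
    (hnc : ¬ ∃ N : Subgroup G, N.Normal ∧ Nat.card N = g₀) (P : Sylow 2 G) :
    Nat.card P = 4 ∧ (∀ x : P, x * x = 1) ∧
      ∀ s t : G, orderOf s = 2 → orderOf t = 2 → IsConj s t := by
  classical
  have hg₀pos : 0 < g₀ := hg₀.pos
  have hGne : Nat.card G ≠ 0 := Nat.card_pos.ne'
  have hfac : (Nat.card G).factorization 2 = 2 := by
    have h1 : 2 ^ 2 ∣ Nat.card G := ⟨g₀, by rw [hG]; norm_num⟩
    have h2 := (Nat.Prime.pow_dvd_iff_le_factorization Nat.prime_two hGne).mp h1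
    have h3 : ¬ 2 ^ 3 ∣ Nat.card G := by
      rw [hG]
      obtain ⟨k, rfl⟩ := hg₀
      omega
    have h4 : ¬ 3 ≤ (Nat.card G).factorization 2 := fun h =>
      h3 ((Nat.Prime.pow_dvd_iff_le_factorization Nat.prime_two hGne).mpr h)
    omega
  have hP4 : Nat.card P = 4 := by
    rw [Sylow.card_eq_multiplicity, hfac]
    norm_num
  have hnoc : ∀ N : Subgroup G, N.Normal → N.IsComplement' (P : Subgroup G) → False := by
    intro N hN hc
    apply hnc
    refine ⟨N, hN, ?_⟩
    have h1 := hc.card_mul_card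
    rw [hP4, hG] at h1
    omega
  have hexp : ∀ x : P, x * x = 1 := by
    intro x
    by_contra hx
    have h1 : orderOf x ∣ 2 ^ 2 := by
      have h0 : orderOf (x : (P : Subgroup G)) ∣ Nat.card (P : Subgroup G) := orderOf_dvd_natCard _
      have h2 : Nat.card (P : Subgroup G) = 2 ^ 2 := by rw [hP4]; norm_num
      rw [h2] at h0
      exact h0
    obtain ⟨k, hk, hk'⟩ := (Nat.dvd_prime_pow Nat.prime_two).mp h1
    have hk2 : k = 2 := by
      by_contra hne
      have h3 : k ≤ 1 := by omega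
      apply hx
      have h4 : x ^ 2 = 1 := by
        apply orderOf_dvd_iff_pow_eq_one.mp
        rw [hk']
        simpa using pow_dvd_pow 2 h3
      rwa [sq] at h4
    have hcyc : IsCyclic (P : Subgroup G) :=
      isCyclic_of_orderOf_eq_card x (by rw [hk', hk2, hP4]; norm_num)
    have hmin : (Nat.card G).minFac = 2 := by
      rw [Nat.minFac_eq_two_iff, hG]
      exact ⟨2 * g₀, by ring⟩
    exact hnoc _ (MonoidHom.normal_ker _) (IsCyclic.isComplement' hmin hcyc)
  refine ⟨hP4, hexp, ?_⟩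
  have hPexp : ∀ x ∈ (P : Subgroup G), x * x = 1 := fun x hx =>
    congrArg Subtype.val (hexp ⟨x, hx⟩)
  have hmax : ∀ w : G, (∃ k : ℕ, orderOf w = 2 ^ k) →
      (∀ h, h ∈ (P : Subgroup G) ↔ w * h * w⁻¹ ∈ (P : Subgroup G)) → w ∈ (P : Subgroup G) := by
    intro w hw hwN
    obtain ⟨k, hk⟩ := hw
    have hwp : IsPGroup 2 (Subgroup.zpowers w) := by
      apply IsPGroup.of_card (n := k)
      rw [Nat.card_zpowers, hk]
    have h1 := hwp.inf_normalizer_sylow P
    exact (Subgroup.mem_inf.mp (h1.le ⟨Subgroup.mem_zpowers w,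
      Subgroup.mem_normalizer_iff.mpr hwN⟩)).2
  -- an element of the normalizer acting nontrivially
  have hnot : ¬ (Subgroup.normalizer ((P : Subgroup G) : Set G) ≤
      Subgroup.centralizer ((P : Subgroup G) : Set G)) := by
    intro hle
    exact hnoc _ (MonoidHom.normal_ker _) (MonoidHom.ker_transferSylow_isComplement' P hle)
  obtain ⟨n, hnN, hnC⟩ := Set.not_subset.mp hnot
  have hnN' : ∀ h, h ∈ (P : Subgroup G) ↔ n * h * n⁻¹ ∈ (P : Subgroup G) :=
    Subgroup.mem_normalizer_iff.mp hnN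
  have hfpf : ∀ z ∈ (P : Subgroup G), z ≠ 1 → n * z * n⁻¹ ≠ z := by
    intro z hz hz1 hfix
    apply hnC
    rw [SetLike.mem_coe, Subgroup.mem_centralizer_iff]
    intro a ha
    refine klein_norm_comm hP4 hmax hPexp hz hz1 ?_ hnN' ha
    rw [mul_inv_eq_iff_eq_mul] at hfix
    exact hfix
  have hconjP : ∀ x ∈ (P : Subgroup G), x ≠ 1 → ∀ y ∈ (P : Subgroup G), y ≠ 1 → IsConj x y := by
    intro x hx hx1 y hy hy1
    have hb : n * x * n⁻¹ ∈ (P : Subgroup G) := (hnN' x).mp hx
    have hb1 : n * x * n⁻¹ ≠ 1 := by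
      intro h
      apply hx1
      rw [mul_inv_eq_one] at h
      exact mul_eq_left.mp h
    obtain ⟨b, hbdef⟩ : ∃ b, b = n * x * n⁻¹ := ⟨_, rfl⟩
    rw [← hbdef] at hb hb1
    have hxb : x ≠ b := by
      rw [hbdef]
      exact (hfpf x hx hx1).symm
    have hc : n * b * n⁻¹ ∈ (P : Subgroup G) := (hnN' b).mp hb
    have hc1 : n * b * n⁻¹ ≠ 1 := by
      intro h
      apply hb1
      rw [mul_inv_eq_one] at h
      exact mul_eq_left.mp h
    have hcb : n * b * n⁻¹ ≠ b := hfpf b hb hb1
    have hconj1 : IsConj x b := isConj_iff.mpr ⟨n, hbdef.symm⟩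
    have hconj2 : IsConj b (n * b * n⁻¹) := isConj_iff.mpr ⟨n, rfl⟩
    have henum := four_enum hP4 hx hb hx1 hb1 hxb (hPexp b hb)
    have hcx : n * b * n⁻¹ ≠ x := by
      intro hcx
      have hxbP : x * b ∈ (P : Subgroup G) := (P : Subgroup G).mul_mem hx hb
      have hxb1 : x * b ≠ 1 := by
        intro h
        apply hxb
        have h2 : x = b⁻¹ := eq_inv_of_mul_eq_one_left h
        rw [h2, inv_eq_of_mul_eq_one_left (hPexp b hb)]
      apply hfpf _ hxbP hxb1
      calc n * (x * b) * n⁻¹ = (n * x * n⁻¹) * (n * b * n⁻¹) := by group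
        _ = b * x := by rw [← hbdef, hcx]
        _ = x * b := sylow_comm hPexp hb hx
    have hcxb : n * b * n⁻¹ = x * b := by
      rcases henum _ hc with h | h | h | h
      · exact absurd h hc1
      · exact absurd h hcx
      · exact absurd h hcb
      · exact h
    rcases henum y hy with h | h | h | h
    · exact absurd h hy1
    · rw [h]
    · rw [h]
      exact hconj1
    · rw [h, ← hcxb]
      exact hconj1.trans hconj2
  intro s t hs ht
  obtain ⟨c, hc⟩ := exists_conj_mem_sylow P (g := s) (k := 1) (by rw [hs, pow_one])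
  obtain ⟨d, hd⟩ := exists_conj_mem_sylow P (g := t) (k := 1) (by rw [ht, pow_one])
  have hs1 : s ≠ 1 := by rintro rfl; simp at hs
  have ht1 : t ≠ 1 := by rintro rfl; simp at ht
  have hc1 : c * s * c⁻¹ ≠ 1 := by
    intro h
    apply hs1
    rw [mul_inv_eq_one] at h
    exact mul_eq_left.mp h
  have hd1 : d * t * d⁻¹ ≠ 1 := by
    intro h
    apply ht1
    rw [mul_inv_eq_one] at h
    exact mul_eq_left.mp h
  have h1 : IsConj s (c * s * c⁻¹) := isConj_iff.mpr ⟨c, rfl⟩
  have h2 : IsConj t (d * t * d⁻¹) := isConj_iff.mpr ⟨d, rfl⟩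
  exact h1.trans ((hconjP _ hc hc1 _ hd hd1).trans h2.symm)

end NoComplement

section Final

/-- Rational algebra. -/
theorem formula_alg (x₁ x₂ x₃ e₁ e₂ e₃ I r cP : ℚ) (h₁ : x₁ ≠ 0) (h₂ : x₂ ≠ 0) (h₃ : x₃ ≠ 0)
    (he₁ : e₁ ^ 2 = 1) (he₂ : e₂ ^ 2 = 1) (he₃ : e₃ ^ 2 = 1)
    (hrel : 1 + x₁ * e₁ + x₂ * e₂ + x₃ * e₃ = 0) (hp₁ : x₁ + e₁ ≠ 0) (hp₂ : x₂ + e₂ ≠ 0)
    (hp₃ : x₃ + e₃ ≠ 0) (hc : cP ≠ 0)
    (hid : I * (1 + e₁ ^ 3 / x₁ + e₂ ^ 3 / x₂ + e₃ ^ 3 / x₃) = 8 * r ^ 2) :
    I * (r * cP) = 8 * ((x₁ * x₂ * x₃) / ((x₁ + e₁) * (x₂ + e₂) * (x₃ + e₃))) * (r * cP) ^ 3 / cP ^ 2 := by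
  have h31 : e₁ ^ 3 = e₁ := by rw [pow_succ, he₁, one_mul]
  have h32 : e₂ ^ 3 = e₂ := by rw [pow_succ, he₂, one_mul]
  have h33 : e₃ ^ 3 = e₃ := by rw [pow_succ, he₃, one_mul]
  rw [h31, h32, h33] at hid
  have hid' : I * (x₁ * x₂ * x₃ + e₁ * x₂ * x₃ + e₂ * x₁ * x₃ + e₃ * x₁ * x₂) =
      8 * r ^ 2 * (x₁ * x₂ * x₃) := by
    rw [← hid]
    field_simp
  have hPi : (x₁ + e₁) * (x₂ + e₂) * (x₃ + e₃) =
      x₁ * x₂ * x₃ + e₁ * x₂ * x₃ + e₂ * x₁ * x₃ + e₃ * x₁ * x₂ := by
    linear_combination (e₁ * e₂ * e₃) * hrel - (e₂ * e₃ * x₁) * he₁ - (e₁ * e₃ * x₂) * he₂ -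
      (e₁ * e₂ * x₃) * he₃
  have key : I * ((x₁ + e₁) * (x₂ + e₂) * (x₃ + e₃)) = 8 * r ^ 2 * (x₁ * x₂ * x₃) := by
    rw [hPi, hid']
  have hPine : (x₁ + e₁) * (x₂ + e₂) * (x₃ + e₃) ≠ 0 := mul_ne_zero (mul_ne_zero hp₁ hp₂) hp₃
  have hI : I = 8 * r ^ 2 * (x₁ * x₂ * x₃) / ((x₁ + e₁) * (x₂ + e₂) * (x₃ + e₃)) := by
    rw [eq_div_iff hPine, key]
  rw [hI]
  field_simp

variable {G : Type u} [Group G] [Finite G] {M : Ideal AlgInt} [hMp : M.IsPrime]

theorem sum_block_four {χ₁ χ₂ χ₃ : IrrCharacter G}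
    (hB : principalBlock M G =
      {χ : IrrCharacter G | (χ : G → ℂ) = (fun _ => 1) ∨ χ = χ₁ ∨ χ = χ₂ ∨ χ = χ₃})
    (hdist : (χ₁ : G → ℂ) ≠ (fun _ => 1) ∧ (χ₂ : G → ℂ) ≠ (fun _ => 1) ∧
      (χ₃ : G → ℂ) ≠ (fun _ => 1) ∧ χ₁ ≠ χ₂ ∧ χ₁ ≠ χ₃ ∧ χ₂ ≠ χ₃) (f : IrrCharacter G → ℂ) :
    ∑ χ : IrrCharacter G, eB (principalBlock M G) χ * f χ = f (oneIrr G) + f χ₁ + f χ₂ + f χ₃ := by
  classical
  obtain ⟨h1, h2, h3, h12, h13, h23⟩ := hdist
  have hne : ∀ χ : IrrCharacter G, (χ : G → ℂ) ≠ (fun _ => 1) → oneIrr G ≠ χ := by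
    intro χ h he
    apply h
    rw [← he]
    rfl
  rw [sum_eB_eq_filter]
  have hS : Finset.univ.filter (· ∈ principalBlock M G) = {oneIrr G, χ₁, χ₂, χ₃} := by
    ext χ
    simp only [Finset.mem_filter, Finset.mem_univ, true_and, Finset.mem_insert,
      Finset.mem_singleton, hB, Set.mem_ofPred_eq]
    constructor
    · rintro (h | h)
      · left
        exact Subtype.ext h
      · exact Or.inr h
    · rintro (h | h)
      · left
        rw [h]
        rfl
      · exact Or.inr h
  rw [hS, Finset.sum_insert, Finset.sum_insert, Finset.sum_insert, Finset.sum_singleton]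
  · ring
  · simp [h23]
  · simp [h12, h13]
  · simp [hne χ₁ h1, hne χ₂ h2, hne χ₃ h3]

/-- The relations. -/
theorem klein_relations (hM : IsPModular 2 M) {g₀ : ℕ} (hg₀ : Odd g₀) (hG : Nat.card G = 4 * g₀)
    (hnc : ¬ ∃ N : Subgroup G, N.Normal ∧ Nat.card N = g₀) (P : Sylow 2 G) {J : G}
    (hJ2 : orderOf J = 2) (χ₁ χ₂ χ₃ : IrrCharacter G) (ε₁ ε₂ ε₃ : ℤ)
    (hB : principalBlock M G =
      {χ : IrrCharacter G | (χ : G → ℂ) = (fun _ => 1) ∨ χ = χ₁ ∨ χ = χ₂ ∨ χ = χ₃})
    (hdist : (χ₁ : G → ℂ) ≠ (fun _ => 1) ∧ (χ₂ : G → ℂ) ≠ (fun _ => 1) ∧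
      (χ₃ : G → ℂ) ≠ (fun _ => 1) ∧ χ₁ ≠ χ₂ ∧ χ₁ ≠ χ₃ ∧ χ₂ ≠ χ₃)
    (hval : (χ₁ : G → ℂ) J = ε₁ ∧ (χ₂ : G → ℂ) J = ε₂ ∧ (χ₃ : G → ℂ) J = ε₃) :
    ∃ r : ℕ, r * Nat.card (Subgroup.centralizer ((P : Subgroup G) : Set G)) =
        Nat.card (Subgroup.centralizer ({J} : Set G)) ∧
      ((Subgroup.centralizer ({J} : Set G)).index : ℚ) *
        (1 + (ε₁ : ℚ) ^ 3 / (charDegree χ₁.1 : ℚ) + (ε₂ : ℚ) ^ 3 / (charDegree χ₂.1 : ℚ) +
          (ε₃ : ℚ) ^ 3 / (charDegree χ₃.1 : ℚ)) = 8 * (r : ℚ) ^ 2 ∧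
      1 + (charDegree χ₁.1 : ℤ) * ε₁ + (charDegree χ₂.1 : ℤ) * ε₂ + (charDegree χ₃.1 : ℤ) * ε₃ = 0 ∧
      (4 : ℤ) ∣ (charDegree χ₁.1 : ℤ) - ε₁ ∧ (4 : ℤ) ∣ (charDegree χ₂.1 : ℤ) - ε₂ ∧
      (4 : ℤ) ∣ (charDegree χ₃.1 : ℤ) - ε₃ := by
  classical
  obtain ⟨hP4, hexp, hone⟩ := klein_of_no_npc hg₀ hG hnc P
  obtain ⟨r, hr, hid⟩ := klein_sum (M := M) hM P hP4 hexp hone hJ2
  have hs := sum_block_four (M := M) hB hdist
  obtain ⟨h1, h2, h3⟩ := hval
  have hdeg : ∀ χ : IrrCharacter G, χ.1 1 = (charDegree χ.1 : ℂ) := fun χ =>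
    one_eq_charDegree (isCharacter_of_irr χ.2)
  refine ⟨r, hr, ?_, ?_, ?_, ?_, ?_⟩
  · rw [hs] at hid
    apply Rat.cast_injective (α := ℂ)
    push_cast
    rw [← hid, hdeg χ₁, hdeg χ₂, hdeg χ₃, h1, h2, h3]
    have ho1 : (oneIrr G).1 J = 1 := rfl
    have ho2 : (oneIrr G).1 1 = 1 := rfl
    rw [ho1, ho2]
    ring
  · have h4 := sum_sign_value (M := M) hM P hP4 hexp hone hJ2 1
    rw [hs, if_neg (by simp), hdeg χ₁, hdeg χ₂, hdeg χ₃, h1, h2, h3] at h4
    have ho1 : (oneIrr G).1 J = 1 := rfl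
    have ho2 : (oneIrr G).1 1 = 1 := rfl
    rw [ho1, ho2] at h4
    have h5 : ((1 + (charDegree χ₁.1 : ℤ) * ε₁ + (charDegree χ₂.1 : ℤ) * ε₂ +
        (charDegree χ₃.1 : ℤ) * ε₃ : ℤ) : ℂ) = 0 := by
      push_cast
      linear_combination h4
    exact_mod_cast h5
  · obtain ⟨c, hc, hc4⟩ := klein_int P hP4 hexp hone χ₁ hJ2
    have : c = ε₁ := by
      have h5 : (c : ℂ) = ε₁ := by rw [← hc, h1]
      exact_mod_cast h5
    rwa [this] at hc4
  · obtain ⟨c, hc, hc4⟩ := klein_int P hP4 hexp hone χ₂ hJ2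
    have : c = ε₂ := by
      have h5 : (c : ℂ) = ε₂ := by rw [← hc, h2]
      exact_mod_cast h5
    rwa [this] at hc4
  · obtain ⟨c, hc, hc4⟩ := klein_int P hP4 hexp hone χ₃ hJ2
    have : c = ε₃ := by
      have h5 : (c : ℂ) = ε₃ := by rw [← hc, h3]
      exact_mod_cast h5
    rwa [this] at hc4

/-- **Brauer's order formula.** -/
theorem klein_order_formula (hM : IsPModular 2 M) {g₀ : ℕ} (hg₀ : Odd g₀) (hG : Nat.card G = 4 * g₀)
    (hnc : ¬ ∃ N : Subgroup G, N.Normal ∧ Nat.card N = g₀) (P : Sylow 2 G) {J : G}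
    (hJ2 : orderOf J = 2) (χ₁ χ₂ χ₃ : IrrCharacter G) (ε₁ ε₂ ε₃ : ℤ)
    (hB : principalBlock M G =
      {χ : IrrCharacter G | (χ : G → ℂ) = (fun _ => 1) ∨ χ = χ₁ ∨ χ = χ₂ ∨ χ = χ₃})
    (hdist : (χ₁ : G → ℂ) ≠ (fun _ => 1) ∧ (χ₂ : G → ℂ) ≠ (fun _ => 1) ∧
      (χ₃ : G → ℂ) ≠ (fun _ => 1) ∧ χ₁ ≠ χ₂ ∧ χ₁ ≠ χ₃ ∧ χ₂ ≠ χ₃)
    (hε : (ε₁ = 1 ∨ ε₁ = -1) ∧ (ε₂ = 1 ∨ ε₂ = -1) ∧ (ε₃ = 1 ∨ ε₃ = -1))
    (hval : (χ₁ : G → ℂ) J = ε₁ ∧ (χ₂ : G → ℂ) J = ε₂ ∧ (χ₃ : G → ℂ) J = ε₃) :
    (Nat.card G : ℚ) = 8 * (((charDegree (χ₁ : G → ℂ) : ℚ) * charDegree (χ₂ : G → ℂ) *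
      charDegree (χ₃ : G → ℂ)) / ((charDegree (χ₁ : G → ℂ) + ε₁) * (charDegree (χ₂ : G → ℂ) + ε₂) *
      (charDegree (χ₃ : G → ℂ) + ε₃))) * (Nat.card (Subgroup.centralizer ({J} : Set G)) : ℚ) ^ 3 /
      (Nat.card (Subgroup.centralizer ((P : Subgroup G) : Set G)) : ℚ) ^ 2 := by
  obtain ⟨r, hr, hid, hrel, h41, h42, h43⟩ :=
    klein_relations hM hg₀ hG hnc P hJ2 χ₁ χ₂ χ₃ ε₁ ε₂ ε₃ hB hdist hval
  obtain ⟨he1, he2, he3⟩ := hε
  have hposd : ∀ χ : IrrCharacter G, ((charDegree χ.1 : ℕ) : ℚ) ≠ 0 := by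
    intro χ
    have := irr_charDegree_pos χ.2
    exact_mod_cast this.ne'
  have hsq : ∀ e : ℤ, (e = 1 ∨ e = -1) → ((e : ℚ)) ^ 2 = 1 := by
    rintro e (rfl | rfl) <;> norm_num
  have hpne : ∀ (x : ℕ) (e : ℤ), (e = 1 ∨ e = -1) → (4 : ℤ) ∣ (x : ℤ) - e → (x : ℚ) + (e : ℚ) ≠ 0 := by
    intro x e he h4 h0
    have h5 : ((x : ℤ) + e : ℤ) = 0 := by
      have : (((x : ℤ) + e : ℤ) : ℚ) = 0 := by
        push_cast
        exact h0
      exact_mod_cast this
    omega
  have hrelQ : 1 + (charDegree χ₁.1 : ℚ) * ε₁ + (charDegree χ₂.1 : ℚ) * ε₂ +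
      (charDegree χ₃.1 : ℚ) * ε₃ = 0 := by
    exact_mod_cast hrel
  have hcard : (Nat.card G : ℚ) = ((Subgroup.centralizer ({J} : Set G)).index : ℚ) * (r * (Nat.card (Subgroup.centralizer ((P : Subgroup G) : Set G)) : ℚ)) := by
    have h1 := index_mul_card_centralizer J
    rw [← hr] at h1
    rw [← h1]
    push_cast
    ring
  have hcJ : (Nat.card (Subgroup.centralizer ({J} : Set G)) : ℚ) = r * (Nat.card (Subgroup.centralizer ((P : Subgroup G) : Set G)) : ℚ) := by
    rw [← hr]
    push_cast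
    ring
  rw [hcard, hcJ]
  exact formula_alg _ _ _ _ _ _ _ _ _ (hposd χ₁) (hposd χ₂) (hposd χ₃) (hsq _ he1) (hsq _ he2)
    (hsq _ he3) hrelQ (hpne _ _ he1 h41) (hpne _ _ he2 h42) (hpne _ _ he3 h43)
    (by exact_mod_cast Nat.card_pos.ne') hid

end Final

end Cfsg.Agent.H21
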