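import Cfsg.Agent.Lib.H21.PGroupSmall

/-!
Groups of order `p^4`.
-/

set_option autoImplicit false
set_option linter.style.haveILetI false
set_option linter.unusedSectionVars false

namespace Cfsg.Agent.H21

open Subgroup
open scoped commutatorElement

variable {P : Type*} [Group P]

/-- A nontrivial normal subgroup of a nilpotent group strictly contains its commutator with `P`. -/
theorem commutator_top_ne [Group.IsNilpotent P] {N : Subgroup P} (hN : N ≠ ⊥) :
    ⁅N, (⊤ : Subgroup P)⁆ ≠ N := by
  intro e
  obtain ⟨n, hn⟩ := (Subgroup.nilpotent_iff_lowerCentralSeries.1 (inferInstance : Group.IsNilpotent P))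
  have hall : ∀ i, N ≤ (⊤ : Subgroup P).lowerCentralSeries i := by
    intro i
    induction i with
    | zero => simp
    | succ i ih =>
      rw [Subgroup.lowerCentralSeries_succ]
      have : ⁅N, (⊤ : Subgroup P)⁆ ≤ ⁅(⊤ : Subgroup P).lowerCentralSeries i, (⊤ : Subgroup P)⁆ :=
        Subgroup.commutator_mono ih le_rfl
      rwa [e] at this
  have := hall n
  rw [hn] at this
  exact hN (le_bot_iff.1 this)

/-- `H ≤ K ≤ L`, `[L : H]` prime, and `K` not in `H`: then `L ≤ K`. -/
theorem le_of_prime_relIndex {H K L : Subgroup P} (hHK : H ≤ K) (hKL : K ≤ L)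
    (hp : (H.relIndex L).Prime) {g : P} (hg : g ∈ K) (hgH : g ∉ H) : L ≤ K := by
  have e := Subgroup.relIndex_mul_relIndex H K L hHK hKL
  have h1 : H.relIndex K ≠ 1 := by
    intro h
    exact hgH ((Subgroup.relIndex_eq_one.1 h) hg)
  have : K.relIndex L = 1 := by
    have hd : H.relIndex K ∣ H.relIndex L := Dvd.intro _ e
    rcases (Nat.dvd_prime hp).1 hd with h2 | h2
    · exact absurd h2 h1
    · rw [h2] at e
      have h0 : 0 < H.relIndex L := hp.pos
      exact Nat.eq_of_mul_eq_mul_left h0 (by rw [e, mul_one])
  exact Subgroup.relIndex_eq_one.1 this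

section Card4

variable [Finite P] {p : ℕ} [hp : Fact p.Prime]

theorem isPGroup_of_card (hP : Nat.card P = p ^ 4) : IsPGroup p P := IsPGroup.of_card hP

/-- `[P : Z(P)]` is not `1` or `p` when `P` is nonabelian. -/
theorem comm_of_center_index (hidx : (center P).index = 1 ∨ (center P).index = p) :
    ∀ a b : P, a * b = b * a := by
  have : IsCyclic (P ⧸ center P) := by
    rcases hidx with h | h
    · have h1 : Nat.card (P ⧸ center P) = 1 := h
      haveI : Subsingleton (P ⧸ center P) := (Nat.card_eq_one_iff_unique.1 h1).1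
      exact isCyclic_of_subsingleton
    · exact isCyclic_of_prime_card (p := p) h
  exact commutative_of_cyclic_center_quotient (QuotientGroup.mk' (center P))
    (by rw [QuotientGroup.ker_mk'])

theorem comm_of_commutator_eq_bot (h : commutator P = ⊥) (a b : P) : a * b = b * a := by
  have : ⁅a, b⁆ ∈ commutator P := by
    rw [_root_.commutator_def]
    exact Subgroup.commutator_mem_commutator (mem_top _) (mem_top _)
  rw [h, Subgroup.mem_bot, commutatorElement_eq_one_iff_mul_comm] at this
  exact this

theorem commutator_eq_bot_of_comm (h : ∀ a b : P, a * b = b * a) : commutator P = ⊥ := by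
  rw [_root_.commutator_def, eq_bot_iff, Subgroup.commutator_le]
  intro a _ b _
  rw [Subgroup.mem_bot, commutatorElement_eq_one_iff_mul_comm]
  exact h a b

/-- A quotient map with fibres the cosets of `C` shows `[P : C] ≤ |X|`. -/
theorem index_le_of_fibers {X : Type*} [Finite X] (C : Subgroup P) (F : P → X)
    (hF : ∀ g h, F g = F h ↔ g⁻¹ * h ∈ C) : C.index ≤ Nat.card X := by
  let q : P ⧸ C → X := fun z => Quotient.liftOn' z F
    (fun g h hgh => (hF g h).2 (QuotientGroup.leftRel_apply.1 hgh))
  have hq : Function.Injective q := by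
    intro u v
    induction u using QuotientGroup.induction_on with
    | H g =>
      induction v using QuotientGroup.induction_on with
      | H h =>
        intro e
        exact QuotientGroup.eq.2 ((hF g h).1 e)
  exact Nat.card_le_card_of_injective q hq

/-- `[P : C(a)] ≤ |P'|`. -/
theorem index_centralizer_le (a : P) :
    (centralizer ({a} : Set P)).index ≤ Nat.card (commutator P) := by
  apply index_le_of_fibers _ (fun g => (⟨⁅g, a⁆, by
      rw [_root_.commutator_def]
      exact Subgroup.commutator_mem_commutator (mem_top _) (mem_top _)⟩ : commutator P))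
  intro g h
  rw [Subgroup.mem_centralizer_singleton_iff, Subtype.mk.injEq]
  simp only [commutatorElement_def]
  constructor
  · intro e
    have e' : g * a * g⁻¹ = h * a * h⁻¹ := mul_right_cancel e
    calc g⁻¹ * h * a = g⁻¹ * (h * a * h⁻¹) * h := by group
      _ = g⁻¹ * (g * a * g⁻¹) * h := by rw [e']
      _ = a * (g⁻¹ * h) := by group
  · intro e
    have : h = g * (g⁻¹ * h) := by group
    have e2 : h * a * h⁻¹ = g * a * g⁻¹ := by
      calc h * a * h⁻¹ = g * ((g⁻¹ * h) * a) * h⁻¹ := by group
        _ = g * (a * (g⁻¹ * h)) * h⁻¹ := by rw [e]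
        _ = g * a * g⁻¹ := by group
    rw [e2]

theorem pow_of_dvd_p4 {n : ℕ} (h : n ∣ p ^ 4) : ∃ k ≤ 4, n = p ^ k :=
  (Nat.dvd_prime_pow hp.out).1 h

theorem index_center_of_card_commutator (hP : Nat.card P = p ^ 4)
    (h : Nat.card (commutator P) = p) : (center P).index = p ^ 2 := by
  have hpp := hp.out
  have hp1 := hpp.one_lt
  haveI nil : Group.IsNilpotent P := (IsPGroup.of_card hP).isNilpotent
  have hne : commutator P ≠ ⊥ := by
    intro e
    rw [e, Subgroup.card_bot] at h
    exact hp1.ne h
  obtain ⟨a, b, hab⟩ : ∃ a b : P, a * b ≠ b * a := by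
    by_contra hall
    push Not at hall
    exact hne (commutator_eq_bot_of_comm hall)
  have hcia : ∀ c : P, c ∉ center P → (centralizer ({c} : Set P)).index = p := by
    intro c hc
    have h1 := index_centralizer_le c
    rw [h] at h1
    have h2 : (centralizer ({c} : Set P)).index ∣ p ^ 4 := by
      rw [← hP]; exact Subgroup.index_dvd_card _
    obtain ⟨k, _, hk⟩ := pow_of_dvd_p4 h2
    rw [hk] at h1 ⊢
    have hk1 : k ≤ 1 := by
      by_contra hcon
      have : p ^ 2 ≤ p ^ k := Nat.pow_le_pow_right hpp.pos (by omega)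
      have h3 : p ^ 2 > p := by nlinarith
      omega
    interval_cases k
    · exfalso
      apply hc
      rw [pow_zero, Subgroup.index_eq_one] at hk
      rw [Subgroup.mem_center_iff]
      intro g
      have : g ∈ centralizer ({c} : Set P) := hk ▸ mem_top g
      exact (Subgroup.mem_centralizer_singleton_iff.1 this)
    · exact pow_one p
  have ha : a ∉ center P := fun hm => hab ((Subgroup.mem_center_iff.1 hm b).symm)
  have hb : b ∉ center P := fun hm => hab ((Subgroup.mem_center_iff.1 hm a))
  set Ca := centralizer ({a} : Set P) with hCa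
  set Cb := centralizer ({b} : Set P) with hCb
  have hCai : Ca.index = p := hcia a ha
  have hCbi : Cb.index = p := hcia b hb
  have haCa : a ∈ Ca := Subgroup.mem_centralizer_singleton_iff.2 rfl
  have hbCb : b ∈ Cb := Subgroup.mem_centralizer_singleton_iff.2 rfl
  have haCb : a ∉ Cb := fun hm => hab (Subgroup.mem_centralizer_singleton_iff.1 hm)
  have hbCa : b ∉ Ca := fun hm => hab (Subgroup.mem_centralizer_singleton_iff.1 hm).symm
  set A := Ca ⊓ Cb with hA
  have hACa : A ≤ Ca := inf_le_left
  have hle : A.index ≤ p * p := by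
    have : (Ca ⊓ Cb).index ≤ Ca.index * Cb.index := Subgroup.index_inf_le
    rwa [hCai, hCbi] at this
  have hmul := Subgroup.relIndex_mul_index hACa
  have hrel1 : A.relIndex Ca ≠ 1 := by
    intro e
    have := (Subgroup.relIndex_eq_one.1 e) haCa
    exact haCb this.2
  have hAidx : A.index = p ^ 2 := by
    have h2 : A.index ∣ p ^ 4 := by
      rw [← hP]; exact Subgroup.index_dvd_card _
    obtain ⟨k, _, hk⟩ := pow_of_dvd_p4 h2
    rw [hk] at hle hmul ⊢
    rw [hCai] at hmul
    have hrpos : A.relIndex Ca ≠ 0 := Subgroup.index_ne_zero_of_finite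
    have hgt : p * 2 ≤ p ^ k := by
      rw [← hmul, mul_comm]
      apply Nat.mul_le_mul_right
      omega
    have hk2 : k ≤ 2 := by
      by_contra hcon
      have : p ^ 3 ≤ p ^ k := Nat.pow_le_pow_right hpp.pos (by omega)
      have h3 : p ^ 3 > p * p := by nlinarith [sq_nonneg p]
      omega
    interval_cases k
    · simp at hgt; nlinarith
    · simp at hgt; nlinarith
    · rfl
  have hrelp : A.relIndex Ca = p := by
    rw [hAidx, hCai] at hmul
    apply Nat.eq_of_mul_eq_mul_right hpp.pos
    rw [hmul]; ring
  have hAcard : Nat.card A = p ^ 2 := by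
    have := Subgroup.card_mul_index A
    rw [hAidx, hP] at this
    apply Nat.eq_of_mul_eq_mul_right (pow_pos hpp.pos 2)
    rw [this]; ring
  have hAcomm := IsPGroup.commutative_of_card_eq_prime_sq hAcard
  have hAZ : A ≤ center P := by
    intro z hz
    let K := centralizer ({z} : Set P)
    have hAK : A ≤ K := by
      intro w hw
      apply Subgroup.mem_centralizer_singleton_iff.2
      have := hAcomm ⟨w, hw⟩ ⟨z, hz⟩
      exact congrArg Subtype.val this
    have haK : a ∈ K := by
      apply Subgroup.mem_centralizer_singleton_iff.2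
      have := Subgroup.mem_centralizer_singleton_iff.1 hz.1
      exact this.symm
    have hbK : b ∈ K := by
      apply Subgroup.mem_centralizer_singleton_iff.2
      have := Subgroup.mem_centralizer_singleton_iff.1 hz.2
      exact this.symm
    have h1 : Ca ≤ K ⊓ Ca := by
      apply le_of_prime_relIndex (H := A) (le_inf hAK hACa) inf_le_right (by rw [hrelp]; exact hpp)
        (⟨haK, haCa⟩ : a ∈ K ⊓ Ca)
      exact fun hm => haCb hm.2
    have hCK : Ca ≤ K := fun y hy => (h1 hy).1
    have h2 : (⊤ : Subgroup P) ≤ K := by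
      apply le_of_prime_relIndex (H := Ca) hCK le_top
        (by rw [Subgroup.relIndex_top_right, hCai]; exact hpp) hbK hbCa
    rw [Subgroup.mem_center_iff]
    intro g
    have := h2 (mem_top g)
    exact Subgroup.mem_centralizer_singleton_iff.1 this
  have hdvd : (center P).index ∣ p ^ 2 := by
    rw [← hAidx]
    exact Subgroup.index_dvd_of_le hAZ
  obtain ⟨k, hk2, hk⟩ := (Nat.dvd_prime_pow hpp).1 hdvd
  have hnc : ¬ ((center P).index = 1 ∨ (center P).index = p) := by
    intro hor
    exact hab (comm_of_center_index (p := p) hor a b)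
  interval_cases k
  · exact absurd (Or.inl (by simpa using hk)) hnc
  · exact absurd (Or.inr (by simpa using hk)) hnc
  · exact hk

theorem card_commutator_of_index_center (hP : Nat.card P = p ^ 4)
    (h : (center P).index = p ^ 2) : Nat.card (commutator P) = p := by
  have hpp := hp.out
  have hp1 := hpp.one_lt
  have hQcard : Nat.card (P ⧸ center P) = p ^ 2 := h
  have hQcomm := IsPGroup.commutative_of_card_eq_prime_sq hQcard
  have hcomm : ∀ g a : P, ⁅g, a⁆ ∈ center P := by
    intro g a
    rw [← QuotientGroup.eq_one_iff, commutatorElement_def]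
    simp only [QuotientGroup.mk_mul, QuotientGroup.mk_inv]
    rw [hQcomm (g : P ⧸ center P) (a : P ⧸ center P)]
    group
  obtain ⟨a, ha⟩ : ∃ a : P, a ∉ center P := by
    by_contra hall
    push Not at hall
    have : center P = ⊤ := eq_top_iff.2 (fun x _ => hall x)
    rw [this, Subgroup.index_top] at h
    have : p ^ 2 > 1 := by nlinarith
    omega
  -- the homomorphism `g ↦ [g, a]`
  let f : P →* P := MonoidHom.mk' (fun g => ⁅g, a⁆) (by
    intro g h
    have h1 := hcomm h a
    have e : ⁅g * h, a⁆ = g * ⁅h, a⁆ * g⁻¹ * ⁅g, a⁆ := by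
      simp only [commutatorElement_def]; group
    rw [e, Subgroup.mem_center_iff.1 h1 g, mul_inv_cancel_right]
    exact Subgroup.mem_center_iff.1 (hcomm g a) _)
  have hf : ∀ g, f g = ⁅g, a⁆ := fun g => rfl
  set T := f.range with hT
  have hTZ : T ≤ center P := by
    rintro _ ⟨g, rfl⟩
    exact hcomm g a
  haveI hTn : T.Normal := by
    constructor
    intro t ht g
    have := Subgroup.mem_center_iff.1 (hTZ ht) g
    rw [this]
    simpa using ht
  have hkerC : f.ker = centralizer ({a} : Set P) := by
    ext g
    rw [MonoidHom.mem_ker, hf, commutatorElement_eq_one_iff_mul_comm,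
      Subgroup.mem_centralizer_singleton_iff]
  set C := centralizer ({a} : Set P) with hC
  haveI hCn : C.Normal := by rw [← hkerC]; infer_instance
  have hZC : center P ≤ C := by
    intro z hz
    exact Subgroup.mem_centralizer_singleton_iff.2 (Subgroup.mem_center_iff.1 hz a).symm
  have haC : a ∈ C := Subgroup.mem_centralizer_singleton_iff.2 rfl
  have hmul := Subgroup.relIndex_mul_index hZC
  have hr1 : (center P).relIndex C ≠ 1 := by
    intro e
    exact ha ((Subgroup.relIndex_eq_one.1 e) haC)
  have hi1 : C.index ≠ 1 := by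
    intro e
    apply ha
    rw [Subgroup.index_eq_one] at e
    rw [Subgroup.mem_center_iff]
    intro g
    have : g ∈ C := e ▸ mem_top g
    exact Subgroup.mem_centralizer_singleton_iff.1 this
  have hCidx : C.index = p ∧ (center P).relIndex C = p := by
    rw [h] at hmul
    have hd : C.index ∣ p ^ 2 := Dvd.intro_left _ hmul
    obtain ⟨k, hk2, hk⟩ := (Nat.dvd_prime_pow hpp).1 hd
    interval_cases k
    · exact absurd (by simpa using hk) hi1
    · simp only [pow_one] at hk
      refine ⟨hk, ?_⟩
      rw [hk] at hmul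
      apply Nat.eq_of_mul_eq_mul_right hpp.pos
      rw [hmul]; ring
    · exfalso
      rw [hk] at hmul
      apply hr1
      have hp2 : 0 < p ^ 2 := pow_pos hpp.pos 2
      exact Nat.eq_of_mul_eq_mul_right hp2 (by rw [hmul, one_mul])
  have hTcard : Nat.card T = p := by
    rw [hT, ← Subgroup.index_ker f, hkerC]
    exact hCidx.1
  have hTC : T ≤ C := le_trans hTZ hZC
  have hcyc : IsCyclic (P ⧸ C) := isCyclic_of_prime_card (p := p) hCidx.1
  let W : Subgroup P := (center (P ⧸ T)).comap (QuotientGroup.mk' T)
  have hWmem : ∀ y : P, y ∈ W ↔ ∀ g : P, y * g * y⁻¹ * g⁻¹ ∈ T := by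
    intro y
    show ((y : P) : P ⧸ T) ∈ center _ ↔ _
    rw [Subgroup.mem_center_iff]
    constructor
    · intro hy g
      rw [← QuotientGroup.eq_one_iff]
      simp only [QuotientGroup.mk_mul, QuotientGroup.mk_inv]
      rw [(hy (g : P ⧸ T)).symm]
      group
    · intro hy q
      obtain ⟨g, rfl⟩ := QuotientGroup.mk_surjective q
      have h4 : ((y * g * y⁻¹ * g⁻¹ : P) : P ⧸ T) = 1 := (QuotientGroup.eq_one_iff _).2 (hy g)
      simp only [QuotientGroup.mk_mul, QuotientGroup.mk_inv] at h4
      have := mul_inv_eq_one.1 h4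
      exact (mul_inv_eq_iff_eq_mul.1 this).symm
  have hZW : center P ≤ W := by
    intro z hz
    rw [hWmem]
    intro g
    have : z * g * z⁻¹ * g⁻¹ = 1 := by
      rw [← commutatorElement_def, commutatorElement_eq_one_iff_mul_comm]
      exact (Subgroup.mem_center_iff.1 hz g).symm
    rw [this]
    exact one_mem _
  have haW : a ∈ W := by
    rw [hWmem]
    intro g
    have e : a * g * a⁻¹ * g⁻¹ = (f g)⁻¹ := by
      rw [hf]; simp only [commutatorElement_def]; group
    rw [e]
    exact T.inv_mem ⟨g, rfl⟩
  have hCW : C ≤ W ⊓ C := by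
    apply le_of_prime_relIndex (H := center P) (le_inf hZW hZC) inf_le_right
      (by rw [hCidx.2]; exact hpp) (⟨haW, haC⟩ : a ∈ W ⊓ C) ha
  have hcen : ∀ n ∈ C, ∀ g : P, n * g * n⁻¹ * g⁻¹ ∈ T := by
    intro n hn g
    exact (hWmem n).1 (hCW hn).1 g
  have hle : commutator P ≤ T := commutator_le_of_central_mod hTC hcyc hcen
  have hd : Nat.card (commutator P) ∣ p := by
    rw [← hTcard]
    exact Subgroup.card_dvd_of_le hle
  rcases (Nat.dvd_prime hpp).1 hd with h1 | h1
  · exfalso
    have hbot := Subgroup.eq_bot_of_card_eq _ h1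
    apply ha
    rw [Subgroup.mem_center_iff]
    intro g
    exact comm_of_commutator_eq_bot hbot g a
  · exact h1

end Card4

end Cfsg.Agent.H21
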