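import Mathlib

/-!
Small commutator computations in groups with a subgroup central modulo a normal subgroup.
-/

set_option autoImplicit false
set_option linter.style.haveILetI false
set_option linter.unusedSectionVars false

namespace Cfsg.Agent.H21

open Subgroup
open scoped commutatorElement

variable {P : Type*} [Group P]

/-- If `N ≥ R` are normal, `P/N` is cyclic and `N/R` is central in `P/R`, then `P' ≤ R`. -/
theorem commutator_le_of_central_mod {N R : Subgroup P} [hN : N.Normal] [hR : R.Normal]
    (hle : R ≤ N) (hc : IsCyclic (P ⧸ N)) (hcen : ∀ n ∈ N, ∀ g : P, n * g * n⁻¹ * g⁻¹ ∈ R) :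
    commutator P ≤ R := by
  let f : P ⧸ R →* P ⧸ N := QuotientGroup.map R N (MonoidHom.id P) (by simpa using hle)
  have hker : f.ker ≤ Subgroup.center (P ⧸ R) := by
    intro q hq
    obtain ⟨g, rfl⟩ := QuotientGroup.mk_surjective q
    have hg : g ∈ N := by
      have : f (g : P ⧸ R) = 1 := hq
      have h2 : ((g : P) : P ⧸ N) = 1 := this
      exact (QuotientGroup.eq_one_iff _).1 h2
    rw [Subgroup.mem_center_iff]
    intro q'
    obtain ⟨h, rfl⟩ := QuotientGroup.mk_surjective q'
    have h3 := hcen g hg h
    have h4 : ((g * h * g⁻¹ * h⁻¹ : P) : P ⧸ R) = 1 := (QuotientGroup.eq_one_iff _).2 h3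
    simp only [QuotientGroup.mk_mul, QuotientGroup.mk_inv] at h4
    have h5 : (g : P ⧸ R) * (h : P ⧸ R) = (h : P ⧸ R) * (g : P ⧸ R) := by
      have := mul_inv_eq_one.1 h4
      have h6 := mul_inv_eq_iff_eq_mul.1 this
      exact h6
    exact h5.symm
  have hcomm := commutative_of_cyclic_center_quotient f hker
  rw [_root_.commutator_def, Subgroup.commutator_le]
  intro a _ b _
  rw [← QuotientGroup.eq_one_iff, commutatorElement_def]
  simp only [QuotientGroup.mk_mul, QuotientGroup.mk_inv]
  rw [hcomm (a : P ⧸ R) (b : P ⧸ R)]
  group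

section S4586

variable [Finite P]

/-- Counting formula: `[P : P'] * |N'| = [P : N] * c(x)`, for `x` outside `N`, `N` of prime index. -/
theorem index_commutator_mul_card {p : ℕ} [hp : Fact p.Prime] (N : Subgroup P) [hNn : N.Normal]
    (hN : N.index = p) {x : P} (hx : x ∉ N) :
    (commutator P).index * Nat.card (commutator N) =
      p * Nat.card {n : N // x * n * x⁻¹ * (n : P)⁻¹ ∈ (commutator N).map N.subtype} := by
  classical
  -- conjugation by `x` on `N`
  let cx : N →* N := (MulAut.conjNormal x : MulAut N).toMonoidHom
  have hcx : ∀ n : N, ((cx n : N) : P) = x * n * x⁻¹ := fun n => by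
    simp [cx, MulAut.conjNormal_apply]
  let A := Abelianization N
  let φ : N →* A := (Abelianization.of.comp cx) / Abelianization.of
  have hφ : ∀ n : N, φ n = Abelianization.of (cx n) * (Abelianization.of n)⁻¹ := fun n => by
    simp [φ, div_eq_mul_inv]
  have hφ' : ∀ n : N, φ n = Abelianization.of (cx n * n⁻¹) := fun n => by
    rw [hφ, map_mul, map_inv]
  have hofker : ∀ m : N, Abelianization.of m = 1 ↔ m ∈ commutator N := by
    intro m
    show ((m : N) : N ⧸ commutator N) = 1 ↔ _
    exact QuotientGroup.eq_one_iff _
  have hkermem : ∀ n : N, n ∈ φ.ker ↔ x * n * x⁻¹ * (n : P)⁻¹ ∈ (commutator N).map N.subtype := by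
    intro n
    rw [MonoidHom.mem_ker, hφ', hofker]
    constructor
    · intro h
      refine ⟨_, h, ?_⟩
      simp [hcx]
    · rintro ⟨m, hm, hme⟩
      have : m = cx n * n⁻¹ := Subtype.ext (by
        rw [show (m : P) = x * n * x⁻¹ * (n : P)⁻¹ from hme]
        simp [hcx])
      rwa [← this]
  have hcard1 : Nat.card {n : N // x * n * x⁻¹ * (n : P)⁻¹ ∈ (commutator N).map N.subtype}
      = Nat.card φ.ker := by
    apply Nat.card_congr
    exact Equiv.subtypeEquivRight (fun n => (hkermem n).symm)
  let R : Subgroup N := φ.range.comap Abelianization.of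
  -- `P' = R`
  let R' : Subgroup P := R.map N.subtype
  have hR'le : R' ≤ N := by
    rintro _ ⟨r, _, rfl⟩
    exact r.2
  have hcommR : commutator N ≤ R := by
    intro m hm
    show Abelianization.of m ∈ φ.range
    rw [(hofker m).2 hm]
    exact one_mem _
  have hmemcomm : ∀ n : N, x * n * x⁻¹ * (n : P)⁻¹ ∈ R' := by
    intro n
    refine ⟨cx n * n⁻¹, ?_, ?_⟩
    · show Abelianization.of (cx n * n⁻¹) ∈ φ.range
      rw [← hφ']
      exact ⟨n, rfl⟩
    · simp [hcx]
  have hmemcomm2 : ∀ n m : N, (n : P) * m * (n : P)⁻¹ * (m : P)⁻¹ ∈ R' := by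
    intro n m
    refine ⟨⁅n, m⁆, hcommR (Subgroup.commutator_mem_commutator (mem_top _) (mem_top _)), ?_⟩
    simp [commutatorElement_def]
  have hR'n : R'.Normal := by
    have hnorm : normalizer (R' : Set P) = ⊤ := by
      have hNle : N ≤ normalizer (R' : Set P) := by
        intro n hn
        rw [Subgroup.mem_normalizer_iff]
        intro h
        by_cases hh : h ∈ N
        · have e1 : n * h * n⁻¹ = (n * h * n⁻¹ * h⁻¹) * h := by group
          have hc := hmemcomm2 ⟨n, hn⟩ ⟨h, hh⟩
          simp only at hc
          constructor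
          · intro hr
            rw [e1]
            exact R'.mul_mem hc hr
          · intro hr
            have : h = (n * h * n⁻¹ * h⁻¹)⁻¹ * (n * h * n⁻¹) := by group
            rw [this]
            exact R'.mul_mem (R'.inv_mem hc) hr
        · constructor
          · intro hr; exact absurd (hR'le hr) hh
          · intro hr
            exfalso
            apply hh
            have := hNn.conj_mem _ (hR'le hr) n⁻¹
            simpa [mul_assoc] using this
      have hxnorm : x ∈ normalizer (R' : Set P) := by
        rw [Subgroup.mem_normalizer_iff]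
        intro h
        by_cases hh : h ∈ N
        · have hc := hmemcomm ⟨h, hh⟩
          simp only at hc
          constructor
          · intro hr
            have e1 : x * h * x⁻¹ = (x * h * x⁻¹ * h⁻¹) * h := by group
            rw [e1]
            exact R'.mul_mem hc hr
          · intro hr
            have : h = (x * h * x⁻¹ * h⁻¹)⁻¹ * (x * h * x⁻¹) := by group
            rw [this]
            exact R'.mul_mem (R'.inv_mem hc) hr
        · constructor
          · intro hr; exact absurd (hR'le hr) hh
          · intro hr
            exfalso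
            apply hh
            have := hNn.conj_mem _ (hR'le hr) x⁻¹
            simpa [mul_assoc] using this
      -- `N` is maximal
      have hidx : (normalizer (R' : Set P)).index = 1 := by
        have h1 := Subgroup.relIndex_mul_index hNle
        rw [hN] at h1
        have hdvd : (normalizer (R' : Set P)).index ∣ p := Dvd.intro_left _ h1
        rcases (Nat.dvd_prime hp.out).1 hdvd with h2 | h2
        · exact h2
        · exfalso
          rw [h2] at h1
          have h3 : N.relIndex (normalizer (R' : Set P)) = 1 :=
            Nat.eq_of_mul_eq_mul_right hp.out.pos (by rw [h1, one_mul])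
          exact hx ((Subgroup.relIndex_eq_one.1 h3) hxnorm)
      exact Subgroup.index_eq_one.1 hidx
    exact Subgroup.normalizer_eq_top_iff.1 hnorm
  -- `N/R'` central modulo
  have hcyc : IsCyclic (P ⧸ N) := by
    apply isCyclic_of_prime_card (p := p)
    exact hN
  have hcen : ∀ n ∈ N, ∀ g : P, n * g * n⁻¹ * g⁻¹ ∈ R' := by
    intro n hn g
    -- the elements commuting with `n` modulo `R'`
    let W : Subgroup P := (Subgroup.centralizer ({((n : P) : P ⧸ R')} : Set (P ⧸ R'))).comap
      (QuotientGroup.mk' R')
    have hWmem : ∀ y : P, y ∈ W ↔ y * n * y⁻¹ * n⁻¹ ∈ R' := by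
      intro y
      show ((y : P) : P ⧸ R') ∈ Subgroup.centralizer _ ↔ _
      rw [Subgroup.mem_centralizer_singleton_iff, ← QuotientGroup.eq_one_iff]
      simp only [QuotientGroup.mk_mul, QuotientGroup.mk_inv]
      constructor
      · intro h
        rw [h]; group
      · intro h
        have := mul_inv_eq_one.1 h
        exact mul_inv_eq_iff_eq_mul.1 this
    have hNW : N ≤ W := by
      intro m hm
      rw [hWmem]
      exact hmemcomm2 ⟨m, hm⟩ ⟨n, hn⟩
    have hxW : x ∈ W := by
      rw [hWmem]
      exact hmemcomm ⟨n, hn⟩
    have hWtop : W = ⊤ := by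
      have hidx : W.index = 1 := by
        have h1 := Subgroup.relIndex_mul_index hNW
        rw [hN] at h1
        have hdvd : W.index ∣ p := Dvd.intro_left _ h1
        rcases (Nat.dvd_prime hp.out).1 hdvd with h2 | h2
        · exact h2
        · exfalso
          rw [h2] at h1
          have h3 : N.relIndex W = 1 :=
            Nat.eq_of_mul_eq_mul_right hp.out.pos (by rw [h1, one_mul])
          exact hx ((Subgroup.relIndex_eq_one.1 h3) hxW)
      exact Subgroup.index_eq_one.1 hidx
    have hg : g ∈ W := hWtop ▸ mem_top g
    have h2 := (hWmem g).1 hg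
    have e : n * g * n⁻¹ * g⁻¹ = (g * n * g⁻¹ * n⁻¹)⁻¹ := by group
    rw [e]
    exact R'.inv_mem h2
  have hle : commutator P ≤ R' := commutator_le_of_central_mod hR'le hcyc hcen
  have hge : R' ≤ commutator P := by
    rintro _ ⟨r, hr, rfl⟩
    obtain ⟨n, hn⟩ : Abelianization.of r ∈ φ.range := hr
    rw [hφ'] at hn
    have hm : cx n * n⁻¹ * r⁻¹ ∈ commutator N := by
      rw [← hofker, map_mul, map_inv, hn, mul_inv_cancel]
    have h1 : ((cx n * n⁻¹ * r⁻¹ : N) : P) ∈ commutator P := by
      have h3 : ((cx n * n⁻¹ * r⁻¹ : N) : P) ∈ (commutator N).map N.subtype :=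
        Subgroup.mem_map_of_mem _ hm
      rw [Subgroup.map_subtype_commutator] at h3
      exact Subgroup.commutator_mono le_top le_top h3
    have h2 : ((cx n * n⁻¹ : N) : P) ∈ commutator P := by
      have : ((cx n * n⁻¹ : N) : P) = x * n * x⁻¹ * (n : P)⁻¹ := by simp [hcx]
      rw [this, _root_.commutator_def]
      exact Subgroup.commutator_mem_commutator (mem_top _) (mem_top _)
    have e : (r : P) = ((cx n * n⁻¹ * r⁻¹ : N) : P)⁻¹ * ((cx n * n⁻¹ : N) : P) := by
      push_cast; group
    show (r : P) ∈ _
    rw [e]
    exact Subgroup.mul_mem _ (Subgroup.inv_mem _ h1) h2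
  have hEq : commutator P = R' := le_antisymm hle hge
  -- counting
  have hidx1 : (commutator P).index = p * R.index := by
    have e1 : R'.subgroupOf N = R := Subgroup.comap_map_eq_self_of_injective N.subtype_injective R
    have e2 := Subgroup.relIndex_mul_index hR'le
    rw [hEq, ← e2, hN, Subgroup.relIndex, e1, mul_comm]
  have hidx2 : R.index = φ.range.index :=
    Subgroup.index_comap_of_surjective _ (fun q => QuotientGroup.mk_surjective q)
  have c1 : Nat.card φ.ker * Nat.card φ.range = Nat.card N := by
    rw [← Subgroup.index_ker φ, Subgroup.card_mul_index]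
  have c2 : Nat.card φ.range * φ.range.index = Nat.card A := Subgroup.card_mul_index _
  have c3 : Nat.card (commutator N) * Nat.card A = Nat.card N := Subgroup.card_mul_index _
  rw [hcard1, hidx1, hidx2]
  have hr : 0 < Nat.card φ.range := Nat.card_pos
  apply Nat.eq_of_mul_eq_mul_right hr
  calc p * φ.range.index * Nat.card (commutator N) * Nat.card φ.range
      = p * (Nat.card (commutator N) * (Nat.card φ.range * φ.range.index)) := by ring
    _ = p * Nat.card N := by rw [c2, c3]
    _ = p * Nat.card φ.ker * Nat.card φ.range := by rw [← c1]; ring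

end S4586

end Cfsg.Agent.H21
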