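import Cfsg.Agent.Lib.H22.CentralRank
import Cfsg.Agent.Lib.H21.CentralProd

/-! # The p-regular rank of the block of a quotient, G = Q C(Q) -/

set_option autoImplicit false
set_option linter.unusedSectionVars false
set_option linter.style.haveILetI false
set_option linter.unusedSimpArgs false
set_option linter.unusedVariables false

namespace Cfsg.Agent.H21

open Cfsg Cfsg.Agent.H22 Module
open scoped ComplexConjugate

universe u

variable {K : Type u} [Group K] [Finite K] {p : ℕ} [hp : Fact p.Prime] {M : Ideal AlgInt}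

theorem card_reg_classes_le_cov (Z : Subgroup K) [Z.Normal] {k : ℕ}
    (hidx : (Subgroup.centralizer (Z : Set K)).index = p ^ k)
    (hZp : IsPGroup p Z) :
    Nat.card {c : ConjClasses K // ¬ p ∣ orderOf c.out} ≤
      Nat.card {c : ConjClasses (K ⧸ Z) // ¬ p ∣ orderOf c.out} := by
  classical
  haveI hCn : (Subgroup.centralizer (Z : Set K)).Normal := Cfsg.Agent.H01.centralizer_normal inferInstance
  have hout : ∀ {X : Type u} [Group X] (x : X), IsConj (ConjClasses.mk x).out x := fun x =>
    ConjClasses.mk_eq_mk_iff_isConj.mp (Quotient.out_eq' (ConjClasses.mk x))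
  have hord : ∀ {X : Type u} [Group X] {x y : X}, IsConj x y → orderOf x = orderOf y := by
    intro X _ x y h
    obtain ⟨c, rfl⟩ := isConj_iff.1 h
    exact (orderOf_injective (MulAut.conj c).toMonoidHom (MulEquiv.injective _) x).symm
  refine Nat.card_le_card_of_injective
    (fun c => ⟨ConjClasses.mk ((c.1.out : K) : K ⧸ Z), ?_⟩) ?_
  · intro h
    rw [hord (hout _)] at h
    exact c.2 (h.trans (orderOf_map_dvd (QuotientGroup.mk' Z) c.1.out))
  · rintro ⟨c, hc⟩ ⟨c', hc'⟩ h
    apply Subtype.ext
    have h1 : ConjClasses.mk ((c.out : K) : K ⧸ Z) = ConjClasses.mk ((c'.out : K) : K ⧸ Z) :=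
      congrArg Subtype.val h
    rw [ConjClasses.mk_eq_mk_iff_isConj, isConj_iff] at h1
    obtain ⟨g0, hg⟩ := h1
    obtain ⟨g, rfl⟩ := QuotientGroup.mk_surjective g0
    set x := c.out with hx
    set y := c'.out with hy
    have h2 : (((g * x * g⁻¹ : K)) : K ⧸ Z) = (y : K ⧸ Z) := by
      rw [← hg]
      rfl
    have hz : (g * x * g⁻¹)⁻¹ * y ∈ Z := QuotientGroup.eq.mp h2
    set z := (g * x * g⁻¹)⁻¹ * y with hzd
    have hyw : y = g * x * g⁻¹ * z := by
      rw [hzd]
      group
    set w := g * x * g⁻¹ with hw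
    have hcomm : Commute w z := by
      have hwreg : ¬ p ∣ orderOf w := by
        rw [hw, orderOf_conj']
        exact hc
      have hwC := regular_mem_of_index hidx hwreg
      exact (hwC z hz).symm
    set m := orderOf x * orderOf y with hm
    have hwm : w ^ m = 1 := by
      have h3 : orderOf w = orderOf x := hord (isConj_iff.2 ⟨g, rfl⟩ : IsConj x w).symm
      rw [hm, pow_mul, ← h3, pow_orderOf_eq_one, one_pow]
    have hym : y ^ m = 1 := by
      rw [hm, mul_comm, pow_mul, pow_orderOf_eq_one, one_pow]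
    have hzm : z ^ m = 1 := by
      have h3 := hcomm.mul_pow m
      rw [← hyw, hym, hwm, one_mul] at h3
      exact h3.symm
    have hz1 : z = 1 := by
      have h4 : orderOf z ∣ m := orderOf_dvd_of_pow_eq_one hzm
      obtain ⟨j, hj⟩ := (IsPGroup.iff_orderOf.1 hZp) ⟨z, hz⟩
      rw [Subgroup.orderOf_mk] at hj
      rw [hj] at h4
      rcases j with _ | j
      · rw [pow_zero] at hj
        exact orderOf_eq_one_iff.1 hj
      · exfalso
        have h5 : p ∣ m := (dvd_pow_self p (Nat.succ_ne_zero j)).trans h4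
        rcases (hp.out.dvd_mul).1 h5 with h6 | h6
        · exact hc h6
        · exact hc' h6
    have hconj : IsConj x y := by
      rw [isConj_iff]
      refine ⟨g, ?_⟩
      rw [hyw, hz1, mul_one]
    have hc1 : c = ConjClasses.mk x := (Quotient.out_eq' c).symm
    have hc2 : c' = ConjClasses.mk y := (Quotient.out_eq' c').symm
    exact hc1.trans ((ConjClasses.mk_eq_mk_iff_isConj.mpr hconj).trans hc2.symm)

/-- Inflation induces an equality of `p`-regular ranks of blocks. -/
theorem blockRank_infl_eq_cov (hM : IsPModular p M) (Z : Subgroup K) [hZn : Z.Normal] {k : ℕ}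
    (hidx : (Subgroup.centralizer (Z : Set K)).index = p ^ k) (hZp : IsPGroup p Z) (t : IrrCharacter (K ⧸ Z)) :
    blockRank p (blockOf M t.1) = blockRank p (blockOf M (inflIrr Z t).1) := by
  classical
  haveI : M.IsPrime := hM.2.1.isPrime
  let F : Set (IrrCharacter (K ⧸ Z)) → Set (IrrCharacter K) := fun b =>
    if h : b.Nonempty then blockOf M (inflIrr Z h.some).1 else ∅
  have hF : ∀ {b} (hb : IsPBlock M b) {u : IrrCharacter (K ⧸ Z)}, u ∈ b → F b = blockOf M (inflIrr Z u).1 := by
    intro b hb u hu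
    have hne : b.Nonempty := ⟨u, hu⟩
    simp only [F, dif_pos hne]
    have h1 : SameBlock M (inflIrr Z hne.some).1 (inflIrr Z u).1 :=
      sameBlock_inflate Z (block_sameBlock hb hne.some_mem hu)
    exact (H22.blockOf_eq_of_mem (χ := inflIrr Z hne.some) (ψ := inflIrr Z u) h1).symm
  have hle : ∀ b ∈ blocksF M (K ⧸ Z), blockRank p b ≤ blockRank p (F b) := by
    intro b hb
    have hb' := mem_blocksF.mp hb
    refine blockRank_le_of_infl Z (fun u hu => ?_)
    rw [hF hb' hu]
    exact self_mem_blockOf _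
  have hsum : ∑ b ∈ blocksF M (K ⧸ Z), blockRank p (F b) = ∑ B ∈ blocksF M K, blockRank p B := by
    refine Finset.sum_nbij F ?_ ?_ ?_ (fun _ _ => rfl)
    · intro b hb
      obtain ⟨u, hu⟩ := block_nonempty (mem_blocksF.mp hb)
      rw [hF (mem_blocksF.mp hb) hu]
      exact mem_blocksF.mpr (isBlock_blockOf _)
    · intro b hb b' hb' heq
      have hb1 := mem_blocksF.mp (Finset.mem_coe.mp hb)
      have hb2 := mem_blocksF.mp (Finset.mem_coe.mp hb')
      obtain ⟨u, hu⟩ := block_nonempty hb1
      obtain ⟨u', hu'⟩ := block_nonempty hb2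
      rw [hF hb1 hu, hF hb2 hu'] at heq
      have h1 : inflIrr Z u' ∈ blockOf M (inflIrr Z u).1 := by
        rw [heq]
        exact self_mem_blockOf _
      have h2 : SameBlock M u.1 u'.1 := (sameBlock_quot_iff hM hZp hidx u u').2 h1
      have h3 : u' ∈ b := blockSat_of_isBlock hb1 _ _ h2 hu
      exact block_eq_of_inter hb1 hb2 h3 hu'
    · intro B hB
      have hB' := mem_blocksF.mp (Finset.mem_coe.mp hB)
      obtain ⟨u, θ, hθ, hθeq⟩ := exists_inflation_in_block hM hZp hidx hB'
      have h1 : inflIrr Z u = θ := Subtype.ext hθeq.symm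
      refine ⟨blockOf M u.1, Finset.mem_coe.mpr (mem_blocksF.mpr (isBlock_blockOf u)), ?_⟩
      show F _ = B
      rw [hF (isBlock_blockOf u) (self_mem_blockOf u), h1]
      exact (block_eq_of_mem hB' hθ).symm
  have h1 := sum_blockRank_eq (p := p) (M := M) (K := K ⧸ Z) hM
  have h2 := sum_blockRank_eq (p := p) (M := M) (K := K) hM
  have h3 := card_reg_classes_le_cov (p := p) Z hidx hZp
  have hge : ∑ b ∈ blocksF M (K ⧸ Z), blockRank p (F b) ≤ ∑ b ∈ blocksF M (K ⧸ Z), blockRank p b := by
    rw [hsum, h1, h2]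
    exact h3
  have heq := (Finset.sum_eq_sum_iff_of_le hle).mp (le_antisymm (Finset.sum_le_sum hle) hge)
  have h4 := heq (blockOf M t.1) (mem_blocksF.mpr (isBlock_blockOf t))
  rw [h4, hF (isBlock_blockOf t) (self_mem_blockOf t)]


end Cfsg.Agent.H21
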