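import Cfsg.Agent.Lib.H21.KernelPPrime
import Cfsg.Agent.Lib.H21.RealMax
import Cfsg.Agent.Lib.H04.Cliff.Det
import Cfsg.Agent.Lib.H23.FullRam
import Cfsg.Agent.Lib.H23.AcdTwo
import Cfsg.Agent.Lib.H04.Cliff.Gallagher
import Cfsg.Agent.Lib.H04.Cliff.Extend
import Cfsg.Agent.Lib.H06.CharExtend
import Cfsg.Agent.Lib.H06.CharGalois
import Cfsg.Agent.Lib.H06.CharGallagher
import Cfsg.Agent.Lib.H23.LinInd
import Cfsg.Agent.Lib.H23.GalExt
import Cfsg.Agent.Lib.H21.CoverP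
import Cfsg.Agent.Lib.H04.Cliff.Degree

/-!
# Galois-fixed extensions across a cyclic `p`-quotient over the `p`-residual
-/

set_option autoImplicit false
set_option linter.unusedSectionVars false
set_option linter.style.haveILetI false
set_option linter.unusedSimpArgs false

namespace Cfsg.Agent.H21

open scoped ComplexConjugate
open Cfsg Module Cfsg.Agent.H22

universe u

section Ratio

variable {G : Type u} [Group G] [Finite G]

/-- Two extensions of an irreducible character across an abelian quotient differ by a linear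
character. -/
theorem exists_linear_ratio (N : Subgroup G) [hN : N.Normal]
    (hab : ∀ a b : G, a * b * a⁻¹ * b⁻¹ ∈ N) (θ : IrrCharacter N) (χ₁ χ₂ : IrrCharacter G)
    (h₁ : ∀ n : N, χ₁.1 n = θ.1 n) (h₂ : ∀ n : N, χ₂.1 n = θ.1 n) :
    ∃ l : G →* ℂˣ, (∀ n ∈ N, l n = 1) ∧ ∀ g, χ₂.1 g = (l g : ℂ) * χ₁.1 g := by
  classical
  have hinv : ∀ (g : G) (n : N), θ.1 ⟨g * n * g⁻¹, hN.conj_mem (n : G) n.2 g⟩ = θ.1 n := by
    intro g n
    rw [← h₁ n, ← h₁]
    exact isClassFunction_of_isCharacter (isCharacter_of_irr χ₁.2) n g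
  have hone : (fun _ : N => (1 : ℂ)) * θ.1 = θ.1 := by
    funext n
    simp
  have hbij := H04.Cliff.gallagher_bij N (φ := fun _ : N => (1 : ℂ)) (ϑ := θ.1) (oneIrr N).2
    (by rw [hone]; exact θ.2) (H04.Cliff.twist_of_inv N (fun _ _ => rfl))
    (H04.Cliff.twist_of_inv N hinv) (isCharacter_of_irr χ₁.2) h₁
  have hmem : χ₂.1 ∈ {ψ : G → ℂ | IsIrrCharacter G ψ ∧
      classInner (indFun N ((fun _ : N => (1 : ℂ)) * θ.1)) ψ ≠ 0} := by
    refine ⟨χ₂.2, ?_⟩
    rw [hone, frobenius_reciprocity N θ.1 χ₂.1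
      (isClassFunction_of_isCharacter (isCharacter_of_irr χ₂.2))]
    have h3 : (fun h : N => χ₂.1 h) = θ.1 := funext h₂
    rw [h3, H06.classInner_irr_self θ.2]
    exact one_ne_zero
  obtain ⟨β, ⟨hβ, hβN⟩, hβχ⟩ := hbij.surjOn hmem
  -- `β` has `N` in its kernel
  have hβN' := hβN
  rw [frobenius_reciprocity N _ β (isClassFunction_of_isCharacter (isCharacter_of_irr hβ))] at hβN'
  have hβN2 : classInner (fun n : N => β n) (oneIrr N).1 ≠ 0 := by
    intro h0
    apply hβN'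
    have : classInner (fun _ : N => (1 : ℂ)) (fun h : N => β h) =
        conj (classInner (fun n : N => β n) (oneIrr N).1) := by
      rw [classInner_comm_conj]
      rfl
    rw [this, h0]
    simp
  have hker : ∀ n : N, β n = β 1 := over_one_ker₂ N ⟨β, hβ⟩ hβN2
  obtain ⟨β', hβ', hcomp⟩ := exists_descend N hβ (fun n hn => hker ⟨n, hn⟩)
  have hcomm : ∀ a b : G ⧸ N, a * b = b * a := by
    intro a b
    obtain ⟨x, rfl⟩ := QuotientGroup.mk'_surjective N a
    obtain ⟨y, rfl⟩ := QuotientGroup.mk'_surjective N b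
    have h1 : QuotientGroup.mk' N (x * y * x⁻¹ * y⁻¹) = 1 := (QuotientGroup.eq_one_iff _).2 (hab x y)
    simp only [map_mul, map_inv] at h1
    have h2 := mul_inv_eq_one.1 h1
    have h3 := mul_inv_eq_iff_eq_mul.1 h2
    rw [h3]
  have hdeg := irr_degree_one_of_comm hcomm hβ'
  have hβ1 : β 1 = 1 := by
    have h1 := one_eq_charDegree (isCharacter_of_irr hβ')
    rw [hdeg] at h1
    rw [← hcomp]
    simpa using h1
  refine ⟨H04.Cliff.linU β (isCharacter_of_irr hβ) hβ1, ?_, ?_⟩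
  · intro n hn
    apply Units.ext
    rw [H04.Cliff.coe_linU]
    have := hker ⟨n, hn⟩
    rw [this, hβ1]
    rfl
  · intro g
    rw [H04.Cliff.coe_linU]
    have := congrFun hβχ g
    exact this.symm

end Ratio

section Galois

variable {G : Type u} [Group G] [Finite G]

/-- The character of the Galois twist. -/
theorem ringTwist_character_pow {d : ℕ} (ρ : Representation ℂ G (Fin d → ℂ)) {k : ℕ} (t : ℂ →+* ℂ)
    (ht : ∀ μ : ℂ, μ ^ Nat.card G = 1 → t μ = μ ^ k) (g : G) :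
    (H06.ringTwist ρ t).character g = ρ.character (g ^ k) := by
  rw [H06.ringTwist_character]
  obtain ⟨ι, _, b, μ, h1, h2, h3, -⟩ := exists_eigenbasis ρ g
  have hμ : ∀ i, μ i ^ Nat.card G = 1 := by
    intro i
    obtain ⟨c, hc⟩ := orderOf_dvd_natCard g
    rw [hc, pow_mul, h2, one_pow]
  simp only [Representation.character]
  rw [h3, map_sum]
  have hpow : ∀ i, ρ (g ^ k) (b i) = μ i ^ k • b i := by
    intro i
    rw [map_pow]
    have : ∀ m : ℕ, ((ρ g) ^ m) (b i) = μ i ^ m • b i := by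
      intro m
      induction m with
      | zero => simp
      | succ m ih => rw [pow_succ, Module.End.mul_apply, h1, map_smul, ih, smul_smul, pow_succ, mul_comm]
    exact this k
  rw [trace_of_eigenbasis _ b _ hpow]
  exact Finset.sum_congr rfl fun i _ => ht _ (hμ i)

/-- The determinant of the Galois twist. -/
theorem ringTwist_det {d : ℕ} (ρ : Representation ℂ G (Fin d → ℂ)) (t : ℂ →+* ℂ) (g : G) :
    LinearMap.det (H06.ringTwist ρ t g) = t (LinearMap.det (ρ g)) := by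
  show LinearMap.det (Matrix.toLin' ((LinearMap.toMatrix' (ρ g)).map t)) = _
  rw [LinearMap.det_toLin', ← LinearMap.det_toMatrix' (ρ g), RingHom.map_det]
  rfl

end Galois

section Fixed

variable {G : Type u} [Group G] [Finite G] {p : ℕ} [hp : Fact p.Prime]

/-- There is an extension fixed by the Galois action. -/
theorem exists_fixed_ext (N : Subgroup G) [hN : N.Normal] (hres : N = pResidual p G)
    (hcyc : IsCyclic (G ⧸ N)) {m : ℕ} (hm : N.index = p ^ m) {k : ℕ}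
    (hk : k.Coprime (Nat.card G)) (θ : IrrCharacter N)
    (hinv : ∀ (g : G) (n : N), θ.1 ⟨g * n * g⁻¹, hN.conj_mem (n : G) n.2 g⟩ = θ.1 n)
    (hdeg : ¬ p ∣ charDegree θ.1) (hfix : ∀ n : N, θ.1 (n ^ k) = θ.1 n) :
    ∃ χ : IrrCharacter G, (∀ n : N, χ.1 n = θ.1 n) ∧ ∀ g, χ.1 (g ^ k) = χ.1 g := by
  classical
  have hpp : p.Prime := hp.out
  obtain ⟨η, hη⟩ := H23.ext_char_of_cyclic N hcyc θ hinv
  obtain ⟨d, τ₀, hirr₀, hτ₀⟩ := η.2
  have hdη : d = charDegree θ.1 := by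
    have h1 := one_eq_charDegree (isCharacter_of_irr θ.2)
    have h2 : η.1 1 = θ.1 1 := hη 1
    rw [← hτ₀] at h2
    have h3 : τ₀.character 1 = (d : ℂ) := by
      simp [Representation.character, LinearMap.trace_one]
    rw [h3, h1] at h2
    exact_mod_cast h2
  have hpd : ¬ p ∣ d := hdη ▸ hdeg
  -- the factorisation of the group order
  obtain ⟨a, r, hpr, hcard⟩ : ∃ a r : ℕ, ¬ p ∣ r ∧ Nat.card G = p ^ a * r := by
    refine ⟨(Nat.card G).factorization p, Nat.card G / p ^ (Nat.card G).factorization p, ?_, ?_⟩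
    · exact Nat.not_dvd_ordCompl hpp Nat.card_pos.ne'
    · exact (Nat.ordProj_mul_ordCompl_eq_self _ _).symm
  let D₀ : G →* ℂˣ := H04.Cliff.detU τ₀
  have hD₀card : ∀ g, (D₀ g) ^ Nat.card G = 1 := by
    intro g
    rw [← map_pow, pow_card_eq_one', map_one]
  have hDN : ∀ n ∈ N, (D₀ n) ^ r = 1 := by
    intro n hn
    rw [hres] at hn
    induction hn using Subgroup.closure_induction with
    | mem x hx =>
      have hco : Nat.Coprime (orderOf x) (p ^ a) := Nat.Coprime.pow_right _ hx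
      have hdv : orderOf x ∣ p ^ a * r := hcard ▸ orderOf_dvd_natCard x
      have hdv2 : orderOf x ∣ r := hco.dvd_of_dvd_mul_left hdv
      rw [← map_pow, orderOf_dvd_iff_pow_eq_one.1 hdv2, map_one]
    | one => simp
    | mul x y _ _ hx hy => rw [map_mul, mul_pow, hx, hy, one_mul]
    | inv x _ hx => rw [map_inv, inv_pow, hx, inv_one]
  -- the choice of the exponent
  obtain ⟨s, hs⟩ : ∃ s : ℕ, p ^ a ∣ 1 + r * s * d := by
    haveI : NeZero (p ^ a) := ⟨pow_ne_zero _ hpp.ne_zero⟩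
    have hco : Nat.Coprime (r * d) (p ^ a) := by
      apply Nat.Coprime.pow_right
      rw [Nat.coprime_comm, Nat.Prime.coprime_iff_not_dvd hpp, hpp.dvd_mul]
      tauto
    refine ⟨(-((r * d : ℕ) : ZMod (p ^ a))⁻¹).val, ?_⟩
    rw [← ZMod.natCast_eq_zero_iff]
    push_cast
    rw [ZMod.natCast_zmod_val]
    have h1 := ZMod.coe_mul_inv_eq_one (r * d) hco
    push_cast at h1
    have h2 : (1 : ZMod (p ^ a)) + (r : ZMod (p ^ a)) * (-((r : ZMod (p ^ a)) * d)⁻¹) * d =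
        1 - ((r : ZMod (p ^ a)) * d) * ((r : ZMod (p ^ a)) * d)⁻¹ := by
      ring
    rw [h2, h1, sub_self]
  let γ : G →* ℂˣ := D₀ ^ (r * s)
  have hγN : ∀ n ∈ N, γ n = 1 := by
    intro n hn
    show (D₀ n) ^ (r * s) = 1
    rw [pow_mul, hDN n hn, one_pow]
  let f : G →* ℂ := (Units.coeHom ℂ).comp γ
  have hfval : ∀ g, f g = (γ g : ℂ) := fun g => rfl
  let τ : Representation ℂ G (Fin d → ℂ) := H06.scalarTwist τ₀ f
  have hfin : finrank ℂ (Fin d → ℂ) = d := by simp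
  have hτdet : ∀ g, LinearMap.det (τ g) = ((D₀ g) ^ (1 + r * s * d) : ℂˣ) := by
    intro g
    rw [H06.scalarTwist_det, hfin, hfval]
    have hD : LinearMap.det (τ₀ g) = (D₀ g : ℂ) := rfl
    rw [hD]
    have hγ : γ g = (D₀ g) ^ (r * s) := rfl
    rw [hγ, add_comm, pow_add, pow_mul _ (r * s) d, pow_one]
    push_cast
    rfl
  have hτdetr : ∀ g, (LinearMap.det (τ g)) ^ r = 1 := by
    intro g
    rw [hτdet]
    obtain ⟨c, hc⟩ := hs
    have h1 : ((D₀ g) ^ (1 + r * s * d)) ^ r = 1 := by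
      rw [← pow_mul, hc]
      have h2 : p ^ a * c * r = Nat.card G * c := by
        rw [hcard]
        ring
      rw [h2, pow_mul, hD₀card, one_pow]
    have h3 := congrArg (Units.val) h1
    simpa using h3
  let χ : IrrCharacter G := ⟨fun g => (γ g : ℂ) * η.1 g,
    H06.isIrr_linear_mul η.2 (H23.isCharacter_hom γ) (H23.charDegree_hom γ)⟩
  have hχN : ∀ n : N, χ.1 n = θ.1 n := by
    intro n
    show (γ n : ℂ) * η.1 n = _
    rw [hγN n n.2, hη n]
    simp
  have hχτ : τ.character = χ.1 := by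
    funext g
    rw [H06.scalarTwist_character, hτ₀]
    rfl
  refine ⟨χ, hχN, ?_⟩
  -- the Galois conjugate of `χ`
  let χ₂ : IrrCharacter G := ⟨fun g => χ.1 (g ^ k), H06.isIrrCharacter_comp_pow hk χ.2⟩
  have hχ₂N : ∀ n : N, χ₂.1 n = θ.1 n := by
    intro n
    show χ.1 ((n : G) ^ k) = _
    have h1 : ((n : G) ^ k) = ((n ^ k : N) : G) := by simp
    rw [h1, hχN, hfix]
  have hquot : ∀ x y : G, x * y * x⁻¹ * y⁻¹ ∈ N := by
    intro x y
    have hc := (inferInstance : IsCyclic (G ⧸ N))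
    have hcomm := IsCyclic.isMulCommutative (α := G ⧸ N)
    rw [← QuotientGroup.eq_one_iff]
    simp only [QuotientGroup.mk_mul, QuotientGroup.mk_inv]
    rw [hcomm.is_comm.comm (x : G ⧸ N) y]
    group
  obtain ⟨l, hlN, hl⟩ := exists_linear_ratio N hquot θ χ χ₂ hχN hχ₂N
  obtain ⟨t, ht⟩ := H06.exists_galois_ringHom (n := Nat.card G) Nat.card_pos.ne' hk
  have hrep2 : (H06.ringTwist τ t).character = χ₂.1 := by
    funext g
    rw [ringTwist_character_pow τ t ht, hχτ]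
  have hrep1 : (H06.scalarTwist τ ((Units.coeHom ℂ).comp l)).character = χ₂.1 := by
    funext g
    rw [H06.scalarTwist_character, hχτ, hl]
    rfl
  have hdetrel : ∀ g, ((l g : ℂ)) ^ d * LinearMap.det (τ g) = (LinearMap.det (τ g)) ^ k := by
    intro g
    have h1 := H06.det_eq_of_character_eq _ _ (hrep1.trans hrep2.symm) g
    rw [H06.scalarTwist_det, ringTwist_det, hfin] at h1
    have h2 : t (LinearMap.det (τ g)) = (LinearMap.det (τ g)) ^ k := by
      apply ht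
      rw [hcard, mul_comm, pow_mul, hτdetr g, one_pow]
    rw [h2] at h1
    exact h1
  have hl1 : ∀ g, l g = 1 := by
    intro g
    have h1 : (l g) ^ (d * r) = 1 := by
      apply Units.ext
      have h2 := congrArg (fun z : ℂ => z ^ r) (hdetrel g)
      simp only [mul_pow] at h2
      have h4 : (LinearMap.det (τ g) ^ k) ^ r = 1 := by
        rw [← pow_mul, mul_comm k r, pow_mul, hτdetr g, one_pow]
      rw [hτdetr g, mul_one, h4, ← pow_mul] at h2
      push_cast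
      exact h2
    have h2 : (l g) ^ (p ^ m) = 1 := by
      have h3 : g ^ p ^ m ∈ N := by
        rw [← QuotientGroup.eq_one_iff, QuotientGroup.mk_pow, ← hm]
        rw [Subgroup.index_eq_card]
        exact pow_card_eq_one'
      rw [← map_pow, hlN _ h3]
    have hco : Nat.Coprime (d * r) (p ^ m) := by
      apply Nat.Coprime.pow_right
      rw [Nat.coprime_comm, Nat.Prime.coprime_iff_not_dvd hpp, hpp.dvd_mul]
      tauto
    have h3 := pow_gcd_eq_one.2 ⟨h1, h2⟩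
    rwa [hco.gcd_eq_one, pow_one] at h3
  intro g
  have h1 := hl g
  rw [hl1 g] at h1
  simpa using h1

end Fixed

section Count

variable {G : Type u} [Group G] [Finite G] {p : ℕ} [hp : Fact p.Prime]

/-- The quotient by the `p`-residual is a `p`-group. -/
theorem index_residual (N : Subgroup G) [hN : N.Normal] (hres : N = pResidual p G) :
    ∃ m : ℕ, N.index = p ^ m := by
  have hq : IsPGroup p (G ⧸ N) := by
    intro y
    obtain ⟨g, rfl⟩ := QuotientGroup.mk'_surjective N y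
    obtain ⟨a, b, rfl, -, ⟨j, hj⟩, hb⟩ := exists_pPart_decomp p g
    refine ⟨j, ?_⟩
    have hbN : b ∈ N := by
      rw [hres]
      exact Subgroup.subset_closure hb
    have h1 : QuotientGroup.mk' N b = 1 := (QuotientGroup.eq_one_iff b).2 hbN
    rw [map_mul, h1, mul_one, ← map_pow, ← hj, pow_orderOf_eq_one, map_one]
  obtain ⟨m, hm⟩ := IsPGroup.iff_card.1 hq
  exact ⟨m, by rw [Subgroup.index_eq_card, hm]⟩

/-- The exponent `k` is prime to the group order. -/
theorem coprime_of_gal {k : ℕ} (hk₁ : ∀ g : G, (∃ j : ℕ, orderOf g = p ^ j) → g ^ k = g ^ (1 + p))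
    (hk₂ : ∀ g : G, Nat.Coprime (orderOf g) p → g ^ k = g) : k.Coprime (Nat.card G) := by
  refine Nat.Coprime.symm (Nat.coprime_of_dvd ?_)
  intro r hr hrG hrk
  haveI : Fact r.Prime := ⟨hr⟩
  obtain ⟨g, hg⟩ := exists_prime_orderOf_dvd_card' r hrG
  have hpp : p.Prime := hp.out
  have h1 : g ^ k = g := by
    by_cases hrp : r = p
    · subst hrp
      rw [hk₁ g ⟨1, by rw [hg, pow_one]⟩, pow_add, pow_one, ← hg, pow_orderOf_eq_one, mul_one]
    · exact hk₂ g (by rw [hg]; exact (Nat.coprime_primes hr hpp).2 hrp)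
  obtain ⟨c, rfl⟩ := hrk
  have h2 : g ^ (r * c) = 1 := by
    rw [pow_mul, ← hg, pow_orderOf_eq_one, one_pow]
  rw [h2] at h1
  have h3 : orderOf g = 1 := by
    rw [← h1]
    exact orderOf_one
  rw [hg] at h3
  exact hr.one_lt.ne' h3

/-- The Galois action on linear characters over the `p`-residual. -/
theorem lin_pow (N : Subgroup G) (hres : N = pResidual p G) {k : ℕ}
    (hk₁ : ∀ g : G, (∃ j : ℕ, orderOf g = p ^ j) → g ^ k = g ^ (1 + p))
    (hk₂ : ∀ g : G, Nat.Coprime (orderOf g) p → g ^ k = g) (l : G →* ℂˣ) (hl : ∀ n ∈ N, l n = 1)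
    (g : G) : l (g ^ k) = (l g) ^ (1 + p) := by
  obtain ⟨a, b, rfl, hcomm, ha, hb⟩ := exists_pPart_decomp p g
  have hbN : b ∈ N := by
    rw [hres]
    exact Subgroup.subset_closure hb
  rw [hcomm.mul_pow, hk₁ a ha, hk₂ b hb, map_mul, map_mul, map_pow, hl b hbN, mul_one, mul_one]

/-- Extensions of members of the principal block lie in the principal block. -/
theorem mem_principal_of_ext {M : Ideal AlgInt} (hM : IsPModular p M) (N : Subgroup G)
    [hN : N.Normal] {m : ℕ} (hm : N.index = p ^ m) (θ : IrrCharacter N)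
    (hθ : θ ∈ principalBlock M N) (χ : IrrCharacter G) (h : ∀ n : N, χ.1 n = θ.1 n) :
    χ ∈ principalBlock M G := by
  classical
  haveI : M.IsPrime := hM.2.1.isPrime
  have hone : ∑ n : N, conj ((oneIrr N).1 n) * (oneIrr G).1 n ≠ 0 := by
    have h2 : ∀ n : N, conj ((oneIrr N).1 n) * (oneIrr G).1 n = 1 := by
      intro n
      unfold oneIrr
      simp
    simp only [h2]
    simp only [Finset.sum_const, Finset.card_univ, nsmul_eq_mul, mul_one]
    exact_mod_cast Fintype.card_ne_zero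
  have hover : ∑ n : N, conj (θ.1 n) * χ.1 n ≠ 0 := by
    have h2 : ∀ n : N, conj (θ.1 n) * χ.1 n = ((‖θ.1 n‖ ^ 2 : ℝ) : ℂ) := by
      intro n
      rw [h n, Complex.conj_mul']
      push_cast
      rfl
    simp only [h2]
    rw [← Complex.ofReal_sum, sum_norm_sq]
    exact_mod_cast Nat.card_pos.ne'
  obtain ⟨B', -, huniq⟩ := existsUnique_cover_pIndex (G := G) (N := N) hM ⟨m, hm⟩
    (b := principalBlock M N) principalBlock_isBlock
  have hB1 := huniq (principalBlock M G) ⟨principalBlock_isBlock, oneIrr G, oneIrr_mem_principal,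
    oneIrr N, oneIrr_mem_principal, hone⟩
  have hB2 := huniq (blockOf M χ.1) ⟨isBlock_blockOf χ, χ, self_mem_blockOf χ, θ, hθ, hover⟩
  rw [hB1, ← hB2]
  exact self_mem_blockOf χ

/-- Cancelling an extension in a product with characters trivial on `N`. -/
theorem ext_cancel (N : Subgroup G) [hN : N.Normal] (θ : IrrCharacter N) (χ : IrrCharacter G)
    (h : ∀ n : N, χ.1 n = θ.1 n) (β β' : G → ℂ) (hβ : ∀ (n : N) (g : G), β (n * g) = β g)
    (hβ' : ∀ (n : N) (g : G), β' (n * g) = β' g) (heq : ∀ g, β g * χ.1 g = β' g * χ.1 g) (g : G) :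
    β g = β' g := by
  have hres : classInner (fun n : N => χ.1 n) (fun n : N => χ.1 n) = 1 := by
    have h3 : (fun n : N => χ.1 n) = θ.1 := funext h
    rw [h3, H06.classInner_irr_self θ.2]
  exact H23.gallagher_step N χ.2 hres β β' hβ hβ' heq g

/-- The count of Galois-fixed characters of degree prime to `p` in the principal block. -/
theorem count_main (M : Ideal AlgInt) (hM : IsPModular p M) (P : Sylow p G) (N : Subgroup G)
    [hN : N.Normal] (hNres : N = pResidual p G) (hcyc : IsCyclic (G ⧸ N)) (hnt : N ≠ ⊤) (k : ℕ)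
    (hk₁ : ∀ g : G, (∃ j : ℕ, orderOf g = p ^ j) → g ^ k = g ^ (1 + p))
    (hk₂ : ∀ g : G, Nat.Coprime (orderOf g) p → g ^ k = g) :
    Nat.card {χ : IrrCharacter G // χ ∈ principalBlock M G ∧ ¬ p ∣ charDegree (χ : G → ℂ) ∧
      ∀ g : G, (χ : G → ℂ) (g ^ k) = (χ : G → ℂ) g} =
    p * Nat.card {θ : IrrCharacter ↥N // θ ∈ principalBlock M ↥N ∧ ¬ p ∣ charDegree (θ : ↥N → ℂ) ∧
      (∀ x ∈ (P : Subgroup G), ∀ n : ↥N, (θ : ↥N → ℂ) ⟨x * n * x⁻¹, hN.conj_mem n n.2 x⟩ =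
        (θ : ↥N → ℂ) n) ∧ ∀ n : ↥N, (θ : ↥N → ℂ) (n ^ k) = (θ : ↥N → ℂ) n} := by
  classical
  have hpp : p.Prime := hp.out
  haveI hMp : M.IsPrime := hM.2.1.isPrime
  haveI : NeZero p := ⟨hpp.ne_zero⟩
  obtain ⟨m, hm⟩ := index_residual N hNres
  have hm0 : m ≠ 0 := by
    rintro rfl
    apply hnt
    rw [pow_zero] at hm
    exact Subgroup.index_eq_one.1 hm
  have hk := coprime_of_gal hk₁ hk₂
  have hquot : ∀ x y : G, x * y * x⁻¹ * y⁻¹ ∈ N := by
    intro x y
    have hcomm := IsCyclic.isMulCommutative (α := G ⧸ N)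
    rw [← QuotientGroup.eq_one_iff]
    simp only [QuotientGroup.mk_mul, QuotientGroup.mk_inv]
    rw [hcomm.is_comm.comm (x : G ⧸ N) y]
    group
  -- invariance under `G` from invariance under `P`
  have hinvG : ∀ θ : IrrCharacter N, (∀ x ∈ (P : Subgroup G), ∀ n : N,
      θ.1 ⟨x * n * x⁻¹, hN.conj_mem n n.2 x⟩ = θ.1 n) →
      ∀ (g : G) (n : N), θ.1 ⟨g * n * g⁻¹, hN.conj_mem (n : G) n.2 g⟩ = θ.1 n := by
    intro θ hθ g n
    have hPle : (P : Subgroup G) ≤ H04.Cliff.inertG N θ.1 := fun x hx =>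
      (H04.Cliff.mem_inertG N).2 (hθ x hx)
    have hNle : N ≤ H04.Cliff.inertG N θ.1 := by
      intro y hy
      refine (H04.Cliff.mem_inertG N).2 fun h => ?_
      exact isClassFunction_of_isCharacter (isCharacter_of_irr θ.2) h ⟨y, hy⟩
    have htop : H04.Cliff.inertG N θ.1 = ⊤ := by
      rw [← Subgroup.index_eq_one]
      have h1 : (H04.Cliff.inertG N θ.1).index ∣ p ^ m := hm ▸ Subgroup.index_dvd_of_le hNle
      obtain ⟨j, -, hj⟩ := (Nat.dvd_prime_pow hpp).1 h1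
      have h2 : ¬ p ∣ (H04.Cliff.inertG N θ.1).index := fun h =>
        P.not_dvd_index (h.trans (Subgroup.index_dvd_of_le hPle))
      by_cases hj0 : j = 0
      · rw [hj, hj0, pow_zero]
      · exfalso
        apply h2
        rw [hj]
        exact dvd_pow_self p hj0
    have hg : g ∈ H04.Cliff.inertG N θ.1 := by
      rw [htop]
      trivial
    exact (H04.Cliff.mem_inertG N).1 hg n
  -- the linear characters of order dividing `p`
  obtain ⟨c, hc⟩ := (inferInstance : IsCyclic (G ⧸ N)).exists_generator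
  obtain ⟨g₀, hg₀⟩ := QuotientGroup.mk'_surjective N c
  have hordc : orderOf c = p ^ m := by
    rw [orderOf_eq_card_of_forall_mem_zpowers hc, ← Subgroup.index_eq_card, hm]
  have hzord : ∀ z : rootsOfUnity p ℂ, orderOf (z : ℂˣ) ∣ orderOf c := by
    intro z
    rw [hordc]
    refine dvd_trans (orderOf_dvd_of_pow_eq_one ?_) (dvd_pow_self p hm0)
    exact (mem_rootsOfUnity _ _).1 z.2
  let lam : rootsOfUnity p ℂ → (G →* ℂˣ) := fun z =>
    (monoidHomOfForallMemZpowers hc (hzord z)).comp (QuotientGroup.mk' N)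
  have hlamN : ∀ z, ∀ n ∈ N, lam z n = 1 := by
    intro z n hn
    show monoidHomOfForallMemZpowers hc (hzord z) (QuotientGroup.mk' N n) = 1
    have h1 : QuotientGroup.mk' N n = 1 := (QuotientGroup.eq_one_iff n).2 hn
    rw [h1, map_one]
  have hlamg : ∀ z, lam z g₀ = z := by
    intro z
    show monoidHomOfForallMemZpowers hc (hzord z) (QuotientGroup.mk' N g₀) = z
    rw [hg₀]
    exact monoidHomOfForallMemZpowers_apply_gen hc (hzord z)
  have hlampow : ∀ z g, (lam z g) ^ p = 1 := by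
    intro z g
    show (monoidHomOfForallMemZpowers hc (hzord z) (QuotientGroup.mk' N g)) ^ p = 1
    obtain ⟨j, hj⟩ := Subgroup.mem_zpowers_iff.1 (hc (QuotientGroup.mk' N g))
    rw [← hj, map_zpow, monoidHomOfForallMemZpowers_apply_gen hc (hzord z), ← zpow_natCast, ← zpow_mul,
      mul_comm, zpow_mul, zpow_natCast, (mem_rootsOfUnity _ _).1 z.2, one_zpow]
  have hlamsurj : ∀ l : G →* ℂˣ, (∀ n ∈ N, l n = 1) → (∀ g, (l g) ^ p = 1) →
      ∃ z, l = lam z := by
    intro l hlN hlp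
    refine ⟨⟨l g₀, (mem_rootsOfUnity _ _).2 (hlp g₀)⟩, ?_⟩
    let lb : G ⧸ N →* ℂˣ := QuotientGroup.lift N l hlN
    have h1 : lb = monoidHomOfForallMemZpowers hc
        (hzord ⟨l g₀, (mem_rootsOfUnity _ _).2 (hlp g₀)⟩) := by
      rw [MonoidHom.eq_iff_eq_on_generator hc, monoidHomOfForallMemZpowers_apply_gen, ← hg₀]
      rfl
    ext g
    have h2 := congrArg (fun f : G ⧸ N →* ℂˣ => ((f (QuotientGroup.mk' N g) : ℂˣ) : ℂ)) h1
    exact h2
  -- characters of `G` lying over `B`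
  have hcan : ∀ θ : {θ : IrrCharacter ↥N // θ ∈ principalBlock M ↥N ∧ ¬ p ∣ charDegree (θ : ↥N → ℂ) ∧
      (∀ x ∈ (P : Subgroup G), ∀ n : ↥N, (θ : ↥N → ℂ) ⟨x * n * x⁻¹, hN.conj_mem n n.2 x⟩ =
        (θ : ↥N → ℂ) n) ∧ ∀ n : ↥N, (θ : ↥N → ℂ) (n ^ k) = (θ : ↥N → ℂ) n},
      ∃ χ : IrrCharacter G, (∀ n : N, χ.1 n = θ.1.1 n) ∧ ∀ g, χ.1 (g ^ k) = χ.1 g := fun θ =>
    exists_fixed_ext N hNres hcyc hm hk θ.1 (hinvG θ.1 θ.2.2.2.1) θ.2.2.1 θ.2.2.2.2
  choose can hcanN hcanfix using hcan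
  -- the map
  have hlamc : ∀ z, IsCharacter G (fun g => (lam z g : ℂ)) := fun z => H23.isCharacter_hom (lam z)
  let Φ₀ : {θ : IrrCharacter ↥N // θ ∈ principalBlock M ↥N ∧ ¬ p ∣ charDegree (θ : ↥N → ℂ) ∧
      (∀ x ∈ (P : Subgroup G), ∀ n : ↥N, (θ : ↥N → ℂ) ⟨x * n * x⁻¹, hN.conj_mem n n.2 x⟩ =
        (θ : ↥N → ℂ) n) ∧ ∀ n : ↥N, (θ : ↥N → ℂ) (n ^ k) = (θ : ↥N → ℂ) n} → rootsOfUnity p ℂ →
      IrrCharacter G := fun θ z =>
    ⟨fun g => (lam z g : ℂ) * (can θ).1 g,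
      H06.isIrr_linear_mul (can θ).2 (hlamc z) (H23.charDegree_hom (lam z))⟩
  have hΦ₀v : ∀ θ z g, (Φ₀ θ z).1 g = (lam z g : ℂ) * (can θ).1 g := fun _ _ _ => rfl
  have hΦ₀N : ∀ θ z, ∀ n : N, (Φ₀ θ z).1 n = θ.1.1 n := by
    intro θ z n
    rw [hΦ₀v, hlamN z n n.2, hcanN]
    simp
  have hdegN : ∀ (χ : IrrCharacter G) (θ : IrrCharacter N), (∀ n : N, χ.1 n = θ.1 n) →
      charDegree χ.1 = charDegree θ.1 := by
    intro χ θ h
    have h3 := one_eq_charDegree (isCharacter_of_irr χ.2)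
    have h4 := one_eq_charDegree (isCharacter_of_irr θ.2)
    have h5 : (charDegree χ.1 : ℂ) = charDegree θ.1 := by
      rw [← h3, ← h4]
      exact h 1
    exact_mod_cast h5
  have hΦ₀mem : ∀ θ z, Φ₀ θ z ∈ principalBlock M G ∧ ¬ p ∣ charDegree (Φ₀ θ z).1 ∧
      ∀ g : G, (Φ₀ θ z).1 (g ^ k) = (Φ₀ θ z).1 g := by
    intro θ z
    refine ⟨mem_principal_of_ext hM N hm θ.1 θ.2.1 _ (hΦ₀N θ z), ?_, ?_⟩
    · rw [hdegN _ θ.1 (hΦ₀N θ z)]
      exact θ.2.2.1
    · intro g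
      rw [hΦ₀v, hΦ₀v, hcanfix, lin_pow N hNres hk₁ hk₂ (lam z) (hlamN z) g, pow_add, pow_one,
        hlampow, mul_one]
  let Φ : {θ : IrrCharacter ↥N // θ ∈ principalBlock M ↥N ∧ ¬ p ∣ charDegree (θ : ↥N → ℂ) ∧
      (∀ x ∈ (P : Subgroup G), ∀ n : ↥N, (θ : ↥N → ℂ) ⟨x * n * x⁻¹, hN.conj_mem n n.2 x⟩ =
        (θ : ↥N → ℂ) n) ∧ ∀ n : ↥N, (θ : ↥N → ℂ) (n ^ k) = (θ : ↥N → ℂ) n} × rootsOfUnity p ℂ →
      {χ : IrrCharacter G // χ ∈ principalBlock M G ∧ ¬ p ∣ charDegree (χ : G → ℂ) ∧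
        ∀ g : G, (χ : G → ℂ) (g ^ k) = (χ : G → ℂ) g} := fun x =>
    ⟨Φ₀ x.1 x.2, hΦ₀mem x.1 x.2⟩
  have hlamcoset : ∀ (l : G →* ℂˣ), (∀ n ∈ N, l n = 1) → ∀ (n : N) (g : G),
      (l (n * g) : ℂ) = (l g : ℂ) := by
    intro l hl n g
    rw [map_mul, hl n n.2, one_mul]
  have hinj : Function.Injective Φ := by
    rintro ⟨θ, z⟩ ⟨θ', z'⟩ h
    have h1 : Φ₀ θ z = Φ₀ θ' z' := congrArg Subtype.val h
    have h2 : θ = θ' := by
      apply Subtype.ext
      apply Subtype.ext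
      funext n
      rw [← hΦ₀N θ z n, ← hΦ₀N θ' z' n, h1]
    subst h2
    have h3 : ∀ g, (lam z g : ℂ) * (can θ).1 g = (lam z' g : ℂ) * (can θ).1 g := by
      intro g
      have := congrFun (congrArg Subtype.val h1) g
      exact this
    have h4 := ext_cancel N θ.1 (can θ) (hcanN θ) (fun g => (lam z g : ℂ)) (fun g => (lam z' g : ℂ))
      (hlamcoset _ (hlamN z)) (hlamcoset _ (hlamN z')) h3 g₀
    simp only [hlamg] at h4
    have h5 : z = z' := by
      apply Subtype.ext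
      apply Units.ext
      exact h4
    rw [h5]
  have hsurj : Function.Surjective Φ := by
    rintro ⟨χ, hχB, hχd, hχf⟩
    -- a fixed constituent on `N`
    have hnorm : ∀ s ∈ (P : Subgroup G), ∀ g ∈ N, s * g * s⁻¹ ∈ N := fun s _ g hg =>
      hN.conj_mem g hg s
    obtain ⟨θ₀, hθ₀fix, hθ₀in⟩ := exists_fixed_constituent (P : Subgroup G) N hnorm P.isPGroup' χ hχd
    have hθ₀P : ∀ x ∈ (P : Subgroup G), ∀ n : N,
        θ₀.1 ⟨x * n * x⁻¹, hN.conj_mem n n.2 x⟩ = θ₀.1 n := fun x hx n => hθ₀fix ⟨x, hx⟩ n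
    have hθ₀G := hinvG θ₀ hθ₀P
    have hres : ∀ n : N, χ.1 n = θ₀.1 n :=
      H23.over_restrict_of_cyclic G N hcyc θ₀ hθ₀G χ hθ₀in
    have hdθ : ¬ p ∣ charDegree θ₀.1 := by
      rw [← hdegN χ θ₀ hres]
      exact hχd
    have hfθ : ∀ n : N, θ₀.1 (n ^ k) = θ₀.1 n := by
      intro n
      rw [← hres, ← hres]
      have h1 : ((n ^ k : N) : G) = (n : G) ^ k := by simp
      rw [h1]
      exact hχf n
    have hθ₀B : θ₀ ∈ principalBlock M N := by
      refine principal_constituent hM N hχB ?_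
      exact (inner_ne_iff _ _).1 hθ₀in
    let θ : {θ : IrrCharacter ↥N // θ ∈ principalBlock M ↥N ∧ ¬ p ∣ charDegree (θ : ↥N → ℂ) ∧
      (∀ x ∈ (P : Subgroup G), ∀ n : ↥N, (θ : ↥N → ℂ) ⟨x * n * x⁻¹, hN.conj_mem n n.2 x⟩ =
        (θ : ↥N → ℂ) n) ∧ ∀ n : ↥N, (θ : ↥N → ℂ) (n ^ k) = (θ : ↥N → ℂ) n} :=
      ⟨θ₀, hθ₀B, hdθ, hθ₀P, hfθ⟩
    obtain ⟨l, hlN, hl⟩ := exists_linear_ratio N hquot θ₀ (can θ) χ (hcanN θ) hres
    -- `l` has order dividing `p`
    have hlp : ∀ g, (l g) ^ p = 1 := by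
      have h1 : ∀ g, ((l ^ (1 + p)) g : ℂ) * (can θ).1 g = (l g : ℂ) * (can θ).1 g := by
        intro g
        have h2 := hχf g
        rw [hl, hl g, hcanfix, lin_pow N hNres hk₁ hk₂ l hlN g] at h2
        exact h2
      intro g
      have hlpow : ∀ n ∈ N, (l ^ (1 + p)) n = 1 := by
        intro n hn
        show (l n) ^ (1 + p) = 1
        rw [hlN n hn, one_pow]
      have h4 := ext_cancel N θ₀ (can θ) (hcanN θ) (fun g => ((l ^ (1 + p)) g : ℂ))
        (fun g => (l g : ℂ)) (hlamcoset _ hlpow) (hlamcoset _ hlN) h1 g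
      have h5 : (l g) ^ (1 + p) = l g := by
        apply Units.ext
        exact h4
      rw [pow_add, pow_one] at h5
      exact mul_left_cancel (a := l g) (by rw [h5, mul_one])
    obtain ⟨z, hz⟩ := hlamsurj l hlN hlp
    refine ⟨(θ, z), ?_⟩
    apply Subtype.ext
    apply Subtype.ext
    funext g
    show (lam z g : ℂ) * (can θ).1 g = χ.1 g
    rw [hl, hz]
  have hbij : Function.Bijective Φ := ⟨hinj, hsurj⟩
  rw [← Nat.card_congr (Equiv.ofBijective Φ hbij), Nat.card_prod, Complex.card_rootsOfUnity, mul_comm]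

end Count

end Cfsg.Agent.H21
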