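import Cfsg.Agent.Lib.H21.CoprimeCount
import Cfsg.Agent.Lib.H13.Residual
import Cfsg.Agent.S0867

/-!
# The order of `O^p(G)` modulo `p`.
-/

set_option autoImplicit false
set_option linter.unusedSectionVars false
set_option linter.style.haveILetI false
set_option linter.unusedSimpArgs false

namespace Cfsg.Agent.H21

open scoped ComplexConjugate Pointwise
open Cfsg Module Cfsg.Agent.H22

universe u

section Residual

variable {G : Type u} [Group G] [Finite G] {p : ℕ} [hp : Fact p.Prime]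

theorem not_dvd_detOrder_residual (θ : IrrCharacter (pResidual p G)) : ¬ p ∣ detOrder θ.1 := by
  classical
  obtain ⟨n, ρ, hρ, hch⟩ := θ.2
  rw [← hch, H04.Cliff.detOrder_rep ρ]
  set m := ordCompl[p] (Nat.card G) with hm
  have hG0 : Nat.card G ≠ 0 := Nat.card_pos.ne'
  have hpm : ¬ p ∣ m := Nat.not_dvd_ordCompl hp.out hG0
  have hgen : ∀ g : G, Nat.Coprime (orderOf g) p → g ^ m = 1 := by
    intro g hg
    have h1 : orderOf g ∣ p ^ (Nat.card G).factorization p * m := by
      rw [hm, Nat.ordProj_mul_ordCompl_eq_self]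
      exact orderOf_dvd_natCard g
    have h2 : orderOf g ∣ m := (Nat.Coprime.pow_right _ hg).dvd_of_dvd_mul_left h1
    exact orderOf_dvd_iff_pow_eq_one.1 h2
  have hpow : (H04.Cliff.detU ρ) ^ m = 1 := by
    ext1 x
    have key : ∀ (g : G) (hg : g ∈ pResidual p G), (H04.Cliff.detU ρ ⟨g, hg⟩) ^ m = 1 := by
      intro g hg
      induction hg using Subgroup.closure_induction with
      | mem x hx =>
        have h1 : (⟨x, Subgroup.subset_closure hx⟩ : pResidual p G) ^ m = 1 :=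
          Subtype.ext (hgen x hx)
        rw [← map_pow, h1, map_one]
      | one =>
        have : (⟨1, Subgroup.one_mem _⟩ : pResidual p G) = 1 := rfl
        rw [this, map_one, one_pow]
      | mul x y hx hy hx' hy' =>
        have : (⟨x * y, Subgroup.mul_mem _ hx hy⟩ : pResidual p G) = ⟨x, hx⟩ * ⟨y, hy⟩ := rfl
        rw [this, map_mul, mul_pow, hx', hy', one_mul]
      | inv x hx hx' =>
        have : (⟨x⁻¹, Subgroup.inv_mem _ hx⟩ : pResidual p G) = ⟨x, hx⟩⁻¹ := rfl
        rw [this, map_inv, inv_pow, hx', inv_one]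
    have := key x.1 x.2
    simpa using this
  intro hd
  exact hpm (hd.trans (_root_.orderOf_dvd_of_pow_eq_one hpow))

/-- A `p`-prime degree character restricts irreducibly to a normal subgroup of `p`-power index. -/
theorem res_irr_of_pprime (H : Subgroup G) [hH : H.Normal] {k : ℕ} (hk : H.index = p ^ k)
    (χ : IrrCharacter G) (hχ : ¬ p ∣ charDegree χ.1) :
    ∃ θ : IrrCharacter H, (∀ (g : G) (n : H), θ.1 ⟨g * n * g⁻¹, hH.conj_mem n n.2 g⟩ = θ.1 n) ∧
      ∀ n : H, χ.1 n = θ.1 n := by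
  classical
  obtain ⟨θ, hθ⟩ : ∃ θ : IrrCharacter H, classInner (fun n : H => χ.1 n) θ.1 ≠ 0 := by
    obtain ⟨ψ, hψ⟩ := H22.exists_constituent H χ
    refine ⟨ψ, fun h0 => hψ ?_⟩
    unfold classInner at h0
    have hcard : (Nat.card H : ℂ) ≠ 0 := by exact_mod_cast Nat.card_pos.ne'
    have h2 := (mul_eq_zero.1 h0).resolve_left (inv_ne_zero hcard)
    rw [← h2]
    exact Finset.sum_congr rfl fun _ _ => mul_comm _ _
  have hcoprime : ∀ {a : ℕ}, a ∣ p ^ k → a ∣ charDegree χ.1 → a = 1 := by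
    intro a h1 h2
    obtain ⟨i, -, rfl⟩ := (Nat.dvd_prime_pow hp.out).1 h1
    rcases i with _ | i
    · simp
    · exact absurd ((dvd_pow_self p (Nat.succ_ne_zero i)).trans h2) hχ
  obtain ⟨e, he, hdeg, hin⟩ := degree_over H θ.2 χ hθ
  have hKin : H ≤ H06.inertiaSub H θ.1 :=
    H06.le_inertiaSub H (isClassFunction_of_isCharacter (isCharacter_of_irr θ.2))
  have hinv1 : (H06.inertiaSub H θ.1).index = 1 := by
    refine hcoprime ?_ ⟨e * charDegree θ.1, by rw [hdeg]; ring⟩
    rw [← hk]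
    exact Subgroup.index_dvd_of_le hKin
  have hinvθ : ∀ (g : G) (n : H), θ.1 ⟨g * n * g⁻¹, hH.conj_mem n n.2 g⟩ = θ.1 n := by
    intro g n
    have h1 : H06.inertiaSub H θ.1 = ⊤ := Subgroup.index_eq_one.1 hinv1
    have h2 : g ∈ H06.inertiaSub H θ.1 := by
      rw [h1]
      trivial
    exact (H06.mem_inertiaSub H).1 h2 n
  refine ⟨θ, hinvθ, ?_⟩
  have htw : ∀ t : G, H06.twist H θ.1 t = θ.1 := by
    intro t
    funext n
    exact hinvθ t n
  have hne : classInner (indFun H θ.1) χ.1 ≠ 0 := by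
    rw [frobenius_reciprocity H _ _ (isClassFunction_of_isCharacter (isCharacter_of_irr χ.2))]
    intro h0
    apply hθ
    rw [← classInner_comm_conj, h0, map_zero]
  obtain ⟨e', he', -, hres⟩ := H06.clifford_restrict H θ.2 χ.2 htw hne
  have hdvd := H04.Cliff.multiplicity_dvd_index H θ.2 htw χ.2 hres
  have h1 : χ.1 1 = (e' : ℂ) * θ.1 1 := by
    have := hres 1
    simpa using this
  have hχdeg : charDegree χ.1 = e' * charDegree θ.1 := by
    have h2 := one_eq_charDegree (isCharacter_of_irr χ.2)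
    have h3 := one_eq_charDegree (isCharacter_of_irr θ.2)
    rw [h1, h3] at h2
    exact_mod_cast h2.symm
  have he1 : e' = 1 := by
    refine hcoprime (hk ▸ hdvd) ⟨charDegree θ.1, hχdeg⟩
  intro n
  rw [hres n, he1]
  simp

/-- **O^p(G) mod p.** -/
theorem card_residual_modEq :
    (Nat.card (pResidual p G) : ℤ) ≡
      (∑ᶠ χ ∈ {χ : IrrCharacter G | ¬ p ∣ charDegree χ.1 ∧ ¬ p ∣ detOrder χ.1},
        (charDegree χ.1 : ℤ) ^ 2) [ZMOD p] := by
  classical
  have hpp := hp.out
  obtain ⟨P⟩ : Nonempty (Sylow p G) := inferInstance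
  set H := pResidual p G with hHdef
  haveI hHn : H.Normal := H13.pResidual_normal'
  obtain ⟨k, hk⟩ : ∃ k, H.index = p ^ k := by
    obtain ⟨k, hk⟩ := IsPGroup.iff_card.1 (H13.isPGroup_quotient_pResidual (p := p) (G := G))
    exact ⟨k, by rw [Subgroup.index_eq_card]; exact hk⟩
  -- invariant characters of `H`
  let Inv : IrrCharacter H → Prop := fun θ =>
    ∀ (g : G) (n : H), θ.1 ⟨g * n * g⁻¹, hHn.conj_mem n n.2 g⟩ = θ.1 n
  let B := {θ : IrrCharacter H // Inv θ ∧ ¬ p ∣ charDegree θ.1}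
  let A := {χ : IrrCharacter G // ¬ p ∣ charDegree χ.1 ∧ ¬ p ∣ detOrder χ.1}
  -- canonical extension
  have hcan : ∀ θ : B, ∃ χ : G → ℂ, (IsIrrCharacter G χ ∧ (∀ n : H, χ n = θ.1.1 n) ∧
      detOrder χ = detOrder θ.1.1) ∧ ∀ χ' : G → ℂ, IsIrrCharacter G χ' → (∀ n : H, χ' n = θ.1.1 n) →
      Nat.Coprime H.index (detOrder χ') → χ' = χ := by
    intro θ
    refine S0867.result H θ.1.1 θ.1.2 θ.2.1 (charDegree θ.1.1)
      (one_eq_charDegree (isCharacter_of_irr θ.1.2)) ?_
    rw [hk]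
    apply Nat.Coprime.pow_left
    rw [Nat.Prime.coprime_iff_not_dvd hpp, hpp.dvd_mul]
    rintro (h | h)
    · exact not_dvd_detOrder_residual θ.1 h
    · exact θ.2.2 h
  choose can hcan1 hcan2 using hcan
  have hdegcan : ∀ θ : B, charDegree (can θ) = charDegree θ.1.1 := by
    intro θ
    have h1 := (hcan1 θ).2.1 1
    have h2 : can θ 1 = θ.1.1 1 := by simpa using h1
    unfold charDegree
    rw [h2]
  let toA : B → A := fun θ => ⟨⟨can θ, (hcan1 θ).1⟩, by
    refine ⟨?_, ?_⟩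
    · show ¬ p ∣ charDegree (can θ)
      rw [hdegcan]
      exact θ.2.2
    · show ¬ p ∣ detOrder (can θ)
      rw [(hcan1 θ).2.2]
      exact not_dvd_detOrder_residual θ.1⟩
  have htoA : Function.Bijective toA := by
    constructor
    · intro a b hab
      have h1 : can a = can b := congrArg (fun x : A => x.1.1) hab
      apply Subtype.ext
      apply Subtype.ext
      funext n
      rw [← (hcan1 a).2.1 n, ← (hcan1 b).2.1 n, h1]
    · rintro ⟨χ, hχ1, hχ2⟩
      obtain ⟨θ, hθ, hres⟩ := res_irr_of_pprime H hk χ hχ1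
      have hθd : charDegree θ.1 = charDegree χ.1 := by
        have h1 := hres 1
        have h2 : χ.1 1 = θ.1 1 := by simpa using h1
        unfold charDegree
        rw [h2]
      let θ' : B := ⟨θ, hθ, by rw [hθd]; exact hχ1⟩
      refine ⟨θ', ?_⟩
      apply Subtype.ext
      apply Subtype.ext
      refine (hcan2 θ' χ.1 χ.2 hres ?_).symm
      rw [hk]
      exact Nat.Coprime.pow_left _ ((Nat.Prime.coprime_iff_not_dvd hpp).2 hχ2)
  -- the sums
  have hs1 : (∑ᶠ χ ∈ {χ : IrrCharacter G | ¬ p ∣ charDegree χ.1 ∧ ¬ p ∣ detOrder χ.1},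
        (charDegree χ.1 : ℤ) ^ 2) = ∑ θ : B, (charDegree θ.1.1 : ℤ) ^ 2 := by
    rw [← finsum_set_coe_eq_finsum_mem, finsum_eq_sum_of_fintype]
    refine (Fintype.sum_bijective toA htoA _ _ fun θ => ?_).symm
    show ((charDegree θ.1.1 : ℕ) : ℤ) ^ 2 = ((charDegree (can θ) : ℕ) : ℤ) ^ 2
    rw [hdegcan]
  rw [hs1]
  -- the action of the Sylow subgroup
  have hnorm : ∀ s ∈ (P : Subgroup G), ∀ g ∈ H, s * g * s⁻¹ ∈ H :=
    fun s _ g hg => hHn.conj_mem g hg s
  letI := irrAct (conjHom H (P : Subgroup G) hnorm)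
  have hact : ∀ (a : (P : Subgroup G)) (θ : IrrCharacter H) (n : H),
      (a • θ).1 n = θ.1 (conjHom H (P : Subgroup G) hnorm a⁻¹ n) := fun _ _ _ => rfl
  let T : IrrCharacter H → ℂ := fun θ => if p ∣ charDegree θ.1 then 0 else (charDegree θ.1 : ℂ) ^ 2
  have hdegact : ∀ (a : (P : Subgroup G)) (θ : IrrCharacter H),
      charDegree (a • θ).1 = charDegree θ.1 := by
    intro a θ
    unfold charDegree
    rw [hact, map_one]
  have hTint : ∀ θ, IsIntegral ℤ (T θ) := by
    intro θ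
    show IsIntegral ℤ (if p ∣ charDegree θ.1 then (0 : ℂ) else (charDegree θ.1 : ℂ) ^ 2)
    split_ifs
    · exact isIntegral_zero
    · have := isIntegral_algebraMap (R := ℤ) (A := ℂ) (x := ((charDegree θ.1 : ℤ) ^ 2))
      simpa using this
  have hT : ∀ (a : (P : Subgroup G)) θ, T (a • θ) = T θ := by
    intro a θ
    show (if p ∣ charDegree (a • θ).1 then (0 : ℂ) else (charDegree (a • θ).1 : ℂ) ^ 2) = _
    rw [hdegact]
  obtain ⟨w, hw, hsum⟩ := sum_eq_fixed_add P.isPGroup' T hTint hT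
  -- fixed means invariant
  have hfix : ∀ θ : IrrCharacter H, (∀ a : (P : Subgroup G), a • θ = θ) ↔ Inv θ := by
    intro θ
    constructor
    · intro h g n
      have hg : g ∈ (((P : Subgroup G) ⊔ H : Subgroup G) : Set G) := by
        rw [H13.sylow_sup_pResidual P]
        trivial
      rw [Subgroup.mul_normal] at hg
      obtain ⟨t, ht, x, hx, rfl⟩ := Set.mem_mul.1 hg
      have h1 : ∀ (a : (P : Subgroup G)) (n : H), θ.1 (conjHom H (P : Subgroup G) hnorm a n) = θ.1 n := by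
        intro a n
        have h2 : (a⁻¹ • θ).1 n = θ.1 n := by rw [h]
        rw [hact, inv_inv] at h2
        exact h2
      let m : H := conjHom H (P : Subgroup G) hnorm ⟨t, ht⟩ ⟨x * n * x⁻¹, hHn.conj_mem n n.2 x⟩
      have h3 : θ.1 m = θ.1 ⟨x * n * x⁻¹, hHn.conj_mem n n.2 x⟩ := h1 _ _
      have h4 : (⟨t * x * n * (t * x)⁻¹, hHn.conj_mem n n.2 (t * x)⟩ : H) = m := by
        apply Subtype.ext
        show t * x * n * (t * x)⁻¹ = t * (x * n * x⁻¹) * t⁻¹
        group
      rw [h4, h3]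
      have h5 : (⟨x * n * x⁻¹, hHn.conj_mem n n.2 x⟩ : H) = ⟨x, hx⟩ * n * (⟨x, hx⟩ : H)⁻¹ :=
        Subtype.ext rfl
      rw [h5]
      exact isCharacter_conj (isCharacter_of_irr θ.2) n _
    · intro h a
      apply Subtype.ext
      funext n
      rw [hact]
      exact h _ n
  -- integer form
  have hfixsum : ∀ inst : DecidablePred (fun x : IrrCharacter H => ∀ a : (P : Subgroup G), a • x = x),
      ∑ x ∈ @Finset.filter _ _ inst Finset.univ, T x = ((∑ θ : B, (charDegree θ.1.1 : ℤ) ^ 2 : ℤ) : ℂ) := by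
    intro inst
    push_cast
    have h1 : ∑ θ : B, ((charDegree θ.1.1 : ℂ)) ^ 2 =
        ∑ θ ∈ Finset.univ.filter (fun θ : IrrCharacter H => Inv θ ∧ ¬ p ∣ charDegree θ.1),
          (charDegree θ.1 : ℂ) ^ 2 := by
      symm
      exact Finset.sum_subtype _ (by simp) _
    rw [h1, Finset.sum_filter, Finset.sum_filter]
    refine Finset.sum_congr rfl fun θ _ => ?_
    by_cases h2 : Inv θ
    · rw [if_pos ((hfix θ).2 h2)]
      by_cases h3 : p ∣ charDegree θ.1
      · simp [T, h3]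
      · simp [T, h3, h2]
    · have h3 : ¬ ∀ a : (P : Subgroup G), a • θ = θ := fun h => h2 ((hfix θ).1 h)
      rw [if_neg h3]
      simp [h2]
  rw [hfixsum] at hsum
  -- `|H|` modulo `p`
  have hcard : ((Nat.card H : ℕ) : ℤ) = ∑ θ : IrrCharacter H, (charDegree θ.1 : ℤ) ^ 2 := by
    have := sum_degree_sq (G := H)
    rw [← this]
    push_cast
    rfl
  have hsplit : ∃ c : ℤ, ∑ θ : IrrCharacter H, (charDegree θ.1 : ℤ) ^ 2 =
      ∑ θ : IrrCharacter H, (if p ∣ charDegree θ.1 then (0 : ℤ) else (charDegree θ.1 : ℤ) ^ 2) + p * c := by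
    have h1 : ∀ θ : IrrCharacter H, ∃ c : ℤ, (charDegree θ.1 : ℤ) ^ 2 =
        (if p ∣ charDegree θ.1 then (0 : ℤ) else (charDegree θ.1 : ℤ) ^ 2) + p * c := by
      intro θ
      by_cases h2 : p ∣ charDegree θ.1
      · obtain ⟨c, hc⟩ := h2
        refine ⟨c * charDegree θ.1, ?_⟩
        rw [if_pos ⟨c, hc⟩, hc]
        push_cast
        ring
      · exact ⟨0, by simp [h2]⟩
    choose c hc using h1
    refine ⟨∑ θ, c θ, ?_⟩
    rw [Finset.mul_sum, ← Finset.sum_add_distrib]
    exact Finset.sum_congr rfl fun θ _ => hc θ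
  obtain ⟨c, hc⟩ := hsplit
  set a : ℤ := ∑ θ : IrrCharacter H, (if p ∣ charDegree θ.1 then (0 : ℤ) else (charDegree θ.1 : ℤ) ^ 2) with ha
  set b : ℤ := ∑ θ : B, (charDegree θ.1.1 : ℤ) ^ 2 with hb
  have hTa : ∑ x, T x = (a : ℂ) := by
    rw [ha]
    push_cast
    refine Finset.sum_congr rfl fun θ _ => ?_
    show (if p ∣ charDegree θ.1 then (0 : ℂ) else (charDegree θ.1 : ℂ) ^ 2) = _
    split_ifs <;> simp
  rw [hTa] at hsum
  have hdvd : (p : ℤ) ∣ a - b := by
    refine p_dvd_of_eq_mul hpp _ w hw ?_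
    push_cast
    rw [hsum]
    ring
  rw [Int.modEq_iff_dvd]
  have h6 : b - (Nat.card H : ℤ) = -(a - b) - p * c := by
    rw [hcard, hc]
    ring
  rw [h6]
  exact dvd_sub (dvd_neg.2 hdvd) (Dvd.intro _ rfl)

/-- For a degree-one character the determinantal order is the order. -/
theorem detOrder_of_linear {χ : G → ℂ} (hχ : IsCharacter G χ) (h1 : χ 1 = 1) :
    detOrder χ = orderOf (H04.Cliff.linU χ hχ h1) := by
  obtain ⟨n, ρ, rfl⟩ := id hχ
  rw [H04.Cliff.detOrder_rep ρ]
  congr 1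
  ext g
  show LinearMap.det (ρ g) = ρ.character g
  have hn : n = 1 := by
    have h2 : ρ.character 1 = (finrank ℂ (Fin n → ℂ) : ℂ) := by
      simp [Representation.character]
    rw [h1] at h2
    have h3 : finrank ℂ (Fin n → ℂ) = 1 := by exact_mod_cast h2.symm
    simpa using h3
  subst hn
  have h4 := end_fin_one_scalar (ρ g)
  have h5 : LinearMap.det (ρ g) = LinearMap.trace ℂ (Fin 1 → ℂ) (ρ g) := by
    conv_lhs => rw [h4]
    rw [LinearMap.det_smul]
    simp
  rw [h5]
  rfl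

/-- **Thompson's theorem**: `p` divides all nonlinear degrees ⟹ normal `p`-complement. -/
theorem normal_complement_of_degrees
    (hdeg : ∀ χ : IrrCharacter G, charDegree χ.1 ≠ 1 → p ∣ charDegree χ.1) :
    ¬ p ∣ Nat.card (pResidual p G) := by
  classical
  have hpp := hp.out
  haveI : Finite (G →* ℂˣ) := by
    refine Finite.of_injective (fun ω : G →* ℂˣ =>
      (⟨fun g => (ω g : ℂ), H23.isIrrCharacter_hom ω⟩ : IrrCharacter G)) ?_
    intro a b hab
    ext g
    exact congrFun (congrArg Subtype.val hab) g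
  -- the subgroup of `p`-regular linear characters
  let L : Subgroup (G →* ℂˣ) :=
    { carrier := {l | ¬ p ∣ orderOf l}
      one_mem' := by
        show ¬ p ∣ orderOf (1 : G →* ℂˣ)
        rw [orderOf_one]
        intro h
        exact hpp.one_lt.ne' (Nat.dvd_one.1 h)
      mul_mem' := fun {a b} ha hb h => by
        have h1 := (Commute.all a b).orderOf_mul_dvd_lcm
        have h2 : p ∣ Nat.lcm (orderOf a) (orderOf b) := h.trans h1
        rcases (hpp.dvd_mul).1 (h2.trans (Nat.lcm_dvd_mul _ _)) with h3 | h3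
        · exact ha h3
        · exact hb h3
      inv_mem' := fun {a} ha => by
        show ¬ p ∣ orderOf a⁻¹
        have h1 : orderOf a⁻¹ = orderOf a := orderOf_inv a
        rw [h1]
        exact ha }
  have hLcard : ¬ p ∣ Nat.card L := by
    intro hd
    haveI := Fact.mk hpp
    obtain ⟨x, hx⟩ := exists_prime_orderOf_dvd_card' p hd
    have h1 : ¬ p ∣ orderOf (x : G →* ℂˣ) := x.2
    apply h1
    rw [Subgroup.orderOf_coe, hx]
  intro hN
  apply hLcard
  have hmod := card_residual_modEq (G := G) (p := p)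
  -- the set `A` consists of the linear characters with `p`-regular order
  have hA : (∑ᶠ χ ∈ {χ : IrrCharacter G | ¬ p ∣ charDegree χ.1 ∧ ¬ p ∣ detOrder χ.1},
        (charDegree χ.1 : ℤ) ^ 2) = Nat.card L := by
    rw [← finsum_set_coe_eq_finsum_mem, finsum_eq_sum_of_fintype]
    have h1 : ∀ χ : {χ : IrrCharacter G | ¬ p ∣ charDegree χ.1 ∧ ¬ p ∣ detOrder χ.1},
        charDegree χ.1.1 = 1 := by
      intro χ
      by_contra h
      exact χ.2.1 (hdeg _ h)
    have h1' : ∀ χ : {χ : IrrCharacter G | ¬ p ∣ charDegree χ.1 ∧ ¬ p ∣ detOrder χ.1},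
        χ.1.1 1 = 1 := fun χ => by
      rw [one_eq_charDegree (isCharacter_of_irr χ.1.2), h1]
      simp
    have h2 : ∑ χ : {χ : IrrCharacter G | ¬ p ∣ charDegree χ.1 ∧ ¬ p ∣ detOrder χ.1},
        (charDegree χ.1.1 : ℤ) ^ 2 = Nat.card {χ : IrrCharacter G | ¬ p ∣ charDegree χ.1 ∧ ¬ p ∣ detOrder χ.1} := by
      rw [Finset.sum_congr rfl fun χ _ => by rw [h1 χ]]
      simp [Nat.card_eq_fintype_card]
    rw [h2]
    congr 1
    let toL : {χ : IrrCharacter G | ¬ p ∣ charDegree χ.1 ∧ ¬ p ∣ detOrder χ.1} → L := fun χ =>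
      ⟨H04.Cliff.linU χ.1.1 (isCharacter_of_irr χ.1.2) (h1' χ), by
        show ¬ p ∣ orderOf _
        rw [← detOrder_of_linear]
        exact χ.2.2⟩
    refine Nat.card_congr (Equiv.ofBijective toL ⟨?_, ?_⟩)
    · intro a b hab
      apply Subtype.ext
      apply Subtype.ext
      funext g
      have h3 := congrArg (fun l : L => ((l.1 g : ℂˣ) : ℂ)) hab
      exact h3
    · rintro ⟨l, hl⟩
      have hirr := H23.isIrrCharacter_hom l
      have hdeg1 : charDegree (fun g => ((l g : ℂˣ) : ℂ)) = 1 := by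
        unfold charDegree
        simp
      have hone : ((fun g => ((l g : ℂˣ) : ℂ)) : G → ℂ) 1 = 1 := by simp
      have hlinU : H04.Cliff.linU (fun g => ((l g : ℂˣ) : ℂ)) (isCharacter_of_irr hirr) hone = l := by
        ext g
        rfl
      refine ⟨⟨⟨_, hirr⟩, ?_, ?_⟩, ?_⟩
      · show ¬ p ∣ charDegree (fun g => ((l g : ℂˣ) : ℂ))
        rw [hdeg1]
        intro h
        exact hpp.one_lt.ne' (Nat.dvd_one.1 h)
      · show ¬ p ∣ detOrder (fun g => ((l g : ℂˣ) : ℂ))
        rw [detOrder_of_linear (isCharacter_of_irr hirr) hone, hlinU]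
        exact hl
      · apply Subtype.ext
        exact hlinU
  rw [hA] at hmod
  have h3 : ((p : ℤ)) ∣ (Nat.card L : ℤ) - (Nat.card (pResidual p G) : ℤ) := (Int.modEq_iff_dvd).1 hmod
  have h4 : (p : ℤ) ∣ (Nat.card (pResidual p G) : ℤ) := by exact_mod_cast hN
  have h5 : (p : ℤ) ∣ (Nat.card L : ℤ) := by
    have := dvd_add h3 h4
    simpa using this
  exact_mod_cast h5

end Residual

end Cfsg.Agent.H21
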