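import Cfsg.Agent.Lib.H21.GL2Model

/-!
# Blocks of `GL₂` in `GL_{2n}`, and the arithmetic of the orders of `SL_n`
-/

set_option autoImplicit false
set_option linter.unusedSectionVars false
set_option linter.style.haveILetI false
set_option linter.unusedSimpArgs false

namespace Cfsg.Agent.H21.SpS

open Equiv Matrix

section Mat

variable {F : Type*} [Field F] {n : ℕ}

/-- The block matrix of a family of elements of `GL₂`. -/
def blkG (c : Fin n → GL (Fin 2) F) : Matrix (Fin n ⊕ Fin n) (Fin n ⊕ Fin n) F :=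
  fromBlocks (diagonal fun i => (c i).1 0 0) (diagonal fun i => (c i).1 0 1)
    (diagonal fun i => (c i).1 1 0) (diagonal fun i => (c i).1 1 1)

theorem blkG_mul (c d : Fin n → GL (Fin 2) F) : blkG (c * d) = blkG c * blkG d := by
  simp only [blkG, fromBlocks_multiply, diagonal_mul_diagonal, diagonal_add]
  congr 1 <;> (congr 1; funext i; simp [Matrix.mul_apply, Fin.sum_univ_two])

theorem blkG_one : blkG (1 : Fin n → GL (Fin 2) F) = 1 := by
  simp only [blkG]
  rw [← fromBlocks_one]
  congr 1 <;> ext i j <;> by_cases h : i = j <;> simp [h, diagonal_apply]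

/-- The base group. -/
def MgM : (Fin n → GL (Fin 2) F) →* Matrix (Fin n ⊕ Fin n) (Fin n ⊕ Fin n) F where
  toFun := blkG
  map_one' := blkG_one
  map_mul' := blkG_mul

/-- The top group. -/
def TgM : Perm (Fin n) →* Matrix (Fin n ⊕ Fin n) (Fin n ⊕ Fin n) F where
  toFun := tm
  map_one' := tm_one
  map_mul' := tm_mul

/-- The base group in `GL`. -/
def Mg : (Fin n → GL (Fin 2) F) →* GL (Fin n ⊕ Fin n) F := MgM.toHomUnits

/-- The top group in `GL`. -/
def Tg : Perm (Fin n) →* GL (Fin n ⊕ Fin n) F := TgM.toHomUnits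

@[simp] theorem coe_Mg (c : Fin n → GL (Fin 2) F) : ((Mg c : GL (Fin n ⊕ Fin n) F) : Matrix _ _ F) = blkG c := rfl

@[simp] theorem coe_Tg (π : Perm (Fin n)) : ((Tg π : GL (Fin n ⊕ Fin n) F) : Matrix _ _ F) = tm π := rfl

theorem Tg_conj (π : Perm (Fin n)) (c : Fin n → GL (Fin 2) F) :
    Tg π * Mg c * (Tg π)⁻¹ = Mg (c ∘ ⇑π⁻¹) := by
  rw [← map_inv]
  apply Units.ext
  show tm π * blkG c * tm π⁻¹ = blkG (c ∘ ⇑π⁻¹)
  simp only [tm, blkG, fromBlocks_multiply, Matrix.mul_zero, Matrix.zero_mul, zero_add, add_zero]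
  rw [pm_conj, pm_conj, pm_conj, pm_conj]
  rfl

theorem sepG (c : Fin n → GL (Fin 2) F) (π : Perm (Fin n)) (h : Mg c * Tg π = 1) : c = 1 ∧ π = 1 := by
  have h1 : blkG c * tm π = 1 := congrArg Units.val h
  simp only [blkG, tm, fromBlocks_multiply, Matrix.mul_zero, Matrix.zero_mul, zero_add, add_zero] at h1
  rw [← fromBlocks_one, fromBlocks_inj] at h1
  obtain ⟨h00, h01, h10, h11⟩ := h1
  have hdet : ∀ i, (c i).1 0 0 * (c i).1 1 1 - (c i).1 0 1 * (c i).1 1 0 ≠ 0 := by
    intro i
    have h2 : ((c i).1).det ≠ 0 := by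
      have := (Matrix.isUnit_iff_isUnit_det _).1 (c i).isUnit
      exact this.ne_zero
    rwa [Matrix.det_fin_two] at h2
  have ha : ∀ i, (c i).1 0 0 = (1 : Matrix (Fin n) (Fin n) F) i (π⁻¹ i) := by
    intro i
    have := congrFun (congrFun h00 i) (π⁻¹ i)
    simpa [diagonal_mul] using this
  have hb : ∀ i, (c i).1 0 1 = 0 := by
    intro i
    have := congrFun (congrFun h01 i) (π⁻¹ i)
    simpa [diagonal_mul] using this
  have hc : ∀ i, (c i).1 1 0 = 0 := by
    intro i
    have := congrFun (congrFun h10 i) (π⁻¹ i)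
    simpa [diagonal_mul] using this
  have hd : ∀ i, (c i).1 1 1 = (1 : Matrix (Fin n) (Fin n) F) i (π⁻¹ i) := by
    intro i
    have := congrFun (congrFun h11 i) (π⁻¹ i)
    simpa [diagonal_mul] using this
  have hfix : ∀ i, π⁻¹ i = i := by
    intro i
    by_contra hne
    have h2 := hdet i
    rw [ha, hd, hb, Matrix.one_apply_ne (fun h => hne h.symm)] at h2
    simp at h2
  have ha' : ∀ i, (c i).1 0 0 = 1 := fun i => by rw [ha, hfix, Matrix.one_apply_eq]
  have hd' : ∀ i, (c i).1 1 1 = 1 := fun i => by rw [hd, hfix, Matrix.one_apply_eq]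
  constructor
  · funext i
    apply Units.ext
    ext a b
    fin_cases a <;> fin_cases b
    · simp [ha']
    · simp [hb]
    · simp [hc]
    · simp [hd']
  · ext i
    have := hfix i
    rw [Equiv.Perm.inv_eq_iff_eq] at this
    simp [← this]

end Mat

section Arith

/-- The product of `q - 1` with a geometric sum. -/
theorem geom_aux (q : ℕ) (hq : 1 ≤ q) (k : ℕ) : (q - 1) * (∑ i ∈ Finset.range k, q ^ i) + 1 = q ^ k := by
  obtain ⟨r, rfl⟩ : ∃ r, q = r + 1 := ⟨q - 1, by omega⟩
  simp only [Nat.add_sub_cancel]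
  induction k with
  | zero => simp
  | succ k ih =>
    rw [Finset.sum_range_succ, mul_add, pow_succ]
    nlinarith [ih]

theorem val_odd {q : ℕ} (hq : Odd q) (hq1 : 1 < q) (k : ℕ) :
    padicValNat 2 (q ^ (2 * k + 1) - 1) = padicValNat 2 (q - 1) := by
  have h1 := geom_aux q hq1.le (2 * k + 1)
  have h2 : q ^ (2 * k + 1) - 1 = (q - 1) * ∑ i ∈ Finset.range (2 * k + 1), q ^ i := by omega
  have hodd : Odd (∑ i ∈ Finset.range (2 * k + 1), q ^ i) := by
    induction k with
    | zero => simp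
    | succ k ih =>
      rw [show 2 * (k + 1) + 1 = (2 * k + 1) + 1 + 1 by ring, Finset.sum_range_succ,
        Finset.sum_range_succ]
      have h3 := geom_aux q hq1.le (2 * k + 1)
      exact ((ih h3 (by omega)).add_odd (hq.pow)).add_odd hq.pow |> fun h => by
        simpa using h
  have h0 : padicValNat 2 (∑ i ∈ Finset.range (2 * k + 1), q ^ i) = 0 :=
    padicValNat.eq_zero_of_not_dvd (by rw [← even_iff_two_dvd]; exact Nat.not_even_iff_odd.2 hodd)
  rw [h2, padicValNat.mul (by omega) hodd.pos.ne', h0, add_zero]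

/-- The valuation of the product defining `|GL_n|`. -/
theorem val_gl {q : ℕ} (hq : Odd q) (hq1 : 1 < q) (n : ℕ) :
    padicValNat 2 (∏ i : Fin n, (q ^ n - q ^ (i : ℕ))) =
      ∑ j ∈ Finset.range n, padicValNat 2 (q ^ (j + 1) - 1) := by
  have hne : ∀ j, q ^ (j + 1) - 1 ≠ 0 := by
    intro j
    have : 1 < q ^ (j + 1) := Nat.one_lt_pow (by omega) hq1
    omega
  have hf : ∀ i ∈ Finset.range n, q ^ n - q ^ i = q ^ i * (q ^ (n - 1 - i + 1) - 1) := by
    intro i hi
    have hi' := Finset.mem_range.1 hi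
    have h1 : n = i + (n - 1 - i + 1) := by omega
    rw [Nat.mul_sub, mul_one, ← pow_add, ← h1]
  rw [Fin.prod_univ_eq_prod_range (fun i => q ^ n - q ^ i) n, Finset.prod_congr rfl hf,
    Finset.prod_mul_distrib]
  have hpow : ∀ s : Finset ℕ, padicValNat 2 (∏ i ∈ s, q ^ i) = 0 := by
    intro s
    apply padicValNat.eq_zero_of_not_dvd
    rw [← even_iff_two_dvd, Nat.not_even_iff_odd]
    exact Finset.prod_induction _ Odd (fun _ _ h1 h2 => h1.mul h2) odd_one fun i _ => hq.pow
  have hprod : ∀ s : Finset ℕ, padicValNat 2 (∏ i ∈ s, (q ^ (n - 1 - i + 1) - 1)) =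
      ∑ i ∈ s, padicValNat 2 (q ^ (n - 1 - i + 1) - 1) := by
    intro s
    induction s using Finset.induction_on with
    | empty => simp
    | insert a s ha ih =>
      rw [Finset.prod_insert ha, Finset.sum_insert ha, padicValNat.mul (hne _)
        (Finset.prod_ne_zero_iff.2 fun i _ => hne _), ih]
  rw [padicValNat.mul (Finset.prod_ne_zero_iff.2 fun i _ => pow_ne_zero _ (by omega))
    (Finset.prod_ne_zero_iff.2 fun i _ => hne _), hpow, zero_add, hprod]
  exact Finset.sum_range_reflect (fun j => padicValNat 2 (q ^ (j + 1) - 1)) n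

/-- The sum over an interval of even length. -/
theorem val_sum_even {q : ℕ} (hq : Odd q) (hq1 : 1 < q) (m : ℕ) :
    ∑ j ∈ Finset.range (2 * m), padicValNat 2 (q ^ (j + 1) - 1) =
      m * padicValNat 2 (q - 1) + m * padicValNat 2 (q ^ 2 - 1) +
        padicValNat 2 (Nat.factorial m) := by
  induction m with
  | zero => simp
  | succ m ih =>
    rw [show 2 * (m + 1) = 2 * m + 1 + 1 by ring, Finset.sum_range_succ, Finset.sum_range_succ, ih]
    have h1 := val_odd hq hq1 m
    have h2 := val_key hq hq1 (Nat.succ_ne_zero m)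
    rw [show 2 * m + 1 + 1 = 2 * (m + 1) by ring, h1, h2, Nat.factorial_succ,
      padicValNat.mul (Nat.succ_ne_zero m) (Nat.factorial_ne_zero m)]
    ring

theorem val_sum_odd {q : ℕ} (hq : Odd q) (hq1 : 1 < q) (m : ℕ) :
    ∑ j ∈ Finset.range (2 * m + 1), padicValNat 2 (q ^ (j + 1) - 1) =
      (m + 1) * padicValNat 2 (q - 1) + m * padicValNat 2 (q ^ 2 - 1) +
        padicValNat 2 (Nat.factorial m) := by
  rw [Finset.sum_range_succ, val_sum_even hq hq1, val_odd hq hq1 m]
  ring

variable {F : Type*} [Field F] [Fintype F]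

theorem val_SL_aux (hF : Odd (Fintype.card F)) (n : ℕ) (hn : 1 ≤ n) :
    padicValNat 2 (Fintype.card F - 1) +
      (Nat.card (SpecialLinearGroup (Fin n) F)).factorization 2 =
    ∑ j ∈ Finset.range n, padicValNat 2 (Fintype.card F ^ (j + 1) - 1) := by
  have hq1 : 1 < Fintype.card F := Fintype.one_lt_card
  have h1 := Cfsg.Agent.Lead.card_SL (F := F) n hn
  rw [← val_gl hF hq1, ← h1, padicValNat.mul (by omega) Nat.card_pos.ne',
    Nat.factorization_def _ Nat.prime_two]

theorem val_GL2 (hF : Odd (Fintype.card F)) :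
    (Nat.card (GL (Fin 2) F)).factorization 2 =
      padicValNat 2 (Fintype.card F - 1) + padicValNat 2 (Fintype.card F ^ 2 - 1) := by
  have hq1 : 1 < Fintype.card F := Fintype.one_lt_card
  rw [Matrix.card_GL_field, Nat.factorization_def _ Nat.prime_two, val_gl hF hq1]
  simp [Finset.sum_range_succ]

end Arith

end Cfsg.Agent.H21.SpS
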