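import Cfsg.Agent.Lib.H21.SLSylowA

/-!
# Sylow 2-subgroups of `SL_{2m+1}(q)` for `q ≡ 3 (mod 4)`
-/

set_option autoImplicit false
set_option linter.unusedSectionVars false
set_option linter.style.haveILetI false
set_option linter.unusedSimpArgs false

namespace Cfsg.Agent.H21.SpS

open Equiv Matrix

section Emb

variable {F : Type*} [Field F] {X Y : Type*} [Fintype X] [DecidableEq X] [Fintype Y] [DecidableEq Y]

/-- Reindexing special linear groups. -/
def slReindex (e : X ≃ Y) : SpecialLinearGroup X F ≃* SpecialLinearGroup Y F where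
  toFun A := ⟨reindex e e A.1, by rw [det_reindex_self]; exact A.2⟩
  invFun A := ⟨reindex e.symm e.symm A.1, by rw [det_reindex_self]; exact A.2⟩
  left_inv A := by
    apply Subtype.ext
    ext i j
    simp
  right_inv A := by
    apply Subtype.ext
    ext i j
    simp
  map_mul' A B := by
    apply Subtype.ext
    show (A.1 * B.1).submatrix e.symm e.symm = A.1.submatrix e.symm e.symm * B.1.submatrix e.symm e.symm
    rw [Matrix.submatrix_mul_equiv]

/-- The embedding of `GL` in `SL` in one dimension more. -/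
def glEmb : GL X F →* SpecialLinearGroup (X ⊕ Unit) F where
  toFun A := ⟨fromBlocks A.1 0 0 (diagonal fun _ => (A.1.det)⁻¹), by
    have h : A.1.det ≠ 0 := ((Matrix.isUnit_iff_isUnit_det _).1 A.isUnit).ne_zero
    rw [det_fromBlocks_zero₂₁, det_diagonal]
    simp [h]⟩
  map_one' := by
    apply Subtype.ext
    show fromBlocks (1 : Matrix X X F) 0 0 (diagonal fun _ => ((1 : Matrix X X F).det)⁻¹) = 1
    rw [← fromBlocks_one]
    simp
  map_mul' A B := by
    apply Subtype.ext
    show fromBlocks (A.1 * B.1) 0 0 (diagonal fun _ => ((A.1 * B.1).det)⁻¹) =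
      fromBlocks A.1 0 0 (diagonal fun _ => (A.1.det)⁻¹) *
        fromBlocks B.1 0 0 (diagonal fun _ => (B.1.det)⁻¹)
    rw [fromBlocks_multiply]
    simp [det_mul, mul_comm]

theorem glEmb_injective : Function.Injective (glEmb (F := F) (X := X)) := by
  intro A B h
  have h1 := congrArg Subtype.val h
  have h2 : fromBlocks A.1 0 0 (diagonal fun _ => (A.1.det)⁻¹) =
      fromBlocks B.1 0 0 (diagonal fun _ : Unit => (B.1.det)⁻¹) := h1
  rw [fromBlocks_inj] at h2
  exact Units.ext h2.1

end Emb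

/-- The main theorem. -/
theorem sl_odd_main {F : Type*} [Field F] [Fintype F] (hF : Odd (Fintype.card F))
    (hq : 4 ∣ Fintype.card F + 1) (m : ℕ)
    (P : Sylow 2 (SpecialLinearGroup (Fin (2 * m + 1)) F)) :
    ∀ x : (P : Subgroup (SpecialLinearGroup (Fin (2 * m + 1)) F)),
      x ^ 2 ∈ commutator (P : Subgroup (SpecialLinearGroup (Fin (2 * m + 1)) F)) := by
  classical
  haveI : Fact (Nat.Prime 2) := ⟨Nat.prime_two⟩
  have hq1 : 1 < Fintype.card F := Fintype.one_lt_card
  have hq3 : Fintype.card F % 4 = 3 := by omega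
  obtain ⟨Q₀, hQc, hQ⟩ := exists_good_GL2 (F := F) hq3
  obtain ⟨S₀⟩ : Nonempty (Sylow 2 (Perm (Fin m))) := inferInstance
  have hS : SymS.Good 2 (S₀ : Subgroup (Perm (Fin m))) := (SymS.good_sylow m S₀).1
  have hcardX : Fintype.card ((Fin m ⊕ Fin m) ⊕ Unit) = Fintype.card (Fin (2 * m + 1)) := by
    simp
    ring
  let e : (Fin m ⊕ Fin m) ⊕ Unit ≃ Fin (2 * m + 1) := Fintype.equivOfCardEq hcardX
  let Ψ : GL (Fin m ⊕ Fin m) F →* SpecialLinearGroup (Fin (2 * m + 1)) F :=
    (slReindex e).toMonoidHom.comp glEmb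
  have hΨ : Function.Injective Ψ := (slReindex e).injective.comp glEmb_injective
  let M' := Ψ.comp (Mg (F := F) (n := m))
  let T' := Ψ.comp (Tg (F := F) (n := m))
  have hTM : ∀ (π : Perm (Fin m)) (c : Fin m → GL (Fin 2) F),
      T' π * M' c * (T' π)⁻¹ = M' (c ∘ ⇑π⁻¹) := by
    intro π c
    simp only [M', T', MonoidHom.comp_apply]
    rw [← map_inv, ← map_mul, ← map_mul, Tg_conj]
  have hsep : ∀ (c : Fin m → GL (Fin 2) F) (π : Perm (Fin m)), M' c * T' π = 1 → c = 1 ∧ π = 1 := by
    intro c π h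
    apply sepG
    apply hΨ
    simp only [M', T', MonoidHom.comp_apply] at h
    rw [map_mul, h, map_one]
  let W := wrS M' T' hTM Q₀ (S₀ : Subgroup (Perm (Fin m)))
  have hWg : SymS.Good 2 W := wrS_good M' T' hTM _ _ hQ hS
  have hWc : Nat.card W = 2 ^ (Nat.card (SpecialLinearGroup (Fin (2 * m + 1)) F)).factorization 2 := by
    have h1 := val_SL_aux hF (2 * m + 1) (by omega)
    rw [val_sum_odd hF hq1] at h1
    have h2 : (Nat.card (SpecialLinearGroup (Fin (2 * m + 1)) F)).factorization 2 =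
        m * (Nat.card (GL (Fin 2) F)).factorization 2 + padicValNat 2 (Nat.factorial m) := by
      rw [val_GL2 hF]
      linarith
    rw [card_wrS M' T' hTM hsep, hQc, S₀.card_eq_multiplicity, h2, Fintype.card_fin,
      Nat.card_eq_fintype_card (α := Perm (Fin m)), Fintype.card_perm, Fintype.card_fin,
      Nat.factorization_def (Nat.factorial m) Nat.prime_two, ← pow_mul, ← pow_add, mul_comm m]
  let S' : Sylow 2 (SpecialLinearGroup (Fin (2 * m + 1)) F) := Sylow.ofCard W hWc
  obtain ⟨g, hg⟩ := MulAction.exists_smul_eq (SpecialLinearGroup (Fin (2 * m + 1)) F) S' P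
  have hP : (P : Subgroup (SpecialLinearGroup (Fin (2 * m + 1)) F)) = W.map (MulAut.conj g).toMonoidHom := by
    rw [← hg]
    ext x
    rfl
  have hgood : SymS.Good 2 (P : Subgroup (SpecialLinearGroup (Fin (2 * m + 1)) F)) := by
    rw [hP]
    exact hWg.map _
  intro x
  have h1 := hgood x x.2
  rw [← Subgroup.map_subtype_commutator] at h1
  obtain ⟨y, hy, hyx⟩ := h1
  have : y = x ^ 2 := Subtype.ext hyx
  rwa [← this]

end Cfsg.Agent.H21.SpS
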