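import Cfsg.Agent.Lib.H21.SLSylowB

/-!
# The determinant-one part of an abstract wreath product
-/

set_option autoImplicit false
set_option linter.unusedSectionVars false
set_option linter.style.haveILetI false
set_option linter.unusedSimpArgs false

namespace Cfsg.Agent.H21.SpS

open Equiv

section AbsDet

variable {G A ι U : Type*} [Group G] [Group A] [Fintype ι] [DecidableEq ι] [CommGroup U]
  (M : (ι → A) →* G) (T : Perm ι →* G)
  (hTM : ∀ (π : Perm ι) (c : ι → A), T π * M c * (T π)⁻¹ = M (c ∘ ⇑π⁻¹))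
  (D : G →* U) (D₀ : A →* U)
  (hDT : ∀ π, D (T π) = 1) (hDM : ∀ c, D (M c) = ∏ i, D₀ (c i))
  (Q : Subgroup A) (S : Subgroup (Perm ι))

/-- The determinant-one part of the wreath product. -/
abbrev wrK : Subgroup G := wrS M T hTM Q S ⊓ D.ker

include hDM in
theorem mem_wrK_M {c : ι → A} (hc : ∀ i, c i ∈ Q) (hd : ∏ i, D₀ (c i) = 1) :
    M c ∈ wrK M T hTM D Q S :=
  Subgroup.mem_inf.2 ⟨⟨c, hc, 1, one_mem _, by simp⟩, by rw [MonoidHom.mem_ker, hDM, hd]⟩

include hDT in
theorem mem_wrK_T {π : Perm ι} (hπ : π ∈ S) : T π ∈ wrK M T hTM D Q S :=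
  Subgroup.mem_inf.2 ⟨⟨1, fun _ => one_mem _, π, hπ, by simp⟩, by rw [MonoidHom.mem_ker, hDT]⟩

theorem prod_single (i : ι) (a : A) : ∏ m, D₀ ((Pi.mulSingle i a : ι → A) m) = D₀ a := by
  rw [Finset.prod_eq_single i]
  · simp
  · intro b _ hb
    simp [Pi.mulSingle_eq_of_ne hb]
  · simp

include hDM in
/-- Commutators in a single coordinate. -/
theorem single_comm_mem {s₀ : A} (hs₀ : s₀ ∈ Q) (hgen : ∀ a ∈ Q, ∃ k : ℤ, D₀ a = D₀ s₀ ^ k)
    {i j : ι} (hij : i ≠ j) {a b : A} (ha : a ∈ Q) (hb : b ∈ Q) :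
    M (Pi.mulSingle i (a * b * a⁻¹ * b⁻¹)) ∈
      (⁅wrK M T hTM D Q S, wrK M T hTM D Q S⁆ : Subgroup G) := by
  obtain ⟨k, hk⟩ := hgen a ha
  obtain ⟨l, hl⟩ := hgen b hb
  let a' : ι → A := Pi.mulSingle i a * Pi.mulSingle j (s₀ ^ (-k))
  let b' : ι → A := Pi.mulSingle i b * Pi.mulSingle j (s₀ ^ (-l))
  have hmem : ∀ (x : A) (n : ℤ), x ∈ Q → ∀ m, (Pi.mulSingle i x * Pi.mulSingle j (s₀ ^ n) : ι → A) m ∈ Q := by
    intro x n hx m
    rw [Pi.mul_apply]
    refine mul_mem ?_ ?_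
    · by_cases hm : m = i
      · subst hm
        simpa using hx
      · simp [Pi.mulSingle_eq_of_ne hm, one_mem]
    · by_cases hm : m = j
      · subst hm
        simpa using zpow_mem hs₀ n
      · simp [Pi.mulSingle_eq_of_ne hm, one_mem]
  have hprod : ∀ (x : A) (n : ℤ), D₀ x = D₀ s₀ ^ (-n) →
      ∏ m, D₀ ((Pi.mulSingle i x * Pi.mulSingle j (s₀ ^ n) : ι → A) m) = 1 := by
    intro x n hx
    simp only [Pi.mul_apply, map_mul]
    rw [Finset.prod_mul_distrib, prod_single, prod_single, hx, map_zpow, ← zpow_add]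
    simp
  have h1 : M a' ∈ wrK M T hTM D Q S :=
    mem_wrK_M M T hTM D D₀ hDM Q S (hmem a _ ha) (hprod a _ (by rw [neg_neg]; exact hk))
  have h2 : M b' ∈ wrK M T hTM D Q S :=
    mem_wrK_M M T hTM D D₀ hDM Q S (hmem b _ hb) (hprod b _ (by rw [neg_neg]; exact hl))
  have h3 := Subgroup.commutator_mem_commutator h1 h2
  rw [commutatorElement_def, ← map_inv, ← map_inv, ← map_mul, ← map_mul, ← map_mul] at h3
  have h4 : a' * b' * a'⁻¹ * b'⁻¹ = Pi.mulSingle i (a * b * a⁻¹ * b⁻¹) := by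
    funext m
    by_cases hm : m = i
    · subst hm
      simp [a', b', Pi.mulSingle_eq_of_ne hij]
    · by_cases hm2 : m = j
      · subst hm2
        simp only [a', b', Pi.mul_apply, Pi.inv_apply, Pi.mulSingle_eq_same,
          Pi.mulSingle_eq_of_ne hm, one_mul, mul_inv_rev, inv_one, mul_one]
        rw [← zpow_neg, ← zpow_neg, ← zpow_add, ← zpow_add, ← zpow_add, ← zpow_zero s₀]
        congr 1
        ring
      · simp [a', b', Pi.mulSingle_eq_of_ne hm, Pi.mulSingle_eq_of_ne hm2]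
  rwa [h4] at h3

include hDM in
/-- Elements of the derived subgroup in a single coordinate. -/
theorem single_mem {s₀ : A} (hs₀ : s₀ ∈ Q) (hgen : ∀ a ∈ Q, ∃ k : ℤ, D₀ a = D₀ s₀ ^ k)
    (htwo : ∀ i : ι, ∃ j, i ≠ j) (i : ι) {y : A} (hy : y ∈ (⁅Q, Q⁆ : Subgroup A)) :
    M (Pi.mulSingle i y) ∈ (⁅wrK M T hTM D Q S, wrK M T hTM D Q S⁆ : Subgroup G) := by
  obtain ⟨j, hj⟩ := htwo i
  let φ : A →* G := M.comp (MonoidHom.mulSingle (fun _ : ι => A) i)
  have hle : (⁅Q, Q⁆ : Subgroup A) ≤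
      (⁅wrK M T hTM D Q S, wrK M T hTM D Q S⁆ : Subgroup G).comap φ := by
    rw [Subgroup.commutator_le]
    intro a ha b hb
    rw [Subgroup.mem_comap, commutatorElement_def]
    exact single_comm_mem M T hTM D D₀ hDM Q S hs₀ hgen hj ha hb
  exact hle hy

include hDM in
/-- Families of elements of the derived subgroup. -/
theorem family_mem {s₀ : A} (hs₀ : s₀ ∈ Q) (hgen : ∀ a ∈ Q, ∃ k : ℤ, D₀ a = D₀ s₀ ^ k)
    (htwo : ∀ i : ι, ∃ j, i ≠ j) {r : ι → A} (hr : ∀ i, r i ∈ (⁅Q, Q⁆ : Subgroup A)) :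
    M r ∈ (⁅wrK M T hTM D Q S, wrK M T hTM D Q S⁆ : Subgroup G) := by
  have hpart : ∀ s : Finset ι, M (fun i => if i ∈ s then r i else 1) ∈
      (⁅wrK M T hTM D Q S, wrK M T hTM D Q S⁆ : Subgroup G) := by
    intro s
    induction s using Finset.induction_on with
    | empty =>
      have h2 : (fun i => if i ∈ (∅ : Finset ι) then r i else 1) = (1 : ι → A) := by
        funext i
        simp
      rw [h2, map_one]
      exact one_mem _
    | insert a s ha ih =>
      have h2 : (fun i => if i ∈ insert a s then r i else 1) =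
          (fun i => if i ∈ s then r i else 1) * Pi.mulSingle a (r a) := by
        funext i
        by_cases hi : i = a
        · subst hi
          simp [ha]
        · simp [Finset.mem_insert, hi, Pi.mulSingle_eq_of_ne hi]
      rw [h2, map_mul]
      exact mul_mem ih (single_mem M T hTM D D₀ hDM Q S hs₀ hgen htwo a (hr a))
  have h := hpart Finset.univ
  simpa using h

include hDT hDM in
/-- The reduction to the base group. -/
theorem sq_reduce (hS : SymS.Good 2 S)
    (hbase : ∀ c : ι → A, (∀ i, c i ∈ Q) → ∏ i, D₀ (c i) = 1 →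
      M (c * c) ∈ (⁅wrK M T hTM D Q S, wrK M T hTM D Q S⁆ : Subgroup G)) :
    SymS.Good 2 (wrK M T hTM D Q S) := by
  intro x hx
  obtain ⟨⟨c, hc, π, hπ, rfl⟩, hxD⟩ := Subgroup.mem_inf.1 hx
  have hd : ∏ i, D₀ (c i) = 1 := by
    rw [MonoidHom.mem_ker, map_mul, hDT, mul_one, hDM] at hxD
    exact hxD
  have hMc := mem_wrK_M M T hTM D D₀ hDM Q S hc hd
  have hTπ := mem_wrK_T M T hTM D hDT Q S hπ
  have h1 : (M c * T π) ^ 2 = M (c * c) * (((M c)⁻¹ * (T π * M c * (T π)⁻¹)) * T (π ^ 2)) := by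
    rw [pow_two, pow_two, map_mul, map_mul]
    group
  rw [h1]
  refine mul_mem (hbase c hc hd) (mul_mem ?_ ?_)
  · have h4 := Subgroup.commutator_mem_commutator (inv_mem hMc) hTπ
    rw [commutatorElement_def, inv_inv] at h4
    have h5 : (M c)⁻¹ * (T π * M c * (T π)⁻¹) = (M c)⁻¹ * T π * M c * (T π)⁻¹ := by
      group
    rw [h5]
    exact h4
  · have h3 : T (π ^ 2) ∈ (⁅S, S⁆ : Subgroup (Perm ι)).map T := ⟨_, hS _ hπ, rfl⟩
    rw [Subgroup.map_commutator] at h3
    have hle : S.map T ≤ wrK M T hTM D Q S := by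
      rintro _ ⟨a, ha, rfl⟩
      exact mem_wrK_T M T hTM D hDT Q S ha
    exact Subgroup.commutator_mono hle hle h3

include hDT hDM in
/-- Case A: the base has the exponent property. -/
theorem good_wrK_A (hS : SymS.Good 2 S) (hQ : SymS.Good 2 Q) {s₀ : A} (hs₀ : s₀ ∈ Q)
    (hgen : ∀ a ∈ Q, ∃ k : ℤ, D₀ a = D₀ s₀ ^ k) (htwo : ∀ i : ι, ∃ j, i ≠ j) :
    SymS.Good 2 (wrK M T hTM D Q S) := by
  refine sq_reduce M T hTM D D₀ hDT hDM Q S hS fun c hc _ => ?_
  apply family_mem M T hTM D D₀ hDM Q S hs₀ hgen htwo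
  intro i
  have := hQ _ (hc i)
  rwa [pow_two] at this

/-- The auxiliary base element: `s₀` at `a`, `s₀⁻¹` at `x₀`. -/
def uu (s₀ : A) (x₀ a : ι) : ι → A := Pi.mulSingle a s₀ * (Pi.mulSingle x₀ s₀)⁻¹

theorem single_comp (π : Perm ι) (a : ι) (s : A) :
    (Pi.mulSingle a s : ι → A) ∘ ⇑π⁻¹ = Pi.mulSingle (π a) s := by
  funext i
  by_cases hi : i = π a
  · subst hi
    simp
  · have h2 : π⁻¹ i ≠ a := fun h => hi (by rw [← h]; simp)
    rw [Function.comp_apply, Pi.mulSingle_eq_of_ne hi, Pi.mulSingle_eq_of_ne h2]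

theorem uu_comp (s₀ : A) (x₀ a : ι) (π : Perm ι) :
    uu s₀ x₀ (π a) = (uu s₀ x₀ a ∘ ⇑π⁻¹) * uu s₀ x₀ (π x₀) := by
  have h1 : uu s₀ x₀ a ∘ ⇑π⁻¹ = Pi.mulSingle (π a) s₀ * (Pi.mulSingle (π x₀) s₀)⁻¹ := by
    unfold uu
    funext i
    have h2 := congrFun (single_comp π a s₀) i
    have h3 := congrFun (single_comp π x₀ s₀) i
    simp only [Function.comp_apply] at h2 h3
    simp only [Function.comp_apply, Pi.mul_apply, Pi.inv_apply, h2, h3]
  rw [h1]
  unfold uu
  group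

include hDM in
theorem mem_uu {s₀ : A} (hs₀ : s₀ ∈ Q) (x₀ a : ι) :
    M (uu s₀ x₀ a) ∈ wrK M T hTM D Q S := by
  apply mem_wrK_M M T hTM D D₀ hDM Q S
  · intro i
    unfold uu
    rw [Pi.mul_apply, Pi.inv_apply]
    refine mul_mem ?_ (inv_mem ?_)
    · by_cases hm : i = a
      · subst hm
        simpa using hs₀
      · simp [Pi.mulSingle_eq_of_ne hm, one_mem]
    · by_cases hm : i = x₀
      · subst hm
        simpa using hs₀
      · simp [Pi.mulSingle_eq_of_ne hm, one_mem]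
  · unfold uu
    simp only [Pi.mul_apply, Pi.inv_apply, map_mul, map_inv]
    rw [Finset.prod_mul_distrib, Finset.prod_inv_distrib, prod_single, prod_single]
    simp

include hDT hDM in
/-- The squares of the auxiliary elements lie in the derived subgroup. -/
theorem uu_sq_mem (hS : SymS.Good 2 S) {s₀ : A} (hs₀ : s₀ ∈ Q) (x₀ : ι)
    {π : Perm ι} (hπ : π ∈ S) :
    M (uu s₀ x₀ (π x₀)) ^ 2 ∈ (⁅wrK M T hTM D Q S, wrK M T hTM D Q S⁆ : Subgroup G) := by
  classical
  let K := wrK M T hTM D Q S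
  let el : Perm ι → K := fun σ => ⟨M (uu s₀ x₀ (σ x₀)), mem_uu M T hTM D D₀ hDM Q S hs₀ x₀ _⟩
  have hel : ∀ σ σ' : Perm ι, (σ ∈ S) → Abelianization.of (el (σ * σ')) =
      Abelianization.of (el σ') * Abelianization.of (el σ) := by
    intro σ σ' hσ
    let tt : K := ⟨T σ, mem_wrK_T M T hTM D hDT Q S hσ⟩
    have h1 : el (σ * σ') = tt * el σ' * tt⁻¹ * el σ := by
      apply Subtype.ext
      show M (uu s₀ x₀ ((σ * σ') x₀)) = T σ * M (uu s₀ x₀ (σ' x₀)) * (T σ)⁻¹ * M (uu s₀ x₀ (σ x₀))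
      rw [hTM, ← map_mul, Perm.mul_apply, uu_comp]
    rw [h1, map_mul, map_mul, map_mul, map_inv]
    rw [mul_comm (Abelianization.of tt), mul_assoc (Abelianization.of (el σ')),
      mul_inv_cancel, mul_one]
  let f : S →* Abelianization K := MonoidHom.mk' (fun σ => Abelianization.of (el σ.1)) (by
    intro σ σ'
    show Abelianization.of (el (σ.1 * σ'.1)) = _
    rw [hel _ _ σ.2, mul_comm])
  have h1 := hS π hπ
  rw [← Subgroup.map_subtype_commutator] at h1
  obtain ⟨y, hy, hyx⟩ := h1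
  have hy2 : y = ⟨π, hπ⟩ ^ 2 := Subtype.ext hyx
  have h2 : f y = 1 := Abelianization.commutator_subset_ker f hy
  rw [hy2, map_pow] at h2
  have h3 : (Abelianization.of (el π)) ^ 2 = 1 := h2
  rw [← map_pow] at h3
  have h4 : el π ^ 2 ∈ commutator K := by
    rwa [← QuotientGroup.eq_one_iff]
  have h5 := Subgroup.mem_map_of_mem K.subtype h4
  rw [Subgroup.map_subtype_commutator] at h5
  exact h5

include hDT hDM in
/-- Case B: the base group is arbitrary, the action transitive. -/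
theorem good_wrK_B (hS : SymS.Good 2 S) {s₀ : A} (hs₀ : s₀ ∈ Q)
    (hgen : ∀ a ∈ Q, ∃ k : ℤ, D₀ a = D₀ s₀ ^ k) (htwo : ∀ i : ι, ∃ j, i ≠ j)
    (x₀ : ι) (htrans : ∀ i, ∃ π ∈ S, π x₀ = i)
    (hP2 : ∀ w ∈ Q, D₀ w = 1 → w ^ 2 ∈ (⁅Q, Q⁆ : Subgroup A)) :
    SymS.Good 2 (wrK M T hTM D Q S) := by
  classical
  let K₀ : Subgroup G := ⁅wrK M T hTM D Q S, wrK M T hTM D Q S⁆
  let tau : (ι → ℤ) → G := fun k => M (fun i => s₀ ^ (2 * k i))
  have tau_add : ∀ k l, tau (k + l) = tau k * tau l := by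
    intro k l
    show M _ = M _ * M _
    rw [← map_mul]
    congr 1
    funext i
    simp only [Pi.add_apply, Pi.mul_apply]
    rw [mul_add, zpow_add]
  have tau_zero : tau 0 = 1 := by
    show M _ = 1
    convert map_one M
    simp
  have tau_neg : ∀ k, tau (-k) = (tau k)⁻¹ := by
    intro k
    show M _ = (M _)⁻¹
    rw [← map_inv]
    congr 1
    funext i
    simp only [Pi.neg_apply, Pi.inv_apply]
    rw [mul_neg, zpow_neg]
  let L : AddSubgroup (ι → ℤ) :=
    { carrier := {k | tau k ∈ K₀}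
      add_mem' := fun {a b} ha hb => by
        show tau (a + b) ∈ K₀
        rw [tau_add]
        exact mul_mem ha hb
      zero_mem' := by
        show tau 0 ∈ K₀
        rw [tau_zero]
        exact one_mem _
      neg_mem' := fun {a} ha => by
        show tau (-a) ∈ K₀
        rw [tau_neg]
        exact inv_mem ha }
  have hLs : ∀ a, (Pi.single a 1 - Pi.single x₀ 1 : ι → ℤ) ∈ L := by
    intro a
    obtain ⟨π, hπ, rfl⟩ := htrans a
    show tau _ ∈ K₀
    have h1 := uu_sq_mem M T hTM D D₀ hDT hDM Q S hS hs₀ x₀ hπ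
    have h2 : tau (Pi.single (π x₀) 1 - Pi.single x₀ 1 : ι → ℤ) = M (uu s₀ x₀ (π x₀)) ^ 2 := by
      show M _ = _
      rw [← map_pow]
      congr 1
      funext i
      unfold uu
      rw [Pi.pow_apply, Pi.mul_apply, Pi.inv_apply]
      simp only [Pi.sub_apply]
      by_cases h3 : i = π x₀
      · by_cases h4 : i = x₀
        · subst h4
          rw [← h3]
          simp
        · rw [Pi.mulSingle_eq_of_ne h4, Pi.single_eq_of_ne h4]
          subst h3
          simp [pow_two]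
      · by_cases h4 : i = x₀
        · subst h4
          rw [Pi.mulSingle_eq_of_ne h3, Pi.single_eq_of_ne h3]
          simp [pow_two]
        · rw [Pi.mulSingle_eq_of_ne h3, Pi.single_eq_of_ne h3, Pi.mulSingle_eq_of_ne h4,
            Pi.single_eq_of_ne h4]
          simp
    rw [h2]
    exact h1
  have hLall : ∀ k : ι → ℤ, k - (∑ i, k i) • Pi.single x₀ 1 ∈ L := by
    intro k
    have h1 : k - (∑ i, k i) • Pi.single x₀ 1 =
        ∑ a, k a • (Pi.single a 1 - Pi.single x₀ 1 : ι → ℤ) := by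
      funext j
      simp only [Pi.sub_apply, Pi.smul_apply, Finset.sum_apply, smul_eq_mul, mul_sub,
        Finset.sum_sub_distrib, Pi.single_apply, mul_ite, mul_one, mul_zero]
      simp [Finset.sum_ite_eq']
    rw [h1]
    exact sum_mem fun a _ => AddSubgroup.zsmul_mem _ (hLs a) _
  refine sq_reduce M T hTM D D₀ hDT hDM Q S hS fun c hc hd => ?_
  choose k hk using fun i => hgen (c i) (hc i)
  have hsum : D₀ (s₀ ^ (∑ i, k i)) = 1 := by
    rw [map_zpow, ← hd]
    have h1 : ∀ t : Finset ι, D₀ s₀ ^ (∑ i ∈ t, k i) = ∏ i ∈ t, D₀ (c i) := by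
      intro t
      induction t using Finset.induction_on with
      | empty => simp
      | insert a t ha ih =>
        rw [Finset.sum_insert ha, Finset.prod_insert ha, zpow_add, ih, hk]
    exact h1 _
  have hmemz : ∀ n : ℤ, s₀ ^ n ∈ Q := fun n => zpow_mem hs₀ n
  have hsingle : tau ((∑ i, k i) • Pi.single x₀ 1) ∈ K₀ := by
    have h1 := hP2 _ (hmemz (∑ i, k i)) hsum
    have h2 := single_mem M T hTM D D₀ hDM Q S hs₀ hgen htwo x₀ h1
    have h3 : tau ((∑ i, k i) • Pi.single x₀ 1) =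
        M (Pi.mulSingle x₀ ((s₀ ^ (∑ i, k i)) ^ 2)) := by
      show M _ = _
      congr 1
      funext i
      by_cases hi : i = x₀
      · subst hi
        simp only [Pi.smul_apply, Pi.single_eq_same, smul_eq_mul, mul_one, Pi.mulSingle_eq_same]
        rw [← zpow_natCast (s₀ ^ _) 2, ← _root_.zpow_mul, mul_comm]
        rfl
      · rw [Pi.mulSingle_eq_of_ne hi]
        simp [Pi.single_eq_of_ne hi]
    rw [h3]
    exact h2
  have htau : tau k ∈ K₀ := by
    have h1 := hLall k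
    have h2 : k = (k - (∑ i, k i) • Pi.single x₀ 1) + (∑ i, k i) • Pi.single x₀ 1 := by
      abel
    rw [h2, tau_add]
    exact mul_mem h1 hsingle
  let r : ι → A := fun i => s₀ ^ (-(2 * k i)) * (c i * c i)
  have hr : ∀ i, r i ∈ (⁅Q, Q⁆ : Subgroup A) := by
    intro i
    let w := s₀ ^ (-k i) * c i
    have hw : w ∈ Q := mul_mem (hmemz _) (hc i)
    have hDw : D₀ w = 1 := by
      show D₀ (s₀ ^ (-k i) * c i) = 1
      rw [map_mul, map_zpow, hk, zpow_neg, inv_mul_cancel]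
    have h1 := hP2 w hw hDw
    have h2 := Subgroup.commutator_mem_commutator (hmemz (-k i)) hw
    have h3 : r i = (s₀ ^ (-k i) * w * (s₀ ^ (-k i))⁻¹ * w⁻¹) * w ^ 2 := by
      have hcw : c i = s₀ ^ k i * w := by
        show c i = s₀ ^ k i * (s₀ ^ (-k i) * c i)
        rw [← mul_assoc, ← zpow_add]
        simp
      show s₀ ^ (-(2 * k i)) * (c i * c i) = _
      rw [hcw, two_mul, neg_add, zpow_add, pow_two]
      simp only [zpow_neg]
      group
    rw [h3]
    rw [commutatorElement_def] at h2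
    exact mul_mem h2 h1
  have hcc : c * c = (fun i => s₀ ^ (2 * k i)) * r := by
    funext i
    show c i * c i = s₀ ^ (2 * k i) * (s₀ ^ (-(2 * k i)) * (c i * c i))
    rw [← mul_assoc, ← zpow_add]
    simp
  rw [hcc, map_mul]
  exact mul_mem htau (family_mem M T hTM D D₀ hDM Q S hs₀ hgen htwo hr)

end AbsDet

end Cfsg.Agent.H21.SpS
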