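import Cfsg.Agent.Lib.H21.SLSylowC
import Cfsg.Agent.Lib.H03.Orbit

/-!
# Sylow 2-subgroups of `SL_{2m}(q)`
-/

set_option autoImplicit false
set_option linter.unusedSectionVars false
set_option linter.style.haveILetI false
set_option linter.unusedSimpArgs false

namespace Cfsg.Agent.H21.SpS

open Equiv Matrix MatrixGroups

section Generic

variable {G H U : Type*} [Group G] [Group H] [CommGroup U]

/-- The exponent property passes to isomorphic copies inside a bigger group. -/
theorem good_comap (ι : H →* G) (hι : Function.Injective ι) (K : Subgroup G) (hK : K ≤ ι.range)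
    (hG : SymS.Good 2 K) : SymS.Good 2 (K.comap ι) := by
  intro x hx
  have h1 := hG _ (Subgroup.mem_comap.1 hx)
  have h2 : K = (K.comap ι).map ι := (Subgroup.map_comap_eq_self hK).symm
  rw [h2, ← Subgroup.map_commutator] at h1
  obtain ⟨y, hy, hyx⟩ := h1
  have : y = x ^ 2 := hι (by rw [hyx, map_pow])
  rwa [← this]

theorem card_comap (ι : H →* G) (hι : Function.Injective ι) (K : Subgroup G) (hK : K ≤ ι.range) :
    Nat.card (K.comap ι) = Nat.card K := by
  have h2 : (K.comap ι).map ι = K := Subgroup.map_comap_eq_self hK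
  conv_rhs => rw [← h2]
  exact (Subgroup.card_map_of_injective hι).symm

/-- The 2-part of the intersection with a kernel. -/
theorem card_sylow_inf [Finite G] [Finite U] (W : Subgroup G) (D : G →* U) {v u k : ℕ}
    (hW : Nat.card W = 2 ^ v) (hu : (Nat.card U).factorization 2 = u)
    (hk : (Nat.card D.ker).factorization 2 = k) (hv : v = u + k) :
    Nat.card (W ⊓ D.ker : Subgroup G) = 2 ^ k := by
  classical
  let f : W →* U := D.comp W.subtype
  have h1 : Nat.card f.range * Nat.card f.ker = 2 ^ v := by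
    rw [← hW, mul_comm]
    have := Subgroup.card_mul_index f.ker
    rwa [Subgroup.index_ker] at this
  have hker : Nat.card f.ker = Nat.card (W ⊓ D.ker : Subgroup G) := by
    have h2 : (f.ker).map W.subtype = W ⊓ D.ker := by
      ext x
      simp only [Subgroup.mem_map, MonoidHom.mem_ker, Subgroup.mem_inf, Subgroup.subtype_apply]
      constructor
      · rintro ⟨y, hy, rfl⟩
        exact ⟨y.2, hy⟩
      · rintro ⟨h3, h4⟩
        exact ⟨⟨x, h3⟩, h4, rfl⟩
    rw [← h2]
    exact (Subgroup.card_map_of_injective W.subtype_injective).symm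
  obtain ⟨r, -, hr⟩ := (Nat.dvd_prime_pow Nat.prime_two).1 (Dvd.intro _ h1)
  obtain ⟨s, -, hs⟩ := (Nat.dvd_prime_pow Nat.prime_two).1 (Dvd.intro_left _ h1)
  rw [hr, hs, ← pow_add] at h1
  have h2 : r + s = v := Nat.pow_right_injective (le_refl 2) h1
  have hU0 : Nat.card U ≠ 0 := Nat.card_pos.ne'
  have hK0 : Nat.card D.ker ≠ 0 := Nat.card_pos.ne'
  have hr1 : r ≤ u := by
    rw [← hu]
    apply (Nat.Prime.pow_dvd_iff_le_factorization Nat.prime_two hU0).1
    rw [← hr]
    exact Subgroup.card_subgroup_dvd_card _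
  have hs1 : s ≤ k := by
    rw [← hk]
    apply (Nat.Prime.pow_dvd_iff_le_factorization Nat.prime_two hK0).1
    rw [← hs, hker]
    exact Subgroup.card_dvd_of_le inf_le_right
  have hsk : s = k := by omega
  rw [← hker, hs, hsk]

/-- A determinant generator. -/
theorem exists_det_gen {A F : Type*} [Group A] [Field F] [Finite F] (Q : Subgroup A) (D₀ : A →* Fˣ) :
    ∃ s₀ ∈ Q, ∀ a ∈ Q, ∃ k : ℤ, D₀ a = D₀ s₀ ^ k := by
  classical
  haveI : Finite Fˣ := inferInstance
  haveI : IsCyclic (Q.map D₀ : Subgroup Fˣ) := inferInstance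
  obtain ⟨g, hg⟩ := IsCyclic.exists_generator (α := (Q.map D₀ : Subgroup Fˣ))
  obtain ⟨s₀, hs₀, hgs⟩ := g.2
  refine ⟨s₀, hs₀, fun a ha => ?_⟩
  obtain ⟨k, hk⟩ := Subgroup.mem_zpowers_iff.1 (hg ⟨D₀ a, Subgroup.mem_map_of_mem _ ha⟩)
  refine ⟨k, ?_⟩
  have h1 := congrArg Subtype.val hk
  simp only [Subgroup.coe_zpow] at h1
  rw [← h1, hgs]

end Generic

section Conc

variable {F : Type*} [Field F] {n : ℕ}

abbrev dX (X : Type*) [Fintype X] [DecidableEq X] (F : Type*) [Field F] : GL X F →* Fˣ :=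
  Matrix.GeneralLinearGroup.det

theorem dX_tm (π : Perm (Fin n)) : dX (Fin n ⊕ Fin n) F (Tg π) = 1 := by
  apply Units.ext
  rw [Matrix.GeneralLinearGroup.val_det_apply, coe_Tg]
  have h1 : (pm π : Matrix (Fin n) (Fin n) F) * (pm π)ᵀ = 1 := by
    rw [pm_transpose, ← pm_mul, mul_inv_cancel, pm_one]
  have h2 := congrArg Matrix.det h1
  rw [det_mul, det_transpose, det_one] at h2
  simp only [tm]
  rw [det_fromBlocks_zero₂₁, h2]
  simp

/-- The reshuffling of the index set. -/
def shuf (n : ℕ) : Fin n ⊕ Fin n ≃ Fin 2 × Fin n where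
  toFun := Sum.elim (fun i => (0, i)) (fun i => (1, i))
  invFun p := if p.1 = 0 then Sum.inl p.2 else Sum.inr p.2
  left_inv x := by
    cases x <;> simp
  right_inv p := by
    obtain ⟨a, b⟩ := p
    fin_cases a <;> simp

theorem blkG_eq (c : Fin n → GL (Fin 2) F) :
    blkG c = (blockDiagonal fun i => (c i).1).submatrix (shuf n) (shuf n) := by
  ext i j
  rcases i with i | i <;> rcases j with j | j <;> by_cases h : i = j <;>
    simp [blkG, shuf, blockDiagonal_apply, h, diagonal_apply]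

theorem dX_blk (c : Fin n → GL (Fin 2) F) :
    dX (Fin n ⊕ Fin n) F (Mg c) = ∏ i, dX (Fin 2) F (c i) := by
  apply Units.ext
  rw [Matrix.GeneralLinearGroup.val_det_apply, coe_Mg, blkG_eq, det_submatrix_equiv_self,
    det_blockDiagonal, Units.coe_prod]
  rfl

/-- The range of the embedding is the determinant-one part. -/
theorem range_toGL (X : Type*) [Fintype X] [DecidableEq X] :
    (SpecialLinearGroup.toGL (n := X) (R := F)).range = (dX X F).ker := by
  ext g
  constructor
  · rintro ⟨a, rfl⟩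
    rw [MonoidHom.mem_ker]
    apply Units.ext
    rw [Matrix.GeneralLinearGroup.val_det_apply]
    exact a.2
  · intro h
    rw [MonoidHom.mem_ker] at h
    have h2 : (g.1).det = 1 := by
      have := congrArg Units.val h
      rwa [Matrix.GeneralLinearGroup.val_det_apply] at this
    exact ⟨⟨g.1, h2⟩, Units.ext rfl⟩

theorem card_ker_dX (X : Type*) [Fintype X] [DecidableEq X] [Finite F] :
    Nat.card (dX X F).ker = Nat.card (SpecialLinearGroup X F) := by
  rw [← range_toGL]
  exact Nat.card_congr (MonoidHom.ofInjective SpecialLinearGroup.toGL_injective).toEquiv.symm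

/-- The Sylow 2-subgroups of `SL₂`. -/
theorem sl2_good [Fintype F] (hF : Odd (Fintype.card F)) (Q₀ : Sylow 2 (SL(2, F))) :
    SymS.Good 2 (Q₀ : Subgroup (SL(2, F))) := by
  obtain ⟨k, hk, ⟨e⟩⟩ := Cfsg.Agent.Lead.sl2_sylow_quat hF Q₀
  intro x hx
  have h1 := quat_sq_mem (2 ^ k) (by positivity) (by
    exact (Nat.even_pow' (by omega)).2 even_two) (e ⟨x, hx⟩)
  let f : QuaternionGroup (2 ^ k) →* SL(2, F) :=
    (Q₀ : Subgroup (SL(2, F))).subtype.comp e.symm.toMonoidHom
  have h2 : f ((e ⟨x, hx⟩) ^ 2) ∈ (commutator (QuaternionGroup (2 ^ k))).map f := ⟨_, h1, rfl⟩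
  rw [commutator_def, Subgroup.map_commutator] at h2
  have hle : (⊤ : Subgroup (QuaternionGroup (2 ^ k))).map f ≤ (Q₀ : Subgroup (SL(2, F))) := by
    rintro _ ⟨y, -, rfl⟩
    exact (e.symm y).2
  have h3 := Subgroup.commutator_mono hle hle h2
  have h4 : f ((e ⟨x, hx⟩) ^ 2) = x ^ 2 := by
    rw [map_pow]
    congr 1
    simp [f]
  rwa [h4] at h3

/-- The kernel-of-determinant part of a subgroup of Sylow order of `GL₂` has the property. -/
theorem gl2_det_one [Fintype F] (hF : Odd (Fintype.card F)) (Q : Subgroup (GL (Fin 2) F))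
    (hQc : Nat.card Q = 2 ^ (Nat.card (GL (Fin 2) F)).factorization 2) :
    ∀ w ∈ Q, dX (Fin 2) F w = 1 → w ^ 2 ∈ (⁅Q, Q⁆ : Subgroup (GL (Fin 2) F)) := by
  classical
  haveI : Fact (Nat.Prime 2) := ⟨Nat.prime_two⟩
  have h1 : Nat.card (Q ⊓ (dX (Fin 2) F).ker : Subgroup (GL (Fin 2) F)) =
      2 ^ (Nat.card (SL(2, F))).factorization 2 := by
    apply card_sylow_inf Q (dX (Fin 2) F) hQc rfl (by rw [card_ker_dX])
    rw [val_GL2 hF, sl2_val hF, Nat.card_eq_fintype_card (α := Fˣ), Fintype.card_units,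
      Nat.factorization_def _ Nat.prime_two]
  have hι := SpecialLinearGroup.toGL_injective (n := Fin 2) (R := F)
  have hle : (Q ⊓ (dX (Fin 2) F).ker : Subgroup (GL (Fin 2) F)) ≤
      (SpecialLinearGroup.toGL (n := Fin 2) (R := F)).range := by
    rw [range_toGL]
    exact inf_le_right
  let Q' := (Q ⊓ (dX (Fin 2) F).ker : Subgroup (GL (Fin 2) F)).comap
    (SpecialLinearGroup.toGL (n := Fin 2) (R := F))
  have h2 : Nat.card Q' = 2 ^ (Nat.card (SL(2, F))).factorization 2 := by
    rw [← h1]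
    exact card_comap _ hι _ hle
  have h3 : SymS.Good 2 Q' := sl2_good hF (Sylow.ofCard Q' h2)
  have h4 : SymS.Good 2 (Q ⊓ (dX (Fin 2) F).ker : Subgroup (GL (Fin 2) F)) := by
    have h5 := h3.map (SpecialLinearGroup.toGL (n := Fin 2) (R := F))
    rwa [Subgroup.map_comap_eq_self hle] at h5
  intro w hw hd
  exact Subgroup.commutator_mono inf_le_left inf_le_left (h4 w (Subgroup.mem_inf.2 ⟨hw, hd⟩))

/-- The transfer to the Sylow subgroups of `SL_{2m}`. -/
theorem final_transfer {X : Type*} [Fintype X] [DecidableEq X] [Finite F] {N : ℕ}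
    (e : X ≃ Fin N) (K : Subgroup (GL X F)) (hK : K ≤ (dX X F).ker)
    (hcard : Nat.card K = 2 ^ (Nat.card (SpecialLinearGroup (Fin N) F)).factorization 2)
    (hgood : SymS.Good 2 K) (P : Sylow 2 (SpecialLinearGroup (Fin N) F)) :
    ∀ x : (P : Subgroup (SpecialLinearGroup (Fin N) F)),
      x ^ 2 ∈ commutator (P : Subgroup (SpecialLinearGroup (Fin N) F)) := by
  classical
  haveI : Fact (Nat.Prime 2) := ⟨Nat.prime_two⟩
  have hι := SpecialLinearGroup.toGL_injective (n := X) (R := F)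
  have hle : K ≤ (SpecialLinearGroup.toGL (n := X) (R := F)).range := by
    rw [range_toGL]
    exact hK
  let K' := K.comap (SpecialLinearGroup.toGL (n := X) (R := F))
  have h1 : Nat.card K' = Nat.card K := card_comap _ hι _ hle
  have h2 : SymS.Good 2 K' := good_comap _ hι _ hle hgood
  let W := K'.map (slReindex (F := F) e).toMonoidHom
  have hWc : Nat.card W = Nat.card K' :=
    (Subgroup.card_map_of_injective (slReindex (F := F) e).injective)
  have hWg : SymS.Good 2 W := h2.map _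
  let S' : Sylow 2 (SpecialLinearGroup (Fin N) F) := Sylow.ofCard W (by rw [hWc, h1, hcard])
  obtain ⟨g, hg⟩ := MulAction.exists_smul_eq (SpecialLinearGroup (Fin N) F) S' P
  have hP : (P : Subgroup (SpecialLinearGroup (Fin N) F)) = W.map (MulAut.conj g).toMonoidHom := by
    rw [← hg]
    ext x
    rfl
  have hgood : SymS.Good 2 (P : Subgroup (SpecialLinearGroup (Fin N) F)) := by
    rw [hP]
    exact hWg.map _
  intro x
  have h1 := hgood x x.2
  rw [← Subgroup.map_subtype_commutator] at h1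
  obtain ⟨y, hy, hyx⟩ := h1
  have : y = x ^ 2 := Subtype.ext hyx
  rwa [← this]

/-- The order of the determinant-one part of the wreath product. -/
theorem card_wrK_eq [Fintype F] (hF : Odd (Fintype.card F)) {m : ℕ} (hm : 1 ≤ m)
    (Q : Subgroup (GL (Fin 2) F))
    (hQc : Nat.card Q = 2 ^ (Nat.card (GL (Fin 2) F)).factorization 2)
    (S₀ : Sylow 2 (Perm (Fin m))) :
    Nat.card (wrK Mg Tg Tg_conj (dX (Fin m ⊕ Fin m) F) Q (S₀ : Subgroup (Perm (Fin m)))) =
      2 ^ (Nat.card (SpecialLinearGroup (Fin (2 * m)) F)).factorization 2 := by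
  classical
  haveI : Fact (Nat.Prime 2) := ⟨Nat.prime_two⟩
  have hq1 : 1 < Fintype.card F := Fintype.one_lt_card
  have hWc := card_wrS (Mg (F := F) (n := m)) Tg Tg_conj sepG Q (S₀ : Subgroup (Perm (Fin m)))
  have h1 := val_SL_aux hF (2 * m) (by omega)
  rw [val_sum_even hF hq1] at h1
  have hcard : Nat.card (SpecialLinearGroup (Fin m ⊕ Fin m) F) =
      Nat.card (SpecialLinearGroup (Fin (2 * m)) F) :=
    Nat.card_congr (slReindex (F := F) (Fintype.equivOfCardEq (by simp; ring))).toEquiv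
  refine card_sylow_inf _ (dX (Fin m ⊕ Fin m) F)
    (v := m * (Nat.card (GL (Fin 2) F)).factorization 2 + padicValNat 2 (Nat.factorial m))
    ?_ rfl (by rw [card_ker_dX, hcard]) ?_
  · rw [hWc, hQc, S₀.card_eq_multiplicity, Fintype.card_fin,
      Nat.card_eq_fintype_card (α := Perm (Fin m)),
      Fintype.card_perm, Fintype.card_fin,
      Nat.factorization_def (Nat.factorial m) Nat.prime_two, ← pow_mul, ← pow_add, mul_comm m]
  · rw [val_GL2 hF, Nat.card_eq_fintype_card (α := Fˣ), Fintype.card_units,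
      Nat.factorization_def _ Nat.prime_two]
    nlinarith

/-- The main theorem. -/
theorem sl_even_main [Fintype F] (hF : Odd (Fintype.card F)) (m : ℕ) (hm : 1 ≤ m)
    (hq : 4 ∣ Fintype.card F + 1 ∨ (4 ∣ Fintype.card F - 1 ∧ ∃ j : ℕ, m = 2 ^ j))
    (P : Sylow 2 (SpecialLinearGroup (Fin (2 * m)) F)) :
    ∀ x : (P : Subgroup (SpecialLinearGroup (Fin (2 * m)) F)),
      x ^ 2 ∈ commutator (P : Subgroup (SpecialLinearGroup (Fin (2 * m)) F)) := by
  classical
  haveI : Fact (Nat.Prime 2) := ⟨Nat.prime_two⟩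
  have hq1 : 1 < Fintype.card F := Fintype.one_lt_card
  by_cases hm1 : m = 1
  · subst hm1
    intro x
    have h := sl2_good (F := F) hF P x x.2
    rw [← Subgroup.map_subtype_commutator] at h
    obtain ⟨y, hy, hyx⟩ := h
    have : y = x ^ 2 := Subtype.ext hyx
    rwa [← this]
  have hm2 : 2 ≤ m := by omega
  haveI : Nontrivial (Fin m) := Fin.nontrivial_iff_two_le.2 hm2
  have htwo : ∀ i : Fin m, ∃ j, i ≠ j := fun i => by
    obtain ⟨j, hj⟩ := exists_ne i
    exact ⟨j, hj.symm⟩
  have hXc : Fintype.card (Fin m ⊕ Fin m) = Fintype.card (Fin (2 * m)) := by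
    simp
    ring
  let e : Fin m ⊕ Fin m ≃ Fin (2 * m) := Fintype.equivOfCardEq hXc
  rcases hq with hq | ⟨hq, j, hj⟩
  · have hq3 : Fintype.card F % 4 = 3 := by omega
    obtain ⟨Q, hQc, hQ⟩ := exists_good_GL2 (F := F) hq3
    obtain ⟨S₀⟩ : Nonempty (Sylow 2 (Perm (Fin m))) := inferInstance
    obtain ⟨s₀, hs₀, hgen⟩ := exists_det_gen Q (dX (Fin 2) F)
    refine final_transfer e _ inf_le_right (card_wrK_eq hF hm Q hQc S₀) ?_ P
    exact good_wrK_A Mg Tg Tg_conj _ (dX (Fin 2) F) dX_tm dX_blk Q _ (SymS.good_sylow m S₀).1 hQ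
      hs₀ hgen htwo
  · obtain ⟨Q₀⟩ : Nonempty (Sylow 2 (GL (Fin 2) F)) := inferInstance
    obtain ⟨S₀⟩ : Nonempty (Sylow 2 (Perm (Fin m))) := inferInstance
    have hQc : Nat.card (Q₀ : Subgroup (GL (Fin 2) F)) =
        2 ^ (Nat.card (GL (Fin 2) F)).factorization 2 := Q₀.card_eq_multiplicity
    obtain ⟨s₀, hs₀, hgen⟩ := exists_det_gen (Q₀ : Subgroup (GL (Fin 2) F)) (dX (Fin 2) F)
    refine final_transfer e _ inf_le_right (card_wrK_eq hF hm _ hQc S₀) ?_ P
    have hpre : MulAction.IsPretransitive S₀ (Fin m) :=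
      Cfsg.Agent.H03.isPretransitive_sylow j (by rw [Nat.card_eq_fintype_card, Fintype.card_fin, hj]) S₀
    let x₀ : Fin m := ⟨0, by omega⟩
    have htrans : ∀ i, ∃ π ∈ (S₀ : Subgroup (Perm (Fin m))), π x₀ = i := by
      intro i
      obtain ⟨π, hπ⟩ := hpre.exists_smul_eq x₀ i
      exact ⟨π.1, π.2, hπ⟩
    exact good_wrK_B Mg Tg Tg_conj _ (dX (Fin 2) F) dX_tm dX_blk _ _ (SymS.good_sylow m S₀).1 hs₀
      hgen htwo x₀ htrans (gl2_det_one hF _ hQc)

end Conc

end Cfsg.Agent.H21.SpS
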