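import Cfsg.Agent.Lib.H21.SylSn
import Cfsg.Prelude.Def_HallClasses

/-! # Sylow 2-subgroups of symmetric and alternating groups are self-normalising -/

set_option autoImplicit false
set_option linter.unusedSectionVars false
set_option linter.style.haveILetI false
set_option linter.unusedSimpArgs false
set_option linter.unusedVariables false
set_option linter.style.longLine false

namespace Cfsg.Agent.H21.SylSn

open Equiv Equiv.Perm MulAction

variable {X : Type} [Fintype X] [DecidableEq X]

theorem no_cycle3 {T : Subgroup (Perm X)} (hT : IsPGroup 2 T) {g : Perm X} (hg : g ∈ T)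
    (h : g.IsThreeCycle) : False := by
  obtain ⟨k, hk⟩ := hT ⟨g, hg⟩
  have h5 : g ^ (2 ^ k) = 1 := by
    have := congrArg (Subtype.val) hk
    simpa using this
  have h6 := orderOf_dvd_of_pow_eq_one h5
  rw [h.orderOf] at h6
  have h7 := Nat.Prime.dvd_of_dvd_pow Nat.prime_three h6
  omega

theorem swap_isP {u v : X} (huv : u ≠ v) : IsPGroup 2 (Subgroup.zpowers (swap u v)) := by
  rw [IsPGroup.iff_card]
  exact ⟨1, by rw [Nat.card_zpowers, pow_one]; exact (IsSwap.orderOf ⟨u, v, huv, rfl⟩)⟩

theorem fix_unique (R : Sylow 2 (Perm X)) {u v : X} (hu : ∀ t ∈ R, t u = u) (hv : ∀ t ∈ R, t v = v) :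
    u = v := by
  by_contra huv
  have hcomm : ∀ t ∈ R, t * swap u v * t⁻¹ = swap u v := by
    intro t ht
    rw [conj_swap, hu t ht, hv t ht]
  have hle : Subgroup.zpowers (swap u v) ≤ Subgroup.normalizer (R : Subgroup (Perm X)) := by
    rw [Subgroup.zpowers_le]
    refine Subgroup.mem_normalizer_fintype (fun t ht => ?_)
    have h2 : swap u v * t = t * swap u v := (mul_inv_eq_iff_eq_mul.mp (hcomm t ht)).symm
    rw [h2, mul_inv_cancel_right]
    exact ht
  have h3 := R.is_maximal' ((swap_isP huv).to_sup_of_normal_right' R.isPGroup' hle) le_sup_right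
  have h4 : swap u v ∈ (R : Subgroup (Perm X)) := by
    rw [← h3]
    exact (le_sup_left : Subgroup.zpowers (swap u v) ≤ _) (Subgroup.mem_zpowers _)
  have h5 := hu _ h4
  rw [swap_apply_left] at h5
  exact huv h5.symm

theorem fixed_of_not_moved (R : Sylow 2 (Perm X)) {u : X} (h : ∀ v, v ≠ u → swap u v ∉ R) :
    ∀ t ∈ R, t u = u := by
  intro t ht
  by_contra hc
  obtain ⟨y, hy, hs⟩ := partner R ht hc
  exact h y hy hs

/-- The pairs of points swapped by `T`. -/
abbrev Pairs (T : Subgroup (Perm X)) : Type :=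
  {s : Finset X // ∃ a b, a ≠ b ∧ swap a b ∈ T ∧ s = {a, b}}

noncomputable instance pairsAction (T : Subgroup (Perm X)) : MulAction (pairStab T) (Pairs T) where
  smul g s := ⟨s.1.image g.1, by
    obtain ⟨a, b, hab, hs, h⟩ := s.2
    refine ⟨g.1 a, g.1 b, fun h2 => hab (g.1.injective h2), (g.2 a b).1 hs, ?_⟩
    rw [h, Finset.image_insert, Finset.image_singleton]⟩
  one_smul s := Subtype.ext (by
    show s.1.image ((1 : Perm X) : X → X) = s.1
    simp)
  mul_smul a b s := Subtype.ext (by
    show s.1.image ((a.1 * b.1 : Perm X) : X → X) = (s.1.image b.1).image a.1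
    rw [Finset.image_image]
    rfl)

/-- The action on pairs as a homomorphism. -/
noncomputable def pairHom (T : Subgroup (Perm X)) : pairStab T →* Perm (Pairs T) :=
  MulAction.toPermHom (pairStab T) (Pairs T)

theorem pairHom_val {T : Subgroup (Perm X)} (g : pairStab T) (s : Pairs T) :
    ((pairHom T g s : Pairs T) : Finset X) = s.1.image g.1 := rfl

theorem pair_ext {T : Subgroup (Perm X)} (hT : IsPGroup 2 T) {e f a b : X} (hef : e ≠ f)
    (h1 : swap e f ∈ T) (hab : a ≠ b) (h2 : swap a b ∈ T) (h : e = a ∨ e = b ∨ f = a ∨ f = b) :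
    ({e, f} : Finset X) = {a, b} := by
  have h1' : swap f e ∈ T := by rwa [swap_comm]
  have h2' : swap b a ∈ T := by rwa [swap_comm]
  rcases h with h | h | h | h
  · subst h
    have := no_three hT (Ne.symm hef) (Ne.symm hab) h1 h2
    subst this
    rfl
  · subst h
    have := no_three hT (Ne.symm hef) hab h1 h2'
    subst this
    exact Finset.pair_comm _ _
  · subst h
    have := no_three hT hef (Ne.symm hab) h1' h2
    subst this
    exact Finset.pair_comm _ _
  · subst h
    have := no_three hT hef hab h1' h2'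
    subst this
    rfl

theorem pairHom_surj {T : Subgroup (Perm X)} (hT : IsPGroup 2 T) :
    Function.Surjective (pairHom T) := by
  rw [← MonoidHom.range_eq_top, eq_top_iff, ← Equiv.Perm.closure_isSwap, Subgroup.closure_le]
  rintro _ ⟨s₁, s₂, hne, rfl⟩
  obtain ⟨a, b, hab, h1, hs₁⟩ := s₁.2
  obtain ⟨c, d, hcd, h2, hs₂⟩ := s₂.2
  have hd : ¬ (a = c ∨ a = d ∨ b = c ∨ b = d) := by
    intro h
    apply hne
    apply Subtype.ext
    rw [hs₁, hs₂]
    exact pair_ext hT hab h1 hcd h2 h
  push Not at hd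
  obtain ⟨hac, had, hbc, hbd⟩ := hd
  have hg := exch_mem_pairStab hT hab hac had hbc hbd hcd h1 h2
  have hga : (swap a c * swap b d) a = c := by
    show swap a c (swap b d a) = c
    rw [swap_apply_of_ne_of_ne hab had, swap_apply_left]
  have hgb : (swap a c * swap b d) b = d := by
    show swap a c (swap b d b) = d
    rw [swap_apply_left, swap_apply_of_ne_of_ne (Ne.symm had) (Ne.symm hcd)]
  have hgc : (swap a c * swap b d) c = a := by
    show swap a c (swap b d c) = a
    rw [swap_apply_of_ne_of_ne (Ne.symm hbc) hcd, swap_apply_right]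
  have hgd : (swap a c * swap b d) d = b := by
    show swap a c (swap b d d) = b
    rw [swap_apply_right, swap_apply_of_ne_of_ne (Ne.symm hab) hbc]
  refine ⟨⟨_, hg⟩, ?_⟩
  apply Equiv.ext
  intro s
  apply Subtype.ext
  rw [pairHom_val]
  show s.1.image (swap a c * swap b d : Perm X) = ((swap s₁ s₂) s).1
  by_cases h3 : s = s₁
  · subst h3
    rw [swap_apply_left, hs₁, hs₂, Finset.image_insert, Finset.image_singleton, hga, hgb]
  by_cases h4 : s = s₂
  · subst h4
    rw [swap_apply_right, hs₁, hs₂, Finset.image_insert, Finset.image_singleton, hgc, hgd]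
  rw [swap_apply_of_ne_of_ne h3 h4]
  obtain ⟨e, f, hef, h5, hs⟩ := s.2
  have he1 : ¬ (e = a ∨ e = b ∨ f = a ∨ f = b) := by
    intro h
    apply h3
    apply Subtype.ext
    rw [hs, hs₁]
    exact pair_ext hT hef h5 hab h1 h
  have he2 : ¬ (e = c ∨ e = d ∨ f = c ∨ f = d) := by
    intro h
    apply h4
    apply Subtype.ext
    rw [hs, hs₂]
    exact pair_ext hT hef h5 hcd h2 h
  push Not at he1 he2
  have hge : (swap a c * swap b d) e = e := by
    show swap a c (swap b d e) = e
    rw [swap_apply_of_ne_of_ne he1.2.1 he2.2.1, swap_apply_of_ne_of_ne he1.1 he2.1]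
  have hgf : (swap a c * swap b d) f = f := by
    show swap a c (swap b d f) = f
    rw [swap_apply_of_ne_of_ne he1.2.2.2 he2.2.2.2, swap_apply_of_ne_of_ne he1.2.2.1 he2.2.2.1]
  rw [hs, Finset.image_insert, Finset.image_singleton, hge, hgf]

theorem ker_isP (R : Sylow 2 (Perm X)) : IsPGroup 2 (pairHom (R : Subgroup (Perm X))).ker := by
  rintro ⟨g, hg⟩
  refine ⟨1, ?_⟩
  apply Subtype.ext
  apply Subtype.ext
  apply Equiv.ext
  intro u
  show g.1 (g.1 u) = u
  have hs : ∀ s, pairHom (R : Subgroup (Perm X)) g s = s := fun s => DFunLike.congr_fun hg s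
  by_cases hu : ∃ v, v ≠ u ∧ swap u v ∈ R
  · obtain ⟨v, hv, huv⟩ := hu
    let s : Pairs (R : Subgroup (Perm X)) := ⟨{u, v}, u, v, Ne.symm hv, huv, rfl⟩
    have h1 : ({u, v} : Finset X).image g.1 = {u, v} := congrArg Subtype.val (hs s)
    have h2 : g.1 u ∈ ({u, v} : Finset X) := by
      rw [← h1]
      exact Finset.mem_image_of_mem _ (by simp)
    have h3 : g.1 v ∈ ({u, v} : Finset X) := by
      rw [← h1]
      exact Finset.mem_image_of_mem _ (by simp)
    simp only [Finset.mem_insert, Finset.mem_singleton] at h2 h3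
    rcases h2 with h2 | h2
    · rw [h2, h2]
    · rw [h2]
      rcases h3 with h3 | h3
      · exact h3
      · exact (hv (g.1.injective (h3.trans h2.symm))).elim
  · push Not at hu
    have h1 := fixed_of_not_moved R (u := u) hu
    have h2 : ∀ v, v ≠ g.1 u → swap (g.1 u) v ∉ R := by
      intro v hv hs2
      have h3 := g.2 u (g.1⁻¹ v)
      have h4 : g.1 (g.1⁻¹ v) = v := g.1.apply_symm_apply v
      rw [h4] at h3
      refine hu (g.1⁻¹ v) ?_ (h3.2 hs2)
      intro h5
      apply hv
      rw [← h5, h4]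
    have h3 := fix_unique R (fixed_of_not_moved R h2) h1
    rw [h3, h3]

theorem comap_sub (R : Sylow 2 (Perm X)) (Q : Subgroup (Perm (Pairs (R : Subgroup (Perm X)))))
    (hQ : IsPGroup 2 Q)
    (hle : ∀ (t : Perm X) (ht : t ∈ R), pairHom (R : Subgroup (Perm X)) ⟨t, le_pairStab _ ht⟩ ∈ Q)
    (g : pairStab (R : Subgroup (Perm X))) (hg : pairHom (R : Subgroup (Perm X)) g ∈ Q) :
    (g : Perm X) ∈ R := by
  have h1 : IsPGroup 2 ((Q.comap (pairHom (R : Subgroup (Perm X)))).map (pairStab (R : Subgroup (Perm X))).subtype) :=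
    (hQ.comap_of_ker_isPGroup _ (ker_isP R)).map _
  have h2 : (R : Subgroup (Perm X)) ≤ (Q.comap (pairHom (R : Subgroup (Perm X)))).map (pairStab (R : Subgroup (Perm X))).subtype := by
    intro t ht
    exact ⟨⟨t, le_pairStab _ ht⟩, hle t ht, rfl⟩
  have h3 := R.is_maximal' h1 h2
  have h4 : (g : Perm X) ∈ (Q.comap (pairHom (R : Subgroup (Perm X)))).map (pairStab (R : Subgroup (Perm X))).subtype :=
    ⟨g, hg, rfl⟩
  rw [h3] at h4
  exact h4

/-- The image of the Sylow subgroup in the symmetric group on the pairs is a Sylow subgroup. -/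
noncomputable def tbar (R : Sylow 2 (Perm X)) : Sylow 2 (Perm (Pairs (R : Subgroup (Perm X)))) where
  toSubgroup := ((R : Subgroup (Perm X)).subgroupOf (pairStab (R : Subgroup (Perm X)))).map (pairHom (R : Subgroup (Perm X)))
  isPGroup' := (R.isPGroup'.comap_of_injective _ (pairStab (R : Subgroup (Perm X))).subtype_injective).map _
  is_maximal' := by
    intro Q hQ hle
    apply le_antisymm _ hle
    intro q hq
    obtain ⟨g, rfl⟩ := pairHom_surj (R.isPGroup' : IsPGroup 2 (R : Subgroup (Perm X))) q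
    have h1 := comap_sub R Q hQ (fun t ht => hle ⟨⟨t, le_pairStab _ ht⟩, ht, rfl⟩) g hq
    exact ⟨g, h1, rfl⟩

theorem card_pairs_lt (R : Sylow 2 (Perm X)) [Fintype (Pairs (R : Subgroup (Perm X)))]
    (h2 : 2 ≤ Fintype.card X) : Fintype.card (Pairs (R : Subgroup (Perm X))) < Fintype.card X := by
  have hT : IsPGroup 2 (R : Subgroup (Perm X)) := R.isPGroup'
  by_cases he : Nonempty (Pairs (R : Subgroup (Perm X)))
  · obtain ⟨s₀⟩ := he
    obtain ⟨a, b, hab, h0, hs₀⟩ := s₀.2
    have h1 : ∀ s : Pairs (R : Subgroup (Perm X)), ∃ u, u ∈ s.1 ∧ u ≠ b := by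
      intro s
      obtain ⟨e, f, hef, _, hs⟩ := s.2
      by_cases h3 : e = b
      · exact ⟨f, by rw [hs]; simp, fun h4 => hef (h3.trans h4.symm)⟩
      · exact ⟨e, by rw [hs]; simp, h3⟩
    choose r hr1 hr2 using h1
    have hinj : Function.Injective (fun s => (⟨r s, hr2 s⟩ : {u : X // u ≠ b})) := by
      intro s s' hss
      have h3 : r s = r s' := congrArg Subtype.val hss
      apply Subtype.ext
      obtain ⟨e, f, hef, h5, hs⟩ := s.2
      obtain ⟨e', f', hef', h5', hs'⟩ := s'.2
      rw [hs, hs']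
      apply pair_ext hT hef h5 hef' h5'
      have h6 := hr1 s
      have h7 := hr1 s'
      rw [hs] at h6
      rw [hs'] at h7
      simp only [Finset.mem_insert, Finset.mem_singleton] at h6 h7
      rcases h6 with h6 | h6 <;> rcases h7 with h7 | h7
      · left; rw [← h6, ← h7]; exact h3
      · right; left; rw [← h6, ← h7]; exact h3
      · right; right; left; rw [← h6, ← h7]; exact h3
      · right; right; right; rw [← h6, ← h7]; exact h3
    have h3 := Fintype.card_le_of_injective _ hinj
    have h4 : Fintype.card {u : X // u ≠ b} = Fintype.card X - 1 := by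
      show Fintype.card {y : X // ¬ y = b} = _
      rw [Fintype.card_subtype_compl, Fintype.card_subtype_eq]
    omega
  · rw [not_nonempty_iff] at he
    rw [Fintype.card_eq_zero]
    omega

theorem self_norm_aux : ∀ (n : ℕ) (X : Type) [Fintype X] [DecidableEq X], Fintype.card X = n →
    ∀ (R : Sylow 2 (Perm X)) (x : Perm X), (∀ t ∈ R, x * t * x⁻¹ ∈ R) → x ∈ R := by
  intro n
  induction n using Nat.strong_induction_on with
  | _ n ih =>
    intro X _ _ hX R x hx
    by_cases h2 : 2 ≤ Fintype.card X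
    · haveI : Fintype (Pairs (R : Subgroup (Perm X))) := Fintype.ofFinite _
      have hlt := card_pairs_lt R h2
      have hback : ∀ t' ∈ R, ∃ t ∈ R, x * t * x⁻¹ = t' := by
        have hinj : Function.Injective (fun t : (R : Subgroup (Perm X)) => (⟨x * t.1 * x⁻¹, hx t.1 t.2⟩ : (R : Subgroup (Perm X)))) := by
          intro t t' h
          apply Subtype.ext
          have : x * t.1 * x⁻¹ = x * t'.1 * x⁻¹ := congrArg Subtype.val h
          simpa using this
        have hsurj := Finite.injective_iff_surjective.mp hinj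
        intro t' ht'
        obtain ⟨t, ht⟩ := hsurj ⟨t', ht'⟩
        exact ⟨t.1, t.2, congrArg Subtype.val ht⟩
      have hxS : x ∈ pairStab (R : Subgroup (Perm X)) := by
        intro a b
        constructor
        · intro h
          have := hx _ h
          rwa [conj_swap] at this
        · intro h
          obtain ⟨t, ht, h3⟩ := hback _ h
          have h4 : t = swap a b := by
            have h5 : x * t * x⁻¹ = x * swap a b * x⁻¹ := by rw [h3, conj_swap]
            simpa using h5
          rw [← h4]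
          exact ht
      let xs : pairStab (R : Subgroup (Perm X)) := ⟨x, hxS⟩
      have h3 := ih _ (hX ▸ hlt) (Pairs (R : Subgroup (Perm X))) rfl (tbar R) (pairHom _ xs) (by
        rintro _ ⟨⟨t, htS⟩, ht, rfl⟩
        have h4 : x * t * x⁻¹ ∈ (R : Subgroup (Perm X)) := hx t ht
        refine ⟨xs * ⟨t, htS⟩ * xs⁻¹, h4, ?_⟩
        simp only [map_mul, map_inv])
      exact comap_sub R _ (tbar R).isPGroup' (fun t ht => ⟨⟨t, le_pairStab _ ht⟩, ht, rfl⟩) xs h3
    · have hs : Subsingleton X := Fintype.card_le_one_iff_subsingleton.mp (by omega)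
      have : x = 1 := Subsingleton.elim _ _
      rw [this]
      exact R.one_mem

/-- Sylow 2-subgroups of the symmetric group are self-normalising. -/
theorem self_norm (R : Sylow 2 (Perm X)) {x : Perm X} (hx : ∀ t ∈ R, x * t * x⁻¹ ∈ R) : x ∈ R :=
  self_norm_aux _ X rfl R x hx

theorem swap_comm_of {a b c d : X} (h1 : a ≠ c) (h2 : a ≠ d) (h3 : b ≠ c) (h4 : b ≠ d) :
    swap c d * swap a b = swap a b * swap c d := by
  have h5 := conj_swap (swap c d) a b
  rw [swap_apply_of_ne_of_ne h1 h2, swap_apply_of_ne_of_ne h3 h4] at h5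
  exact mul_inv_eq_iff_eq_mul.mp h5

/-- In a 2-group containing a double transposition and a swap at one of its points,
that swap stays in the support. -/
theorem double_partner {T : Subgroup (Perm X)} (hT : IsPGroup 2 T) {u v w y q : X}
    (huv : u ≠ v) (huw : u ≠ w) (huy : u ≠ y) (hvw : v ≠ w) (hvy : v ≠ y) (hwy : w ≠ y)
    (h : swap u v * swap w y ∈ T) (hq : swap u q ∈ T) (hqu : q ≠ u) : q = v ∨ q = w ∨ q = y := by
  by_contra hc
  push Not at hc
  obtain ⟨hc1, hc2, hc3⟩ := hc
  have hg := T.mul_mem hq h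
  have hcy : (swap u q * swap u v).IsThreeCycle :=
    isThreeCycle_swap_mul_swap_same (Ne.symm hqu) huv hc1
  have hcomm : Commute (swap u q * swap u v) (swap w y) := by
    show swap u q * swap u v * swap w y = swap w y * (swap u q * swap u v)
    rw [mul_assoc, ← swap_comm_of huw huy hvw hvy, ← mul_assoc, ← mul_assoc,
      swap_comm_of huw huy hc2 hc3]
  have h2 : (swap u q * (swap u v * swap w y)) * (swap u q * (swap u v * swap w y))
      = (swap u q * swap u v) * (swap u q * swap u v) := by
    rw [← mul_assoc (swap u q) (swap u v) (swap w y), hcomm.symm.mul_mul_mul_comm, swap_mul_self, mul_one]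
  have h3 := T.mul_mem hg hg
  rw [h2] at h3
  exact no_cycle3 hT h3 hcy.isThreeCycle_sq

/-- Normalising the even part normalises the Sylow subgroup, from six points on. -/
theorem norm_alt (R : Sylow 2 (Perm X)) (hn : 6 ≤ Fintype.card X) {x : Perm X}
    (hx : ∀ t ∈ R, sign t = 1 → x * t * x⁻¹ ∈ R) : ∀ t ∈ R, x * t * x⁻¹ ∈ R := by
  have hT : IsPGroup 2 (R : Subgroup (Perm X)) := R.isPGroup'
  have hpick : ∀ F : Finset X, F.card ≤ 4 → ∃ c, c ∉ F ∧ ∃ d, d ≠ c ∧ swap c d ∈ R := by
    intro F hF
    obtain ⟨u, hu⟩ : ∃ u, u ∉ F := by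
      by_contra hc
      push Not at hc
      have h1 : (Finset.univ : Finset X) ⊆ F := fun z _ => hc z
      have h2 := Finset.card_le_card h1
      rw [Finset.card_univ] at h2
      omega
    obtain ⟨v, hv⟩ : ∃ v, v ∉ insert u F := by
      by_contra hc
      push Not at hc
      have h1 : (Finset.univ : Finset X) ⊆ insert u F := fun z _ => hc z
      have h2 := Finset.card_le_card h1
      have h3 := Finset.card_insert_le u F
      rw [Finset.card_univ] at h2
      omega
    simp only [Finset.mem_insert, not_or] at hv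
    by_contra hc
    push Not at hc
    have h1 := fixed_of_not_moved R (u := u) (fun w hw hs => hc u hu w hw hs)
    have h2 := fixed_of_not_moved R (u := v) (fun w hw hs => hc v hv.2 w hw hs)
    exact hv.1 (fix_unique R h2 h1)
  have hdisj : ∀ {a b c d : X}, a ≠ b → swap a b ∈ R → d ≠ c → swap c d ∈ R → c ≠ a → c ≠ b → d ≠ a ∧ d ≠ b := by
    intro a b c d hab hs hdc hcd hca hcb
    have hsc : swap d c ∈ R := by rwa [swap_comm]
    have hsb : swap b a ∈ R := by rwa [swap_comm]
    constructor
    · rintro rfl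
      exact hcb (no_three hT hca (Ne.symm hab) hsc hs)
    · rintro rfl
      exact hca (no_three hT hcb hab hsc hsb)
  have hforward : ∀ a b, a ≠ b → swap a b ∈ R → swap (x a) (x b) ∈ R := by
    intro a b hab hs
    obtain ⟨c, hc, d, hdc, hcd⟩ := hpick {a, b} (Finset.card_le_two.trans (by norm_num))
    simp only [Finset.mem_insert, Finset.mem_singleton, not_or] at hc
    obtain ⟨hda, hdb⟩ := hdisj hab hs hdc hcd hc.1 hc.2
    obtain ⟨e, he, f, hfe, hef⟩ := hpick {a, b, c, d} Finset.card_le_four
    simp only [Finset.mem_insert, Finset.mem_singleton, not_or] at he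
    obtain ⟨hea, heb, hec, hed⟩ := he
    obtain ⟨hfa, hfb⟩ := hdisj hab hs hfe hef hea heb
    obtain ⟨hfc, hfd⟩ := hdisj (Ne.symm hdc) hcd hfe hef hec hed
    have hinj : ∀ {y z : X}, y ≠ z → x y ≠ x z := fun hne h5 => hne (x.injective h5)
    have hconj : ∀ {p q r s : X}, x * (swap p q * swap r s) * x⁻¹ = swap (x p) (x q) * swap (x r) (x s) := by
      intro p q r s
      rw [← conj_swap, ← conj_swap]
      group
    have h1 := hx _ (R.mul_mem hs hcd) (sign_double hab (Ne.symm hdc))
    rw [hconj] at h1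
    have h2 := hx _ (R.mul_mem hs hef) (sign_double hab (Ne.symm hfe))
    rw [hconj] at h2
    have hmv : (swap (x a) (x b) * swap (x c) (x d)) (x a) ≠ x a := by
      show swap (x a) (x b) (swap (x c) (x d) (x a)) ≠ x a
      rw [swap_apply_of_ne_of_ne (hinj (Ne.symm hc.1)) (hinj hda.symm), swap_apply_left]
      exact hinj hab.symm
    obtain ⟨q, hq, hsq⟩ := partner R h1 hmv
    have h3 := double_partner hT (hinj hab) (hinj (Ne.symm hc.1)) (hinj hda.symm) (hinj (Ne.symm hc.2))
      (hinj hdb.symm) (hinj hdc.symm) h1 hsq hq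
    have h4 := double_partner hT (hinj hab) (hinj (Ne.symm hea)) (hinj hfa.symm) (hinj (Ne.symm heb))
      (hinj hfb.symm) (hinj hfe.symm) h2 hsq hq
    rcases h3 with h3 | h3 | h3
    · rw [h3] at hsq
      exact hsq
    · rcases h4 with h4 | h4 | h4
      · rw [h4] at hsq
        exact hsq
      · exact (hec (x.injective (h4.symm.trans h3))).elim
      · exact (hfc (x.injective (h4.symm.trans h3))).elim
    · rcases h4 with h4 | h4 | h4
      · rw [h4] at hsq
        exact hsq
      · exact (hed (x.injective (h4.symm.trans h3))).elim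
      · exact (hfd (x.injective (h4.symm.trans h3))).elim
  intro t ht
  rcases Int.units_eq_one_or (sign t) with h3 | h3
  · exact hx t ht h3
  obtain ⟨a, b, hab, hs⟩ := exists_swap R (by omega)
  have h4 := hx (t * swap a b) (R.mul_mem ht hs) (by
    rw [Perm.sign_mul, h3, sign_swap hab]
    rfl)
  have h5 := hforward a b hab hs
  rw [← conj_swap] at h5
  have h6 := R.mul_mem h4 (R.inv_mem h5)
  have h7 : x * (t * swap a b) * x⁻¹ * (x * swap a b * x⁻¹)⁻¹ = x * t * x⁻¹ := by group
  rw [h7] at h6
  exact h6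

/-- A Sylow 2-subgroup of the symmetric group above a given one of the alternating group. -/
theorem alt_setup (R₀ : Sylow 2 (alternatingGroup X)) :
    ∃ T : Sylow 2 (Perm X), (∀ r ∈ R₀, (r : Perm X) ∈ T) ∧
      ∀ t ∈ T, ∀ ht : t ∈ alternatingGroup X, (⟨t, ht⟩ : alternatingGroup X) ∈ R₀ := by
  have : Fact (Nat.Prime 2) := ⟨Nat.prime_two⟩
  have hQ : IsPGroup 2 ((R₀ : Subgroup (alternatingGroup X)).map (alternatingGroup X).subtype) :=
    R₀.isPGroup'.map _
  obtain ⟨T, hT⟩ := hQ.exists_le_sylow
  refine ⟨T, fun r hr => hT ⟨r, hr, rfl⟩, ?_⟩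
  intro t ht ht2
  have h1 : IsPGroup 2 ((T : Subgroup (Perm X)).subgroupOf (alternatingGroup X)) :=
    T.isPGroup'.comap_of_injective _ (alternatingGroup X).subtype_injective
  have h2 : (R₀ : Subgroup (alternatingGroup X)) ≤ (T : Subgroup (Perm X)).subgroupOf (alternatingGroup X) := by
    intro r hr
    exact hT ⟨r, hr, rfl⟩
  have h3 := R₀.is_maximal' h1 h2
  show _ ∈ (R₀ : Subgroup (alternatingGroup X))
  rw [← h3]
  exact ht

/-- Sylow 2-subgroups of the alternating group are self-normalising from six points on. -/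
theorem alt_self_norm (hn : 6 ≤ Fintype.card X) (R₀ : Sylow 2 (alternatingGroup X))
    {y : alternatingGroup X} (hy : ∀ r ∈ R₀, y * r * y⁻¹ ∈ R₀) : y ∈ R₀ := by
  obtain ⟨T, hT1, hT2⟩ := alt_setup R₀
  have h1 := norm_alt T hn (x := (y : Perm X)) (fun t ht hs => by
    have h2 := hy _ (hT2 t ht hs)
    exact hT1 _ h2)
  exact hT2 _ (self_norm T h1) y.2

/-- Pronormality from a Sylow subgroup with small normaliser. -/
theorem pronormal_of_sylow {G : Type} [Group G] [Finite G] (H : Subgroup G) (R : Sylow 2 G)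
    (hRH : (R : Subgroup G) ≤ H) (hN : H = (R : Subgroup G) ∨ ∀ y : G, y • R = R → y ∈ H) :
    Cfsg.IsPronormal H := by
  classical
  intro g
  have : Fact (Nat.Prime 2) := ⟨Nat.prime_two⟩
  set K := H ⊔ H.map (MulAut.conj g).toMonoidHom with hK
  have h1 : (R : Subgroup G) ≤ K := hRH.trans le_sup_left
  have h2 : ((g • R : Sylow 2 G) : Subgroup G) ≤ K := by
    rw [Sylow.coe_subgroup_smul]
    rintro _ ⟨r, hr, rfl⟩
    exact (le_sup_right : H.map (MulAut.conj g).toMonoidHom ≤ K) ⟨r, hRH hr, rfl⟩
  obtain ⟨k, hk⟩ := MulAction.exists_smul_eq K (R.subtype h1) ((g • R).subtype h2)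
  rw [Sylow.smul_subtype] at hk
  have hk' : (k : G) • R = g • R := Sylow.subtype_injective hk
  have hy : (g⁻¹ * k) • R = R := by
    rw [mul_smul, hk', inv_smul_smul]
  refine ⟨k, k.2, ?_⟩
  rcases hN with hH | hN
  · have h3 : ((k : G) • R : Sylow 2 G) = (g • R : Sylow 2 G) := hk'
    have h4 := congrArg (fun S : Sylow 2 G => (S : Subgroup G)) h3
    simp only [Sylow.coe_subgroup_smul] at h4
    rw [hH]
    exact h4.symm
  · have hyH := hN _ hy
    ext z
    constructor
    · rintro ⟨h, hh, rfl⟩
      refine ⟨(g⁻¹ * k)⁻¹ * h * (g⁻¹ * k), H.mul_mem (H.mul_mem (H.inv_mem hyH) hh) hyH, ?_⟩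
      simp only [MulEquiv.coe_toMonoidHom, MulAut.conj_apply]
      group
    · rintro ⟨h, hh, rfl⟩
      refine ⟨(g⁻¹ * k) * h * (g⁻¹ * k)⁻¹, H.mul_mem (H.mul_mem hyH hh) (H.inv_mem hyH), ?_⟩
      simp only [MulEquiv.coe_toMonoidHom, MulAut.conj_apply]
      group

theorem exists_sylow_le {G : Type} [Group G] [Finite G] (H : Subgroup G) (hH : Odd H.index) :
    ∃ R : Sylow 2 G, (R : Subgroup G) ≤ H := by
  have : Fact (Nat.Prime 2) := ⟨Nat.prime_two⟩
  obtain ⟨P⟩ : Nonempty (Sylow 2 H) := inferInstance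
  have hK : IsPGroup 2 ((P : Subgroup H).map H.subtype) := P.isPGroup'.map _
  have hidx : ¬ 2 ∣ ((P : Subgroup H).map H.subtype).index := by
    rw [Subgroup.index_map_subtype]
    intro h
    rcases (Nat.Prime.dvd_mul Nat.prime_two).mp h with h | h
    · exact P.not_dvd_index h
    · exact (Nat.not_even_iff_odd.mpr hH) (even_iff_two_dvd.mpr h)
  exact ⟨hK.toSylow hidx, Subgroup.map_subtype_le _⟩

theorem y_forward {G : Type} [Group G] {R : Sylow 2 G} {y : G} (hy : y • R = R) :
    ∀ r ∈ R, y * r * y⁻¹ ∈ R := by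
  intro r hr
  have h1 : y * r * y⁻¹ ∈ ((y • R : Sylow 2 G) : Subgroup G) := by
    rw [Sylow.coe_subgroup_smul]
    exact ⟨r, hr, rfl⟩
  rw [hy] at h1
  exact h1

/-- The degree five case. -/
theorem pronormal_five (H : Subgroup (alternatingGroup (Fin 5))) (hH : Odd H.index) :
    Cfsg.IsPronormal H := by
  obtain ⟨R₀, hRH⟩ := exists_sylow_le H hH
  obtain ⟨T, hT1, hT2⟩ := alt_setup R₀
  have hcard' : Fintype.card (Fin 5) = 2 ^ 2 + 1 := rfl
  obtain ⟨x₀, hx₀⟩ := odd_fixed T (by rw [hcard']; norm_num)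
  have htr := trans_rest T hx₀ hcard'
  have hev := trans_even T hx₀ htr (by simp)
  have hc : Nat.card (alternatingGroup (Fin 5)) = 60 := by
    have h1 := two_mul_card_alternatingGroup (α := Fin 5)
    rw [Fintype.card_perm, Fintype.card_fin] at h1
    rw [Nat.card_eq_fintype_card]
    have h2 : Nat.factorial 5 = 120 := rfl
    omega
  have h4R : 4 ∣ Nat.card R₀ := by
    have h6 : (2 : ℕ) ^ 2 ∣ Nat.card (alternatingGroup (Fin 5)) := by
      rw [hc]
      norm_num
    have : Fact (Nat.Prime 2) := ⟨Nat.prime_two⟩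
    exact R₀.pow_dvd_card_of_pow_dvd_card h6
  have h4H : 4 ∣ Nat.card H := h4R.trans (Subgroup.card_dvd_of_le hRH)
  let M₀ : Subgroup (alternatingGroup (Fin 5)) := stabilizer (alternatingGroup (Fin 5)) x₀
  have hM₀mem : ∀ g : alternatingGroup (Fin 5), g ∈ M₀ ↔ (g : Perm (Fin 5)) x₀ = x₀ := fun g => Iff.rfl
  refine pronormal_of_sylow H R₀ hRH ?_
  by_cases hHM : H ≤ M₀
  · -- the order of the point stabiliser
    have hM₀c : Nat.card M₀ = 12 := by
      have h1 := MulAction.index_stabilizer (alternatingGroup (Fin 5)) x₀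
      have h2 : MulAction.orbit (alternatingGroup (Fin 5)) x₀ = Set.univ := by
        ext y
        simp only [Set.mem_univ, iff_true]
        by_cases hy : y = x₀
        · subst hy
          exact MulAction.mem_orbit_self _
        obtain ⟨z, hz⟩ : ∃ z, z ∉ ({x₀, y} : Finset (Fin 5)) := by
          by_contra hcon
          push Not at hcon
          have h1 : (Finset.univ : Finset (Fin 5)) ⊆ {x₀, y} := fun z _ => hcon z
          have h2 := Finset.card_le_card h1
          have h3 : ({x₀, y} : Finset (Fin 5)).card ≤ 2 := Finset.card_le_two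
          rw [Finset.card_univ] at h2
          simp at h2
          omega
        obtain ⟨w, hw⟩ : ∃ w, w ∉ ({x₀, y, z} : Finset (Fin 5)) := by
          by_contra hcon
          push Not at hcon
          have h1 : (Finset.univ : Finset (Fin 5)) ⊆ {x₀, y, z} := fun z _ => hcon z
          have h2 := Finset.card_le_card h1
          have h3 : ({x₀, y, z} : Finset (Fin 5)).card ≤ 3 := Finset.card_le_three
          rw [Finset.card_univ] at h2
          simp at h2
          omega
        simp only [Finset.mem_insert, Finset.mem_singleton, not_or] at hz hw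
        have hev2 : swap x₀ y * swap z w ∈ alternatingGroup (Fin 5) :=
          sign_double (Ne.symm hy) (Ne.symm hw.2.2)
        refine ⟨⟨_, hev2⟩, ?_⟩
        show swap x₀ y (swap z w x₀) = y
        rw [swap_apply_of_ne_of_ne (Ne.symm hz.1) (Ne.symm hw.1), swap_apply_left]
      rw [h2, Set.ncard_univ, Nat.card_eq_fintype_card, Fintype.card_fin] at h1
      have h3 := M₀.card_mul_index
      have h4 : M₀.index = 5 := h1
      rw [h4, hc] at h3
      omega
    have h5 : Nat.card H ∣ 12 := by
      rw [← hM₀c]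
      exact Subgroup.card_dvd_of_le hHM
    obtain ⟨m, hm⟩ := h4H
    have hm3 : m ∣ 3 := by
      rw [hm] at h5
      obtain ⟨c, hc'⟩ := h5
      exact ⟨c, by nlinarith⟩
    rcases (Nat.dvd_prime Nat.prime_three).mp hm3 with rfl | rfl
    · left
      have h6 : Nat.card R₀ ∣ 4 := by
        have := Subgroup.card_dvd_of_le hRH
        rwa [hm] at this
      have h7 : Nat.card R₀ = 4 := Nat.dvd_antisymm h6 h4R
      refine (Subgroup.eq_of_le_of_card_ge hRH ?_).symm
      rw [hm, ← h7]
      exact le_of_eq (by rw [h7])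
    · right
      have h8 : H = M₀ := Subgroup.eq_of_le_of_card_ge hHM (by rw [hM₀c, hm])
      intro y hy
      rw [h8, hM₀mem]
      by_contra hne
      have hfix : ∀ r ∈ R₀, (r : Perm (Fin 5)) ((y : Perm (Fin 5)) x₀) = (y : Perm (Fin 5)) x₀ := by
        intro r hr
        have h9 : y⁻¹ • R₀ = R₀ := by
          conv_lhs => rw [← hy]
          rw [inv_smul_smul]
        have h10 := y_forward h9 r hr
        have h11 := hx₀ _ (hT1 _ h10)
        have h12 : (y : Perm (Fin 5))⁻¹ ((r : Perm (Fin 5)) ((y : Perm (Fin 5)) x₀)) = x₀ := by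
          simpa [mul_assoc] using h11
        have h13 := congrArg (y : Perm (Fin 5)) h12
        rw [show (y : Perm (Fin 5)) ((y : Perm (Fin 5))⁻¹ ((r : Perm (Fin 5)) ((y : Perm (Fin 5)) x₀))) = (r : Perm (Fin 5)) ((y : Perm (Fin 5)) x₀) from (y : Perm (Fin 5)).apply_symm_apply _] at h13
        exact h13
      obtain ⟨z, hz⟩ : ∃ z, z ∉ ({x₀, (y : Perm (Fin 5)) x₀} : Finset (Fin 5)) := by
        by_contra hcon
        push Not at hcon
        have h1 : (Finset.univ : Finset (Fin 5)) ⊆ {x₀, (y : Perm (Fin 5)) x₀} := fun z _ => hcon z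
        have h2 := Finset.card_le_card h1
        have h3 : ({x₀, (y : Perm (Fin 5)) x₀} : Finset (Fin 5)).card ≤ 2 := Finset.card_le_two
        rw [Finset.card_univ] at h2
        simp at h2
        omega
      simp only [Finset.mem_insert, Finset.mem_singleton, not_or] at hz
      obtain ⟨t, ht, h14, h15⟩ := hev _ z hne hz.1
      have h16 := hfix ⟨t, h14⟩ (hT2 t ht h14)
      have h17 : t ((y : Perm (Fin 5)) x₀) = (y : Perm (Fin 5)) x₀ := h16
      rw [h15] at h17
      exact hz.2 h17
  · right
    obtain ⟨h, hh, hmv⟩ := SetLike.not_le_iff_exists.mp hHM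
    have hmv' : (h : Perm (Fin 5)) x₀ ≠ x₀ := hmv
    have htop : H = ⊤ := by
      refine a5_key H h4H x₀ (fun y => ?_)
      by_cases hy : y = x₀
      · subst hy; exact ⟨1, H.one_mem, rfl⟩
      obtain ⟨t, ht, h5, h6⟩ := hev _ y hmv' hy
      refine ⟨(⟨t, h5⟩ : alternatingGroup (Fin 5)) * h, H.mul_mem (hRH (hT2 t ht h5)) hh, ?_⟩
      exact h6
    intro y _
    rw [htop]
    trivial

/-- Subgroups of odd index of the alternating group are pronormal. -/
theorem pronormal_alt (n : ℕ) (hn : 5 ≤ n) (H : Subgroup (alternatingGroup (Fin n)))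
    (hH : Odd H.index) : Cfsg.IsPronormal H := by
  by_cases h5 : n = 5
  · subst h5
    exact pronormal_five H hH
  obtain ⟨R₀, hRH⟩ := exists_sylow_le H hH
  refine pronormal_of_sylow H R₀ hRH (Or.inr fun y hy => hRH ?_)
  refine alt_self_norm (by rw [Fintype.card_fin]; omega) R₀ (y_forward hy)

end Cfsg.Agent.H21.SylSn
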