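import Cfsg.Agent.Lib.H21.SpSylowA
import Cfsg.Agent.Lib.H01.Hall

/-!
# Derived length of wreath products inside a group

`dS H k` is the derived series of a subgroup computed in the ambient group.  A `p`-subgroup of a
symmetric group of degree `n` has derived length at most `log_p n`; wreath products `Q ≀ S` built
from homomorphisms `M`, `T` have derived length at most the sum; and iterated wreath products give
the matching lower bound.
-/

set_option autoImplicit false
set_option linter.unusedSectionVars false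
set_option linter.style.haveILetI false
set_option linter.unusedSimpArgs false

namespace Cfsg.Agent.H21.WrDL

open Equiv
open scoped commutatorElement

section DS

variable {G : Type*} [Group G]

/-- The derived series of a subgroup, computed in the ambient group. -/
def dS (H : Subgroup G) : ℕ → Subgroup G
  | 0 => H
  | k + 1 => ⁅dS H k, dS H k⁆

theorem dS_zero (H : Subgroup G) : dS H 0 = H := rfl

theorem dS_succ (H : Subgroup G) (k : ℕ) : dS H (k + 1) = ⁅dS H k, dS H k⁆ := rfl

theorem map_derivedSeries (H : Subgroup G) (k : ℕ) :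
    (derivedSeries H k).map H.subtype = dS H k := by
  induction k with
  | zero =>
    rw [derivedSeries_zero, dS_zero]
    ext x
    simp
  | succ k ih => rw [derivedSeries_succ, Subgroup.map_commutator, ih, dS_succ]

theorem derivedSeries_eq_bot_iff (H : Subgroup G) (k : ℕ) :
    derivedSeries H k = ⊥ ↔ dS H k = ⊥ := by
  rw [← map_derivedSeries, Subgroup.map_eq_bot_iff_of_injective _ H.subtype_injective]

theorem dS_mono {H K : Subgroup G} (h : H ≤ K) (k : ℕ) : dS H k ≤ dS K k := by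
  induction k with
  | zero => exact h
  | succ k ih => exact Subgroup.commutator_mono ih ih

theorem dS_map {G' : Type*} [Group G'] (f : G →* G') (H : Subgroup G) (k : ℕ) :
    dS (H.map f) k = (dS H k).map f := by
  induction k with
  | zero => rfl
  | succ k ih => rw [dS_succ, dS_succ, ih, Subgroup.map_commutator]

theorem dS_add (H : Subgroup G) (a b : ℕ) : dS H (a + b) = dS (dS H a) b := by
  induction b with
  | zero => rfl
  | succ b ih => rw [← add_assoc, dS_succ, dS_succ, ih]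

theorem dS_top (k : ℕ) : dS (⊤ : Subgroup G) k = derivedSeries G k := by
  induction k with
  | zero => rfl
  | succ k ih => rw [dS_succ, ih, derivedSeries_succ]

theorem dS_succ' (H : Subgroup G) (k : ℕ) : dS H (k + 1) = dS ⁅H, H⁆ k := by
  rw [add_comm, dS_add]
  rfl

theorem dS_le (H : Subgroup G) (k : ℕ) : dS H k ≤ H := by
  induction k with
  | zero => exact le_rfl
  | succ k ih =>
    rw [dS_succ, Subgroup.commutator_le]
    intro a ha b hb
    exact mul_mem (mul_mem (mul_mem (ih ha) (ih hb)) (inv_mem (ih ha))) (inv_mem (ih hb))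

end DS

section PermBound

universe u v

/-- In a finite `p`-group a proper subgroup stays proper after adding the derived subgroup. -/
theorem sup_commutator_ne_top {p : ℕ} [Fact p.Prime] {P : Type u} [Group P] [Finite P]
    (hP : IsPGroup p P) (K : Subgroup P) (hK : K ≠ ⊤) : K ⊔ commutator P ≠ ⊤ := by
  classical
  obtain ⟨M, hM, hKM⟩ := (eq_top_or_exists_le_coatom K).resolve_left hK
  haveI hnil : Group.IsNilpotent P := hP.isNilpotent
  haveI hMn : M.Normal :=
    Subgroup.NormalizerCondition.normal_of_coatom M Group.normalizerCondition_of_isNilpotent hM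
  have hcomm : commutator P ≤ M := by
    obtain ⟨g, hg⟩ : ∃ g, g ∉ M := by
      by_contra h
      push Not at h
      exact hM.1 (Subgroup.eq_top_iff' _ |>.2 h)
    have hsup : M ⊔ Subgroup.zpowers g = ⊤ := by
      apply hM.2
      refine lt_of_le_of_ne le_sup_left fun h => hg ?_
      rw [h]
      exact Subgroup.mem_sup_right (Subgroup.mem_zpowers g)
    let Ψ : P →* P ⧸ M := QuotientGroup.mk' M
    have hΨ : Function.Surjective Ψ := QuotientGroup.mk'_surjective M
    have hz : Subgroup.zpowers (Ψ g) = ⊤ := by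
      have h1 : (M ⊔ Subgroup.zpowers g).map Ψ = ⊤ := by
        rw [hsup, Subgroup.map_top_of_surjective _ hΨ]
      rw [Subgroup.map_sup, MonoidHom.map_zpowers] at h1
      have h2 : M.map Ψ = ⊥ := QuotientGroup.map_mk'_self M
      rwa [h2, bot_sup_eq] at h1
    have hcyc : IsCyclic (P ⧸ M) := ⟨Ψ g, fun x => by
      have : x ∈ Subgroup.zpowers (Ψ g) := by rw [hz]; trivial
      exact this⟩
    rw [commutator_def, Subgroup.commutator_le]
    rintro a - b -
    rw [← QuotientGroup.eq_one_iff]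
    have hc : (a : P ⧸ M) * b = b * a := by
      obtain ⟨i, hi⟩ := (hcyc.exists_generator).choose_spec (a : P ⧸ M)
      obtain ⟨j, hj⟩ := (hcyc.exists_generator).choose_spec (b : P ⧸ M)
      simp only at hi hj
      rw [← hi, ← hj, ← zpow_add, ← zpow_add, add_comm]
    change (a : P ⧸ M) * b * (a : P ⧸ M)⁻¹ * (b : P ⧸ M)⁻¹ = 1
    rw [hc]
    group
  intro h
  have h2 : (⊤ : Subgroup P) ≤ M := by
    rw [← h]
    exact sup_le hKM hcomm
  exact hM.1 (top_le_iff.1 h2)

/-- A `p`-group with a family of subgroups of small index and trivial intersection has small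
derived length. -/
theorem dl_family {p : ℕ} [Fact p.Prime] : ∀ (a : ℕ) (P : Type u) [Group P] [Finite P]
    (_ : IsPGroup p P) {ι : Type v} (S : ι → Subgroup P), (⨅ i, S i = ⊥) →
    (∀ i, Nat.card P ≤ p ^ a * Nat.card (S i)) → derivedSeries P a = ⊥ := by
  intro a
  induction a with
  | zero =>
    intro P _ _ hP ι S hS hc
    rw [derivedSeries_zero, eq_bot_iff, ← hS]
    refine le_iInf fun i => ?_
    have h1 := hc i
    rw [pow_zero, one_mul] at h1
    have h2 : S i = ⊤ := Subgroup.eq_top_of_card_eq _ (le_antisymm (Subgroup.card_le_card_group _) h1)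
    rw [h2]
  | succ a ih =>
    intro P _ _ hP ι S hS hc
    have hp1 : 1 < p := (Fact.out : p.Prime).one_lt
    let P' : Subgroup P := commutator P
    have hP' : IsPGroup p P' := hP.to_subgroup _
    have h1 : derivedSeries (↥P') a = ⊥ := by
      refine ih (↥P') hP' (fun i => (S i).subgroupOf P') ?_ ?_
      · rw [eq_bot_iff]
        intro x hx
        have h2 : (x : P) ∈ ⨅ i, S i := by
          rw [Subgroup.mem_iInf] at hx ⊢
          intro i
          exact Subgroup.mem_subgroupOf.1 (hx i)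
        rw [hS, Subgroup.mem_bot] at h2
        exact Subgroup.mem_bot.2 (Subtype.ext h2)
      · intro i
        have hcard : Nat.card ((S i).subgroupOf P') = Nat.card (S i ⊓ P' : Subgroup P) := by
          rw [← Subgroup.inf_subgroupOf_right]
          exact Nat.card_congr (Subgroup.subgroupOfEquivOfLe inf_le_right).toEquiv
        rw [hcard]
        by_cases hi : S i = ⊤
        · rw [hi, top_inf_eq]
          exact Nat.le_mul_of_pos_left _ (by positivity)
        · have hne := sup_commutator_ne_top hP (S i) hi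
          have h3 := Cfsg.Agent.H01.card_sup_mul_card_inf (S i) P'
          have h4 := (S i ⊔ P').card_mul_index
          obtain ⟨k, hk⟩ := hP.index (S i ⊔ P')
          have hk0 : k ≠ 0 := by
            rintro rfl
            rw [pow_zero] at hk
            exact hne (Subgroup.index_eq_one.1 hk)
          have h5 : p ≤ (S i ⊔ P').index := by
            rw [hk]
            exact Nat.le_self_pow hk0 p
          have h6 := hc i
          have hSpos : 0 < Nat.card (S i) := Nat.card_pos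
          have h7 : p * Nat.card (S i ⊔ P' : Subgroup P) ≤ p ^ (a + 1) * Nat.card (S i) := by
            calc _ = Nat.card (S i ⊔ P' : Subgroup P) * p := by ring
              _ ≤ Nat.card (S i ⊔ P' : Subgroup P) * (S i ⊔ P').index := Nat.mul_le_mul_left _ h5
              _ = Nat.card P := h4
              _ ≤ _ := h6
          have h8 : Nat.card (S i ⊔ P' : Subgroup P) ≤ p ^ a * Nat.card (S i) := by
            rw [pow_succ, mul_comm (p ^ a) p, mul_assoc] at h7
            exact Nat.le_of_mul_le_mul_left h7 (by omega)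
          apply Nat.le_of_mul_le_mul_left _ hSpos
          calc Nat.card (S i) * Nat.card P' = Nat.card (S i ⊔ P' : Subgroup P) * Nat.card (S i ⊓ P' : Subgroup P) := h3.symm
            _ ≤ (p ^ a * Nat.card (S i)) * Nat.card (S i ⊓ P' : Subgroup P) := Nat.mul_le_mul_right _ h8
            _ = _ := by ring
    rw [derivedSeries_eq_bot_iff] at h1
    rw [← dS_top, dS_succ', ← commutator_def]
    exact h1

/-- A `p`-subgroup of the symmetric group of degree `n` has derived length at most `log_p n`. -/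
theorem perm_dl {p : ℕ} [Fact p.Prime] {X : Type u} [Fintype X] (P : Subgroup (Perm X))
    (hP : IsPGroup p P) : dS P (Nat.log p (Fintype.card X)) = ⊥ := by
  classical
  rw [← derivedSeries_eq_bot_iff]
  have hp1 : 1 < p := (Fact.out : p.Prime).one_lt
  refine dl_family _ (↥P) hP (fun x : X => MulAction.stabilizer (↥P) x) ?_ ?_
  · rw [eq_bot_iff]
    intro g hg
    rw [Subgroup.mem_iInf] at hg
    rw [Subgroup.mem_bot]
    apply Subtype.ext
    ext x
    have h1 := hg x
    rw [MulAction.mem_stabilizer_iff] at h1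
    exact h1
  · intro x
    have h1 := (MulAction.stabilizer (↥P) x).card_mul_index
    obtain ⟨k, hk⟩ := hP.index (MulAction.stabilizer (↥P) x)
    have h2 : (MulAction.stabilizer (↥P) x).index ≤ Fintype.card X := by
      rw [MulAction.index_stabilizer]
      calc _ ≤ Nat.card X := Set.ncard_le_card _
        _ = _ := Nat.card_eq_fintype_card
    have h3 : k ≤ Nat.log p (Fintype.card X) := by
      apply Nat.le_log_of_pow_le hp1
      rwa [← hk]
    rw [← h1, mul_comm]
    apply Nat.mul_le_mul_right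
    rw [hk]
    exact Nat.pow_le_pow_right (by omega) h3

end PermBound

section Wreath

open Cfsg.Agent.H21.SpS

variable {G A ι : Type*} [Group G] [Group A] [Fintype ι] [DecidableEq ι]
  (M : (ι → A) →* G) (T : Perm ι →* G)
  (hTM : ∀ (π : Perm ι) (c : ι → A), T π * M c * (T π)⁻¹ = M (c ∘ ⇑π⁻¹))

include hTM in
theorem mul_form (c d : ι → A) (π σ : Perm ι) :
    (M c * T π) * (M d * T σ) = M (c * (d ∘ ⇑π⁻¹)) * T (π * σ) := by
  rw [map_mul, map_mul, ← hTM]
  group

include hTM in
theorem inv_form (c : ι → A) (π : Perm ι) :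
    (M c * T π)⁻¹ = M (c⁻¹ ∘ ⇑π) * T π⁻¹ := by
  have h1 := hTM π⁻¹ c⁻¹
  rw [inv_inv] at h1
  rw [← h1, map_inv, map_inv]
  group

include hTM in
/-- Commutators in `Q ≀ S` project into the commutators of `S`. -/
theorem commutator_wrS_le (Q : Subgroup A) (S : Subgroup (Perm ι)) :
    ⁅wrS M T hTM Q S, wrS M T hTM Q S⁆ ≤ wrS M T hTM Q ⁅S, S⁆ := by
  rw [Subgroup.commutator_le]
  rintro _ ⟨c, hc, π, hπ, rfl⟩ _ ⟨d, hd, σ, hσ, rfl⟩
  have hcm : ⁅π, σ⁆ ∈ (⁅S, S⁆ : Subgroup (Perm ι)) := Subgroup.commutator_mem_commutator hπ hσ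
  refine ⟨c * (d ∘ ⇑π⁻¹) * ((c⁻¹ ∘ ⇑π) ∘ ⇑(π * σ)⁻¹) * ((d⁻¹ ∘ ⇑σ) ∘ ⇑(π * σ * π⁻¹)⁻¹), ?_, ⁅π, σ⁆,
    hcm, ?_⟩
  · intro i
    simp only [Pi.mul_apply, Function.comp_apply, Pi.inv_apply]
    exact mul_mem (mul_mem (mul_mem (hc _) (hd _)) (inv_mem (hc _))) (inv_mem (hd _))
  · rw [commutatorElement_def, commutatorElement_def, mul_form M T hTM, inv_form M T hTM,
      inv_form M T hTM, mul_form M T hTM, mul_form M T hTM]

include hTM in
/-- Commutators of the base group. -/
theorem commutator_base_le (Q : Subgroup A) :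
    ⁅wrS M T hTM Q ⊥, wrS M T hTM Q ⊥⁆ ≤ wrS M T hTM ⁅Q, Q⁆ ⊥ := by
  rw [Subgroup.commutator_le]
  rintro _ ⟨c, hc, π, hπ, rfl⟩ _ ⟨d, hd, σ, hσ, rfl⟩
  rw [Subgroup.mem_bot] at hπ hσ
  subst hπ hσ
  refine ⟨fun i => ⁅c i, d i⁆, fun i => Subgroup.commutator_mem_commutator (hc i) (hd i), 1,
    one_mem _, ?_⟩
  simp only [map_one, mul_one]
  rw [commutatorElement_def, ← map_inv, ← map_inv, ← map_mul, ← map_mul, ← map_mul]
  rfl

include hTM in
theorem dS_wrS_le (Q : Subgroup A) (S : Subgroup (Perm ι)) (k : ℕ) :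
    dS (wrS M T hTM Q S) k ≤ wrS M T hTM Q (dS S k) := by
  induction k with
  | zero => exact le_rfl
  | succ k ih =>
    rw [dS_succ, dS_succ]
    refine le_trans (Subgroup.commutator_mono ih ih) (commutator_wrS_le M T hTM Q _)

include hTM in
theorem dS_base_le (Q : Subgroup A) (k : ℕ) :
    dS (wrS M T hTM Q ⊥) k ≤ wrS M T hTM (dS Q k) ⊥ := by
  induction k with
  | zero => exact le_rfl
  | succ k ih =>
    rw [dS_succ, dS_succ]
    refine le_trans (Subgroup.commutator_mono ih ih) (commutator_base_le M T hTM _)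

include hTM in
/-- Upper bound for the derived length of a wreath product. -/
theorem wr_upper (Q : Subgroup A) (S : Subgroup (Perm ι)) {a δ : ℕ} (hS : dS S a = ⊥)
    (hQ : dS Q δ = ⊥) : dS (wrS M T hTM Q S) (a + δ) = ⊥ := by
  rw [dS_add, eq_bot_iff]
  have h1 : dS (wrS M T hTM Q S) a ≤ wrS M T hTM Q ⊥ := by
    rw [← hS]
    exact dS_wrS_le M T hTM Q S a
  refine le_trans (dS_mono h1 δ) (le_trans (dS_base_le M T hTM Q δ) ?_)
  rw [hQ]
  rintro _ ⟨c, hc, π, hπ, rfl⟩
  rw [Subgroup.mem_bot] at hπ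
  subst hπ
  have : c = 1 := by
    funext i
    exact Subgroup.mem_bot.1 (hc i)
  subst this
  simp

/-- The elements supported on a set of indices. -/
def Sup (B : Set ι) : Subgroup G where
  carrier := {g | ∃ (c : ι → A) (π : Perm ι), (∀ i, i ∉ B → c i = 1) ∧ (∀ i, i ∉ B → π i = i) ∧
    g = M c * T π}
  mul_mem' := by
    rintro _ _ ⟨c, π, hc, hπ, rfl⟩ ⟨d, σ, hd, hσ, rfl⟩
    refine ⟨c * (d ∘ ⇑π⁻¹), π * σ, fun i hi => ?_, fun i hi => ?_, mul_form M T hTM c d π σ⟩
    · have h1 : π⁻¹ i = i := by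
        rw [Equiv.Perm.inv_eq_iff_eq]
        exact (hπ i hi).symm
      show c i * d (π⁻¹ i) = 1
      rw [hc i hi, h1, hd i hi, one_mul]
    · show π (σ i) = i
      rw [hσ i hi, hπ i hi]
  one_mem' := ⟨1, 1, fun _ _ => rfl, fun _ _ => rfl, by simp⟩
  inv_mem' := by
    rintro _ ⟨c, π, hc, hπ, rfl⟩
    refine ⟨c⁻¹ ∘ ⇑π, π⁻¹, fun i hi => ?_, fun i hi => ?_, inv_form M T hTM c π⟩
    · show (c (π i))⁻¹ = 1
      rw [hπ i hi, hc i hi, inv_one]
    · rw [Equiv.Perm.inv_eq_iff_eq]
      exact (hπ i hi).symm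

omit [Fintype ι] [DecidableEq ι] in
theorem ai (π : Perm ι) (i : ι) : π (π⁻¹ i) = i := by
  rw [← Equiv.Perm.mul_apply, mul_inv_cancel, Equiv.Perm.one_apply]

omit [Fintype ι] [DecidableEq ι] in
theorem inv_fix {π : Perm ι} {i : ι} (h : π i = i) : π⁻¹ i = i := by
  rw [Equiv.Perm.inv_eq_iff_eq]
  exact h.symm

theorem Sup_mono {B C : Set ι} (h : B ⊆ C) : Sup M T hTM B ≤ Sup M T hTM C := by
  rintro _ ⟨c, π, hc, hπ, rfl⟩
  exact ⟨c, π, fun i hi => hc i fun h' => hi (h h'), fun i hi => hπ i fun h' => hi (h h'), rfl⟩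

theorem T_mem_Sup {B : Set ι} {ρ : Perm ι} (h : ∀ i, i ∉ B → ρ i = i) : T ρ ∈ Sup M T hTM B :=
  ⟨1, ρ, fun _ _ => rfl, h, by simp⟩

/-- Elements with disjoint supports commute. -/
theorem Sup_comm {B C : Set ι} (h : Disjoint B C) {g k : G} (hg : g ∈ Sup M T hTM B)
    (hk : k ∈ Sup M T hTM C) : g * k = k * g := by
  obtain ⟨c, π, hc, hπ, rfl⟩ := hg
  obtain ⟨d, σ, hd, hσ, rfl⟩ := hk
  have hdisj : ∀ i, i ∉ B ∨ i ∉ C := fun i => by
    by_contra hcon
    push Not at hcon
    exact Set.disjoint_left.1 h hcon.1 hcon.2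
  have hπB : ∀ i, i ∈ B → π⁻¹ i ∈ B := fun i hi => by
    by_contra hcon
    have := hπ _ hcon
    rw [ai] at this
    rw [← this] at hcon
    exact hcon hi
  have hσC : ∀ i, i ∈ C → σ⁻¹ i ∈ C := fun i hi => by
    by_contra hcon
    have := hσ _ hcon
    rw [ai] at this
    rw [← this] at hcon
    exact hcon hi
  have h1 : d ∘ ⇑π⁻¹ = d := by
    funext i
    by_cases hi : i ∈ B
    · have h2 := (hdisj (π⁻¹ i)).resolve_left (not_not.2 (hπB i hi))
      have h3 := (hdisj i).resolve_left (not_not.2 hi)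
      show d (π⁻¹ i) = d i
      rw [hd _ h2, hd _ h3]
    · show d (π⁻¹ i) = d i
      rw [inv_fix (hπ i hi)]
  have h2 : c ∘ ⇑σ⁻¹ = c := by
    funext i
    by_cases hi : i ∈ C
    · have h3 := (hdisj (σ⁻¹ i)).resolve_right (not_not.2 (hσC i hi))
      have h4 := (hdisj i).resolve_right (not_not.2 hi)
      show c (σ⁻¹ i) = c i
      rw [hc _ h3, hc _ h4]
    · show c (σ⁻¹ i) = c i
      rw [inv_fix (hσ i hi)]
  have h3 : c * d = d * c := by
    funext i
    rcases hdisj i with hi | hi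
    · simp [hc i hi]
    · simp [hd i hi]
  have h4 : π * σ = σ * π := by
    have : Equiv.Perm.Disjoint π σ := fun x => by
      rcases hdisj x with hi | hi
      · exact Or.inl (hπ x hi)
      · exact Or.inr (hσ x hi)
    exact this.commute
  rw [mul_form M T hTM, mul_form M T hTM, h1, h2, h3, h4]

/-- A disjoint-support intersection is trivial. -/
theorem Sup_inf (hsep : ∀ (c : ι → A) (π : Perm ι), M c * T π = 1 → c = 1 ∧ π = 1)
    {B C : Set ι} (h : Disjoint B C) {g : G} (hg : g ∈ Sup M T hTM B) (hk : g ∈ Sup M T hTM C) :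
    g = 1 := by
  obtain ⟨c, π, hc, hπ, rfl⟩ := hg
  obtain ⟨d, σ, hd, hσ, hgk⟩ := hk
  have hdisj : ∀ i, i ∉ B ∨ i ∉ C := fun i => by
    by_contra hcon
    push Not at hcon
    exact Set.disjoint_left.1 h hcon.1 hcon.2
  have h2 : M (d⁻¹ * c) * T (π * σ⁻¹) = 1 := by
    rw [map_mul, map_mul, map_inv, map_inv]
    calc _ = (M d)⁻¹ * (M c * T π) * (T σ)⁻¹ := by group
      _ = _ := by rw [hgk]; group
  obtain ⟨h3, h4⟩ := hsep _ _ h2
  have h5 : c = d := by
    funext i
    have := congrFun h3 i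
    simp only [Pi.mul_apply, Pi.inv_apply, Pi.one_apply] at this
    exact (inv_mul_eq_one.1 this).symm
  have h6 : π = σ := mul_inv_eq_one.1 h4
  subst h5 h6
  have h7 : c = 1 := by
    funext i
    rcases hdisj i with hi | hi
    · exact hc i hi
    · exact hd i hi
  have h8 : π = 1 := by
    ext i
    rcases hdisj i with hi | hi
    · simp [hπ i hi]
    · simp [hσ i hi]
  simp [h7, h8]

/-- Conjugation by a permutation moves supports. -/
theorem Sup_conj {C D : Set ι} (ρ : Perm ι) (hρ : ∀ x ∈ C, ρ x ∈ D) {g : G}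
    (hg : g ∈ Sup M T hTM C) : T ρ * g * (T ρ)⁻¹ ∈ Sup M T hTM D := by
  obtain ⟨c, π, hc, hπ, rfl⟩ := hg
  have hout : ∀ i, i ∉ D → ρ⁻¹ i ∉ C := fun i hi hcon => by
    have := hρ _ hcon
    rw [ai] at this
    exact hi this
  refine ⟨c ∘ ⇑ρ⁻¹, ρ * π * ρ⁻¹, fun i hi => hc _ (hout i hi), fun i hi => ?_, ?_⟩
  · show ρ (π (ρ⁻¹ i)) = i
    rw [hπ _ (hout i hi), ai]
  · rw [map_mul, map_mul, map_inv, ← hTM]
    group

end Wreath

section Lower

variable {G : Type*} [Group G]

theorem comm_mul (a b c d : G) (hca : Commute c a) (hcb : Commute c b) (hda : Commute d a)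
    (hdb : Commute d b) : ⁅a * c, b * d⁆ = ⁅a, b⁆ * ⁅c, d⁆ := by
  have he : Commute (c * d * c⁻¹) a := (hca.mul_left hda).mul_left hca.inv_left
  have hf : Commute (c * d * c⁻¹ * d⁻¹) b :=
    ((hcb.mul_left hdb).mul_left hcb.inv_left).mul_left hdb.inv_left
  simp only [commutatorElement_def, mul_inv_rev]
  calc a * c * (b * d) * (c⁻¹ * a⁻¹) * (d⁻¹ * b⁻¹)
      = a * (c * b) * d * c⁻¹ * a⁻¹ * d⁻¹ * b⁻¹ := by group
    _ = a * b * ((c * d * c⁻¹) * a⁻¹) * d⁻¹ * b⁻¹ := by rw [hcb.eq]; group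
    _ = a * b * (a⁻¹ * (c * d * c⁻¹)) * d⁻¹ * b⁻¹ := by rw [he.inv_right.eq]
    _ = a * b * a⁻¹ * ((c * d * c⁻¹ * d⁻¹) * b⁻¹) := by group
    _ = a * b * a⁻¹ * (b⁻¹ * (c * d * c⁻¹ * d⁻¹)) := by rw [hf.inv_right.eq]
    _ = _ := by group

/-- Elements of the derived series of `A` appear in that of `U` up to a factor in `σ A σ⁻¹`. -/
theorem dl_step_aux (U A : Subgroup G) (σ : G) (hσ : σ ∈ U) (hAU : A ≤ U)
    (hcomm : ∀ a ∈ A, ∀ b ∈ A, Commute (σ * b * σ⁻¹) a) (j : ℕ) :
    ∀ y ∈ dS A j, ∃ b ∈ A, y * (σ * b * σ⁻¹) ∈ dS U (j + 1) := by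
  induction j with
  | zero =>
    intro y hy
    refine ⟨y⁻¹, inv_mem hy, ?_⟩
    have h1 := Subgroup.commutator_mem_commutator (hAU hy) hσ
    rw [commutatorElement_def] at h1
    have h2 : y * (σ * y⁻¹ * σ⁻¹) = y * σ * y⁻¹ * σ⁻¹ := by group
    rw [h2]
    exact h1
  | succ j ih =>
    intro y hy
    have hyA : ∀ {z}, z ∈ dS A j → z ∈ A := fun hz => dS_le A j hz
    have hle : dS A (j + 1) ≤ A := dS_le A _
    have key : ∃ b ∈ A, y * (σ * b * σ⁻¹) ∈ dS U (j + 1 + 1) ∧ y ∈ dS A (j + 1) := by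
      rw [dS_succ, Subgroup.commutator_def] at hy
      induction hy using Subgroup.closure_induction with
      | mem x hx =>
        obtain ⟨u, hu, v, hv, rfl⟩ := hx
        obtain ⟨bu, hbu, h1⟩ := ih u hu
        obtain ⟨bv, hbv, h2⟩ := ih v hv
        refine ⟨⁅bu, bv⁆, mul_mem (mul_mem (mul_mem hbu hbv) (inv_mem hbu)) (inv_mem hbv), ?_,
          Subgroup.commutator_mem_commutator hu hv⟩
        have h3 := Subgroup.commutator_mem_commutator h1 h2
        rw [comm_mul _ _ _ _ (hcomm _ (hyA hu) _ hbu) (hcomm _ (hyA hv) _ hbu)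
          (hcomm _ (hyA hu) _ hbv) (hcomm _ (hyA hv) _ hbv)] at h3
        have h4 : σ * ⁅bu, bv⁆ * σ⁻¹ = ⁅σ * bu * σ⁻¹, σ * bv * σ⁻¹⁆ := by
          simp only [commutatorElement_def]
          group
        rw [h4]
        exact h3
      | one => exact ⟨1, one_mem _, by simp [one_mem], one_mem _⟩
      | mul x y _ _ hx hy =>
        obtain ⟨b1, hb1, h1, h1'⟩ := hx
        obtain ⟨b2, hb2, h2, h2'⟩ := hy
        refine ⟨b1 * b2, mul_mem hb1 hb2, ?_, mul_mem h1' h2'⟩
        have h3 := mul_mem h1 h2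
        have h4 : x * y * (σ * (b1 * b2) * σ⁻¹) = x * (σ * b1 * σ⁻¹) * (y * (σ * b2 * σ⁻¹)) := by
          have h5 := (hcomm y (hle h2') b1 hb1).eq
          calc _ = x * y * ((σ * b1 * σ⁻¹) * (σ * b2 * σ⁻¹)) := by group
            _ = x * (y * (σ * b1 * σ⁻¹)) * (σ * b2 * σ⁻¹) := by group
            _ = x * ((σ * b1 * σ⁻¹) * y) * (σ * b2 * σ⁻¹) := by rw [h5]
            _ = _ := by group
        rw [h4]
        exact h3
      | inv x _ hx =>
        obtain ⟨b1, hb1, h1, h1'⟩ := hx
        refine ⟨b1⁻¹, inv_mem hb1, ?_, inv_mem h1'⟩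
        have h3 := inv_mem h1
        have h5 := hcomm x (hle h1') b1 hb1
        have h4 : x⁻¹ * (σ * b1⁻¹ * σ⁻¹) = (x * (σ * b1 * σ⁻¹))⁻¹ := by
          rw [mul_inv_rev, h5.inv_left.inv_right.eq]
          group
        rw [h4]
        exact h3
    obtain ⟨b, hb, h1, -⟩ := key
    exact ⟨b, hb, h1⟩

/-- One wreath step increases the derived length. -/
theorem dl_step (U A : Subgroup G) (σ : G) (hσ : σ ∈ U) (hAU : A ≤ U)
    (hcomm : ∀ a ∈ A, ∀ b ∈ A, Commute (σ * b * σ⁻¹) a)
    (hinf : ∀ a ∈ A, ∀ b ∈ A, a * (σ * b * σ⁻¹) = 1 → a = 1) {j : ℕ} (hne : dS A j ≠ ⊥) :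
    dS U (j + 1) ≠ ⊥ := by
  obtain ⟨y, hy, hy1⟩ : ∃ y ∈ dS A j, y ≠ 1 := by
    by_contra hcon
    push Not at hcon
    exact hne ((Subgroup.eq_bot_iff_forall _).2 hcon)
  obtain ⟨b, hb, h1⟩ := dl_step_aux U A σ hσ hAU hcomm j y hy
  intro hbot
  rw [hbot, Subgroup.mem_bot] at h1
  exact hy1 (hinf y (dS_le A j hy) b hb h1)

/-- The join of the `σ`-conjugates of a `p`-group, and `σ`, where the conjugates commute. -/
theorem exists_pgroup_join {p : ℕ} [hp : Fact p.Prime] (U₀ : Subgroup G) (σ : G)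
    (hU₀ : IsPGroup p U₀) (hσ : σ ^ p = 1)
    (hcomm : ∀ i j, i < p → j < p → i ≠ j → ∀ a ∈ U₀, ∀ b ∈ U₀,
      Commute (σ ^ i * a * (σ ^ i)⁻¹) (σ ^ j * b * (σ ^ j)⁻¹)) :
    ∃ U : Subgroup G, U₀ ≤ U ∧ σ ∈ U ∧ IsPGroup p U ∧
      ∀ E : Subgroup G, U₀ ≤ E → σ ∈ E → U ≤ E := by
  classical
  have hp1 : 1 < p := hp.out.one_lt
  let A : ℕ → Subgroup G := fun i => U₀.map (MulAut.conj (σ ^ i)).toMonoidHom
  have hA : ∀ i, IsPGroup p (A i) := fun i => hU₀.map _
  have hmemA : ∀ i a, a ∈ U₀ → σ ^ i * a * (σ ^ i)⁻¹ ∈ A i := fun i a ha => ⟨a, ha, rfl⟩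
  let N : Subgroup G := ⨆ i ∈ Finset.range p, A i
  have hAN : ∀ i, i < p → A i ≤ N := fun i hi =>
    le_iSup₂_of_le (f := fun i (_ : i ∈ Finset.range p) => A i) i (Finset.mem_range.2 hi) le_rfl
  have hNp : IsPGroup p N := by
    have key : ∀ s : Finset ℕ, (∀ i ∈ s, i < p) → IsPGroup p (⨆ i ∈ s, A i : Subgroup G) := by
      intro s
      induction s using Finset.induction_on with
      | empty =>
        intro _
        have h0 : (⨆ i ∈ (∅ : Finset ℕ), A i : Subgroup G) = ⊥ := by simp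
        rw [h0]
        exact IsPGroup.of_bot
      | insert j s hj ih =>
        intro hs
        rw [Finset.iSup_insert]
        refine IsPGroup.to_sup_of_normal_right' (hA j) (ih fun i hi => hs i (Finset.mem_insert_of_mem hi)) ?_
        intro x hx
        have hc : ∀ h ∈ (⨆ i ∈ s, A i : Subgroup G), x * h = h * x := by
          intro h hh
          have hle : (⨆ i ∈ s, A i : Subgroup G) ≤ Subgroup.centralizer {x} := by
            refine iSup₂_le fun i hi => ?_
            rintro _ ⟨b, hb, rfl⟩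
            obtain ⟨a, ha, rfl⟩ := hx
            rw [Subgroup.mem_centralizer_singleton_iff]
            have hij : i ≠ j := fun h => hj (h ▸ hi)
            exact (hcomm i j (hs i (Finset.mem_insert_of_mem hi)) (hs j (Finset.mem_insert_self _ _))
              hij b hb a ha).eq
          have h1 := hle hh
          rw [Subgroup.mem_centralizer_singleton_iff] at h1
          exact h1.symm
        rw [Subgroup.mem_normalizer_iff]
        intro h
        constructor
        · intro hh
          rw [hc h hh]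
          simpa using hh
        · intro hh
          have h1 := hc _ hh
          have h2 : x * h * x⁻¹ = h := by
            have h3 : x * (x * h * x⁻¹) = x * h := by
              rw [h1]
              group
            exact mul_left_cancel h3
          rwa [h2] at hh
    exact key _ fun i hi => Finset.mem_range.1 hi
  have hstep : ∀ h ∈ N, σ * h * σ⁻¹ ∈ N := by
    have hle : N ≤ N.comap (MulAut.conj σ).toMonoidHom := by
      refine iSup₂_le fun i hi => ?_
      rintro _ ⟨a, ha, rfl⟩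
      rw [Finset.mem_range] at hi
      rw [Subgroup.mem_comap]
      show σ * (σ ^ i * a * (σ ^ i)⁻¹) * σ⁻¹ ∈ N
      by_cases hi2 : i + 1 < p
      · refine hAN _ hi2 ?_
        have : σ * (σ ^ i * a * (σ ^ i)⁻¹) * σ⁻¹ = σ ^ (i + 1) * a * (σ ^ (i + 1))⁻¹ := by
          rw [pow_succ']
          group
        rw [this]
        exact hmemA _ _ ha
      · have hi3 : i + 1 = p := by omega
        refine hAN 0 (by omega) ?_
        have h1 : σ * σ ^ i = 1 := by
          rw [← pow_succ', hi3, hσ]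
        have : σ * (σ ^ i * a * (σ ^ i)⁻¹) * σ⁻¹ = σ ^ 0 * a * (σ ^ 0)⁻¹ := by
          calc _ = (σ * σ ^ i) * a * (σ * σ ^ i)⁻¹ := by group
            _ = _ := by rw [h1]; simp
        rw [this]
        exact hmemA _ _ ha
    exact fun h hh => hle hh
  have hstepk : ∀ k : ℕ, ∀ h ∈ N, σ ^ k * h * (σ ^ k)⁻¹ ∈ N := by
    intro k
    induction k with
    | zero => intro h hh; simpa using hh
    | succ k ih =>
      intro h hh
      have := hstep _ (ih h hh)
      rw [pow_succ']
      have h2 : σ * σ ^ k * h * (σ * σ ^ k)⁻¹ = σ * (σ ^ k * h * (σ ^ k)⁻¹) * σ⁻¹ := by group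
      rw [h2]
      exact this
  have hσN : σ ∈ Subgroup.normalizer (N : Set G) := by
    rw [Subgroup.mem_normalizer_iff]
    intro h
    refine ⟨hstep h, fun hh => ?_⟩
    have h1 := hstepk (p - 1) _ hh
    have h2 : σ ^ (p - 1) * σ = 1 := by
      rw [← pow_succ, Nat.sub_add_cancel hp1.le, hσ]
    have h3 : σ ^ (p - 1) * (σ * h * σ⁻¹) * (σ ^ (p - 1))⁻¹ = h := by
      calc _ = (σ ^ (p - 1) * σ) * h * (σ ^ (p - 1) * σ)⁻¹ := by group
        _ = h := by rw [h2]; simp
    rwa [h3] at h1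
  have hz : IsPGroup p (Subgroup.zpowers σ) := by
    rintro ⟨_, k, rfl⟩
    refine ⟨1, ?_⟩
    apply Subtype.ext
    show ((σ ^ k) ^ p ^ 1 : G) = 1
    rw [pow_one, ← zpow_natCast, ← zpow_mul, mul_comm, zpow_mul, zpow_natCast, hσ, one_zpow]
  refine ⟨N ⊔ Subgroup.zpowers σ, ?_, ?_, ?_, ?_⟩
  · intro a ha
    refine Subgroup.mem_sup_left (hAN 0 (by omega) ?_)
    have := hmemA 0 a ha
    simpa using this
  · exact Subgroup.mem_sup_right (Subgroup.mem_zpowers σ)
  · refine IsPGroup.to_sup_of_normal_left' hNp hz ?_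
    rw [Subgroup.zpowers_le]
    exact hσN
  · intro E hE hσE
    refine sup_le (iSup₂_le fun i _ => ?_) ?_
    · rintro _ ⟨a, ha, rfl⟩
      exact mul_mem (mul_mem (pow_mem hσE _) (hE ha)) (inv_mem (pow_mem hσE _))
    · rwa [Subgroup.zpowers_le]

end Lower

section Deep

variable {G A ι : Type*} [Group G] [Group A] [Fintype ι] [DecidableEq ι]
  (M : (ι → A) →* G) (T : Perm ι →* G)
  (hTM : ∀ (π : Perm ι) (c : ι → A), T π * M c * (T π)⁻¹ = M (c ∘ ⇑π⁻¹))

/-- Iterated wreath products realise a large derived length. -/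
theorem exists_deep {p : ℕ} [hp : Fact p.Prime]
    (hsep : ∀ (c : ι → A) (π : Perm ι), M c * T π = 1 → c = 1 ∧ π = 1)
    (Q : Subgroup A) (hQ : IsPGroup p Q) (δ : ℕ) (hQd : dS Q δ ≠ ⊥) :
    ∀ (a : ℕ) (B : Finset ι), B.card = p ^ a →
      ∃ U : Subgroup G, U ≤ Sup M T hTM (B : Set ι) ∧ IsPGroup p U ∧ dS U (a + δ) ≠ ⊥ := by
  classical
  have hp1 : 1 < p := hp.out.one_lt
  intro a
  induction a with
  | zero =>
    intro B hB
    rw [pow_zero, Finset.card_eq_one] at hB
    obtain ⟨i, rfl⟩ := hB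
    let φ : A →* G := M.comp (MonoidHom.mulSingle (fun _ : ι => A) i)
    have hφ : Function.Injective φ := by
      rw [injective_iff_map_eq_one]
      intro x hx
      have h1 : M (Pi.mulSingle i x) * T 1 = 1 := by
        rw [map_one, mul_one]
        exact hx
      have h2 := congrFun (hsep _ _ h1).1 i
      simpa using h2
    refine ⟨Q.map φ, ?_, hQ.map φ, ?_⟩
    · rintro _ ⟨x, -, rfl⟩
      refine ⟨Pi.mulSingle i x, 1, fun j hj => ?_, fun _ _ => rfl, ?_⟩
      · apply Pi.mulSingle_eq_of_ne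
        intro h
        exact hj (by simp [h])
      · rw [map_one, mul_one]
        rfl
    · rw [zero_add, dS_map]
      intro h
      exact hQd ((Subgroup.map_eq_bot_iff_of_injective _ hφ).1 h)
  | succ a ih =>
    intro B hB
    haveI : NeZero p := ⟨hp.out.ne_zero⟩
    haveI : Fintype (ZMod p) := ZMod.fintype p
    have hcardY : Fintype.card (↥B) = Fintype.card (ZMod p × Fin (p ^ a)) := by
      rw [Fintype.card_coe, Fintype.card_prod, ZMod.card, Fintype.card_fin, hB, pow_succ']
    let e : ↥B ≃ ZMod p × Fin (p ^ a) := Fintype.equivOfCardEq hcardY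
    let r : Perm ↥B :=
      e.trans (((Equiv.addRight (1 : ZMod p)).prodCongr (Equiv.refl _)).trans e.symm)
    let ρ : Perm ι := Equiv.Perm.ofSubtype r
    let s : ZMod p → Finset ι := fun i =>
      Finset.univ.image fun j : Fin (p ^ a) => ((e.symm (i, j) : ↥B) : ι)
    have hmem_s : ∀ i x, x ∈ s i ↔ ∃ j : Fin (p ^ a), ((e.symm (i, j) : ↥B) : ι) = x := by
      intro i x
      simp [s]
    have hr : ∀ i j, r (e.symm (i, j)) = e.symm (i + 1, j) := by
      intro i j
      simp [r]
    have hρ : ∀ i j, ρ ((e.symm (i, j) : ↥B) : ι) = ((e.symm (i + 1, j) : ↥B) : ι) := by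
      intro i j
      show Equiv.Perm.ofSubtype r _ = _
      rw [Equiv.Perm.ofSubtype_apply_coe, hr]
    have hρout : ∀ i, i ∉ (B : Set ι) → ρ i = i := by
      intro i hi
      exact Equiv.Perm.ofSubtype_apply_of_not_mem r hi
    have hρk : ∀ (k : ℕ) i j, (ρ ^ k) ((e.symm (i, j) : ↥B) : ι) =
        ((e.symm (i + (k : ZMod p), j) : ↥B) : ι) := by
      intro k
      induction k with
      | zero => intro i j; simp
      | succ k ih =>
        intro i j
        rw [pow_succ', Equiv.Perm.mul_apply, ih, hρ]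
        congr 3
        push_cast
        ring
    have hρp : ρ ^ p = 1 := by
      ext x
      by_cases hx : x ∈ (B : Set ι)
      · have hx' : x ∈ B := hx
        have h1 : x = ((e.symm (e ⟨x, hx'⟩) : ↥B) : ι) := by simp
        obtain ⟨i, j⟩ := e ⟨x, hx'⟩
        rw [h1, hρk, ZMod.natCast_self, add_zero, Equiv.Perm.one_apply]
      · have : ∀ k : ℕ, (ρ ^ k) x = x := by
          intro k
          induction k with
          | zero => simp
          | succ k ih => rw [pow_succ', Equiv.Perm.mul_apply, ih, hρout x hx]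
        rw [this, Equiv.Perm.one_apply]
    have hsdisj : ∀ i i', i ≠ i' → Disjoint (s i : Set ι) (s i' : Set ι) := by
      intro i i' hii
      rw [Set.disjoint_left]
      intro x hx hx'
      obtain ⟨j, hj⟩ := (hmem_s i x).1 hx
      obtain ⟨j', hj'⟩ := (hmem_s i' x).1 hx'
      have h1 : e.symm (i, j) = e.symm (i', j') := Subtype.ext (hj.trans hj'.symm)
      have h2 := e.symm.injective h1
      exact hii (congrArg Prod.fst h2)
    have hsB : ∀ i, (s i : Set ι) ⊆ (B : Set ι) := by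
      intro i x hx
      obtain ⟨j, rfl⟩ := (hmem_s i x).1 hx
      exact (e.symm (i, j)).2
    have hscard : (s 0).card = p ^ a := by
      rw [Finset.card_image_of_injective]
      · simp
      · intro j j' h
        have h1 := e.symm.injective (Subtype.ext h)
        simpa using h1
    obtain ⟨U₀, hU₀, hU₀p, hU₀d⟩ := ih (s 0) hscard
    let σ : G := T ρ
    have hσp : σ ^ p = 1 := by
      show (T ρ) ^ p = 1
      rw [← map_pow, hρp, map_one]
    have hconj : ∀ k : ℕ, ∀ a ∈ U₀, σ ^ k * a * (σ ^ k)⁻¹ ∈ Sup M T hTM (s (k : ZMod p) : Set ι) := by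
      intro k a ha
      have h1 : σ ^ k = T (ρ ^ k) := by
        show (T ρ) ^ k = _
        rw [map_pow]
      rw [h1]
      refine Sup_conj M T hTM (ρ ^ k) ?_ (hU₀ ha)
      intro x hx
      obtain ⟨j, rfl⟩ := (hmem_s 0 x).1 hx
      rw [hρk]
      refine (hmem_s _ _).2 ⟨j, ?_⟩
      rw [zero_add]
    have hne_cast : ∀ i j : ℕ, i < p → j < p → i ≠ j → ((i : ZMod p) ≠ (j : ZMod p)) := by
      intro i j hi hj hij h
      have := (ZMod.natCast_eq_natCast_iff' i j p).1 h
      rw [Nat.mod_eq_of_lt hi, Nat.mod_eq_of_lt hj] at this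
      exact hij this
    obtain ⟨U, hU₁, hσU, hUp, hUE⟩ := exists_pgroup_join (p := p) U₀ σ hU₀p hσp (by
      intro i j hi hj hij a ha b hb
      exact Sup_comm M T hTM (hsdisj _ _ (hne_cast i j hi hj hij)) (hconj i a ha) (hconj j b hb))
    refine ⟨U, hUE _ (le_trans hU₀ (Sup_mono M T hTM (hsB 0))) (T_mem_Sup M T hTM hρout), hUp, ?_⟩
    have h01 : ((0 : ℕ) : ZMod p) ≠ ((1 : ℕ) : ZMod p) := hne_cast 0 1 (by omega) hp1 (by omega)
    have hconj1 : ∀ b ∈ U₀, σ * b * σ⁻¹ ∈ Sup M T hTM (s ((1 : ℕ) : ZMod p) : Set ι) := by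
      intro b hb
      have := hconj 1 b hb
      rwa [pow_one] at this
    have hU0S : ∀ a ∈ U₀, a ∈ Sup M T hTM (s ((0 : ℕ) : ZMod p) : Set ι) := by
      intro a ha
      rw [Nat.cast_zero]
      exact hU₀ ha
    have hfinal : dS U (a + δ + 1) ≠ ⊥ := by
      refine dl_step U U₀ σ hσU hU₁ ?_ ?_ hU₀d
      · intro x hx b hb
        exact Sup_comm M T hTM (hsdisj _ _ h01.symm) (hconj1 b hb) (hU0S x hx)
      · intro x hx b hb h
        have h1 : x = (σ * b * σ⁻¹)⁻¹ := eq_inv_of_mul_eq_one_left h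
        have h2 : x ∈ Sup M T hTM (s ((1 : ℕ) : ZMod p) : Set ι) := by
          rw [h1]
          exact inv_mem (hconj1 b hb)
        exact Sup_inf M T hTM hsep (hsdisj _ _ h01) (hU0S x hx) h2
    have : a + 1 + δ = a + δ + 1 := by ring
    rw [this]
    exact hfinal

end Deep

end Cfsg.Agent.H21.WrDL
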