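import Cfsg.Agent.Lib.H21.WrDL
import Cfsg.Agent.Lib.H10.HomoSylow

/-!
# Derived length of the Sylow `p`-subgroups of `GL_n(q)`, `p` odd
-/

set_option autoImplicit false
set_option linter.unusedSectionVars false
set_option linter.style.haveILetI false
set_option linter.unusedSimpArgs false

namespace Cfsg.Agent.H21.WrDL

open Equiv Matrix
open Cfsg.Agent.H21.SpS
open Cfsg.Agent.H10
open scoped commutatorElement

section val

variable {r : ℕ} [Fact r.Prime] {q : ℕ}

lemma val_sum (hrq : ¬ r ∣ q) (hq : 2 ≤ q) (hr2 : r ≠ 2) (n : ℕ) :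
    ∑ k ∈ Finset.Ioc 0 n, padicValNat r (q ^ k - 1) =
      (n / orderOf (q : ZMod r)) * padicValNat r (q ^ orderOf (q : ZMod r) - 1) +
        padicValNat r (Nat.factorial (n / orderOf (q : ZMod r))) := by
  have hr : r.Prime := Fact.out
  have hodd : Odd r := hr.odd_of_ne_two hr2
  set e := orderOf (q : ZMod r) with he
  have he0 : 0 < e := ordQ_pos hrq
  induction n with
  | zero => simp
  | succ n ih =>
    rw [Finset.sum_Ioc_succ_top (Nat.zero_le n), ih, Nat.succ_div]
    by_cases hd : e ∣ n + 1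
    · rw [if_pos hd]
      obtain ⟨j, hj⟩ := hd
      have hj0 : j ≠ 0 := by
        rintro rfl
        simp at hj
      have hdiv : n / e + 1 = j := by
        have h1 : (n + 1) / e = j := by
          rw [hj]
          exact Nat.mul_div_cancel_left _ he0
        rw [Nat.succ_div, if_pos ⟨j, hj⟩] at h1
        exact h1
      have hgt : 1 < q ^ e := Nat.one_lt_pow he0.ne' (by omega)
      have hd2 : r ∣ q ^ e - 1 := (dvd_pow_sub_one_iff hrq e).2 dvd_rfl
      have hnd : ¬ r ∣ q ^ e := fun h => hrq (hr.dvd_of_dvd_pow h)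
      have h2 : padicValNat r (q ^ (n + 1) - 1) = padicValNat r (q ^ e - 1) + padicValNat r j := by
        have h3 := padicValNat.pow_sub_pow (p := r) (x := q ^ e) (y := 1) hodd hgt
          (by simpa using hd2) hnd hj0
        rw [one_pow, ← pow_mul, ← hj] at h3
        exact h3
      rw [h2, hdiv, ← hdiv, Nat.factorial_succ, padicValNat.mul (by omega) (Nat.factorial_ne_zero _)]
      ring
    · rw [if_neg hd, add_zero]
      have h2 : padicValNat r (q ^ (n + 1) - 1) = 0 :=
        padicValNat.eq_zero_of_not_dvd (fun h => hd ((dvd_pow_sub_one_iff hrq _).1 h))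
      rw [h2, add_zero]

/-- The order of `GL_n(q)` at an odd prime. -/
lemma val_GL' {F : Type*} [Field F] [Fintype F] (hqF : Fintype.card F = q) (hrq : ¬ r ∣ q)
    (hr2 : r ≠ 2) (n : ℕ) :
    (Nat.card (GL (Fin n) F)).factorization r =
      (n / orderOf (q : ZMod r)) * padicValNat r (q ^ orderOf (q : ZMod r) - 1) +
        padicValNat r (Nat.factorial (n / orderOf (q : ZMod r))) := by
  have hr : (r : ℕ).Prime := Fact.out
  have hq : 2 ≤ q := by
    rw [← hqF]
    exact Fintype.one_lt_card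
  rw [Nat.factorization_def _ hr, Matrix.card_GL_field, hqF, ← val_sum hrq hq hr2 n]
  have hne : ∀ i : Fin n, q ^ n - q ^ (i : ℕ) ≠ 0 := by
    intro i
    have : q ^ (i : ℕ) < q ^ n := Nat.pow_lt_pow_right (by omega) i.2
    omega
  rw [val_prod _ _ (fun i _ => hne i)]
  have h1 : ∀ i : Fin n, padicValNat r (q ^ n - q ^ (i : ℕ)) = padicValNat r (q ^ (n - i) - 1) := by
    intro i
    have e : q ^ n - q ^ (i : ℕ) = q ^ (i : ℕ) * (q ^ (n - i) - 1) := by
      rw [Nat.mul_sub, mul_one, ← pow_add]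
      congr 2
      have := i.2
      omega
    have hne' := hne i
    rw [e] at hne' ⊢
    rw [padicValNat.mul (left_ne_zero_of_mul hne') (right_ne_zero_of_mul hne'),
      padicValNat.pow, padicValNat.eq_zero_of_not_dvd hrq]
    simp
  rw [Finset.sum_congr rfl (fun i _ => h1 i), Fin.sum_univ_eq_sum_range (fun i => padicValNat r (q ^ (n - i) - 1)) n]
  apply Finset.sum_nbij' (fun i => n - i) (fun k => n - k)
  · intro i hi
    have := Finset.mem_range.1 hi
    rw [Finset.mem_Ioc]
    omega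
  · intro k hk
    obtain ⟨h3, h4⟩ := Finset.mem_Ioc.1 hk
    rw [Finset.mem_range]
    omega
  · intro i hi
    have := Finset.mem_range.1 hi
    omega
  · intro k hk
    obtain ⟨h3, h4⟩ := Finset.mem_Ioc.1 hk
    omega
  · intro i _
    rfl

end val

section Model

variable (F K : Type*) [Field F] [Field K] [Algebra F K] (w s : ℕ)

/-- Permuting the coordinates. -/
noncomputable def permMul : Perm (Fin w) →* Module.End F ((Fin w → K) × (Fin s → F)) where
  toFun π :=
    { toFun := fun x => (fun i => x.1 (π⁻¹ i), x.2)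
      map_add' := fun x y => rfl
      map_smul' := fun c x => rfl }
  map_one' := rfl
  map_mul' π σ := rfl

variable {F K w s}

theorem perm_conj (π : Perm (Fin w)) (c : Fin w → Kˣ) :
    permMul F K w s π * blockMul K w s c * permMul F K w s π⁻¹ = blockMul K w s (c ∘ ⇑π⁻¹) := by
  apply LinearMap.ext
  rintro ⟨x, y⟩
  refine Prod.ext (funext fun i => ?_) rfl
  show ((c (π⁻¹ i) : Kˣ) : K) * x ((π⁻¹)⁻¹ (π⁻¹ i)) = ((c (π⁻¹ i) : Kˣ) : K) * x i
  rw [inv_inv, ai]

theorem perm_sep (c : Fin w → Kˣ) (π : Perm (Fin w))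
    (h : blockMul (F := F) K w s c * permMul F K w s π = 1) : c = 1 ∧ π = 1 := by
  have hkey : ∀ (x : Fin w → K) (i : Fin w), ((c i : Kˣ) : K) * x (π⁻¹ i) = x i := by
    intro x i
    have h1 := congrArg (fun L : Module.End F ((Fin w → K) × (Fin s → F)) => (L (x, 0)).1 i) h
    exact h1
  have hfix : ∀ j, π⁻¹ j = j ∧ c j = 1 := by
    intro j
    have h1 := hkey (Pi.single j 1) j
    rw [Pi.single_eq_same] at h1
    have h2 : π⁻¹ j = j := by
      by_contra hne
      rw [Pi.single_eq_of_ne hne, mul_zero] at h1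
      exact zero_ne_one h1
    rw [h2, Pi.single_eq_same, mul_one] at h1
    exact ⟨h2, Units.ext h1⟩
  constructor
  · funext j
    exact (hfix j).2
  · ext j
    have := (hfix j).1
    rw [Equiv.Perm.inv_eq_iff_eq] at this
    simp [← this]

end Model

/-- The main theorem. -/
theorem main_gl (p : ℕ) [Fact p.Prime] (hp : p ≠ 2) (F : Type*) [Field F] [Fintype F] (q : ℕ)
    (hq : Fintype.card F = q) (hpq : ¬ p ∣ q) (n : ℕ) (hn : orderOf (q : ZMod p) ≤ n)
    (P : Sylow p (GL (Fin n) F)) :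
    derivedSeries ↥(P : Subgroup (GL (Fin n) F)) (Nat.log p (n / orderOf (q : ZMod p)) + 1) = ⊥ ∧
      derivedSeries ↥(P : Subgroup (GL (Fin n) F)) (Nat.log p (n / orderOf (q : ZMod p))) ≠ ⊥ := by
  classical
  have hpp : p.Prime := Fact.out
  have hq2 : 2 ≤ q := by
    rw [← hq]
    exact Fintype.one_lt_card
  set e := orderOf (q : ZMod p) with he
  have he0 : 0 < e := ordQ_pos hpq
  set w := n / e with hw
  have hw1 : 1 ≤ w := Nat.div_pos hn he0
  have hwe : w * e ≤ n := Nat.div_mul_le_self _ _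
  obtain ⟨c₀, hc₀⟩ := CharP.exists F
  haveI hc₀p : Fact c₀.Prime := ⟨CharP.char_is_prime F c₀⟩
  haveI hne : NeZero e := ⟨he0.ne'⟩
  let K := FiniteField.Extension F c₀ e
  have hfr : Module.finrank F K = e := FiniteField.finrank_extension F c₀ e
  haveI : Fintype K := Fintype.ofFinite K
  have hcardK : Fintype.card K = q ^ e := by
    rw [← Nat.card_eq_fintype_card, FiniteField.natCard_extension, Nat.card_eq_fintype_card, hq]
  let s := n - w * e
  let V := (Fin w → K) × (Fin s → F)
  have hfrV : Module.finrank F V = n := by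
    simp only [V]
    rw [Module.finrank_prod, Module.finrank_pi_fintype]
    simp only [hfr, Finset.sum_const, Finset.card_univ, Fintype.card_fin, smul_eq_mul,
      Module.finrank_fintype_fun_eq_card, s]
    omega
  let b : Module.Basis (Fin n) F V := Module.finBasisOfFinrankEq F V hfrV
  let f : Module.End F V →* Matrix (Fin n) (Fin n) F :=
    (LinearMap.toMatrixAlgEquiv b : Module.End F V →ₐ[F] Matrix (Fin n) (Fin n) F).toMonoidHom
  have hf : Function.Injective f := (LinearMap.toMatrixAlgEquiv b).injective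
  let M : (Fin w → Kˣ) →* GL (Fin n) F := (f.comp (blockMul (F := F) K w s)).toHomUnits
  let T : Perm (Fin w) →* GL (Fin n) F := (f.comp (permMul F K w s)).toHomUnits
  have hM : ∀ c, ((M c : GL (Fin n) F) : Matrix (Fin n) (Fin n) F) = f (blockMul (F := F) K w s c) :=
    fun c => rfl
  have hT : ∀ π, ((T π : GL (Fin n) F) : Matrix (Fin n) (Fin n) F) = f (permMul F K w s π) :=
    fun π => rfl
  have hTM : ∀ (π : Perm (Fin w)) (c : Fin w → Kˣ), T π * M c * (T π)⁻¹ = M (c ∘ ⇑π⁻¹) := by
    intro π c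
    rw [← map_inv]
    apply Units.ext
    rw [Units.val_mul, Units.val_mul, hM, hM, hT, hT, ← map_mul, ← map_mul, perm_conj]
  have hsep : ∀ (c : Fin w → Kˣ) (π : Perm (Fin w)), M c * T π = 1 → c = 1 ∧ π = 1 := by
    intro c π h
    apply perm_sep (F := F) (s := s)
    apply hf
    have h1 := congrArg Units.val h
    rw [Units.val_mul, hM, hT, Units.val_one] at h1
    rw [map_mul, h1, map_one]
  obtain ⟨Q₀⟩ : Nonempty (Sylow p Kˣ) := inferInstance
  obtain ⟨S₀⟩ : Nonempty (Sylow p (Perm (Fin w))) := inferInstance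
  have hQabs : dS (Q₀ : Subgroup Kˣ) 1 = ⊥ := by
    rw [dS_succ, dS_zero, eq_bot_iff, Subgroup.commutator_le]
    intro a _ b _
    rw [Subgroup.mem_bot, commutatorElement_def, mul_comm a b]
    group
  have hcardKu : Nat.card Kˣ = q ^ e - 1 := by
    rw [Nat.card_eq_fintype_card, Fintype.card_units, hcardK]
  have hdvd : p ∣ q ^ e - 1 := (dvd_pow_sub_one_iff hpq e).2 dvd_rfl
  have hgt : 1 < q ^ e := Nat.one_lt_pow he0.ne' (by omega)
  have hQcard : Nat.card (Q₀ : Subgroup Kˣ) = p ^ padicValNat p (q ^ e - 1) := by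
    rw [Q₀.card_eq_multiplicity, hcardKu, Nat.factorization_def _ hpp]
  have hQ0 : dS (Q₀ : Subgroup Kˣ) 0 ≠ ⊥ := by
    intro h
    rw [dS_zero] at h
    have h1 : Nat.card (Q₀ : Subgroup Kˣ) = 1 := by
      rw [h]
      exact Subgroup.card_bot
    rw [hQcard] at h1
    have h2 : 0 < padicValNat p (q ^ e - 1) := by
      haveI : Fact p.Prime := ⟨hpp⟩
      exact Nat.pos_of_ne_zero (fun h0 => by
        have := one_le_padicValNat_of_dvd (by omega) hdvd
        omega)
    have h3 : 1 < p ^ padicValNat p (q ^ e - 1) := Nat.one_lt_pow h2.ne' hpp.one_lt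
    omega
  have hS : dS (S₀ : Subgroup (Perm (Fin w))) (Nat.log p w) = ⊥ := by
    have := perm_dl (p := p) (S₀ : Subgroup (Perm (Fin w))) S₀.isPGroup'
    rwa [Fintype.card_fin] at this
  let W := wrS M T hTM (Q₀ : Subgroup Kˣ) (S₀ : Subgroup (Perm (Fin w)))
  have hW : dS W (Nat.log p w + 1) = ⊥ := wr_upper M T hTM _ _ hS hQabs
  have hWc : Nat.card W = p ^ (Nat.card (GL (Fin n) F)).factorization p := by
    rw [card_wrS M T hTM hsep, val_GL' hq hpq hp, Fintype.card_fin, hQcard,
      S₀.card_eq_multiplicity, Nat.card_eq_fintype_card (α := Perm (Fin w)),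
      Fintype.card_perm, Fintype.card_fin, Nat.factorization_def _ hpp, ← pow_mul,
      ← pow_add, mul_comm (padicValNat p (q ^ e - 1)) w]
  let S' : Sylow p (GL (Fin n) F) := Sylow.ofCard W hWc
  have hconj : ∀ T₁ T₂ : Sylow p (GL (Fin n) F), ∃ g : GL (Fin n) F,
      (T₂ : Subgroup (GL (Fin n) F)) =
        (T₁ : Subgroup (GL (Fin n) F)).map (MulAut.conj g).toMonoidHom := by
    intro T₁ T₂
    obtain ⟨g, hg⟩ := MulAction.exists_smul_eq (GL (Fin n) F) T₁ T₂
    refine ⟨g, ?_⟩
    rw [← hg]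
    ext x
    rfl
  constructor
  · rw [derivedSeries_eq_bot_iff]
    obtain ⟨g, hg⟩ := hconj S' P
    rw [hg, dS_map]
    have : dS (S' : Subgroup (GL (Fin n) F)) (Nat.log p w + 1) = ⊥ := hW
    rw [this, Subgroup.map_bot]
  · intro hbot
    rw [derivedSeries_eq_bot_iff] at hbot
    obtain ⟨B, -, hB⟩ := Finset.exists_subset_card_eq (s := (Finset.univ : Finset (Fin w)))
      (n := p ^ Nat.log p w) (by
        rw [Finset.card_univ, Fintype.card_fin]
        exact Nat.pow_log_le_self p (by omega))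
    obtain ⟨U, -, hUp, hUd⟩ := exists_deep M T hTM hsep (Q₀ : Subgroup Kˣ)
      Q₀.isPGroup' 0 hQ0 _ B hB
    obtain ⟨R', hR'⟩ := hUp.exists_le_sylow
    obtain ⟨g, hg⟩ := hconj P R'
    apply hUd
    rw [eq_bot_iff]
    refine le_trans (dS_mono hR' _) ?_
    rw [add_zero, hg, dS_map, hbot, Subgroup.map_bot]

end Cfsg.Agent.H21.WrDL
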