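import Cfsg.Agent.Lib.H21.WrDL
import Cfsg.Agent.Lib.H21.SpSylowC

/-!
# Derived length of the Sylow 2-subgroups of symplectic groups in odd characteristic
-/

set_option autoImplicit false
set_option linter.unusedSectionVars false
set_option linter.style.haveILetI false
set_option linter.unusedSimpArgs false

namespace Cfsg.Agent.H21.WrDL

open Equiv Matrix
open scoped MatrixGroups commutatorElement

open Cfsg.Agent.H21.SpS

theorem qinv_a {m : ℕ} (i : ZMod (2 * m)) :
    (QuaternionGroup.a i : QuaternionGroup m)⁻¹ = QuaternionGroup.a (-i) := rfl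

theorem qinv_xa {m : ℕ} (i : ZMod (2 * m)) :
    (QuaternionGroup.xa i : QuaternionGroup m)⁻¹ = QuaternionGroup.xa ((m : ZMod (2 * m)) + i) := rfl

theorem quat_dl (m : ℕ) : derivedSeries (QuaternionGroup m) 2 = ⊥ := by
  let C : Subgroup (QuaternionGroup m) :=
    { carrier := {x | ∃ i, x = QuaternionGroup.a i}
      mul_mem' := by
        rintro _ _ ⟨i, rfl⟩ ⟨j, rfl⟩
        exact ⟨i + j, QuaternionGroup.a_mul_a i j⟩
      one_mem' := ⟨0, rfl⟩
      inv_mem' := by
        rintro _ ⟨i, rfl⟩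
        exact ⟨-i, rfl⟩ }
  have h1 : commutator (QuaternionGroup m) ≤ C := by
    rw [commutator_def, Subgroup.commutator_le]
    intro x _ y _
    rcases x with i | i <;> rcases y with j | j <;>
      simp only [commutatorElement_def, qinv_a, qinv_xa,
        QuaternionGroup.a_mul_a, QuaternionGroup.a_mul_xa, QuaternionGroup.xa_mul_a,
        QuaternionGroup.xa_mul_xa] <;> exact ⟨_, rfl⟩
  have h2 : derivedSeries (QuaternionGroup m) 2 = ⁅commutator (QuaternionGroup m), commutator (QuaternionGroup m)⁆ := by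
    rw [derivedSeries_succ, derivedSeries_one]
  rw [h2, eq_bot_iff]
  refine le_trans (Subgroup.commutator_mono h1 h1) ?_
  rw [Subgroup.commutator_le]
  rintro _ ⟨i, rfl⟩ _ ⟨j, rfl⟩
  rw [Subgroup.mem_bot, commutatorElement_def]
  simp only [qinv_a, QuaternionGroup.a_mul_a]
  have : i + j + -i + -j = 0 := by ring
  rw [this]
  rfl

theorem quat_noncomm (k : ℕ) (hk : 1 ≤ k) : derivedSeries (QuaternionGroup (2 ^ k)) 1 ≠ ⊥ := by
  intro h
  rw [derivedSeries_one] at h
  have h1 := Subgroup.commutator_mem_commutator (Subgroup.mem_top (QuaternionGroup.a 1 : QuaternionGroup (2 ^ k)))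
    (Subgroup.mem_top (QuaternionGroup.xa 0 : QuaternionGroup (2 ^ k)))
  rw [← commutator_def, h, Subgroup.mem_bot, commutatorElement_def] at h1
  have h2 : (QuaternionGroup.a 1 : QuaternionGroup (2 ^ k)) * QuaternionGroup.xa 0 =
      QuaternionGroup.xa 0 * QuaternionGroup.a 1 := by
    have : (QuaternionGroup.a 1 : QuaternionGroup (2 ^ k)) * QuaternionGroup.xa 0 =
      (QuaternionGroup.a 1 : QuaternionGroup (2 ^ k)) * QuaternionGroup.xa 0 * (QuaternionGroup.a 1)⁻¹ *
        (QuaternionGroup.xa 0)⁻¹ * (QuaternionGroup.xa 0 * QuaternionGroup.a 1) := by group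
    rw [this, h1, one_mul]
  rw [QuaternionGroup.a_mul_xa, QuaternionGroup.xa_mul_a] at h2
  have h3 : (0 : ZMod (2 * 2 ^ k)) - 1 = 0 + 1 := QuaternionGroup.xa.inj h2
  have h4 : (2 : ZMod (2 * 2 ^ k)) = 0 := by
    have : (2 : ZMod (2 * 2 ^ k)) = (0 + 1) - (0 - 1) := by ring
    rw [this, h3, sub_self]
  have h5 : ((2 : ℕ) : ZMod (2 * 2 ^ k)) = 0 := by exact_mod_cast h4
  rw [ZMod.natCast_eq_zero_iff] at h5
  have h6 : 2 ^ 1 ≤ 2 ^ k := Nat.pow_le_pow_right (by norm_num) hk
  have h7 := Nat.le_of_dvd (by norm_num) h5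
  omega

theorem main_sp {F : Type*} [Field F] [Fintype F] [DecidableEq F] (hF : Odd (Fintype.card F))
    {n : ℕ} (hn : 1 ≤ n) (R : Sylow 2 ↥(symplecticGroup (Fin n) F)) :
    derivedSeries ↥(R : Subgroup ↥(symplecticGroup (Fin n) F)) (Nat.log 2 (2 * n) + 1) = ⊥ ∧
      derivedSeries ↥(R : Subgroup ↥(symplecticGroup (Fin n) F)) (Nat.log 2 (2 * n)) ≠ ⊥ := by
  classical
  haveI : Fact (Nat.Prime 2) := ⟨Nat.prime_two⟩
  haveI : Finite (symplecticGroup (Fin n) F) := Subtype.finite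
  obtain ⟨Q₀⟩ : Nonempty (Sylow 2 (SL(2, F))) := inferInstance
  obtain ⟨S₀⟩ : Nonempty (Sylow 2 (Perm (Fin n))) := inferInstance
  obtain ⟨k, hk, ⟨e⟩⟩ := Cfsg.Agent.Lead.sl2_sylow_quat hF Q₀
  have hQ2 : dS (Q₀ : Subgroup (SL(2, F))) 2 = ⊥ := by
    rw [← derivedSeries_eq_bot_iff]
    have h1 := map_derivedSeries_eq (f := e.toMonoidHom) e.surjective 2
    rw [quat_dl] at h1
    exact (Subgroup.map_eq_bot_iff_of_injective _ e.injective).1 h1
  have hQ1 : dS (Q₀ : Subgroup (SL(2, F))) 1 ≠ ⊥ := by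
    intro h
    rw [← derivedSeries_eq_bot_iff] at h
    have h1 := map_derivedSeries_eq (f := e.toMonoidHom) e.surjective 1
    rw [h, Subgroup.map_bot] at h1
    exact quat_noncomm k hk h1.symm
  have hS : dS (S₀ : Subgroup (Perm (Fin n))) (Nat.log 2 n) = ⊥ := by
    have := perm_dl (p := 2) (S₀ : Subgroup (Perm (Fin n))) S₀.isPGroup'
    rwa [Fintype.card_fin] at this
  let W := wrS Mh Th Th_conj (Q₀ : Subgroup (SL(2, F))) (S₀ : Subgroup (Perm (Fin n)))
  have hW : dS W (Nat.log 2 n + 2) = ⊥ := wr_upper Mh Th Th_conj _ _ hS hQ2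
  have hWc : Nat.card W = 2 ^ (Nat.card (symplecticGroup (Fin n) F)).factorization 2 := by
    rw [card_wrS Mh Th Th_conj sep, sp_val hF, Fintype.card_fin, Q₀.card_eq_multiplicity,
      S₀.card_eq_multiplicity, sl2_val hF, Nat.card_eq_fintype_card (α := Perm (Fin n)),
      Fintype.card_perm, Fintype.card_fin, Nat.factorization_def _ Nat.prime_two, ← pow_mul,
      ← pow_add, mul_comm (padicValNat 2 (Fintype.card F ^ 2 - 1)) n]
  let S' : Sylow 2 (symplecticGroup (Fin n) F) := Sylow.ofCard W hWc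
  have hconj : ∀ T₁ T₂ : Sylow 2 (symplecticGroup (Fin n) F), ∃ g : symplecticGroup (Fin n) F,
      (T₂ : Subgroup (symplecticGroup (Fin n) F)) =
        (T₁ : Subgroup (symplecticGroup (Fin n) F)).map (MulAut.conj g).toMonoidHom := by
    intro T₁ T₂
    obtain ⟨g, hg⟩ := MulAction.exists_smul_eq (symplecticGroup (Fin n) F) T₁ T₂
    refine ⟨g, ?_⟩
    rw [← hg]
    ext x
    rfl
  have hlog : Nat.log 2 (2 * n) = Nat.log 2 n + 1 := by
    rw [mul_comm, Nat.log_mul_base (by norm_num) (by omega)]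
  rw [hlog]
  constructor
  · rw [derivedSeries_eq_bot_iff]
    obtain ⟨g, hg⟩ := hconj S' R
    rw [hg, dS_map]
    have : dS (S' : Subgroup (symplecticGroup (Fin n) F)) (Nat.log 2 n + 1 + 1) = ⊥ := hW
    rw [this, Subgroup.map_bot]
  · intro hbot
    rw [derivedSeries_eq_bot_iff] at hbot
    obtain ⟨B, -, hB⟩ := Finset.exists_subset_card_eq (s := (Finset.univ : Finset (Fin n)))
      (n := 2 ^ Nat.log 2 n) (by
        rw [Finset.card_univ, Fintype.card_fin]
        exact Nat.pow_log_le_self 2 (by omega))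
    obtain ⟨U, -, hUp, hUd⟩ := exists_deep Mh Th Th_conj sep (Q₀ : Subgroup (SL(2, F)))
      Q₀.isPGroup' 1 hQ1 _ B hB
    obtain ⟨R', hR'⟩ := hUp.exists_le_sylow
    obtain ⟨g, hg⟩ := hconj R R'
    apply hUd
    rw [eq_bot_iff]
    refine le_trans (dS_mono hR' _) ?_
    rw [hg, dS_map, hbot, Subgroup.map_bot]

end Cfsg.Agent.H21.WrDL
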